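import Mathlib

/-!
# The arithmetic of a row
-/

set_option linter.unusedSectionVars false
set_option linter.style.haveILetI false
set_option autoImplicit false

namespace Cfsg.Agent.Lib.Tw.Core

theorem two_abs_le {T N s : ℤ} (h1 : 2 * |T| ≤ N) (h2 : |T| ≤ s) (hN : 0 ≤ N) : 2 * (T * T) ≤ N * s := by
  have h3 : T * T = |T| * |T| := (abs_mul_abs_self T).symm
  rw [h3]
  have h4 : 0 ≤ |T| := abs_nonneg T
  nlinarith [mul_le_mul h1 h2 h4 hN]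

theorem abs_le_sq (g : ℤ) : |g| ≤ g * g := by
  rcases abs_cases g with ⟨h, h1⟩ | ⟨h, h1⟩ <;> rw [h]
  · rcases eq_or_lt_of_le h1 with h2 | h2
    · rw [← h2]; norm_num
    · nlinarith
  · nlinarith

set_option maxHeartbeats 4000000 in
/-- **The arithmetic core of the row lemma.** -/
theorem core {N T' To s' so g0 g1 W : ℤ} (hN : 2 ≤ N) (hN2 : N = 2 ∨ 4 ∣ N)
    (hs0 : 0 ≤ s') (hs2 : 2 ∣ s') (hs4 : 4 ∣ s' - T') (hsT : |T'| ≤ s')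
    (ho0 : 0 ≤ so) (ho2 : 2 ∣ so) (ho4 : 4 ∣ so - To) (hoT : |To| ≤ so)
    (hT : 2 * |T' + g0 + g1| ≤ N) (hTo : 2 * |To| ≤ N)
    (hW : W = N * (s' + g0 * g0 + g1 * g1) - (T' + g0 + g1) * (T' + g0 + g1) + N * so - To * To)
    (hlt : W < 2 * N) :
    (-1 ≤ g0 - g1 ∧ g0 - g1 ≤ 1) ∧
    ((s' = 0 ∧ g0 = 0 ∧ g1 = 0 ∧ so = 0 ∧ W = 0) ∨
     (s' = 0 ∧ (g0 = 0 ∨ g1 = 0) ∧ (g0 + g1 = 1 ∨ g0 + g1 = -1) ∧ so = 0 ∧ W = N - 1) ∨
     (4 ≤ N ∧ g0 = g1 ∧ (s' = 0 ∨ g0 = 0) ∧ (T' + g0 + g1 = 2 ∨ T' + g0 + g1 = -2) ∧ so = 0 ∧ W = 2 * N - 4) ∨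
     (4 ≤ N ∧ s' = 0 ∧ g0 = 0 ∧ g1 = 0 ∧ so = 2 ∧ (To = 2 ∨ To = -2) ∧ W = 2 * N - 4) ∨
     (N = 8 ∧ s' = 2 ∧ (g0 = 0 ∨ g1 = 0) ∧ (T' + g0 + g1 = 3 ∨ T' + g0 + g1 = -3) ∧ so = 0 ∧ W = 2 * N - 1) ∨
     (N = 4 ∧ s' = 0 ∧ (g0 = 0 ∨ g1 = 0) ∧ (g0 + g1 = 1 ∨ g0 + g1 = -1) ∧ so = 2 ∧ (To = 2 ∨ To = -2) ∧ W = 2 * N - 1)) := by
  have hNn : 0 ≤ N := by omega
  have hlt' := hlt
  set s := s' + g0 * g0 + g1 * g1 with hs
  set T := T' + g0 + g1 with hTd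
  have hTs : |T| ≤ s := by
    have h1 : |T| ≤ |T'| + |g0| + |g1| := by
      rw [hTd]
      exact (abs_add_le _ _).trans (add_le_add_left (abs_add_le _ _) _)
    have h2 := abs_le_sq g0
    have h3 := abs_le_sq g1
    omega
  have h1 := two_abs_le hT hTs hNn
  have h2 := two_abs_le hTo hoT hNn
  have h3 : N * (s + so) < 4 * N := by
    nlinarith
  have h4 : s + so < 4 := by
    by_contra hc
    push Not at hc
    nlinarith
  have hg0 : g0 * g0 ≤ 3 := by nlinarith [mul_self_nonneg g1]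
  have hg1 : g1 * g1 ≤ 3 := by nlinarith [mul_self_nonneg g0]
  have hg0' : -1 ≤ g0 ∧ g0 ≤ 1 := by
    constructor <;> nlinarith
  have hg1' : -1 ≤ g1 ∧ g1 ≤ 1 := by
    constructor <;> nlinarith
  have hs'3 : s' < 4 := by nlinarith [mul_self_nonneg g0, mul_self_nonneg g1]
  have hso3 : so < 4 := by nlinarith [mul_self_nonneg g0, mul_self_nonneg g1]
  have hs'c : s' = 0 ∨ s' = 2 := by omega
  have hsoc : so = 0 ∨ so = 2 := by omega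
  have hT'c : (s' = 0 ∧ T' = 0) ∨ (s' = 2 ∧ (T' = 2 ∨ T' = -2)) := by
    rcases hs'c with h | h
    · left
      refine ⟨h, ?_⟩
      rw [h] at hsT
      exact abs_nonpos_iff.mp hsT
    · right
      refine ⟨h, ?_⟩
      rw [h] at hsT hs4
      have := abs_le.mp hsT
      omega
  have hToc : (so = 0 ∧ To = 0) ∨ (so = 2 ∧ (To = 2 ∨ To = -2)) := by
    rcases hsoc with h | h
    · left
      refine ⟨h, ?_⟩
      rw [h] at hoT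
      exact abs_nonpos_iff.mp hoT
    · right
      refine ⟨h, ?_⟩
      rw [h] at hoT ho4
      have := abs_le.mp hoT
      omega
  have hg0c : g0 = -1 ∨ g0 = 0 ∨ g0 = 1 := by omega
  have hg1c : g1 = -1 ∨ g1 = 0 ∨ g1 = 1 := by omega
  have hTo2 : -(N) ≤ 2 * To ∧ 2 * To ≤ N := by
    have := abs_le.mp (le_refl |To|)
    omega
  have hT2 : -(N) ≤ 2 * T ∧ 2 * T ≤ N := by
    have := abs_le.mp (le_refl |T|)
    omega
  rw [hs] at hW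
  clear hsT hoT hT hTo h1 h2 h3 h4 hg0 hg1 hg0' hg1' hs'3 hso3 hs'c hsoc hTs hs0 hs2 hs4 ho0 ho2 ho4 hNn hlt'
  rw [hTd] at hT2 hW ⊢
  clear hTd hs
  clear_value T s
  rcases hT'c with ⟨ha, hb⟩ | ⟨ha, hb | hb⟩ <;> rcases hToc with ⟨hc, hd⟩ | ⟨hc, hd | hd⟩ <;>
    rcases hg0c with he | he | he <;> rcases hg1c with hf | hf | hf <;>
    (subst ha hb hc hd he hf
     norm_num at hW hT2 hTo2
     first
     | (exfalso; omega)
     | (refine ⟨⟨by norm_num, by norm_num⟩, ?_⟩; norm_num; omega))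

end Cfsg.Agent.Lib.Tw.Core
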