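import Mathlib
import Cfsg.Agent.Lib.Tw.Core

/-!
# The row lemma
-/

set_option linter.unusedSectionVars false
set_option linter.style.haveILetI false
set_option autoImplicit false

namespace Cfsg.Agent.Lib.Tw.Row

open Cfsg.Agent.Lib.Tw.Core

section Pair

variable {α : Type*} [DecidableEq α]

/-- A sum over a set with a fixed-point-free involution of an invariant function is even. -/
theorem two_dvd_sum {S : Finset α} (ι : α → α) (hS : ∀ x ∈ S, ι x ∈ S) (hι : ∀ x ∈ S, ι (ι x) = x)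
    (hfix : ∀ x ∈ S, ι x ≠ x) (f : α → ℤ) (hf : ∀ x ∈ S, f (ι x) = f x) : (2 : ℤ) ∣ ∑ x ∈ S, f x := by
  have h1 : ((∑ x ∈ S, f x : ℤ) : ZMod 2) = 0 := by
    rw [Int.cast_sum]
    refine Finset.sum_involution (fun a _ => ι a) ?_ ?_ (fun a ha => hS a ha) (fun a ha => hι a ha)
    · intro a ha
      rw [hf a ha, ← two_mul]
      have : (2 : ZMod 2) = 0 := rfl
      rw [this, zero_mul]
    · intro a ha _
      exact hfix a ha
  exact (ZMod.intCast_zmod_eq_zero_iff_dvd _ 2).mp (by exact_mod_cast h1)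

theorem two_dvd_sq_sub (g : ℤ) : (2 : ℤ) ∣ g * g - g := by
  have := Int.even_mul_pred_self g
  obtain ⟨t, ht⟩ := this
  exact ⟨t, by linear_combination ht⟩

/-- The congruence modulo four. -/
theorem four_dvd_sum {S : Finset α} (ι : α → α) (hS : ∀ x ∈ S, ι x ∈ S) (hι : ∀ x ∈ S, ι (ι x) = x)
    (hfix : ∀ x ∈ S, ι x ≠ x) (g : α → ℤ) (hg : ∀ x ∈ S, g (ι x) = g x) :
    (4 : ℤ) ∣ ∑ x ∈ S, g x * g x - ∑ x ∈ S, g x := by
  choose u hu using fun x => two_dvd_sq_sub (g x)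
  have h1 : ∑ x ∈ S, g x * g x - ∑ x ∈ S, g x = 2 * ∑ x ∈ S, u x := by
    rw [← Finset.sum_sub_distrib, Finset.mul_sum]
    exact Finset.sum_congr rfl fun x _ => hu x
  obtain ⟨t, ht⟩ := two_dvd_sum ι hS hι hfix u (fun x hx => by
    have h2 := hu x
    have h3 := hu (ι x)
    rw [hg x hx] at h3
    have h4 : (2 : ℤ) * u (ι x) = 2 * u x := by rw [← h2, ← h3]
    omega)
  rw [h1, ht]
  exact ⟨t, by ring⟩

theorem abs_sum_le_sq {S : Finset α} (g : α → ℤ) : |∑ x ∈ S, g x| ≤ ∑ x ∈ S, g x * g x :=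
  (Finset.abs_sum_le_sum_abs _ _).trans (Finset.sum_le_sum fun x _ => abs_le_sq (g x))

theorem exists_round (A N : ℤ) (hN : 0 < N) : ∃ v : ℤ, 2 * |A - N * v| ≤ N := by
  refine ⟨(2 * A + N) / (2 * N), ?_⟩
  set v := (2 * A + N) / (2 * N) with hv
  have h1 := Int.emod_add_mul_ediv (2 * A + N) (2 * N)
  rw [← hv] at h1
  have h2 := Int.emod_nonneg (2 * A + N) (show 2 * N ≠ 0 by omega)
  have h3 := Int.emod_lt_of_pos (2 * A + N) (show 0 < 2 * N by omega)
  set r := (2 * A + N) % (2 * N) with hr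
  have h4 : 2 * (A - N * v) = r - N := by linear_combination -h1
  have h5 : |A - N * v| * 2 ≤ N := by
    rcases abs_cases (A - N * v) with ⟨h, h6⟩ | ⟨h, h6⟩ <;> rw [h] <;> nlinarith
  linarith

end Pair

section Sets

variable {q h : ℕ} [NeZero q] (h2 : 2 ∣ q)

/-- The parity. -/
def par (h2 : 2 ∣ q) (m : ZMod q) : ZMod 2 := ZMod.castHom h2 (ZMod 2) m

theorem par_mul (a b : ZMod q) : par h2 (a * b) = par h2 a * par h2 b := map_mul _ _ _

theorem par_add (a b : ZMod q) : par h2 (a + b) = par h2 a + par h2 b := map_add _ _ _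

theorem par_natCast (n : ℕ) : par h2 (n : ZMod q) = (n : ZMod 2) := map_natCast _ _

theorem par_zero : par h2 (0 : ZMod q) = 0 := map_zero _

theorem par_one : par h2 (1 : ZMod q) = 1 := map_one _

theorem zmod2_cases (x : ZMod 2) : x = 0 ∨ x = 1 := by
  revert x
  decide

/-- The even residues. -/
def evS (h2 : 2 ∣ q) : Finset (ZMod q) := Finset.univ.filter fun m => par h2 m = 0

/-- The odd residues. -/
def odS (h2 : 2 ∣ q) : Finset (ZMod q) := Finset.univ.filter fun m => par h2 m = 1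

theorem mem_evS {m : ZMod q} : m ∈ evS h2 ↔ par h2 m = 0 := by simp [evS]

theorem mem_odS {m : ZMod q} : m ∈ odS h2 ↔ par h2 m = 1 := by simp [odS]

theorem sum_ev_add_od {M : Type*} [AddCommMonoid M] (f : ZMod q → M) :
    ∑ m ∈ evS h2, f m + ∑ m ∈ odS h2, f m = ∑ m, f m := by
  rw [← Finset.sum_union]
  · refine Finset.sum_subset (Finset.subset_univ _) fun m _ hm => absurd ?_ hm
    simp only [Finset.mem_union, mem_evS, mem_odS]
    exact zmod2_cases _
  · rw [Finset.disjoint_left]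
    intro m hm hm'
    rw [mem_evS] at hm
    rw [mem_odS] at hm'
    rw [hm] at hm'
    exact zero_ne_one hm'

theorem card_ev_eq_od : (evS h2).card = (odS h2).card := by
  refine Finset.card_bij (fun m _ => m + 1) ?_ (fun a _ b _ hab => add_right_cancel hab) ?_
  · intro m hm
    rw [mem_odS, par_add, (mem_evS h2).mp hm, par_one, zero_add]
  · intro m hm
    refine ⟨m - 1, ?_, by ring⟩
    rw [mem_evS]
    have h1 := (mem_odS h2).mp hm
    have h3 : par h2 (m - 1) + par h2 1 = par h2 m := by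
      rw [← par_add]
      congr 1
      ring
    rw [h1, par_one] at h3
    have : par h2 (m - 1) = 0 := by
      rcases zmod2_cases (par h2 (m - 1)) with h4 | h4
      · exact h4
      · rw [h4] at h3
        exact absurd h3 (by decide)
    exact this

theorem card_ev (hq : q = 4 * h) : (evS h2).card = 2 * h := by
  have h1 := sum_ev_add_od h2 (fun _ => (1 : ℕ))
  simp only [Finset.sum_const, smul_eq_mul, mul_one, Finset.card_univ, ZMod.card] at h1
  rw [← card_ev_eq_od] at h1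
  omega

theorem card_od (hq : q = 4 * h) : (odS h2).card = 2 * h := by
  rw [← card_ev_eq_od, card_ev h2 hq]

end Sets

section Row

variable {q h : ℕ} [NeZero q] (h2 : 2 ∣ q) (c : ZMod q)

/-- The number `W` of a row. -/
def wW (h2 : 2 ∣ q) (N : ℤ) (f : ZMod q → ℤ) : ℤ :=
  N * ∑ m, f m * f m - (∑ m ∈ evS h2, f m) * (∑ m ∈ evS h2, f m) -
    (∑ m ∈ odS h2, f m) * (∑ m ∈ odS h2, f m)

/-- The number `a` of a row. -/
def aA (h2 : 2 ∣ q) (f : ZMod q → ℤ) : ℤ := ∑ m ∈ evS h2, f m - ∑ m ∈ odS h2, f m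

/-- The variance formula. -/
theorem var_eq {S : Finset (ZMod q)} {N : ℤ} (hS : (S.card : ℤ) = N) (f : ZMod q → ℤ) (v : ℤ) :
    N * ∑ m ∈ S, f m * f m - (∑ m ∈ S, f m) * (∑ m ∈ S, f m) =
      N * ∑ m ∈ S, (f m - v) * (f m - v) - (∑ m ∈ S, (f m - v)) * (∑ m ∈ S, (f m - v)) := by
  have h1 : ∑ m ∈ S, (f m - v) = ∑ m ∈ S, f m - N * v := by
    rw [Finset.sum_sub_distrib, Finset.sum_const, ← hS]
    simp
  have h3 : ∑ m ∈ S, (f m - v) * (f m - v) = ∑ m ∈ S, f m * f m - 2 * v * ∑ m ∈ S, f m + N * v * v := by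
    have : ∀ m, (f m - v) * (f m - v) = f m * f m - 2 * v * f m + v * v := fun m => by ring
    simp only [this]
    rw [Finset.sum_add_distrib, Finset.sum_sub_distrib, Finset.sum_const, ← Finset.mul_sum, ← hS]
    simp only [nsmul_eq_mul]
    ring
  rw [h1, h3]
  ring

variable {c}

/-- **The row lemma.** -/
theorem row (hq : q = 4 * h) (hh : 1 ≤ h) (hN2 : h = 1 ∨ 2 ∣ h) (hc : par h2 c = 1) (hcc : c * c = 1)
    (hfix : ∀ m : ZMod q, c * m = m → m = 0 ∨ m = ((2 * h : ℕ) : ZMod q))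
    (hcz : c * ((2 * h : ℕ) : ZMod q) = ((2 * h : ℕ) : ZMod q))
    (f : ZMod q → ℤ) (hf : ∀ m, f (c * m) = f m) (hlt : wW h2 (2 * h) f < 2 * (2 * h)) :
    ∃ v v' : ℤ, (-1 ≤ f 0 - f ((2 * h : ℕ) : ZMod q) ∧ f 0 - f ((2 * h : ℕ) : ZMod q) ≤ 1) ∧
      ∃ T To : ℤ, aA h2 f = 2 * h * (v - v') + T - To ∧ (∑ m ∈ evS h2, f m = 2 * h * v + T) ∧
      ∑ m ∈ odS h2, f m = 2 * h * v' + To ∧
      ((∀ m, par h2 m = 0 → f m = v) ∧ (∀ m, par h2 m = 1 → f m = v') ∧ T = 0 ∧ To = 0 ∧ wW h2 (2 * h) f = 0 ∨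
       (∀ m, par h2 m = 1 → f m = v') ∧ (T = 1 ∨ T = -1) ∧ To = 0 ∧ wW h2 (2 * h) f = 2 * h - 1 ∨
       (2 ≤ h ∧ (∀ m, par h2 m = 1 → f m = v') ∧ f 0 = f ((2 * h : ℕ) : ZMod q) ∧ (T = 2 ∨ T = -2) ∧ To = 0 ∧
          wW h2 (2 * h) f = 2 * (2 * h) - 4) ∨
       (2 ≤ h ∧ (∀ m, par h2 m = 0 → f m = v) ∧ T = 0 ∧ (To = 2 ∨ To = -2) ∧ wW h2 (2 * h) f = 2 * (2 * h) - 4) ∨
       (h = 4 ∧ (∀ m, par h2 m = 1 → f m = v') ∧ (T = 3 ∨ T = -3) ∧ To = 0 ∧ wW h2 (2 * h) f = 2 * (2 * h) - 1) ∨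
       (h = 2 ∧ (T = 1 ∨ T = -1) ∧ (To = 2 ∨ To = -2) ∧ ∑ m ∈ odS h2, (f m - v') * (f m - v') = 2 ∧
          wW h2 (2 * h) f = 2 * (2 * h) - 1)) := by
  classical
  set N : ℤ := 2 * h with hNd
  have hNpos : 0 < N := by rw [hNd]; positivity
  have hN : 2 ≤ N := by rw [hNd]; omega
  have hN' : N = 2 ∨ 4 ∣ N := by
    rcases hN2 with h3 | ⟨t, ht⟩
    · left
      rw [hNd, h3]
      norm_num
    · right
      exact ⟨t, by rw [hNd, ht]; push_cast; ring⟩
  set z₂ : ZMod q := ((2 * h : ℕ) : ZMod q) with hz₂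
  have hzpar : par h2 z₂ = 0 := by
    rw [hz₂, par_natCast]
    push_cast
    have : (2 : ZMod 2) = 0 := rfl
    rw [this, zero_mul]
  have hz0 : z₂ ≠ 0 := by
    rw [hz₂, Ne, ZMod.natCast_eq_zero_iff]
    intro h3
    have := Nat.le_of_dvd (by omega) h3
    omega
  have hcardE : ((evS h2).card : ℤ) = N := by
    rw [card_ev h2 hq, hNd]
    push_cast
    rfl
  have hcardO : ((odS h2).card : ℤ) = N := by
    rw [card_od h2 hq, hNd]
    push_cast
    rfl
  set A := ∑ m ∈ evS h2, f m with hA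
  set Y := ∑ m ∈ odS h2, f m with hY
  obtain ⟨v, hv⟩ := exists_round A N hNpos
  obtain ⟨v', hv'⟩ := exists_round Y N hNpos
  -- the involution
  set ι : ZMod q → ZMod q := fun m => c * m with hι
  have hιι : ∀ m, ι (ι m) = m := fun m => by
    simp only [hι]
    rw [← mul_assoc, hcc, one_mul]
  have hιpar : ∀ m, par h2 (ι m) = par h2 m := fun m => by
    simp only [hι]
    rw [par_mul, hc, one_mul]
  -- the sets
  set E' := ((evS h2).erase 0).erase z₂ with hE'
  have hE'mem : ∀ m, m ∈ E' ↔ par h2 m = 0 ∧ m ≠ 0 ∧ m ≠ z₂ := by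
    intro m
    simp only [hE', Finset.mem_erase, mem_evS]
    tauto
  have hsplit : ∀ F : ZMod q → ℤ, ∑ m ∈ evS h2, F m = F 0 + F z₂ + ∑ m ∈ E', F m := by
    intro F
    have h0 : (0 : ZMod q) ∈ evS h2 := (mem_evS h2).mpr (par_zero h2)
    have hz : z₂ ∈ (evS h2).erase 0 := Finset.mem_erase.mpr ⟨hz0, (mem_evS h2).mpr hzpar⟩
    rw [← Finset.add_sum_erase _ _ h0, ← Finset.add_sum_erase _ _ hz]
    ring
  set g : ZMod q → ℤ := fun m => f m - v with hg
  set g' : ZMod q → ℤ := fun m => f m - v' with hg'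
  have hgι : ∀ m, g (ι m) = g m := fun m => by simp only [hg, hι, hf]
  have hg'ι : ∀ m, g' (ι m) = g' m := fun m => by simp only [hg', hι, hf]
  have hE'ι : ∀ x ∈ E', ι x ∈ E' := by
    intro x hx
    rw [hE'mem] at hx ⊢
    refine ⟨(hιpar x).trans hx.1, ?_, ?_⟩
    · intro h3
      apply hx.2.1
      rw [← hιι x, h3]
      simp [hι]
    · intro h3
      apply hx.2.2
      rw [← hιι x, h3]
      simp only [hι]
      exact hcz
  have hE'inv : ∀ x ∈ E', ι (ι x) = x := fun x _ => hιι x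
  have hE'fix : ∀ x ∈ E', ι x ≠ x := by
    intro x hx h3
    rw [hE'mem] at hx
    rcases hfix x h3 with h4 | h4
    · exact hx.2.1 h4
    · exact hx.2.2 h4
  have hOι : ∀ x ∈ odS h2, ι x ∈ odS h2 := by
    intro x hx
    rw [mem_odS] at hx ⊢
    exact (hιpar x).trans hx
  have hOinv : ∀ x ∈ odS h2, ι (ι x) = x := fun x _ => hιι x
  have hOfix : ∀ x ∈ odS h2, ι x ≠ x := by
    intro x hx h3
    rw [mem_odS] at hx
    rcases hfix x h3 with h4 | h4
    · rw [h4, par_zero] at hx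
      exact zero_ne_one hx
    · rw [h4, hzpar] at hx
      exact zero_ne_one hx
  set s' := ∑ m ∈ E', g m * g m with hs'
  set T' := ∑ m ∈ E', g m with hT'
  set so := ∑ m ∈ odS h2, g' m * g' m with hso
  set To := ∑ m ∈ odS h2, g' m with hTo
  have hs2 : (2 : ℤ) ∣ s' := two_dvd_sum ι hE'ι hE'inv hE'fix _ (fun x _ => by rw [hgι])
  have hs4 : (4 : ℤ) ∣ s' - T' := four_dvd_sum ι hE'ι hE'inv hE'fix g (fun x _ => hgι x)
  have hsT : |T'| ≤ s' := abs_sum_le_sq g
  have hs0 : 0 ≤ s' := Finset.sum_nonneg fun x _ => mul_self_nonneg _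
  have ho2 : (2 : ℤ) ∣ so := two_dvd_sum ι hOι hOinv hOfix _ (fun x _ => by rw [hg'ι])
  have ho4 : (4 : ℤ) ∣ so - To := four_dvd_sum ι hOι hOinv hOfix g' (fun x _ => hg'ι x)
  have hoT : |To| ≤ so := abs_sum_le_sq g'
  have ho0 : 0 ≤ so := Finset.sum_nonneg fun x _ => mul_self_nonneg _
  have hTE : ∑ m ∈ evS h2, g m = A - N * v := by
    simp only [hg]
    rw [Finset.sum_sub_distrib, Finset.sum_const, ← hcardE]
    simp [hA]
  have hTO : To = Y - N * v' := by
    simp only [hTo, hg']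
    rw [Finset.sum_sub_distrib, Finset.sum_const, ← hcardO]
    simp [hY]
  have hTs : ∑ m ∈ evS h2, g m = T' + g 0 + g z₂ := by
    rw [hsplit]
    ring
  have hss : ∑ m ∈ evS h2, g m * g m = s' + g 0 * g 0 + g z₂ * g z₂ := by
    rw [hsplit (fun m => g m * g m)]
    ring
  have hT : 2 * |T' + g 0 + g z₂| ≤ N := by
    rw [← hTs, hTE]
    exact hv
  have hTo' : 2 * |To| ≤ N := by
    rw [hTO]
    exact hv'
  have hW : wW h2 N f = N * (s' + g 0 * g 0 + g z₂ * g z₂) - (T' + g 0 + g z₂) * (T' + g 0 + g z₂) + N * so - To * To := by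
    have h3 := var_eq hcardE f v
    have h4 := var_eq hcardO f v'
    rw [wW, ← sum_ev_add_od h2 (fun m => f m * f m)]
    rw [← hTs, ← hss]
    change _ = N * (∑ m ∈ evS h2, (f m - v) * (f m - v)) - (∑ m ∈ evS h2, (f m - v)) * (∑ m ∈ evS h2, (f m - v)) + N * (∑ m ∈ odS h2, (f m - v') * (f m - v')) - (∑ m ∈ odS h2, (f m - v')) * (∑ m ∈ odS h2, (f m - v'))
    linear_combination h3 + h4
  have hlt2 : wW h2 N f < 2 * N := hlt
  obtain ⟨hδ, hcases⟩ := core hN hN' hs0 hs2 hs4 hsT ho0 ho2 ho4 hoT hT hTo' hW hlt2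
  have hconstO : so = 0 → ∀ m, par h2 m = 1 → f m = v' := by
    intro h0 m hm
    have h3 := (Finset.sum_eq_zero_iff_of_nonneg (fun x _ => mul_self_nonneg (g' x))).mp h0 m ((mem_odS h2).mpr hm)
    have h4 : g' m = 0 := mul_self_eq_zero.mp h3
    simp only [hg'] at h4
    omega
  have hconstE : s' = 0 → g 0 = 0 → g z₂ = 0 → ∀ m, par h2 m = 0 → f m = v := by
    intro h0 h01 h02 m hm
    have h4 : g m = 0 := by
      by_cases hm0 : m = 0
      · rw [hm0, h01]
      by_cases hm2 : m = z₂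
      · rw [hm2, h02]
      have hmE : m ∈ E' := (hE'mem m).mpr ⟨hm, hm0, hm2⟩
      exact mul_self_eq_zero.mp ((Finset.sum_eq_zero_iff_of_nonneg (fun x _ => mul_self_nonneg (g x))).mp h0 m hmE)
    simp only [hg] at h4
    omega
  have hT'0 : s' = 0 → T' = 0 := by
    intro h0
    rw [h0] at hsT
    exact abs_nonpos_iff.mp hsT
  have hTo0 : so = 0 → To = 0 := by
    intro h0
    rw [h0] at hoT
    exact abs_nonpos_iff.mp hoT
  have hg0z : g 0 - g z₂ = f 0 - f z₂ := by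
    simp only [hg]
    ring
  refine ⟨v, v', by rw [← hg0z]; exact hδ, T' + g 0 + g z₂, To, ?_, ?_, ?_, ?_⟩
  · have e1 := hTs.symm.trans hTE
    change A - Y = N * (v - v') + (T' + g 0 + g z₂) - To
    linear_combination -e1 + hTO
  · have e1 := hTs.symm.trans hTE
    change A = N * v + (T' + g 0 + g z₂)
    linear_combination -e1
  · change Y = N * v' + To
    linear_combination -hTO
  · have h4h : ∀ n : ℤ, 4 ≤ N → 2 ≤ (h : ℤ) := fun n hn => by rw [hNd] at hn; omega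
    rcases hcases with ⟨c1, c2, c3, c4, c5⟩ | ⟨c1, c2, c3, c4, c5⟩ | ⟨c1, c2, c3, c4, c5, c6⟩ | ⟨c1, c2, c3, c4, c5, c6, c7⟩ |
      ⟨c1, c2, c3, c4, c5, c6⟩ | ⟨c1, c2, c3, c4, c5, c6, c7⟩
    · left
      refine ⟨hconstE c1 c2 c3, hconstO c4, ?_, hTo0 c4, c5⟩
      rw [hT'0 c1, c2, c3]
      norm_num
    · right; left
      refine ⟨hconstO c4, ?_, hTo0 c4, c5⟩
      rw [hT'0 c1]
      rcases c3 with c3 | c3
      · left; linarith
      · right; linarith
    · right; right; left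
      refine ⟨by have := h4h 0 c1; exact_mod_cast this, hconstO c5, ?_, c4, hTo0 c5, c6⟩
      simp only [hg] at c2
      omega
    · right; right; right; left
      refine ⟨by have := h4h 0 c1; exact_mod_cast this, hconstE c2 c3 c4, ?_, c6, c7⟩
      rw [hT'0 c2, c3, c4]
      norm_num
    · right; right; right; right; left
      refine ⟨?_, hconstO c5, c4, hTo0 c5, c6⟩
      rw [hNd] at c1
      omega
    · right; right; right; right; right
      refine ⟨?_, ?_, c6, c5, c7⟩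
      · rw [hNd] at c1
        omega
      · rw [hT'0 c2]
        rcases c4 with c4 | c4
        · left; linarith
        · right; linarith

end Row

end Cfsg.Agent.Lib.Tw.Row
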