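import Mathlib
import Cfsg.Agent.Lib.Tw.Row
import Cfsg.Agent.Lib.Dih.Fou

/-!
# Fourier analysis of the rows
-/

set_option linter.unusedSectionVars false
set_option linter.style.haveILetI false
set_option autoImplicit false

namespace Cfsg.Agent.Lib.Tw.Fou

open scoped ComplexConjugate
open Cfsg.Agent.Lib.Dih.Fou Cfsg.Agent.Lib.Dih.Num Cfsg.Agent.Lib.Tw.Row

section Basic

variable {q h : ℕ} [NeZero q] (h2 : 2 ∣ q)

/-- The residue of the central involution. -/
def zt (q h : ℕ) : ZMod q := ((2 * h : ℕ) : ZMod q)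

theorem zt_ne (hq : q = 4 * h) (hh : 1 ≤ h) : zt q h ≠ 0 := by
  rw [zt, Ne, ZMod.natCast_eq_zero_iff]
  intro h3
  have := Nat.le_of_dvd (by omega) h3
  omega

theorem zt_mul_zt (hq : q = 4 * h) : zt q h * zt q h = 0 := by
  rw [zt, ← Nat.cast_mul, ZMod.natCast_eq_zero_iff]
  exact ⟨h, by rw [hq]; ring⟩

theorem zt_add_zt (hq : q = 4 * h) : zt q h + zt q h = 0 := by
  rw [zt, ← Nat.cast_add, ZMod.natCast_eq_zero_iff]
  exact ⟨1, by rw [hq]; ring⟩

theorem par_zt : par h2 (zt q h) = 0 := by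
  rw [zt, par_natCast]
  push_cast
  have : (2 : ZMod 2) = 0 := rfl
  rw [this, zero_mul]

/-- The character at the central involution in terms of the parity. -/
theorem psi_par (hq : q = 4 * h) (hh : 1 ≤ h) (m : ZMod q) :
    psi (m * zt q h) = if par h2 m = 0 then 1 else -1 := by
  obtain ⟨n, rfl⟩ : ∃ n : ℕ, m = (n : ZMod q) := ⟨m.val, (ZMod.natCast_zmod_val m).symm⟩
  rw [zt, psi_two_mul hq hh, par_natCast]
  by_cases hn : Even n
  · rw [hn.neg_one_pow, if_pos]
    exact (ZMod.natCast_eq_zero_iff n 2).mpr hn.two_dvd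
  · have h3 : ¬ (n : ZMod 2) = 0 := fun h4 => hn (even_iff_two_dvd.mpr ((ZMod.natCast_eq_zero_iff n 2).mp h4))
    rw [(Nat.not_even_iff_odd.mp hn).neg_one_pow, if_neg h3]

theorem psi_neg_par (hq : q = 4 * h) (hh : 1 ≤ h) (m : ZMod q) :
    psi (-(m * zt q h)) = if par h2 m = 0 then 1 else -1 := by
  rw [psi_neg, psi_par h2 hq hh]
  split_ifs <;> simp

/-- A function in terms of its coefficients. -/
theorem eq_sum_dft (P : ZMod q → ℂ) (j : ZMod q) : P j = ∑ m, dft P m * psi (m * j) := (dft_inv P j).symm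

/-- The Parseval identity. -/
theorem parseval (P : ZMod q → ℂ) :
    ∑ j, P j * conj (P j) = (q : ℂ) * ∑ m, dft P m * conj (dft P m) := by
  classical
  have h1 : ∀ j, P j * conj (P j) = ∑ m, ∑ m', dft P m * conj (dft P m') * (psi (-(m' * j)) * psi (m * j)) := by
    intro j
    conv_lhs => rw [eq_sum_dft P j]
    rw [map_sum, Finset.sum_mul_sum]
    refine Finset.sum_congr rfl fun m _ => Finset.sum_congr rfl fun m' _ => ?_
    rw [map_mul, ← psi_neg]
    ring
  simp_rw [h1]
  rw [Finset.sum_comm]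
  simp_rw [fun m => Finset.sum_comm (s := (Finset.univ : Finset (ZMod q))) (t := (Finset.univ : Finset (ZMod q)))
    (f := fun j m' => dft P m * conj (dft P m') * (psi (-(m' * j)) * psi (m * j)))]
  simp_rw [← Finset.mul_sum, sum_psi_mul]
  rw [Finset.mul_sum]
  refine Finset.sum_congr rfl fun m _ => ?_
  rw [Finset.sum_eq_single m]
  · rw [if_pos rfl]
    ring
  · intro m' _ hm
    rw [if_neg hm, mul_zero]
  · intro h4
    exact absurd (Finset.mem_univ _) h4

end Basic

section Main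

variable {q h : ℕ} [NeZero q] (h2 : 2 ∣ q) {c : ZMod q} {P : ZMod q → ℂ} {f : ZMod q → ℤ}

/-- The values at the identity and at the central involution. -/
theorem P_zero (hf : ∀ m, (f m : ℂ) = dft P m) :
    P 0 = ((∑ m ∈ evS h2, f m + ∑ m ∈ odS h2, f m : ℤ) : ℂ) := by
  rw [sum_ev_add_od h2, eq_sum_dft P 0]
  push_cast
  refine Finset.sum_congr rfl fun m _ => ?_
  rw [mul_zero, psi_zero, mul_one, hf]

theorem P_zt (hq : q = 4 * h) (hh : 1 ≤ h) (hf : ∀ m, (f m : ℂ) = dft P m) :
    P (zt q h) = (aA h2 f : ℂ) := by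
  rw [eq_sum_dft P (zt q h), aA]
  push_cast
  rw [← sum_ev_add_od h2, sub_eq_add_neg, ← Finset.sum_neg_distrib]
  congr 1
  · refine Finset.sum_congr rfl fun m hm => ?_
    rw [psi_par h2 hq hh, if_pos ((mem_evS h2).mp hm), mul_one, hf]
  · refine Finset.sum_congr rfl fun m hm => ?_
    have h3 : par h2 m ≠ 0 := by
      rw [(mem_odS h2).mp hm]
      exact one_ne_zero
    rw [psi_par h2 hq hh, if_neg h3, hf]
    ring

/-- The sum of the squares over the interesting columns. -/
theorem sum_I (hq : q = 4 * h) (hh : 1 ≤ h) (hf : ∀ m, (f m : ℂ) = dft P m) :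
    (∑ j ∈ (Finset.univ.erase (0 : ZMod q)).erase (zt q h), P j * conj (P j)) =
      2 * (wW h2 (2 * h) f : ℂ) := by
  classical
  have h1 := parseval P
  have h0 : (0 : ZMod q) ∈ (Finset.univ : Finset (ZMod q)) := Finset.mem_univ _
  have hz : zt q h ∈ (Finset.univ : Finset (ZMod q)).erase 0 :=
    Finset.mem_erase.mpr ⟨zt_ne hq hh, Finset.mem_univ _⟩
  rw [← Finset.add_sum_erase _ _ h0, ← Finset.add_sum_erase _ _ hz] at h1
  have h3 : ∑ m, dft P m * conj (dft P m) = ((∑ m, f m * f m : ℤ) : ℂ) := by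
    push_cast
    refine Finset.sum_congr rfl fun m _ => ?_
    rw [← hf]
    simp
  rw [h3, P_zero h2 hf, P_zt h2 hq hh hf] at h1
  simp only [map_intCast] at h1
  have hq' : (q : ℂ) = 4 * (h : ℂ) := by exact_mod_cast hq
  simp only [aA] at h1
  rw [wW]
  push_cast at h1 ⊢
  linear_combination h1 + (∑ m, (f m : ℂ) * (f m : ℂ)) * hq'

end Main

section Gram

variable {q h : ℕ} [NeZero q] {ι : Type*} [Fintype ι]

/-- The function `κ`. -/
def kp (c x y : ZMod q) : ℤ :=
  open Classical in (if x = y then 1 else 0) + (if x = y * c then 1 else 0)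

variable (c : ZMod q) (P : ι → ZMod q → ℂ)

/-- The interesting columns. -/
def IsI (q h : ℕ) (j : ZMod q) : Prop := j ≠ 0 ∧ j ≠ zt q h

/-- **The inner product of differences of coefficients.** -/
theorem inner4' (hR : ∀ j j' : ZMod q, IsI q h j → IsI q h j' → ∑ x, P x j * conj (P x j') =
      (q : ℂ) * ((if j' = j then 1 else 0) + (if j' = c * j then 1 else 0)))
    (a b d e : ZMod q)
    (hab : psi (-(a * zt q h)) = psi (-(b * zt q h))) (hde : psi (-(d * zt q h)) = psi (-(e * zt q h))) :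
    ∑ x, (dft (P x) a - dft (P x) b) * conj (dft (P x) d - dft (P x) e) =
      ((kp c a d - kp c a e - kp c b d + kp c b e : ℤ) : ℂ) := by
  classical
  have hq := q_ne (q := q)
  set T : ZMod q → ℂ := fun j => psi (-(a * j)) - psi (-(b * j)) with hT
  set S : ZMod q → ℂ := fun j => psi (-(d * j)) - psi (-(e * j)) with hS
  have hT0 : T 0 = 0 := by simp [hT]
  have hS0 : S 0 = 0 := by simp [hS]
  have hTz : T (zt q h) = 0 := by
    simp only [hT]
    rw [hab, sub_self]
  have hSz : S (zt q h) = 0 := by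
    simp only [hS]
    rw [hde, sub_self]
  have h1 : ∀ x, (dft (P x) a - dft (P x) b) * conj (dft (P x) d - dft (P x) e) =
      ((q : ℂ)⁻¹ * (q : ℂ)⁻¹) * ∑ j, ∑ j', T j * conj (S j') * (P x j * conj (P x j')) := by
    intro x
    rw [dft_sub, dft_sub, map_mul, map_sum, map_inv₀, Complex.conj_natCast]
    simp only [map_mul]
    rw [mul_mul_mul_comm, Finset.sum_mul_sum]
    congr 1
    refine Finset.sum_congr rfl fun j _ => Finset.sum_congr rfl fun j' _ => ?_
    ring
  simp_rw [h1]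
  rw [← Finset.mul_sum, Finset.sum_comm]
  have h2 : ∀ j : ZMod q, ∑ x, ∑ j', T j * conj (S j') * (P x j * conj (P x j')) =
      (q : ℂ) * (T j * (conj (S j) + conj (S (c * j)))) := by
    intro j
    rw [Finset.sum_comm]
    have h3 : ∀ j' : ZMod q, ∑ x, T j * conj (S j') * (P x j * conj (P x j')) =
        T j * conj (S j') * ((q : ℂ) * ((if j' = j then 1 else 0) + (if j' = c * j then 1 else 0))) := by
      intro j'
      rw [← Finset.mul_sum]
      by_cases hj : j = 0
      · rw [hj, hT0]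
        simp
      by_cases hjz : j = zt q h
      · rw [hjz, hTz]
        simp
      by_cases hj' : j' = 0
      · rw [hj', hS0]
        simp
      by_cases hjz' : j' = zt q h
      · rw [hjz', hSz]
        simp
      rw [hR j j' ⟨hj, hjz⟩ ⟨hj', hjz'⟩]
    simp_rw [h3]
    have h4 : ∀ j' : ZMod q, T j * conj (S j') * ((q : ℂ) * ((if j' = j then 1 else 0) + (if j' = c * j then 1 else 0))) =
        (q : ℂ) * T j * ((if j' = j then conj (S j') else 0) + (if j' = c * j then conj (S j') else 0)) := by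
      intro j'
      by_cases h5 : j' = j <;> by_cases h6 : j' = c * j
      · rw [if_pos h5, if_pos h6, if_pos h5, if_pos h6]
        ring
      · rw [if_pos h5, if_neg h6, if_pos h5, if_neg h6]
        ring
      · rw [if_neg h5, if_pos h6, if_neg h5, if_pos h6]
        ring
      · rw [if_neg h5, if_neg h6, if_neg h5, if_neg h6]
        ring
    simp_rw [h4]
    rw [← Finset.mul_sum, Finset.sum_add_distrib, Finset.sum_ite_eq', Finset.sum_ite_eq']
    simp only [Finset.mem_univ, if_true]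
    ring
  simp_rw [h2]
  rw [← Finset.mul_sum]
  have h5 : ∀ j : ZMod q, T j * (conj (S j) + conj (S (c * j))) =
      psi (-(a * j)) * psi (d * j) - psi (-(a * j)) * psi (e * j) - psi (-(b * j)) * psi (d * j) +
        psi (-(b * j)) * psi (e * j) + psi (-(a * j)) * psi ((d * c) * j) - psi (-(a * j)) * psi ((e * c) * j) -
        psi (-(b * j)) * psi ((d * c) * j) + psi (-(b * j)) * psi ((e * c) * j) := by
    intro j
    have e1 : conj (S j) = psi (d * j) - psi (e * j) := by
      simp only [hS, map_sub, conj_psi_neg]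
    have e2 : conj (S (c * j)) = psi ((d * c) * j) - psi ((e * c) * j) := by
      simp only [hS, map_sub, conj_psi_neg]
      rw [mul_assoc, mul_assoc]
    rw [e1, e2]
    simp only [hT]
    ring
  simp_rw [h5]
  simp only [Finset.sum_add_distrib, Finset.sum_sub_distrib, sum_psi_mul]
  have e : ∀ A : Prop, ∀ [Decidable A], (if A then (q : ℂ) else 0) = (q : ℂ) * (if A then 1 else 0) := by
    intro A _
    split_ifs <;> simp
  simp only [e]
  simp only [kp]
  push_cast
  field_simp
  ring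

end Gram

section Data

variable {q h : ℕ} [NeZero q] {ι : Type*} [Fintype ι]

/-- The data of the rows. -/
structure FData (h2 : 2 ∣ q) (c : ZMod q) (P : ι → ZMod q → ℂ) (f : ι → ZMod q → ℤ) (h : ℕ) : Prop where
  hq : q = 4 * h
  hh : 1 ≤ h
  hN2 : h = 1 ∨ 2 ∣ h
  hcpar : par h2 c = 1
  hcc : c * c = 1
  hfix : ∀ m : ZMod q, c * m = m → m = 0 ∨ m = zt q h
  hcz : c * zt q h = zt q h
  hR : ∀ j j' : ZMod q, IsI q h j → IsI q h j' → ∑ x, P x j * conj (P x j') =
      (q : ℂ) * ((if j' = j then 1 else 0) + (if j' = c * j then 1 else 0))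
  hPc : ∀ x j, P x (c * j) = P x j
  hf : ∀ x m, (f x m : ℂ) = dft (P x) m

variable {h2 : 2 ∣ q} {c : ZMod q} {P : ι → ZMod q → ℂ} {f : ι → ZMod q → ℤ}

/-- The set of interesting columns. -/
noncomputable def Ii (q h : ℕ) [NeZero q] : Finset (ZMod q) := (Finset.univ.erase (0 : ZMod q)).erase (zt q h)

theorem mem_Ii {j : ZMod q} : j ∈ Ii q h ↔ IsI q h j := by
  simp only [Ii, IsI, Finset.mem_erase, Finset.mem_univ, and_true]
  tauto

theorem card_Ii (hq : q = 4 * h) (hh : 1 ≤ h) : (Ii q h).card + 2 = q := by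
  have hz : zt q h ∈ (Finset.univ : Finset (ZMod q)).erase 0 :=
    Finset.mem_erase.mpr ⟨zt_ne hq hh, Finset.mem_univ _⟩
  rw [Ii, Finset.card_erase_of_mem hz, Finset.card_erase_of_mem (Finset.mem_univ _), Finset.card_univ, ZMod.card]
  omega

namespace FData

variable (D : FData h2 c P f h)

include D

theorem c_mem_I {j : ZMod q} (hj : IsI q h j) : IsI q h (c * j) := by
  refine ⟨fun h0 => hj.1 ?_, fun h0 => hj.2 ?_⟩
  · have : c * (c * j) = j := by rw [← mul_assoc, D.hcc, one_mul]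
    rw [← this, h0, mul_zero]
  · have : c * (c * j) = j := by rw [← mul_assoc, D.hcc, one_mul]
    rw [← this, h0, D.hcz]

theorem c_ne {j : ZMod q} (hj : IsI q h j) : c * j ≠ j := by
  intro h0
  rcases D.hfix j h0 with h1 | h1
  · exact hj.1 h1
  · exact hj.2 h1

/-- The sum of a row over the interesting columns. -/
theorem sum_I_row (x : ι) : ∑ j ∈ Ii q h, P x j * conj (P x j) = 2 * (wW h2 (2 * h) (f x) : ℂ) :=
  sum_I h2 D.hq D.hh (D.hf x)

/-- The invariance of the coefficients. -/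
theorem f_c (x : ι) (m : ZMod q) : f x (c * m) = f x m := by
  have h1 : dft (P x) (c * m) = dft (P x) m := by
    simp only [dft]
    congr 1
    let σ : ZMod q ≃ ZMod q :=
      ⟨fun a => c * a, fun a => c * a, fun a => by simp only [← mul_assoc, D.hcc, one_mul],
        fun a => by simp only [← mul_assoc, D.hcc, one_mul]⟩
    symm
    refine Fintype.sum_equiv σ _ _ fun j => ?_
    change P x j * psi (-(m * j)) = P x (c * j) * psi (-(c * m * (c * j)))
    rw [D.hPc]
    congr 3
    calc m * j = c * c * (m * j) := by rw [D.hcc, one_mul]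
      _ = _ := by ring
  have h2 : ((f x (c * m) : ℤ) : ℂ) = (f x m : ℂ) := by rw [D.hf, D.hf, h1]
  exact_mod_cast h2

theorem cs_aux {a b : ι → ℂ} : ‖∑ y, a y * conj (b y)‖ ^ 2 ≤ (∑ y, ‖a y‖ ^ 2) * ∑ y, ‖b y‖ ^ 2 := by
  have h1 : ‖∑ y, a y * conj (b y)‖ ≤ ∑ y, ‖a y‖ * ‖b y‖ := by
    refine (norm_sum_le _ _).trans (le_of_eq ?_)
    refine Finset.sum_congr rfl fun y _ => ?_
    rw [norm_mul, Complex.norm_conj]
  have h3 := Finset.sum_mul_sq_le_sq_mul_sq Finset.univ (fun y => ‖a y‖) (fun y => ‖b y‖)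
  calc ‖∑ y, a y * conj (b y)‖ ^ 2 ≤ (∑ y, ‖a y‖ * ‖b y‖) ^ 2 := by
        gcongr
    _ ≤ _ := h3

/-- **Bessel's inequality for the interesting columns.** -/
theorem bessel [DecidableEq ι] (Y : ι → ℂ) (hY : ∀ j, IsI q h j → ∑ y, P y j * conj (Y y) = 0) (x : ι) :
    ‖Y x‖ ^ 2 ≤ (∑ y, ‖Y y‖ ^ 2) * (1 - (wW h2 (2 * h) (f x) : ℝ) / q) := by
  classical
  have hq0 : (q : ℂ) ≠ 0 := q_ne
  set Rr : ℂ := (wW h2 (2 * h) (f x) : ℂ) / q with hRr
  set u : ι → ℂ := fun y => (2 * (q : ℂ))⁻¹ * ∑ j ∈ Ii q h, P y j * conj (P x j) with hu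
  set E : ι → ℂ := fun y => (if y = x then 1 else 0) - u y with hE
  have hux : u x = Rr := by
    simp only [hu]
    rw [D.sum_I_row x, hRr]
    field_simp
  -- the norm of `u`
  have huu : ∑ y, u y * conj (u y) = Rr := by
    have h1 : ∀ y, u y * conj (u y) = ((2 * (q : ℂ))⁻¹ * (2 * (q : ℂ))⁻¹) *
        ∑ j ∈ Ii q h, ∑ j' ∈ Ii q h, conj (P x j) * P x j' * (P y j * conj (P y j')) := by
      intro y
      simp only [hu]
      rw [map_mul, map_inv₀, map_mul, Complex.conj_natCast, map_sum, mul_mul_mul_comm, Finset.sum_mul_sum]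
      have e2 : conj (2 : ℂ) = 2 := Complex.conj_ofNat 2
      rw [e2]
      congr 1
      refine Finset.sum_congr rfl fun j _ => Finset.sum_congr rfl fun j' _ => ?_
      simp only [map_mul, Complex.conj_conj]
      ring
    simp_rw [h1]
    rw [← Finset.mul_sum, Finset.sum_comm]
    have h3 : ∀ j ∈ Ii q h, ∑ y, ∑ j' ∈ Ii q h, conj (P x j) * P x j' * (P y j * conj (P y j')) =
        2 * (q : ℂ) * (P x j * conj (P x j)) := by
      intro j hj
      rw [Finset.sum_comm]
      have h4 : ∀ j' ∈ Ii q h, ∑ y, conj (P x j) * P x j' * (P y j * conj (P y j')) =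
          conj (P x j) * P x j' * ((q : ℂ) * ((if j' = j then 1 else 0) + (if j' = c * j then 1 else 0))) := by
        intro j' hj'
        rw [← Finset.mul_sum, D.hR j j' (mem_Ii.mp hj) (mem_Ii.mp hj')]
      rw [Finset.sum_congr rfl h4]
      have h5 : ∀ j' : ZMod q, conj (P x j) * P x j' * ((q : ℂ) * ((if j' = j then 1 else 0) + (if j' = c * j then 1 else 0))) =
          (q : ℂ) * ((if j' = j then conj (P x j) * P x j' else 0) + (if j' = c * j then conj (P x j) * P x j' else 0)) := by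
        intro j'
        split_ifs <;> ring
      simp_rw [h5]
      rw [← Finset.mul_sum, Finset.sum_add_distrib, Finset.sum_ite_eq', Finset.sum_ite_eq', if_pos hj,
        if_pos (mem_Ii.mpr (D.c_mem_I (mem_Ii.mp hj))), D.hPc]
      ring
    rw [Finset.sum_congr rfl h3, ← Finset.mul_sum, D.sum_I_row x, hRr]
    field_simp
  have hEE : ∑ y, E y * conj (E y) = 1 - Rr := by
    have h1 : ∀ y, E y * conj (E y) = (if y = x then 1 else 0) - (if y = x then conj (u y) else 0) -
        (if y = x then u y else 0) + u y * conj (u y) := by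
      intro y
      simp only [hE, map_sub]
      split_ifs <;> simp <;> ring
    simp_rw [h1]
    rw [Finset.sum_add_distrib, Finset.sum_sub_distrib, Finset.sum_sub_distrib, Finset.sum_ite_eq', Finset.sum_ite_eq',
      Finset.sum_ite_eq', if_pos (Finset.mem_univ _), if_pos (Finset.mem_univ _), if_pos (Finset.mem_univ _), huu, hux]
    have hR_real : conj Rr = Rr := by
      rw [hRr, map_div₀, map_intCast, Complex.conj_natCast]
    rw [hR_real]
    ring
  have hEY : ∑ y, E y * conj (Y y) = conj (Y x) := by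
    have h1 : ∀ y, E y * conj (Y y) = (if y = x then conj (Y y) else 0) - u y * conj (Y y) := by
      intro y
      simp only [hE]
      split_ifs <;> ring
    simp_rw [h1]
    rw [Finset.sum_sub_distrib, Finset.sum_ite_eq', if_pos (Finset.mem_univ _)]
    have h3 : ∑ y, u y * conj (Y y) = 0 := by
      simp only [hu]
      have h4 : ∀ y, (2 * (q : ℂ))⁻¹ * ∑ j ∈ Ii q h, P y j * conj (P x j) * conj (Y y) =
          (2 * (q : ℂ))⁻¹ * ∑ j ∈ Ii q h, conj (P x j) * (P y j * conj (Y y)) := by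
        intro y
        congr 1
        refine Finset.sum_congr rfl fun j _ => ?_
        ring
      have h5 : ∀ y, (2 * (q : ℂ))⁻¹ * (∑ j ∈ Ii q h, P y j * conj (P x j)) * conj (Y y) =
          (2 * (q : ℂ))⁻¹ * ∑ j ∈ Ii q h, conj (P x j) * (P y j * conj (Y y)) := by
        intro y
        rw [mul_assoc, Finset.sum_mul]
        exact h4 y
      simp_rw [h5]
      rw [← Finset.mul_sum, Finset.sum_comm]
      have h6 : ∀ j ∈ Ii q h, ∑ y, conj (P x j) * (P y j * conj (Y y)) = 0 := by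
        intro j hj
        rw [← Finset.mul_sum, hY j (mem_Ii.mp hj), mul_zero]
      rw [Finset.sum_eq_zero h6, mul_zero]
    rw [h3, sub_zero]
  have hcs := cs_aux D (a := E) (b := Y)
  rw [hEY, Complex.norm_conj] at hcs
  have hEn : ∑ y, ‖E y‖ ^ 2 = 1 - (wW h2 (2 * h) (f x) : ℝ) / q := by
    apply Complex.ofReal_injective
    have h1 : ((∑ y, ‖E y‖ ^ 2 : ℝ) : ℂ) = ∑ y, E y * conj (E y) := by
      push_cast
      refine Finset.sum_congr rfl fun y _ => ?_
      rw [Complex.mul_conj, Complex.normSq_eq_norm_sq]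
      push_cast
      rfl
    rw [h1, hEE, hRr]
    push_cast
    rfl
  rw [hEn] at hcs
  linarith [mul_comm (1 - (wW h2 (2 * h) (f x) : ℝ) / q) (∑ y, ‖Y y‖ ^ 2)]

/-- The row bound. -/
theorem wW_lt [DecidableEq ι] (g : ι → ℂ) (hg : ∀ x, g x ≠ 0)
    (hY : ∀ j, IsI q h j → ∑ y, P y j * conj (g y) = 0) (x : ι) :
    wW h2 (2 * h) (f x) < 2 * (2 * h) := by
  have h1 := D.bessel g hY x
  have h3 : 0 < ‖g x‖ ^ 2 := by
    have := norm_pos_iff.mpr (hg x)
    positivity
  have h4 : 0 ≤ ∑ y, ‖g y‖ ^ 2 := Finset.sum_nonneg fun y _ => by positivity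
  have h5 : 0 < 1 - (wW h2 (2 * h) (f x) : ℝ) / q := by
    by_contra hc
    push Not at hc
    have := mul_nonpos_of_nonneg_of_nonpos h4 hc
    linarith
  have hq0 : (0 : ℝ) < q := by
    have := NeZero.ne q
    positivity
  have h6 : (wW h2 (2 * h) (f x) : ℝ) < q := by
    rw [sub_pos, div_lt_one hq0] at h5
    exact h5
  have h7 : (q : ℝ) = 2 * (2 * h) := by
    have := D.hq
    have h8 : (q : ℝ) = ((4 * h : ℕ) : ℝ) := by exact_mod_cast this
    rw [h8]
    push_cast
    ring
  rw [h7] at h6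
  exact_mod_cast h6

/-- The sum of all the numbers `W`. -/
theorem sum_wW : 2 * ∑ x, wW h2 (2 * h) (f x) = (q : ℤ) * ((q : ℤ) - 2) := by
  classical
  have h1 : ((2 * ∑ x, wW h2 (2 * h) (f x) : ℤ) : ℂ) = ∑ j ∈ Ii q h, ∑ x, P x j * conj (P x j) := by
    rw [Finset.sum_comm]
    push_cast
    rw [Finset.mul_sum]
    refine Finset.sum_congr rfl fun x _ => ?_
    rw [D.sum_I_row x]
  have h3 : ∀ j ∈ Ii q h, ∑ x, P x j * conj (P x j) = (q : ℂ) := by
    intro j hj
    have hj' := mem_Ii.mp hj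
    rw [D.hR j j hj' hj', if_pos rfl, if_neg (fun h4 => D.c_ne hj' h4.symm)]
    ring
  rw [Finset.sum_congr rfl h3, Finset.sum_const, nsmul_eq_mul] at h1
  have h4 := card_Ii D.hq D.hh
  have h5 : (((Ii q h).card : ℤ)) = (q : ℤ) - 2 := by omega
  have h6 : ((2 * ∑ x, wW h2 (2 * h) (f x) : ℤ) : ℂ) = (((q : ℤ) * ((q : ℤ) - 2) : ℤ) : ℂ) := by
    rw [h1, ← h5]
    push_cast
    ring
  exact_mod_cast h6

end FData

end Data

end Cfsg.Agent.Lib.Tw.Fou
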