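import Mathlib
import Cfsg.Agent.Lib.BlockH.Saturation
import Cfsg.Agent.Lib.Char.Complete
import Cfsg.Agent.Lib.Tw.Fou
import Cfsg.Agent.Lib.Dih.Grp

/-!
# Groups with a cyclic subgroup of index two: rotations and reflections
-/

set_option linter.unusedSectionVars false
set_option linter.style.haveILetI false
set_option autoImplicit false

namespace Cfsg.Agent.Lib.Tw.Grp

open Cfsg.Agent.Lib.Tw.Fou

/-- The data of a group with a cyclic subgroup of index two and a twisting residue. -/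
structure Rot (A : Type*) [Group A] (q h : ℕ) (c : ZMod q) where
  ρ : ZMod q → A
  add : ∀ i j, ρ (i + j) = ρ i * ρ j
  inj : Function.Injective ρ
  s : A
  conj : ∀ i, s * ρ i * s⁻¹ = ρ (c * i)
  cover : ∀ d : A, (∃ i, d = ρ i) ∨ ∃ i, d = s * ρ i
  s_ne : ∀ i, s ≠ ρ i
  fourth : ∀ k, (s * ρ k) ^ 4 = 1

namespace Rot

variable {A : Type*} [Group A] {q h : ℕ} {c : ZMod q} (R : Rot A q h c)

theorem zero : R.ρ 0 = 1 := by
  have h1 := R.add 0 0
  rw [add_zero] at h1
  exact (mul_eq_left.mp h1.symm)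

theorem neg (i : ZMod q) : R.ρ (-i) = (R.ρ i)⁻¹ := by
  rw [eq_inv_iff_mul_eq_one, ← R.add, neg_add_cancel, R.zero]

theorem sub (i j : ZMod q) : R.ρ (i - j) = R.ρ i * (R.ρ j)⁻¹ := by
  rw [sub_eq_add_neg, R.add, R.neg]

theorem pow (i : ZMod q) (k : ℕ) : R.ρ i ^ k = R.ρ (k • i) := by
  induction k with
  | zero => simp [R.zero]
  | succ k ih => rw [pow_succ, ih, ← R.add, succ_nsmul]

theorem ne_refl (i j : ZMod q) : R.s * R.ρ j ≠ R.ρ i := by
  intro h1
  apply R.s_ne (i - j)
  rw [R.sub, ← h1]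
  group

theorem eq_one_iff {i : ZMod q} : R.ρ i = 1 ↔ i = 0 := by
  rw [← R.zero]
  exact R.inj.eq_iff

/-- The homomorphism from the cyclic group. -/
def hom : Multiplicative (ZMod q) →* A where
  toFun i := R.ρ (Multiplicative.toAdd i)
  map_one' := R.zero
  map_mul' a b := R.add _ _

theorem comm (i j : ZMod q) : R.ρ i * R.ρ j = R.ρ j * R.ρ i := by
  rw [← R.add, ← R.add, add_comm]

end Rot

section Two

variable {q h m : ℕ} [NeZero q] {A : Type*} [Group A] {c : ZMod q} (R : Rot A q h c)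

/-- The residue of the element of order four. -/
def ht (q h : ℕ) : ZMod q := ((h : ℕ) : ZMod q)

theorem ht_add_ht : ht q h + ht q h = zt q h := by
  rw [ht, zt, ← Nat.cast_add, two_mul]

theorem ht_ne (hq : q = 4 * h) (hh : 1 ≤ h) : ht q h ≠ 0 := by
  rw [ht, Ne, ZMod.natCast_eq_zero_iff]
  intro h3
  have := Nat.le_of_dvd (by omega) h3
  omega

theorem eq_of_two (hq : q = 4 * h) (hh : 1 ≤ h) {k : ZMod q} (h2 : k + k = zt q h) :
    k = ht q h ∨ k = - ht q h := by
  have h1 : ((k.val + k.val : ℕ) : ZMod q) = ((2 * h : ℕ) : ZMod q) := by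
    rw [Nat.cast_add, ZMod.natCast_zmod_val, h2, zt]
  rw [ZMod.natCast_eq_natCast_iff', Nat.mod_eq_of_lt (show 2 * h < q by omega)] at h1
  have h3 := ZMod.val_lt k
  have h4 : (k.val + k.val) % q = k.val + k.val ∨ (k.val + k.val) % q = k.val + k.val - q := by
    by_cases h5 : k.val + k.val < q
    · left
      exact Nat.mod_eq_of_lt h5
    · right
      rw [Nat.mod_eq_sub_mod (by omega), Nat.mod_eq_of_lt (by omega)]
  have hval : k.val = h ∨ k.val = 3 * h := by omega
  rcases hval with h5 | h5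
  · left
    rw [ht, ← h5, ZMod.natCast_zmod_val]
  · right
    have h6 : k = ((3 * h : ℕ) : ZMod q) := by
      rw [← h5, ZMod.natCast_zmod_val]
    rw [h6, eq_neg_iff_add_eq_zero, ht, ← Nat.cast_add, ZMod.natCast_eq_zero_iff]
    exact ⟨1, by omega⟩

theorem two_zero (hq : q = 4 * h) (hh : 1 ≤ h) {k : ZMod q} (h2 : k + k = 0) :
    k = 0 ∨ k = zt q h := by
  by_cases hk : k = 0
  · exact Or.inl hk
  · right
    exact Cfsg.Agent.Lib.Dih.Grp.eq_two_of_add_self hq hk h2

/-- The central involution. -/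
def zz : A := R.ρ (zt q h)

/-- The element of order four. -/
def ww : A := R.ρ (ht q h)

theorem ww_mul : ww R * ww R = zz R := by
  rw [ww, zz, ← R.add, ht_add_ht]

theorem exists_order (hq2 : q = 2 ^ m) (i : ZMod q) : ∃ a : ℕ, orderOf (R.ρ i) = 2 ^ a := by
  have h1 : R.ρ i ^ q = 1 := by
    rw [R.pow, nsmul_eq_mul, ZMod.natCast_self, zero_mul, R.zero]
  have h2 := orderOf_dvd_of_pow_eq_one h1
  have h3 : orderOf (R.ρ i) ∣ 2 ^ m := by
    rw [← hq2]
    exact h2
  obtain ⟨a, -, ha⟩ := (Nat.dvd_prime_pow Nat.prime_two).mp h3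
  exact ⟨a, ha⟩

/-- A suitable power of a rotation of order at least four generates the subgroup of order four. -/
theorem pow_eq_ww (hq : q = 4 * h) (hh : 1 ≤ h) (hq2 : q = 2 ^ m) {i : ZMod q} (hi : IsI q h i) :
    ∃ a : ℕ, orderOf (R.ρ i) = 2 ^ (a + 2) ∧ (R.ρ i ^ 2 ^ a = ww R ∨ R.ρ i ^ 2 ^ a = (ww R)⁻¹) := by
  obtain ⟨a, ha⟩ := exists_order R hq2 i
  have hne : R.ρ i ≠ 1 := fun h1 => hi.1 (R.eq_one_iff.mp h1)
  have hne2 : R.ρ i * R.ρ i ≠ 1 := by
    intro h1
    rw [← R.add, R.eq_one_iff] at h1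
    rcases two_zero hq hh h1 with h2 | h2
    · exact hi.1 h2
    · exact hi.2 h2
  obtain ⟨b, rfl⟩ : ∃ b, a = b + 2 := by
    rcases a with _ | _ | a
    · rw [pow_zero, orderOf_eq_one_iff] at ha
      exact absurd ha hne
    · have h1 : R.ρ i ^ 2 = 1 := by
        rw [← pow_orderOf_eq_one (R.ρ i), ha]
        simp
      rw [pow_two] at h1
      exact absurd h1 hne2
    · exact ⟨a, by omega⟩
  refine ⟨b, ha, ?_⟩
  set k : ZMod q := (2 ^ b) • i with hk
  have h1 : R.ρ i ^ 2 ^ b = R.ρ k := R.pow i _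
  have h2 : k + k + (k + k) = 0 := by
    have h3 : R.ρ (k + k + (k + k)) = 1 := by
      rw [R.add, R.add, ← h1, ← pow_add, ← pow_add,
        show 2 ^ b + 2 ^ b + (2 ^ b + 2 ^ b) = 2 ^ (b + 2) by ring, ← ha, pow_orderOf_eq_one]
    exact R.eq_one_iff.mp h3
  have h3 : k + k ≠ 0 := by
    intro h4
    have h5 : R.ρ i ^ 2 ^ (b + 1) = 1 := by
      rw [pow_succ, pow_mul, h1, pow_two, ← R.add, h4, R.zero]
    have h6 := orderOf_dvd_of_pow_eq_one h5
    rw [ha] at h6
    have h7 := Nat.le_of_dvd (by positivity) h6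
    have h8 : 2 ^ (b + 1) < 2 ^ (b + 2) := Nat.pow_lt_pow_right (by norm_num) (by omega)
    omega
  have h4 : k + k = zt q h := (two_zero hq hh h2).resolve_left h3
  rcases eq_of_two hq hh h4 with h5 | h5
  · left
    rw [h1, h5, ww]
  · right
    rw [h1, h5, ww, R.neg]

/-- **Control of fusion by the normalizer of the subgroup of order four.** -/
theorem conj_ww_of_conj (hq : q = 4 * h) (hh : 1 ≤ h) (hq2 : q = 2 ^ m) {X : Type*} [Group X] (φ : A →* X)
    (hφ : Function.Injective φ) {i j : ZMod q} (hi : IsI q h i) (hj : IsI q h j) {t : X}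
    (ht' : t * φ (R.ρ i) * t⁻¹ = φ (R.ρ j)) :
    t * φ (ww R) * t⁻¹ = φ (ww R) ∨ t * φ (ww R) * t⁻¹ = (φ (ww R))⁻¹ := by
  obtain ⟨a, ha, h1⟩ := pow_eq_ww R hq hh hq2 hi
  obtain ⟨b, hb, h2⟩ := pow_eq_ww R hq hh hq2 hj
  have h3 : orderOf (φ (R.ρ j)) = orderOf (φ (R.ρ i)) := by
    rw [← ht']
    have : t * φ (R.ρ i) * t⁻¹ = (MulAut.conj t) (φ (R.ρ i)) := rfl
    rw [this, MulEquiv.orderOf_eq]
  rw [orderOf_injective φ hφ, orderOf_injective φ hφ, ha, hb] at h3
  have h4 : a = b := by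
    have := Nat.pow_right_injective (le_refl 2) h3
    omega
  subst h4
  have h5 : t * φ (R.ρ i ^ 2 ^ a) * t⁻¹ = φ (R.ρ j ^ 2 ^ a) := by
    rw [map_pow, map_pow, ← conj_pow, ht']
  have key : t * φ (ww R) * t⁻¹ = (t * (φ (ww R))⁻¹ * t⁻¹)⁻¹ := by group
  rcases h1 with h1 | h1 <;> rcases h2 with h2 | h2 <;> rw [h1, h2] at h5
  · exact Or.inl h5
  · right
    rw [h5, map_inv]
  · right
    rw [map_inv] at h5
    rw [key, h5]
  · left
    rw [key, ← map_inv, h5, map_inv, inv_inv]

/-- An element normalizing the subgroup of order four commutes with the central involution. -/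
theorem commute_zz_of_conj_ww {g : A} (hg : g * ww R * g⁻¹ = ww R ∨ g * ww R * g⁻¹ = (ww R)⁻¹)
    (hq : q = 4 * h) : Commute g (zz R) := by
  have hz : (ww R)⁻¹ * (ww R)⁻¹ = zz R := by
    rw [← mul_inv_rev, ww_mul, zz, ← R.neg]
    congr 1
    exact neg_eq_of_add_eq_zero_left (zt_add_zt hq)
  have h1 : g * zz R * g⁻¹ = zz R := by
    rw [← ww_mul]
    have : g * (ww R * ww R) * g⁻¹ = (g * ww R * g⁻¹) * (g * ww R * g⁻¹) := by group
    rw [this]
    rcases hg with h2 | h2 <;> rw [h2]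
    rw [hz, ww_mul]
  calc g * zz R = (g * zz R * g⁻¹) * g := by group
    _ = zz R * g := by rw [h1]

end Two

section Central

open Cfsg.Agent.Lib.Tw.Grp.Rot

variable {X : Type*} [Group X] [Finite X] {D : Subgroup X} {q h m : ℕ} [NeZero q] {c : ZMod q} (R : Rot D q h c)

/-- The rotations in the ambient group. -/
def rr (R : Rot D q h c) (i : ZMod q) : X := (R.ρ i : D)

/-- The reflections in the ambient group. -/
def ss (R : Rot D q h c) (i : ZMod q) : X := (R.s * R.ρ i : D)

theorem rr_add (i j : ZMod q) : rr R (i + j) = rr R i * rr R j := by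
  simp only [rr, R.add, Subgroup.coe_mul]

theorem rr_zero : rr R 0 = 1 := by
  simp only [rr, R.zero, Subgroup.coe_one]

theorem rr_injective : Function.Injective (rr R) := fun _ _ h1 => R.inj (Subtype.ext h1)

theorem mem_D_iff {g : X} : g ∈ D ↔ (∃ i, g = rr R i) ∨ ∃ i, g = ss R i := by
  constructor
  · intro hg
    rcases R.cover ⟨g, hg⟩ with ⟨i, hi⟩ | ⟨i, hi⟩
    · exact Or.inl ⟨i, congrArg Subtype.val hi⟩
    · exact Or.inr ⟨i, congrArg Subtype.val hi⟩
  · rintro (⟨i, rfl⟩ | ⟨i, rfl⟩)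
    · exact (R.ρ i).2
    · exact (R.s * R.ρ i).2

theorem rr_ne_ss (i j : ZMod q) : rr R i ≠ ss R j := by
  intro h1
  exact R.ne_refl i j (Subtype.ext h1).symm

theorem ss_fourth (j : ZMod q) : ss R j ^ 4 = 1 := by
  have := congrArg Subtype.val (R.fourth j)
  simpa [ss] using this

theorem ss_inv_mul (j j' : ZMod q) : (ss R j)⁻¹ * ss R j' = rr R (j' - j) := by
  have h : (R.s * R.ρ j)⁻¹ * (R.s * R.ρ j') = R.ρ (j' - j) := by
    rw [R.sub]
    have h1 := R.comm j' (-j)
    rw [R.neg] at h1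
    rw [h1]
    group
  exact congrArg Subtype.val h

theorem hAux4 (hq : q = 4 * h) (hh : 1 ≤ h) {i : ZMod q} (hi : rr R i ^ 4 = 1) :
    i = 0 ∨ i = zt q h ∨ i = ht q h ∨ i = - ht q h := by
  have h1 : R.ρ i ^ 4 = 1 := by
    apply Subtype.ext
    simpa [rr] using hi
  rw [R.pow, R.eq_one_iff] at h1
  have h2 : (i + i) + (i + i) = 0 := by
    rw [← h1]
    simp only [nsmul_eq_mul]
    push_cast
    ring
  rcases two_zero hq hh h2 with h3 | h3
  · rcases two_zero hq hh h3 with h4 | h4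
    · exact Or.inl h4
    · exact Or.inr (Or.inl h4)
  · rcases eq_of_two hq hh h3 with h4 | h4
    · exact Or.inr (Or.inr (Or.inl h4))
    · exact Or.inr (Or.inr (Or.inr h4))

/-- **An element of odd order normalizing a subgroup of `D` and commuting with the element of order
four centralizes the subgroup.** -/
theorem mem_centralizer_of_odd (hq : q = 4 * h) (hh : 1 ≤ h) (hq2 : q = 2 ^ m) {Q : Subgroup X} (hQ : Q ≤ D) {g : X}
    (hg : g ∈ Subgroup.normalizer (Q : Set X)) (hodd : ¬ 2 ∣ orderOf g) (hz : Commute g (rr R (ht q h))) :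
    g ∈ Subgroup.centralizer (Q : Set X) := by
  classical
  cases nonempty_fintype X
  have hgQ : ∀ y ∈ Q, g * y * g⁻¹ ∈ Q := fun y hy => (Subgroup.mem_normalizer_iff.mp hg y).mp hy
  have hgQ' : ∀ y, g * y * g⁻¹ ∈ Q → y ∈ Q := fun y hy => (Subgroup.mem_normalizer_iff.mp hg y).mpr hy
  let rrHom : Multiplicative (ZMod q) →* X :=
    { toFun := fun a => rr R (Multiplicative.toAdd a)
      map_one' := rr_zero R
      map_mul' := fun a b => rr_add R _ _ }
  set A : Subgroup X := rrHom.range with hA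
  have hAmem : ∀ i, rr R i ∈ A := fun i => ⟨Multiplicative.ofAdd i, rfl⟩
  have hAmem' : ∀ {y}, y ∈ A → ∃ i, y = rr R i := by
    rintro y ⟨i, rfl⟩
    exact ⟨Multiplicative.toAdd i, rfl⟩
  have hAss : ∀ j, ss R j ∉ A := by
    intro j hj
    obtain ⟨i, hi⟩ := hAmem' hj
    exact rr_ne_ss R i j hi.symm
  set C : Subgroup X := Q ⊓ A with hC
  have hCyc : IsCyclic C := by
    haveI : IsCyclic A := by
      haveI : IsCyclic (Multiplicative (ZMod q)) := inferInstance
      exact isCyclic_of_surjective rrHom.rangeRestrict rrHom.rangeRestrict_surjective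
    exact isCyclic_of_injective (Subgroup.inclusion (inf_le_right : C ≤ A)) (Subgroup.inclusion_injective _)
  have hzz : Commute g (rr R (zt q h)) := by
    rw [← ht_add_ht, rr_add]
    exact hz.mul_right hz
  have hinv : Commute g (rr R (- ht q h)) := by
    have h1 : rr R (- ht q h) = (rr R (ht q h))⁻¹ := by
      simp only [rr, R.neg, InvMemClass.coe_inv]
    rw [h1]
    exact hz.inv_right
  -- rotations of order at most four
  have hrot4 : ∀ i, rr R i ^ 4 = 1 → g * rr R i * g⁻¹ = rr R i := by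
    intro i hi
    have hc : Commute g (rr R i) := by
      rcases hAux4 R hq hh hi with h1 | h1 | h1 | h1
      · rw [h1, rr_zero]
        exact Commute.one_right g
      · rw [h1]
        exact hzz
      · rw [h1]
        exact hz
      · rw [h1]
        exact hinv
    rw [hc.eq]
    group
  -- conjugation maps `C` into itself
  have hgC : ∀ y ∈ C, g * y * g⁻¹ ∈ C := by
    rintro y ⟨hyQ, hyA⟩
    obtain ⟨i, rfl⟩ := hAmem' hyA
    refine ⟨hgQ _ hyQ, ?_⟩
    by_cases hi : rr R i ^ 4 = 1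
    · rw [hrot4 i hi]
      exact hAmem i
    · have h1 : g * rr R i * g⁻¹ ∈ D := hQ (hgQ _ hyQ)
      rcases (mem_D_iff R).mp h1 with ⟨i', hi'⟩ | ⟨j, hj⟩
      · rw [hi']
        exact hAmem i'
      · exfalso
        apply hi
        have h2 : (g * rr R i * g⁻¹) ^ 4 = 1 := by rw [hj, ss_fourth]
        rw [conj_pow] at h2
        have h4 : rr R i ^ 4 = g⁻¹ * (g * rr R i ^ 4 * g⁻¹) * g := by group
        rw [h4, h2]
        group
  have hmap : C.map (MulAut.conj g).toMonoidHom = C := by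
    refine Subgroup.eq_of_le_of_card_ge ?_ ?_
    · rintro _ ⟨y, hy, rfl⟩
      exact hgC y hy
    · rw [Subgroup.card_map_of_injective (MulAut.conj g).injective]
  have hgN : g ∈ Subgroup.normalizer (C : Set X) :=
    Cfsg.Agent.Lib.BlockH.Saturation.mem_normalizer_of_map_eq hmap
  have hgC' : ∀ y, g * y * g⁻¹ ∈ C → y ∈ C := fun y hy => (Subgroup.mem_normalizer_iff.mp hgN y).mpr hy
  -- `g` centralizes `C`
  have hcent : ∀ y ∈ C, g * y * g⁻¹ = y := by
    set T : Subgroup X := Subgroup.normalizer (C : Set X) with hT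
    set α : MulAut C := Cfsg.Agent.Lib.BlockH.Saturation.conjAct T C le_rfl ⟨g, hgN⟩ with hα
    have h1 : α ^ orderOf g = 1 := by
      rw [hα, ← map_pow]
      have h2 : (⟨g, hgN⟩ : T) ^ orderOf g = 1 := by
        apply Subtype.ext
        simp [pow_orderOf_eq_one]
      rw [h2, map_one]
    have h2 := orderOf_dvd_of_pow_eq_one h1
    have h3 : orderOf α ∣ Nat.card (MulAut C) := orderOf_dvd_natCard α
    rw [IsCyclic.card_mulAut] at h3
    have h4' : Nat.card C ∣ 2 ^ m := by
      have h5 : Nat.card C ∣ Nat.card A := Subgroup.card_dvd_of_le inf_le_right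
      have h6 : Nat.card A ∣ q := by
        have h7 : Nat.card A = Nat.card rrHom.range := rfl
        rw [h7]
        have h8 := Subgroup.card_range_dvd rrHom
        rwa [Nat.card_congr Multiplicative.toAdd, Nat.card_zmod] at h8
      rw [← hq2]
      exact h5.trans h6
    obtain ⟨a, -, ha⟩ := (Nat.dvd_prime_pow Nat.prime_two).mp h4'
    have h5 : ∃ b, Nat.totient (Nat.card C) = 2 ^ b := by
      rw [ha]
      rcases a with _ | a
      · exact ⟨0, by simp⟩
      · exact ⟨a, by rw [Nat.totient_prime_pow_succ Nat.prime_two]; simp⟩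
    obtain ⟨b, hb⟩ := h5
    rw [hb] at h3
    have h6 : Nat.Coprime (orderOf g) (2 ^ b) := by
      apply Nat.Coprime.pow_right
      rw [Nat.coprime_comm]
      exact (Nat.Prime.coprime_iff_not_dvd Nat.prime_two).mpr hodd
    have h7 : orderOf α = 1 := Nat.eq_one_of_dvd_coprimes h6 h2 h3
    have h8 : α = 1 := orderOf_eq_one_iff.mp h7
    intro y hy
    have h9 := congrArg (fun β : MulAut C => ((β ⟨y, hy⟩ : C) : X)) h8
    exact h9
  -- the reflections
  have hrefl : ∀ j, ss R j ∈ Q → g * ss R j * g⁻¹ = ss R j := by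
    intro j hj
    have h1 : g * ss R j * g⁻¹ ∈ Q := hgQ _ hj
    have h2 : g * ss R j * g⁻¹ ∉ A := by
      intro h3
      have h4 := hgC' _ ⟨h1, h3⟩
      exact hAss j h4.2
    rcases (mem_D_iff R).mp (hQ h1) with ⟨i, hi⟩ | ⟨j', hj'⟩
    · exact absurd (hi ▸ hAmem i) h2
    set d := rr R (j' - j) with hd
    have hdC : d ∈ C := by
      refine ⟨?_, hAmem _⟩
      rw [hd, ← ss_inv_mul]
      rw [hj'] at h1
      exact Subgroup.mul_mem _ (Subgroup.inv_mem _ hj) h1
    have h3 : g * ss R j * g⁻¹ = ss R j * d := by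
      rw [hj', hd, ← ss_inv_mul]
      group
    have h4 : ∀ k : ℕ, g ^ k * ss R j * (g ^ k)⁻¹ = ss R j * d ^ k := by
      intro k
      induction k with
      | zero => simp
      | succ k ih =>
        calc g ^ (k + 1) * ss R j * (g ^ (k + 1))⁻¹ = g * (g ^ k * ss R j * (g ^ k)⁻¹) * g⁻¹ := by
              rw [pow_succ']
              group
          _ = (g * ss R j * g⁻¹) * (g * d ^ k * g⁻¹) := by
              rw [ih]
              group
          _ = ss R j * d * d ^ k := by
              rw [h3, ← conj_pow, hcent d hdC]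
          _ = ss R j * d ^ (k + 1) := by
              rw [pow_succ', mul_assoc]
    have h5 := h4 (orderOf g)
    rw [pow_orderOf_eq_one, one_mul, inv_one, mul_one] at h5
    have h6 : d ^ orderOf g = 1 := by
      have := mul_left_cancel (a := ss R j) (b := d ^ orderOf g) (c := 1) (by rw [mul_one]; exact h5.symm)
      exact this
    obtain ⟨a, ha⟩ : ∃ a : ℕ, orderOf d = 2 ^ a := by
      obtain ⟨a, ha⟩ := exists_order R hq2 (j' - j)
      refine ⟨a, ?_⟩
      rw [hd, rr, Subgroup.orderOf_coe]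
      exact ha
    have h7 := orderOf_dvd_of_pow_eq_one h6
    rw [ha] at h7
    have h8 : Nat.Coprime (orderOf g) (2 ^ a) := by
      apply Nat.Coprime.pow_right
      rw [Nat.coprime_comm]
      exact (Nat.Prime.coprime_iff_not_dvd Nat.prime_two).mpr hodd
    have h9 : 2 ^ a = 1 := Nat.Coprime.eq_one_of_dvd h8.symm h7
    have h10 : d = 1 := by
      rw [← orderOf_eq_one_iff, ha]
      exact h9
    rw [h3, h10, mul_one]
  rw [Subgroup.mem_centralizer_iff]
  intro y hy
  have hyD : y ∈ D := hQ hy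
  have h1 : g * y * g⁻¹ = y := by
    rcases (mem_D_iff R).mp hyD with ⟨i, rfl⟩ | ⟨j, rfl⟩
    · exact hcent _ ⟨hy, hAmem i⟩
    · exact hrefl j hy
  calc y * g = (g * y * g⁻¹) * g := by rw [h1]
    _ = g * y := by group

/-- An element of odd order normalizing a group of order four commutes with its generators. -/
theorem commute_of_odd {g w : X} (hg : g * w * g⁻¹ = w ∨ g * w * g⁻¹ = w⁻¹) (hodd : ¬ 2 ∣ orderOf g) : Commute g w := by
  have h1 : g * g * w * (g * g)⁻¹ = w := by
    have e : g * g * w * (g * g)⁻¹ = g * (g * w * g⁻¹) * g⁻¹ := by group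
    rw [e]
    rcases hg with h2 | h2
    · rw [h2, h2]
    · have e2 : g * w⁻¹ * g⁻¹ = (g * w * g⁻¹)⁻¹ := by group
      rw [h2, e2, h2, inv_inv]
  have h2 : Commute (g ^ 2) w := by
    rw [pow_two]
    show g * g * w = w * (g * g)
    calc g * g * w = (g * g * w * (g * g)⁻¹) * (g * g) := by group
      _ = w * (g * g) := by rw [h1]
  obtain ⟨k, hk⟩ : Odd (orderOf g) := by
    rw [← Nat.not_even_iff_odd, even_iff_two_dvd]
    exact hodd
  have h3 : g = (g ^ 2) ^ (k + 1) := by
    rw [← pow_mul]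
    have h4 : g ^ (2 * (k + 1)) = g ^ (orderOf g + 1) := by
      rw [hk]
      congr 1
    rw [h4, pow_succ, pow_orderOf_eq_one, one_mul]
  rw [h3]
  exact h2.pow_left _

end Central

section Orth

open Cfsg
open scoped ComplexConjugate
open Cfsg.Agent.Lib.Tw.Grp.Rot

variable {q h : ℕ} [NeZero q] {c : ZMod q} {A : Type*} [Group A] [Fintype A] [Fintype (IrrCharacter A)]
  (R : Rot A q h c)

theorem isConj_iff' (hcc : c * c = 1) (i j : ZMod q) : IsConj (R.ρ i) (R.ρ j) ↔ j = i ∨ j = c * i := by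
  rw [isConj_iff]
  constructor
  · rintro ⟨t, ht⟩
    rcases R.cover t with ⟨a, rfl⟩ | ⟨a, rfl⟩
    · left
      apply R.inj
      rw [← ht, R.comm a i]
      group
    · right
      apply R.inj
      rw [← ht, ← R.conj]
      have h1 := R.comm a i
      calc R.s * R.ρ a * R.ρ i * (R.s * R.ρ a)⁻¹ = R.s * (R.ρ a * R.ρ i) * (R.ρ a)⁻¹ * R.s⁻¹ := by group
        _ = R.s * (R.ρ i * R.ρ a) * (R.ρ a)⁻¹ * R.s⁻¹ := by rw [h1]
        _ = _ := by group
  · rintro (rfl | rfl)
    · exact ⟨1, by simp⟩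
    · exact ⟨R.s, R.conj i⟩

/-- The centralizer of a rotation which is moved by the twisting residue. -/
theorem card_centralizer {j : ZMod q} (hj : c * j ≠ j) : Nat.card (Subgroup.centralizer ({R.ρ j} : Set A)) = q := by
  have h0 : ∀ a, R.ρ a ∈ Subgroup.centralizer ({R.ρ j} : Set A) := fun a =>
    Subgroup.mem_centralizer_singleton_iff.mpr (R.comm a j)
  let e : ZMod q → Subgroup.centralizer ({R.ρ j} : Set A) := fun a => ⟨R.ρ a, h0 a⟩
  have he : Function.Bijective e := by
    constructor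
    · intro a b hab
      exact R.inj (congrArg Subtype.val hab)
    · rintro ⟨t, ht⟩
      rcases R.cover t with ⟨a, rfl⟩ | ⟨a, rfl⟩
      · exact ⟨a, rfl⟩
      · exfalso
        apply hj
        apply R.inj
        rw [← R.conj]
        have h1 := Subgroup.mem_centralizer_singleton_iff.mp ht
        have h2 := R.comm a j
        have h3 : R.s * R.ρ j * R.ρ a = R.ρ j * R.s * R.ρ a := by
          rw [mul_assoc, ← h2, ← mul_assoc, h1, mul_assoc]
        have h4 : R.s * R.ρ j = R.ρ j * R.s := mul_right_cancel h3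
        rw [h4]
        group
  rw [← Nat.card_congr (Equiv.ofBijective e he), Nat.card_zmod]

open Cfsg.Agent.Lib.Char.Complete in
/-- **Column orthogonality for rotations.** -/
theorem sum_irr_rot (hcc : c * c = 1) {j j' : ZMod q} (hj' : c * j' ≠ j') :
    ∑ ν : IrrCharacter A, (ν : A → ℂ) (R.ρ j) * conj ((ν : A → ℂ) (R.ρ j')) =
      (q : ℂ) * ((if j' = j then 1 else 0) + (if j' = c * j then 1 else 0)) := by
  classical
  rw [sum_irr_mul_conj]
  by_cases h : IsConj (R.ρ j) (R.ρ j')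
  · rw [if_pos h, card_centralizer R hj']
    rcases (isConj_iff' R hcc j j').mp h with h1 | h1
    · have h2 : ¬ j' = c * j := by
        intro h3
        apply hj'
        nth_rw 1 [h1] at h3
        rw [h1]
        exact h3.symm
      rw [if_pos h1, if_neg h2]
      simp
    · have h2 : ¬ j' = j := by
        intro h3
        apply hj'
        rw [h1, ← mul_assoc, hcc, one_mul]
        rw [h1] at h3
        exact h3.symm
      rw [if_pos h1, if_neg h2]
      simp
  · rw [if_neg h]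
    have h1 := fun h2 => h ((isConj_iff' R hcc j j').mpr h2)
    have h2 : ¬ j' = j := fun h3 => h1 (Or.inl h3)
    have h3 : ¬ j' = c * j := fun h4 => h1 (Or.inr h4)
    rw [if_neg h2, if_neg h3]
    simp

end Orth

end Cfsg.Agent.Lib.Tw.Grp
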