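import Mathlib
import Cfsg.Agent.Lib.Tw.Top
import Cfsg.Agent.Lib.KleinBlock.Trans

/-!
# The block of the normalizer of the subgroup of order four
-/

set_option linter.unusedSectionVars false
set_option linter.style.haveILetI false
set_option autoImplicit false

namespace Cfsg.Agent.Lib.Tw.Exist

open Cfsg MonoidAlgebra
open Cfsg.Agent.Lib.Blocks.Local Cfsg.Agent.Lib.Blocks.Central Cfsg.Agent.Lib.Blocks.Main
open Cfsg.Agent.Lib.BlockH.Transport Cfsg.Agent.Lib.BlockH.Descent Cfsg.Agent.Lib.BlockH.MaxPair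
open Cfsg.Agent.Lib.BP.StarDefs
open Cfsg.Agent.Lib.Tw.Fou Cfsg.Agent.Lib.Tw.Grp Cfsg.Agent.Lib.Tw.Top
open Cfsg.Agent.Lib.Char.Complete

universe u

section Map

variable {A A' : Type*} [Group A] [Group A'] {q h : ℕ} {c : ZMod q}

/-- Transport of the data. -/
def Rot.map (R : Rot A q h c) (φ : A ≃* A') : Rot A' q h c where
  ρ i := φ (R.ρ i)
  add i j := by rw [R.add, map_mul]
  inj i j hij := R.inj (φ.injective hij)
  s := φ R.s
  conj i := by rw [← map_inv, ← map_mul, ← map_mul, R.conj]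
  cover d := by
    rcases R.cover (φ.symm d) with ⟨i, hi⟩ | ⟨i, hi⟩
    · left
      exact ⟨i, by rw [← hi]; simp⟩
    · right
      exact ⟨i, by rw [← map_mul, ← hi]; simp⟩
  s_ne i h1 := R.s_ne i (φ.injective h1)
  fourth k := by rw [← map_mul, ← map_pow, R.fourth, map_one]

end Map

variable {G : Type u} [Group G] [Fintype G] {M : Ideal AlgInt} [Fact (Nat.Prime 2)]
  {B : Set (IrrCharacter G)} {K : Subgroup G}

attribute [local instance] fK fIrr fBl

/-- **The block of `K` containing the pair.** -/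
theorem exists_block (hM : IsPModular 2 M) {D : Subgroup G} {e : Set (IrrCharacter (Subgroup.centralizer (D : Set G)))}
    (hmax : IsMaximalBrauerPair 2 M B D e) {W : Subgroup G} (hW : Cfsg.Agent.Lib.Blocks.Induced.IsBrauerPair 2 W K)
    (hDK : D ≤ K) (hCK : Subgroup.centralizer (D : Set G) ≤ K) :
    ∃ β : Set (IrrCharacter K), IsMaximalBrauerPair 2 M β (D.subgroupOf K)
      (blockMap (descEquiv (Subgroup.map_subgroupOf_eq_of_le hDK) hCK).symm e) ∧ IsInducedBlock M K β B := by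
  classical
  haveI := isPrime_of_pModular hM
  haveI := Cfsg.Agent.Lib.Char.Ortho.finite_irrCharacter (G := G)
  letI : Fintype (IrrCharacter G) := Fintype.ofFinite _
  set hX := Subgroup.map_subgroupOf_eq_of_le hDK with hXd
  set e' := blockMap (descEquiv hX hCK).symm e with he'
  have hDp : IsPGroup 2 D := hmax.1.1.1
  have hD'p : IsPGroup 2 (D.subgroupOf K) := (isPGroup_iff_of_map hX).mp hDp
  have hee : blockMap (descEquiv hX hCK) e' = e := blockMap_blockMap_symm _ _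
  have he'b : IsPBlock M e' := isPBlock_blockMap _ hmax.1.1.2
  obtain ⟨β, hβ, -⟩ := Cfsg.Agent.Lib.BlockH.Subpair.existsUnique_isBrauerPairOf hM (P := D.subgroupOf K) (e := e') ⟨hD'p, he'b⟩
  obtain ⟨B', hB'⟩ := Cfsg.Agent.Lib.Blocks.Induced.exists_induced hM hW hβ.2.1
  have h1 := Cfsg.Agent.Lib.BlockH.InducedPairs.isInducedBlock_of_isBrauerPairOf hM hβ
  have h2 := Cfsg.Agent.Lib.KleinBlock.Trans.isInducedBlock_desc hX hCK h1 hB'
  rw [hee] at h2
  have h3 := Cfsg.Agent.Lib.BlockH.InducedPairs.isInducedBlock_of_isBrauerPairOf hM hmax.1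
  have hBB : B' = B := by
    obtain ⟨ξ, hξ⟩ := isPBlock_nonempty hmax.1.1.2
    exact Cfsg.Agent.Lib.Blocks.Induced.IsInducedBlock.unique _ h2 h3
  subst hBB
  refine ⟨β, ?_, hB'⟩
  have hdG := isDefectGroup_of_isMaximal hM hmax
  obtain ⟨Pb, hPb⟩ := Cfsg.Agent.Lib.Blocks.Defect2.exists_isDefectGroup (p := 2) hβ.2.1
  obtain ⟨E, hE, hle⟩ := Cfsg.Agent.Lib.Blocks.Defect2.exists_defect_ge hM hB' hPb
  have hc1 : Nat.card Pb ≤ Nat.card E := by
    have h5 : Nat.card (Pb.map K.subtype) = Nat.card Pb := Subgroup.card_map_of_injective K.subtype_injective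
    rw [← h5]
    exact Subgroup.card_le_of_le hle
  have hc2 : Nat.card E = Nat.card D := by
    obtain ⟨y, hy⟩ := Cfsg.Agent.Lib.Blocks.Defect2.isDefectGroup_exists_conj_eq hM hmax.1.2.1 hE hdG
    rw [hy, Subgroup.card_map_of_injective (MulEquiv.injective _)]
  have hc3 : Nat.card (D.subgroupOf K) = Nat.card D :=
    Nat.card_congr (Subgroup.subgroupOfEquivOfLe hDK).toEquiv
  have hDef : IsDefectGroup 2 M β (D.subgroupOf K) :=
    isDefectGroup_of_pair_of_card hM hβ hPb (by omega)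
  exact isMaximal_of_isDefectGroup hM hβ hDef

section Setup

variable [Fintype (IrrCharacter G)] {q h m : ℕ} [NeZero q] {c : ZMod q}

/-- The subgroup of order four. -/
def Ww {D : Subgroup G} (R : Rot D q h c) : Subgroup G := Subgroup.zpowers (rr R (ht q h))

/-- **The normalizer of the subgroup of order four.** -/
abbrev Kk {D : Subgroup G} (R : Rot D q h c) : Subgroup G := Subgroup.normalizer ((Ww R : Subgroup G) : Set G)

variable {D : Subgroup G} (R : Rot D q h c)

theorem w_fourth (hq : q = 4 * h) : rr R (ht q h) ^ 4 = 1 := by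
  have h1 : R.ρ (ht q h) ^ 4 = 1 := by
    rw [R.pow, R.eq_one_iff, nsmul_eq_mul, ht, ← Nat.cast_mul, ZMod.natCast_eq_zero_iff]
    exact ⟨1, by omega⟩
  have := congrArg Subtype.val h1
  simpa [rr] using this

theorem w_sq_ne (hq : q = 4 * h) (hh : 1 ≤ h) : rr R (ht q h) * rr R (ht q h) ≠ 1 := by
  intro h1
  rw [← rr_add, ht_add_ht, ← rr_zero R] at h1
  exact zt_ne hq hh (rr_injective R h1)

theorem conj_w_of_mem_K (hq : q = 4 * h) (hh : 1 ≤ h) {t : G} (ht' : t ∈ Kk R) :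
    t * rr R (ht q h) * t⁻¹ = rr R (ht q h) ∨ t * rr R (ht q h) * t⁻¹ = (rr R (ht q h))⁻¹ := by
  set w := rr R (ht q h) with hw
  have h4 : w ^ 4 = 1 := w_fourth R hq
  have h2 : w * w ≠ 1 := w_sq_ne R hq hh
  have hm : t * w * t⁻¹ ∈ Ww R := (Subgroup.mem_normalizer_iff.mp ht' w).mp (Subgroup.mem_zpowers w)
  obtain ⟨n, hn⟩ := hm
  have hmod : w ^ n = w ^ (n % 4) := by
    conv_lhs => rw [← Int.mul_ediv_add_emod n 4, zpow_add, zpow_mul]
    have : w ^ (4 : ℤ) = 1 := by exact_mod_cast h4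
    rw [this, one_zpow, one_mul]
  have hlt := Int.emod_lt_of_pos n (show (0 : ℤ) < 4 by norm_num)
  have hnn := Int.emod_nonneg n (show (4 : ℤ) ≠ 0 by norm_num)
  have hcases : n % 4 = 0 ∨ n % 4 = 1 ∨ n % 4 = 2 ∨ n % 4 = 3 := by omega
  have hn' : t * w * t⁻¹ = w ^ (n % 4) := by
    rw [← hmod]
    exact hn.symm
  rcases hcases with h5 | h5 | h5 | h5 <;> rw [h5] at hn'
  · exfalso
    apply h2
    have h6 : w = 1 := by
      have h7 : t * w * t⁻¹ = t * 1 * t⁻¹ := by
        rw [hn']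
        simp
      exact mul_left_cancel (mul_right_cancel h7)
    rw [h6, one_mul]
  · left
    rw [hn']
    simp
  · exfalso
    apply h2
    have h6 : (t * w * t⁻¹) ^ 2 = 1 := by
      rw [hn']
      have : w ^ (2 : ℤ) = w * w := by
        rw [zpow_two]
      rw [this, show (w * w) ^ 2 = w ^ 4 by rw [← pow_two, ← pow_mul], h4]
    rw [conj_pow] at h6
    have h7 : t * w ^ 2 * t⁻¹ = t * 1 * t⁻¹ := by
      rw [h6]
      simp
    have h8 := mul_left_cancel (mul_right_cancel h7)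
    rwa [pow_two] at h8
  · right
    rw [hn']
    rw [eq_inv_iff_mul_eq_one]
    have : w ^ (3 : ℤ) * w = w ^ 4 := by
      rw [← zpow_natCast w 4, ← zpow_add_one]
      rfl
    rw [this, h4]

theorem mem_K_of_conj_w {t : G}
    (ht' : t * rr R (ht q h) * t⁻¹ = rr R (ht q h) ∨ t * rr R (ht q h) * t⁻¹ = (rr R (ht q h))⁻¹) : t ∈ Kk R := by
  apply Cfsg.Agent.Lib.BlockH.Saturation.mem_normalizer_of_map_eq
  rw [Ww, map_zpowers_conj]
  rcases ht' with h1 | h1 <;> rw [h1]
  rw [Subgroup.zpowers_inv]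

theorem le_K (hcw : c * ht q h = - ht q h) : D ≤ Kk R := by
  intro d hd
  apply mem_K_of_conj_w
  rcases (mem_D_iff R).mp hd with ⟨i, rfl⟩ | ⟨i, rfl⟩
  · left
    have h1 : rr R i * rr R (ht q h) = rr R (ht q h) * rr R i := by
      rw [← rr_add, ← rr_add, add_comm]
    rw [h1]
    group
  · right
    have h1 : R.s * R.ρ i * R.ρ (ht q h) * (R.s * R.ρ i)⁻¹ = (R.ρ (ht q h))⁻¹ := by
      have h2 := R.comm i (ht q h)
      have h3 := R.conj (ht q h)
      rw [hcw, R.neg] at h3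
      rw [← h3]
      calc R.s * R.ρ i * R.ρ (ht q h) * (R.s * R.ρ i)⁻¹ = R.s * (R.ρ i * R.ρ (ht q h)) * (R.ρ i)⁻¹ * R.s⁻¹ := by group
        _ = R.s * (R.ρ (ht q h) * R.ρ i) * (R.ρ i)⁻¹ * R.s⁻¹ := by rw [h2]
        _ = _ := by group
    exact congrArg Subtype.val h1

theorem centralizer_le_K : Subgroup.centralizer (D : Set G) ≤ Kk R := by
  intro t ht'
  apply mem_K_of_conj_w
  left
  have h1 := Subgroup.mem_centralizer_iff.mp ht' (rr R (ht q h)) (R.ρ (ht q h)).2
  rw [← h1]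
  group

theorem isBrauerPair_K (hD : IsPGroup 2 D) : Cfsg.Agent.Lib.Blocks.Induced.IsBrauerPair 2 (Ww R) (Kk R) := by
  have hle : Ww R ≤ D := (Subgroup.zpowers_le).mpr (R.ρ (ht q h)).2
  exact ⟨hD.to_le hle, Subgroup.le_normalizer, fun x hx => Cfsg.Agent.Lib.BlockH.Sylow.centralizer_le_normalizer'' _ hx, le_rfl⟩

/-- The data inside the normalizer. -/
def Rk (hcw : c * ht q h = - ht q h) : Rot ((D.subgroupOf (Kk R) : Subgroup (Kk R))) q h c :=
  Rot.map R (Subgroup.subgroupOfEquivOfLe (le_K R hcw)).symm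

@[simp] theorem coe_rr_Rk (hcw : c * ht q h = - ht q h) (i : ZMod q) : ((rr (Rk R hcw) i : Kk R) : G) = rr R i := rfl

/-- **The setting in the normalizer of the subgroup of order four.** -/
theorem exists_setup (hM : IsPModular 2 M) (hB : IsPBlock M B) (hq : q = 4 * h) (hh : 1 ≤ h) (hq2 : q = 2 ^ m)
    (hcc : c * c = 1) (hfix : ∀ j : ZMod q, c * j = j → j = 0 ∨ j = zt q h) (hcz : c * zt q h = zt q h)
    (hcw : c * ht q h = - ht q h) {e : Set (IrrCharacter (Subgroup.centralizer (D : Set G)))}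
    (hmax : IsMaximalBrauerPair 2 M B D e) :
    ∃ (e' : Set (IrrCharacter (Subgroup.centralizer ((D.subgroupOf (Kk R) : Subgroup (Kk R)) : Set (Kk R)))))
      (β : Set (IrrCharacter (Kk R))), Setup M B (Kk R) (D.subgroupOf (Kk R)) e' β (Rk R hcw) m := by
  classical
  have hp2 : Nat.Prime 2 := Nat.prime_two
  have hDp : IsPGroup 2 D := hmax.1.1.1
  obtain ⟨β, hβ, hind⟩ := exists_block hM hmax (isBrauerPair_K R hDp) (le_K R hcw) (centralizer_le_K R)
  refine ⟨_, β, hM, hB, hq, hh, hq2, hcc, hfix, hcz, hβ, hind, ?_, ?_, ?_⟩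
  · intro t ht'
    exact mem_K_of_conj_w R ht'
  · intro k
    rcases conj_w_of_mem_K R hq hh k.2 with h1 | h1
    · exact Or.inl (Subtype.ext h1)
    · exact Or.inr (Subtype.ext h1)
  · haveI := Cfsg.Agent.Lib.Blocks.Local.isPrime_of_pModular hM
    have h1 := Cfsg.Agent.Lib.Blocks.Inducing.card_eq_pow_blockDefect hM hβ.1.2.1 (isDefectGroup_of_isMaximal hM hβ)
    have h2 := Cfsg.Agent.Lib.Blocks.Inducing.card_eq_pow_blockDefect hM hmax.1.2.1 (isDefectGroup_of_isMaximal hM hmax)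
    have h3 : Nat.card (D.subgroupOf (Kk R)) = Nat.card D :=
      Nat.card_congr (Subgroup.subgroupOfEquivOfLe (le_K R hcw)).toEquiv
    rw [h3, h2] at h1
    exact (Nat.pow_right_injective hp2.two_le h1).symm

end Setup

end Cfsg.Agent.Lib.Tw.Exist
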