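import Mathlib
import Cfsg.Agent.Lib.Tw.Fou

/-!
# Counting the rows
-/

set_option linter.unusedSectionVars false
set_option linter.style.haveILetI false
set_option autoImplicit false

namespace Cfsg.Agent.Lib.Tw.Cnt

open scoped ComplexConjugate
open Cfsg.Agent.Lib.Dih.Fou Cfsg.Agent.Lib.Dih.Num Cfsg.Agent.Lib.Tw.Row Cfsg.Agent.Lib.Tw.Fou

variable {q h : ℕ} [NeZero q] {ι : Type*} [Fintype ι] {h2 : 2 ∣ q} {c : ZMod q} {P : ι → ZMod q → ℂ}
  {f : ι → ZMod q → ℤ}

section FD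

variable (D : FData h2 c P f h)

include D

/-- The parity of the row. -/
theorem a_parity (x : ι) : (2 : ℤ) ∣ aA h2 (f x) - (f x 0 - f x (zt q h)) := by
  classical
  have hinv : ∀ m, c * (c * m) = m := fun m => by rw [← mul_assoc, D.hcc, one_mul]
  have hcf := D.f_c x
  have hz0 := zt_ne (q := q) (h := h) D.hq D.hh
  have h0ev : (0 : ZMod q) ∈ evS h2 := (mem_evS h2).mpr (par_zero h2)
  have hzev : zt q h ∈ evS h2 := (mem_evS h2).mpr (par_zt h2)
  have hsplit : ∑ m ∈ evS h2, f x m = f x 0 + f x (zt q h) + ∑ m ∈ ((evS h2).erase 0).erase (zt q h), f x m := by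
    rw [← Finset.add_sum_erase _ _ h0ev, ← Finset.add_sum_erase _ _ (Finset.mem_erase.mpr ⟨hz0, hzev⟩)]
    ring
  have hS1 : (2 : ℤ) ∣ ∑ m ∈ ((evS h2).erase 0).erase (zt q h), f x m := by
    refine two_dvd_sum (fun m => c * m) ?_ (fun m _ => hinv m) ?_ (f x) (fun m _ => hcf m)
    · intro m hm
      simp only [Finset.mem_erase, mem_evS] at hm ⊢
      obtain ⟨h1, h3, h4⟩ := hm
      refine ⟨fun h5 => h1 ?_, fun h5 => h3 ?_, ?_⟩
      · rw [← hinv m, h5, D.hcz]
      · rw [← hinv m, h5, mul_zero]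
      · rw [par_mul, h4, mul_zero]
    · intro m hm h5
      simp only [Finset.mem_erase] at hm
      rcases D.hfix m h5 with h6 | h6
      · exact hm.2.1 h6
      · exact hm.1 h6
  have hS2 : (2 : ℤ) ∣ ∑ m ∈ odS h2, f x m := by
    refine two_dvd_sum (fun m => c * m) ?_ (fun m _ => hinv m) ?_ (f x) (fun m _ => hcf m)
    · intro m hm
      rw [mem_odS] at hm ⊢
      rw [par_mul, hm, D.hcpar, one_mul]
    · intro m hm h5
      rw [mem_odS] at hm
      rcases D.hfix m h5 with h6 | h6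
      · rw [h6, par_zero] at hm
        exact zero_ne_one hm
      · rw [h6, par_zt h2] at hm
        exact zero_ne_one hm
  rw [aA, hsplit]
  obtain ⟨t1, ht1⟩ := hS1
  obtain ⟨t2, ht2⟩ := hS2
  rw [ht1, ht2]
  exact ⟨f x (zt q h) + t1 - t2, by ring⟩

/-- The inner product of the central column. -/
theorem ip_delta : ∑ x, (f x 0 - f x (zt q h)) * (f x 0 - f x (zt q h)) = 4 := by
  classical
  have hz0 := zt_ne (q := q) (h := h) D.hq D.hh
  have h1 := inner4' (h := h) c P D.hR 0 (zt q h) 0 (zt q h) (by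
    rw [zero_mul, psi_neg_par h2 D.hq D.hh, par_zt h2, if_pos rfl]
    simp [psi_zero]) (by
    rw [zero_mul, psi_neg_par h2 D.hq D.hh, par_zt h2, if_pos rfl]
    simp [psi_zero])
  have h3 : kp c 0 0 - kp c 0 (zt q h) - kp c (zt q h) 0 + kp c (zt q h) (zt q h) = 4 := by
    simp only [kp, zero_mul, if_true, mul_comm (zt q h), D.hcz]
    rw [if_neg hz0.symm, if_neg hz0]
    norm_num
  rw [h3] at h1
  have h4 : ((∑ x, (f x 0 - f x (zt q h)) * (f x 0 - f x (zt q h)) : ℤ) : ℂ) = ((4 : ℤ) : ℂ) := by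
    rw [← h1]
    push_cast
    refine Finset.sum_congr rfl fun x _ => ?_
    rw [D.hf, D.hf]
    have h5 : ((f x 0 : ℂ) - (f x (zt q h) : ℂ)) = dft (P x) 0 - dft (P x) (zt q h) := by rw [D.hf, D.hf]
    rw [← h5, map_sub, map_intCast, map_intCast]
  exact_mod_cast h4

/-- **Exactly four rows are odd.** -/
theorem card_odd (hd : ∀ x, -1 ≤ f x 0 - f x (zt q h) ∧ f x 0 - f x (zt q h) ≤ 1) :
    (Finset.univ.filter fun x => Odd (aA h2 (f x))).card = 4 := by
  classical
  have h1 : ip (fun x => f x 0 - f x (zt q h)) (fun x => f x 0 - f x (zt q h)) = 4 := ip_delta D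
  have hodd : ∀ x, Odd (aA h2 (f x)) ↔ Odd (f x 0 - f x (zt q h)) := by
    intro x
    have := a_parity D x
    rw [Int.odd_iff, Int.odd_iff]
    omega
  have hex : ∃ x, Odd (f x 0 - f x (zt q h)) := by
    by_contra hno
    push Not at hno
    have h3 : ∀ x, f x 0 - f x (zt q h) = 0 := by
      intro x
      have := hno x
      rw [Int.not_odd_iff_even, even_iff_two_dvd] at this
      have h5 := hd x
      omega
    have h4 := ip_delta D
    simp_rw [h3] at h4
    simp at h4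
  have h3 := card_odd_eq_four h1 hex
  rw [← h3]
  congr 1
  ext x
  simp only [Finset.mem_filter, Finset.mem_univ, true_and]
  exact hodd x

end FD

section Types

variable (D : FData h2 c P f h)

include D

/-- The types of the rows. -/
theorem row_type (hlt : ∀ x, wW h2 (2 * h) (f x) < 2 * (2 * h)) (x : ι) :
    (-1 ≤ f x 0 - f x (zt q h) ∧ f x 0 - f x (zt q h) ≤ 1) ∧
    ((wW h2 (2 * h) (f x) = 0 ∧ ((2 * h : ℕ) : ℤ) ∣ aA h2 (f x)) ∨
     (wW h2 (2 * h) (f x) = 2 * h - 1 ∧ Odd (aA h2 (f x))) ∨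
     (2 ≤ h ∧ wW h2 (2 * h) (f x) = 2 * (2 * h) - 4 ∧ ¬ Odd (aA h2 (f x)) ∧ (4 : ℤ) ∣ aA h2 (f x) - 2) ∨
     ((h = 2 ∨ h = 4) ∧ wW h2 (2 * h) (f x) = 2 * (2 * h) - 1 ∧ Odd (aA h2 (f x)))) := by
  obtain ⟨v, v', hd, T, To, ha, -, -, hc⟩ := row h2 D.hq D.hh D.hN2 D.hcpar D.hcc D.hfix D.hcz (f x) (D.f_c x) (hlt x)
  refine ⟨hd, ?_⟩
  have h4 : 2 ≤ h → (4 : ℤ) ∣ 2 * h * (v - v') := by
    intro h5
    rcases D.hN2 with h6 | ⟨t, ht⟩
    · omega
    · exact ⟨t * (v - v'), by rw [ht]; push_cast; ring⟩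
  rcases hc with ⟨-, -, h1, h3, h5⟩ | ⟨-, h1, h3, h5⟩ | ⟨h0, -, -, h1, h3, h5⟩ | ⟨h0, -, h1, h3, h5⟩ |
    ⟨h0, -, h1, h3, h5⟩ | ⟨h0, h1, h3, -, h5⟩
  · left
    refine ⟨h5, v - v', ?_⟩
    rw [ha, h1, h3]
    push_cast
    ring
  · right; left
    refine ⟨h5, ?_⟩
    have e : (2 * (h : ℤ) * (v - v')) = 2 * ((h : ℤ) * (v - v')) := by ring
    rw [ha, h3, Int.odd_iff, e]
    generalize (h : ℤ) * (v - v') = w
    rcases h1 with h1 | h1 <;> rw [h1] <;> omega
  · right; right; left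
    obtain ⟨t, ht⟩ := h4 h0
    refine ⟨h0, h5, ?_, ?_⟩
    · rw [ha, h3, ht, Int.odd_iff]
      rcases h1 with h1 | h1 <;> rw [h1] <;> omega
    · rw [ha, h3, ht]
      rcases h1 with h1 | h1 <;> rw [h1] <;> omega
  · right; right; left
    obtain ⟨t, ht⟩ := h4 h0
    refine ⟨h0, h5, ?_, ?_⟩
    · rw [ha, h1, ht, Int.odd_iff]
      rcases h3 with h3 | h3 <;> rw [h3] <;> omega
    · rw [ha, h1, ht]
      rcases h3 with h3 | h3 <;> rw [h3] <;> omega
  · right; right; right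
    refine ⟨Or.inr h0, h5, ?_⟩
    rw [ha, h3, h0, Int.odd_iff]
    rcases h1 with h1 | h1 <;> rw [h1] <;> push_cast <;> omega
  · right; right; right
    refine ⟨Or.inl h0, h5, ?_⟩
    rw [ha, h0, Int.odd_iff]
    rcases h1 with h1 | h1 <;> rcases h3 with h3 | h3 <;> rw [h1, h3] <;> push_cast <;> omega

/-- The numbers of rows of the various types. -/
structure Counts (h2 : 2 ∣ q) (f : ι → ZMod q → ℤ) (h : ℕ) (Z S T3 : Finset ι) : Prop where
  hk : Fintype.card ι = 4 + S.card + Z.card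
  hZ : ∀ x, x ∈ Z ↔ wW h2 (2 * h) (f x) = 0
  hS : ∀ x, x ∈ S ↔ ¬ Odd (aA h2 (f x)) ∧ wW h2 (2 * h) (f x) ≠ 0
  hT3 : ∀ x, x ∈ T3 ↔ wW h2 (2 * h) (f x) = 2 * (2 * h) - 1
  hle : T3.card ≤ 4
  hS2 : ∀ x ∈ S, 2 ≤ h
  hT3h : ∀ x ∈ T3, h = 2 ∨ h = 4
  heq : 4 * (2 * (h : ℤ) - 1) + T3.card * (2 * h) + S.card * (2 * (2 * h) - 4) = 2 * (2 * h) * (2 * h - 1)

open Classical in
/-- **The counting of the rows.** -/
theorem counts (hlt : ∀ x, wW h2 (2 * h) (f x) < 2 * (2 * h)) :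
    Counts h2 f h (Finset.univ.filter fun x => wW h2 (2 * h) (f x) = 0)
      (Finset.univ.filter fun x => ¬ Odd (aA h2 (f x)) ∧ wW h2 (2 * h) (f x) ≠ 0)
      (Finset.univ.filter fun x => wW h2 (2 * h) (f x) = 2 * (2 * h) - 1) := by
  classical
  have hty := row_type D hlt
  have hh := D.hh
  set O := Finset.univ.filter fun x => Odd (aA h2 (f x)) with hO
  set Z := Finset.univ.filter fun x => wW h2 (2 * h) (f x) = 0 with hZ
  set S := Finset.univ.filter fun x => ¬ Odd (aA h2 (f x)) ∧ wW h2 (2 * h) (f x) ≠ 0 with hS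
  set T3 := Finset.univ.filter fun x => wW h2 (2 * h) (f x) = 2 * (2 * h) - 1 with hT3
  have hO4 : O.card = 4 := card_odd D fun x => (hty x).1
  have hhz : (2 : ℤ) ≤ 2 * h := by omega
  -- zero rows are not odd
  have hZnot : ∀ x, wW h2 (2 * h) (f x) = 0 → ¬ Odd (aA h2 (f x)) := by
    intro x hx
    rcases (hty x).2 with ⟨-, t, ht⟩ | ⟨h5, h6⟩ | ⟨-, -, h6, -⟩ | ⟨-, h5, -⟩
    · rw [ht, Int.odd_iff]
      push_cast
      have : (2 * (h : ℤ)) * t = 2 * (h * t) := by ring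
      rw [this]
      omega
    · omega
    · exact h6
    · omega
  have hT3O : T3 ⊆ O := by
    intro x hx
    simp only [hT3, Finset.mem_filter, Finset.mem_univ, true_and] at hx
    simp only [hO, Finset.mem_filter, Finset.mem_univ, true_and]
    rcases (hty x).2 with ⟨h5, -⟩ | ⟨-, h6⟩ | ⟨-, h5, -⟩ | ⟨-, -, h6⟩
    · omega
    · exact h6
    · omega
    · exact h6
  have hpart : O ∪ (S ∪ Z) = Finset.univ := by
    ext x
    simp only [hO, hS, hZ, Finset.mem_union, Finset.mem_filter, Finset.mem_univ, true_and, iff_true]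
    tauto
  have hd1 : Disjoint O (S ∪ Z) := by
    rw [Finset.disjoint_left]
    intro x hx hx2
    simp only [hO, Finset.mem_filter, Finset.mem_univ, true_and] at hx
    simp only [hS, hZ, Finset.mem_union, Finset.mem_filter, Finset.mem_univ, true_and] at hx2
    rcases hx2 with h5 | h5
    · exact h5.1 hx
    · exact hZnot x h5 hx
  have hd2 : Disjoint S Z := by
    rw [Finset.disjoint_left]
    intro x hx hx2
    simp only [hS, Finset.mem_filter, Finset.mem_univ, true_and] at hx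
    simp only [hZ, Finset.mem_filter, Finset.mem_univ, true_and] at hx2
    exact hx.2 hx2
  have hcard : Fintype.card ι = 4 + S.card + Z.card := by
    rw [← Finset.card_univ, ← hpart, Finset.card_union_of_disjoint hd1, Finset.card_union_of_disjoint hd2, hO4]
    ring
  have hS2' : ∀ x ∈ S, 2 ≤ h := by
    intro x hx
    simp only [hS, Finset.mem_filter, Finset.mem_univ, true_and] at hx
    rcases (hty x).2 with ⟨h5, -⟩ | ⟨-, h6⟩ | ⟨h5, -⟩ | ⟨-, -, h6⟩
    · exact absurd h5 hx.2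
    · exact absurd h6 hx.1
    · exact h5
    · exact absurd h6 hx.1
  have hT3' : ∀ x ∈ T3, h = 2 ∨ h = 4 := by
    intro x hx
    simp only [hT3, Finset.mem_filter, Finset.mem_univ, true_and] at hx
    rcases (hty x).2 with ⟨h5, -⟩ | ⟨h5, -⟩ | ⟨-, h5, -⟩ | ⟨h6, -, -⟩
    · omega
    · omega
    · omega
    · exact h6
  refine ⟨hcard, fun x => by simp [hZ], fun x => by simp [hS], fun x => by simp [hT3],
    (Finset.card_le_card hT3O).trans hO4.le, hS2', hT3', ?_⟩
  -- the sum of the rows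
  have hsum := D.sum_wW
  have hq' : (q : ℤ) = 2 * (2 * h) := by
    have := D.hq
    have h8 : (q : ℤ) = ((4 * h : ℕ) : ℤ) := by exact_mod_cast this
    rw [h8]
    push_cast
    ring
  rw [hq'] at hsum
  have hS1 : ∑ x, wW h2 (2 * h) (f x) = ∑ x ∈ O, wW h2 (2 * h) (f x) + ∑ x ∈ S ∪ Z, wW h2 (2 * h) (f x) := by
    rw [← Finset.sum_union hd1, hpart]
  have hS2 : ∑ x ∈ S ∪ Z, wW h2 (2 * h) (f x) = S.card * (2 * (2 * h) - 4) := by
    rw [Finset.sum_union hd2]
    have h5 : ∑ x ∈ Z, wW h2 (2 * h) (f x) = 0 := Finset.sum_eq_zero fun x hx => by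
      simpa [hZ] using hx
    rw [h5, add_zero, Finset.sum_congr rfl (g := fun _ => (2 * (2 * (h : ℤ)) - 4)) ?_, Finset.sum_const, nsmul_eq_mul]
    intro x hx
    simp only [hS, Finset.mem_filter, Finset.mem_univ, true_and] at hx
    rcases (hty x).2 with ⟨h5, -⟩ | ⟨-, h6⟩ | ⟨-, h5, -⟩ | ⟨-, -, h6⟩
    · exact absurd h5 hx.2
    · exact absurd h6 hx.1
    · exact h5
    · exact absurd h6 hx.1
  have hS3 : ∑ x ∈ O, wW h2 (2 * h) (f x) = (O.card : ℤ) * (2 * h - 1) + T3.card * (2 * h) := by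
    have h5 : ∀ x ∈ O, wW h2 (2 * h) (f x) = (2 * h - 1) + (if x ∈ T3 then (2 * (h : ℤ)) else 0) := by
      intro x hx
      simp only [hO, Finset.mem_filter, Finset.mem_univ, true_and] at hx
      by_cases hx3 : x ∈ T3
      · rw [if_pos hx3]
        simp only [hT3, Finset.mem_filter, Finset.mem_univ, true_and] at hx3
        rw [hx3]
        ring
      · rw [if_neg hx3]
        simp only [hT3, Finset.mem_filter, Finset.mem_univ, true_and] at hx3
        rcases (hty x).2 with ⟨h6, h7, h8⟩ | ⟨h6, -⟩ | ⟨-, -, h6, -⟩ | ⟨-, h6, -⟩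
        · exact absurd hx (hZnot x h6)
        · rw [h6]
          ring
        · exact absurd hx h6
        · exact absurd h6 hx3
    rw [Finset.sum_congr rfl h5, Finset.sum_add_distrib, Finset.sum_const, nsmul_eq_mul, Finset.sum_ite_mem,
      Finset.sum_const, nsmul_eq_mul, Finset.inter_eq_right.mpr hT3O]
  rw [hS1, hS2, hS3, hO4] at hsum
  push_cast at hsum
  have h9 : (2 : ℤ) * (4 * (2 * (h : ℤ) - 1) + T3.card * (2 * h) + S.card * (2 * (2 * h) - 4)) =
      2 * (2 * (2 * h) * (2 * h - 1)) := by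
    linear_combination hsum
  linarith

end Types

section Numeric

variable {Z S T3 : Finset ι}

theorem Counts.card_S_of_empty (C : Counts h2 f h Z S T3) (hT : T3.card = 0) (hh : 2 ≤ h) : (S.card : ℤ) = 2 * h - 1 := by
  have h1 := C.heq
  rw [hT] at h1
  push_cast at h1
  have h3 : (4 * (h : ℤ) - 4) ≠ 0 := by omega
  apply mul_left_cancel₀ h3
  linear_combination h1

theorem Counts.card_T3_of_one (C : Counts h2 f h Z S T3) (hh : h = 1) : T3.card = 0 := by
  have h1 := C.heq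
  rw [hh] at h1
  push_cast at h1
  omega

theorem Counts.exotic (C : Counts h2 f h Z S T3) (hT : T3.card ≠ 0) :
    (h = 2 ∧ T3.card + S.card = 3) ∨ (h = 4 ∧ T3.card = 3 ∧ S.card = 5) := by
  have h1 := C.heq
  have h5 := C.hle
  obtain ⟨x, hx⟩ := Finset.card_pos.mp (Nat.pos_of_ne_zero hT)
  rcases C.hT3h x hx with rfl | rfl
  · left
    refine ⟨rfl, ?_⟩
    push_cast at h1
    omega
  · right
    refine ⟨rfl, ?_⟩
    push_cast at h1
    omega

end Numeric

end Cfsg.Agent.Lib.Tw.Cnt
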