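import Mathlib
import Cfsg.Agent.Lib.Tw.Cnt
import Cfsg.Agent.Lib.Dih.Maj
import Cfsg.Agent.Lib.Contrib.TwoMajor

/-!
# The integer matrix of a major subsection at an involution
-/

set_option linter.unusedSectionVars false
set_option linter.style.haveILetI false
set_option autoImplicit false

namespace Cfsg.Agent.Lib.Tw.Mat

open Cfsg MonoidAlgebra
open Cfsg.Agent.Lib.Blocks.Local Cfsg.Agent.Lib.Blocks.Central
open Cfsg.Agent.Lib.BlockH.Regular Cfsg.Agent.Lib.BlockP.Defect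
open Cfsg.Agent.Lib.Char.Ortho
open Cfsg.Agent.Lib.Contrib.Proj Cfsg.Agent.Lib.Contrib.Cyc Cfsg.Agent.Lib.Contrib.Family
open Cfsg.Agent.Lib.Contrib.Section Cfsg.Agent.Lib.Contrib.Sec Cfsg.Agent.Lib.Contrib.Major
open Cfsg.Agent.Lib.Dih.Maj
open scoped ComplexConjugate

universe u

/-- The ring generated by the square roots of one consists of integers. -/
theorem exists_int_of_mem_Zr {w : ℂ} (hw : w ∈ Zr (2 ^ 1)) : ∃ n : ℤ, w = n := by
  induction hw using Subring.closure_induction with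
  | mem x hx =>
    have h1 : x * x = 1 := by
      have h0 : x ^ 2 ^ 1 = 1 := hx
      simpa [pow_two] using h0
    rcases mul_self_eq_one_iff.mp h1 with h2 | h2
    · exact ⟨1, by simp [h2]⟩
    · exact ⟨-1, by simp [h2]⟩
  | zero => exact ⟨0, by simp⟩
  | one => exact ⟨1, by simp⟩
  | add x y _ _ h1 h2 =>
    obtain ⟨a, rfl⟩ := h1
    obtain ⟨b, rfl⟩ := h2
    exact ⟨a + b, by simp⟩
  | neg x _ h1 =>
    obtain ⟨a, rfl⟩ := h1
    exact ⟨-a, by simp⟩
  | mul x y _ _ h1 h2 =>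
    obtain ⟨a, rfl⟩ := h1
    obtain ⟨b, rfl⟩ := h2
    exact ⟨a * b, by simp⟩

variable {G : Type u} [Group G] [Fintype G] [Fintype (IrrCharacter G)] {M : Ideal AlgInt}
  {x : G} [Fact (Nat.Prime 2)]
  [Fintype (Subgroup.centralizer ({x} : Set G))] [Fintype (IrrCharacter (Subgroup.centralizer ({x} : Set G)))]

/-- A rational integer whose quotient by a power of two lies in the local ideal. -/
theorem dvd_of_ideal (hM : IsPModular 2 M) (t : ℕ) (n : ℤ) (h : MemLocalIdeal M ((n : ℂ) / ((2 ^ t : ℕ) : ℂ))) :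
    (2 : ℤ) ^ (t + 1) ∣ n := by
  haveI := isPrime_of_pModular hM
  have h0 : ((2 ^ t : ℕ) : ℂ) ≠ 0 := Nat.cast_ne_zero.mpr (by positivity)
  obtain ⟨n', rfl⟩ := dvd_of_local hM t n (memLocalRing_of_memLocalIdeal h) (by field_simp)
  have h3 : (((2 : ℤ) ^ t * n' : ℤ) : ℂ) / ((2 ^ t : ℕ) : ℂ) = (n' : ℂ) := by
    push_cast
    push_cast at h0
    field_simp
  rw [h3] at h
  have h4 : ((2 : ℕ) : ℤ) ∣ n' := (intCast_memLocalIdeal_iff hM n').mp h
  obtain ⟨t', rfl⟩ := h4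
  exact ⟨t', by push_cast; ring⟩

/-- **The integer matrix.** -/
theorem exists_int_matrix (hM : IsPModular 2 M) (hk : orderOf x = 2 ^ 1)
    {B : Set (IrrCharacter G)} (hB : IsPBlock M B) [Fintype B]
    {b : Set (IrrCharacter (Subgroup.centralizer ({x} : Set G)))}
    (hb : IsInducedBlock M (Subgroup.centralizer ({x} : Set G)) b B) (hq : blockDefect 2 b = blockDefect 2 B) :
    ∃ m : B → B → ℤ, (∀ i j, (m i j : ℂ) = mm 2 x b i j) ∧ (∀ i j, m i j = m j i) ∧
      (∀ i, ∑ j, m i j * m i j = 2 ^ blockDefect 2 B * m i i) ∧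
      (∑ i, m i i = 2 ^ blockDefect 2 B * blockRank 2 b) ∧
      (∀ i j : B, blockHeight 2 B ((i : IrrCharacter G) : G → ℂ) = 0 →
        (2 : ℤ) ^ blockHeight 2 B ((j : IrrCharacter G) : G → ℂ) ∣ m i j ∧
        ¬ (2 : ℤ) ^ (blockHeight 2 B ((j : IrrCharacter G) : G → ℂ) + 1) ∣ m i j) ∧
      (∀ i j : B, 1 ≤ blockHeight 2 B ((i : IrrCharacter G) : G → ℂ) →
        (2 : ℤ) ^ (blockHeight 2 B ((j : IrrCharacter G) : G → ℂ) + 1) ∣ m i j) := by
  classical
  haveI hMp := isPrime_of_pModular hM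
  have hp : Nat.Prime 2 := Fact.out
  obtain ⟨m₀, hdef, hZ, hconj, hmul, htr, hnot, -⟩ := exists_matrix_def hM hk hB hb
  choose m hm using fun i j => exists_int_of_mem_Zr (hZ i j)
  have hmm : ∀ i j, (m i j : ℂ) = mm 2 x b i j := fun i j => by rw [← hm, hdef]
  have hsym : ∀ i j, m i j = m j i := by
    intro i j
    have h1 := hconj i j
    rw [hm, hm, map_intCast] at h1
    exact_mod_cast h1.symm
  have hne := isPBlock_nonempty hB
  have hsame : ∀ (Z : Subalgebra.center ℂ (GA G)), Z ∈ localCenter M G → ∀ {a c : IrrCharacter G},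
      a ∈ B → c ∈ B → MemLocalIdeal M (omegaHom a Z) → MemLocalIdeal M (omegaHom c Z) := by
    intro Z hZl a c ha hc hmem
    have hs : SameBlock M (c : G → ℂ) (a : G → ℂ) := by
      have := isPBlock_eq_blockOf hB ha
      rw [this] at hc
      exact sameBlock_symm hc
    have h2 := omegaHom_sub_mem_of_sameBlock hs hZl
    have h3 := memLocalIdeal_add h2 hmem
    simpa using h3
  set w := Nat.card G / 2 ^ (Nat.card G).factorization 2 with hw
  have hwp : ¬ 2 ∣ w := Nat.not_dvd_ordCompl hp Nat.card_pos.ne'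
  refine ⟨m, hmm, hsym, ?_, ?_, ?_, ?_⟩
  · intro i
    have h1 := hmul i
    rw [hm, hq] at h1
    have h2 : ((∑ j, m i j * m i j : ℤ) : ℂ) = ((2 ^ blockDefect 2 B * m i i : ℤ) : ℂ) := by
      push_cast at h1 ⊢
      rw [← h1]
      refine Finset.sum_congr rfl fun j _ => ?_
      rw [hm, hm, hsym j i]
    exact_mod_cast h2
  · have h1 := htr
    rw [hq] at h1
    have h2 : ((∑ i, m i i : ℤ) : ℂ) = ((2 ^ blockDefect 2 B * blockRank 2 b : ℤ) : ℂ) := by
      push_cast at h1 ⊢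
      rw [← h1]
      exact Finset.sum_congr rfl fun j _ => (hm j j).symm
    exact_mod_cast h2
  · intro i j hi
    have h1 := mm_unit hM hk hB hb hq i j hi
    rw [← hmm i j] at h1
    exact val_of_unit hM _ _ h1.1 h1.2
  · intro i j hi
    obtain ⟨τ₀, hτ₀, hτe⟩ := exists_minExp 2 hne
    set τ : B := ⟨τ₀, hτ₀⟩ with hτ
    have hτ0 : blockHeight 2 B ((τ : IrrCharacter G) : G → ℂ) = 0 := by
      change (charDegree (τ₀ : G → ℂ)).factorization 2 - minExp 2 B = 0
      omega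
    obtain ⟨Z, hZl, hΩ⟩ := exists_omega (M := M) hM hk hb.1 hne hq (i : IrrCharacter G)
    obtain ⟨t1, ht1, e1⟩ := hΩ τ τ.2
    obtain ⟨t2, ht2, e2⟩ := hΩ j j.2
    rw [hτ0, pow_zero, Nat.cast_one, div_one, ← hmm] at e1
    rw [← hmm] at e2
    refine dvd_of_ideal hM _ _ ?_
    rw [e2]
    obtain ⟨hu1, hu2⟩ := unit_aux (M := M) hM ht1 hwp
    obtain ⟨hv1, -⟩ := unit_aux (M := M) hM ht2 hwp
    refine memLocalIdeal_mul_left hv1 (hsame Z hZl τ.2 j.2 ?_)
    refine memLocalIdeal_of_mul hu1 hu2 (omegaHom_mem_local _ hZl) ?_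
    rw [← e1]
    -- the divisibility from the row of height zero
    have h3 := mm_unit hM hk hB hb hq τ i hτ0
    rw [← hmm τ i] at h3
    obtain ⟨h4, -⟩ := val_of_unit hM _ _ h3.1 h3.2
    have h5 : (2 : ℤ) ∣ m i τ := by
      rw [hsym i τ]
      exact (dvd_pow_self (2 : ℤ) (by omega)).trans h4
    exact (intCast_memLocalIdeal_iff hM _).mpr (by simpa using h5)

end Cfsg.Agent.Lib.Tw.Mat
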