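import Mathlib
import Cfsg.Agent.Lib.Tw.Exist
import Cfsg.Agent.Lib.Tw.Mat
import Cfsg.Agent.Lib.BlockH.MaxPair
import Cfsg.Agent.Lib.Contrib.Section

/-!
# The values at the central involution determine the heights
-/

set_option linter.unusedSectionVars false
set_option linter.style.haveILetI false
set_option autoImplicit false

namespace Cfsg.Agent.Lib.Tw.LemA

open Cfsg MonoidAlgebra
open Cfsg.Agent.Lib.Blocks.Local Cfsg.Agent.Lib.Blocks.Central Cfsg.Agent.Lib.Blocks.Main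
open Cfsg.Agent.Lib.Blocks.Brauer Cfsg.Agent.Lib.Blocks.Induced
open Cfsg.Agent.Lib.BlockH.Subpair Cfsg.Agent.Lib.BlockH.MaxPair Cfsg.Agent.Lib.BlockH.BrauerMap
open Cfsg.Agent.Lib.BP.StarDefs Cfsg.Agent.Lib.BP.Star1
open Cfsg.Agent.Lib.Char.Basic Cfsg.Agent.Lib.Char.Complete Cfsg.Agent.Lib.Char.Ortho
open Cfsg.Agent.Lib.Contrib.Section Cfsg.Agent.Lib.Dih.Top Cfsg.Agent.Lib.BlockP.Defect
open Cfsg.Agent.Lib.Tw.Fou Cfsg.Agent.Lib.Tw.Grp Cfsg.Agent.Lib.Tw.Top Cfsg.Agent.Lib.Tw.Exist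
open scoped ComplexConjugate

universe u

section Cen

variable {K : Type u} [Group K] [Fintype K] {z : K} {M : Ideal AlgInt}

attribute [local instance] fK fIrr fBl

/-- The central element. -/
noncomputable def XX (z : K) (f : Set (IrrCharacter (cZ z))) : GA K := single z 1 * subIdem (cZ z) f

theorem mem_cZ_all (hz : ∀ k : K, Commute k z) (k : K) : k ∈ cZ z := mem_cZ.mpr (hz k)

theorem isCentral_sub (hz : ∀ k : K, Commute k z) (f : Set (IrrCharacter (cZ z))) : IsCentral (subIdem (cZ z) f) := by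
  intro g t
  rw [coeff_subIdem_of_mem _ f (mem_cZ_all hz _), coeff_subIdem_of_mem _ f (mem_cZ_all hz g)]
  have h1 := blockCoeff_conj_invariant f ⟨g, mem_cZ_all hz g⟩ ⟨t, mem_cZ_all hz t⟩
  exact h1

theorem isCentral_XX (hz : ∀ k : K, Commute k z) (f : Set (IrrCharacter (cZ z))) : IsCentral (XX z f) := by
  intro g t
  rw [XX, Cfsg.Agent.Lib.BP.Cj.coeff_single_mul', Cfsg.Agent.Lib.BP.Cj.coeff_single_mul']
  have e : z⁻¹ * (t * g * t⁻¹) = t * (z⁻¹ * g) * t⁻¹ := by
    have h1 : Commute t z⁻¹ := (hz t).inv_right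
    calc z⁻¹ * (t * g * t⁻¹) = (z⁻¹ * t) * g * t⁻¹ := by group
      _ = (t * z⁻¹) * g * t⁻¹ := by rw [h1.eq]
      _ = _ := by group
  rw [e, isCentral_sub hz]

theorem XX_mul_self (hz : ∀ k : K, Commute k z) (hz2 : z * z = 1) (f : Set (IrrCharacter (cZ z))) :
    XX z f * XX z f = subIdem (cZ z) f := by
  have hc := (isCentral_iff_comm _).mp (isCentral_sub hz f)
  rw [XX]
  calc single z 1 * subIdem (cZ z) f * (single z 1 * subIdem (cZ z) f)
      = single z 1 * (subIdem (cZ z) f * single z 1) * subIdem (cZ z) f := by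
        simp only [mul_assoc]
    _ = single z 1 * (single z 1 * subIdem (cZ z) f) * subIdem (cZ z) f := by rw [← hc (single z 1)]
    _ = (single z 1 * single z 1) * (subIdem (cZ z) f * subIdem (cZ z) f) := by
        simp only [mul_assoc]
    _ = _ := by
        rw [MonoidAlgebra.single_mul_single, hz2, subIdem_mul_self]
        simp only [mul_one]
        exact one_mul _

/-- The value of the character on the central element. -/
theorem lin_XX_sq [Fintype (IrrCharacter K)] (hz : ∀ k : K, Commute k z) (hz2 : z * z = 1) (f : Set (IrrCharacter (cZ z)))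
    (θ : IrrCharacter K) (hne : lin (θ : K → ℂ) (XX z f) ≠ 0) :
    lin (θ : K → ℂ) (XX z f) * lin (θ : K → ℂ) (XX z f) = (θ : K → ℂ) 1 * (θ : K → ℂ) 1 := by
  have h0 := irr_one_ne_zero θ.2
  have h1 := lin_central_mul θ.2 (isCentral_XX hz f) (XX z f)
  rw [XX_mul_self hz hz2, omega] at h1
  have h2 := lin_central_mul θ.2 (isCentral_sub hz f) (subIdem (cZ z) f)
  rw [subIdem_mul_self, omega] at h2
  set κ := lin (θ : K → ℂ) (XX z f) with hκ
  set ε := lin (θ : K → ℂ) (subIdem (cZ z) f) with hε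
  set d := (θ : K → ℂ) 1 with hd
  have h3 : ε ≠ 0 := by
    rw [h1]
    exact mul_ne_zero (div_ne_zero hne h0) hne
  have h4 : ε = d := by
    have h5 : ε * d = ε * ε := by
      calc ε * d = (ε / d * ε) * d := by rw [← h2]
        _ = ε * ε := by field_simp
    exact (mul_left_cancel₀ h3 h5).symm
  have h5 : κ * κ = ε * d := by
    calc κ * κ = (κ / d * κ) * d := by field_simp
      _ = ε * d := by rw [← h1]
  rw [h5, h4]

/-- The coefficients. -/
theorem rc_XX [M.IsPrime] {f : Set (IrrCharacter (cZ z))} (hf : IsPBlock M f) : Cfsg.Agent.Lib.Blocks.Brauer.Rc M (XX z f) := by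
  intro g
  rw [XX, Cfsg.Agent.Lib.BP.Cj.coeff_single_mul']
  exact rc_subIdem (cZ z) hf _

end Cen

section Tr

variable {G : Type u} [Group G] [Fintype G] {K : Subgroup G} {M : Ideal AlgInt}

attribute [local instance] fK fIrr fBl

/-- The central element of the group algebra of `G`. -/
noncomputable def TT (K : Subgroup G) [Fintype (G ⧸ K)] (X : GA K) : GA G := relTr K (fun g => (incl K X).coeff g)

theorem isCentral_TT [Fintype (G ⧸ K)] {X : GA K} (hX : IsCentral X) : IsCentral (TT K X) := by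
  refine isCentral_relTr fun t ht g => ?_
  by_cases hg : g ∈ K
  · have h1 : t * g * t⁻¹ ∈ K := K.mul_mem (K.mul_mem ht hg) (K.inv_mem ht)
    rw [coeff_incl_of_mem _ _ h1, coeff_incl_of_mem _ _ hg]
    exact hX ⟨g, hg⟩ ⟨t, ht⟩
  · have h1 : t * g * t⁻¹ ∉ K := by
      intro h2
      apply hg
      have h3 : g = t⁻¹ * (t * g * t⁻¹) * t := by group
      rw [h3]
      exact K.mul_mem (K.mul_mem (K.inv_mem ht) h2) ht
    rw [coeff_incl_of_notMem _ _ h1, coeff_incl_of_notMem _ _ hg]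

theorem rc_TT [Fintype (G ⧸ K)] [M.IsPrime] {X : GA K} (hX : Cfsg.Agent.Lib.Blocks.Brauer.Rc M X) :
    Cfsg.Agent.Lib.Blocks.Brauer.Rc M (TT K X) := by
  refine rc_relTr fun g => ?_
  by_cases hg : g ∈ K
  · rw [coeff_incl_of_mem _ _ hg]
    exact hX _
  · rw [coeff_incl_of_notMem _ _ hg]
    exact memLocalRing_zero

theorem lin_TT [Fintype (G ⧸ K)] [Fintype (IrrCharacter G)] (χ : IrrCharacter G) {X : GA K} :
    lin (χ : G → ℂ) (TT K X) = (K.index : ℂ) * lin (resF K χ) X := by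
  have hone : IsCentral (1 : GA G) := isCentral_of_mem (1 : Subalgebra.center ℂ (GA G))
  have h1 := lin_central_mul_relTr (D := K) (Cfsg.Agent.Lib.BP.Star2.class_irr χ) hone (β := fun g => (incl K X).coeff g)
  rw [one_mul, one_mul, ofFun_coeff] at h1
  rw [TT, h1, Cfsg.Agent.Lib.Contrib.Chain.lin_incl]
  rfl

end Tr

section Val

variable {G : Type u} [Group G] [Fintype G] [Fintype (IrrCharacter G)] {M : Ideal AlgInt}
  [Fact (Nat.Prime 2)] {B : Set (IrrCharacter G)} {K : Subgroup G}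

attribute [local instance] fK fIrr fBl

variable {D' : Subgroup K} {e' : Set (IrrCharacter (Subgroup.centralizer (D' : Set K)))} {β : Set (IrrCharacter K)}
  {q h m : ℕ} [NeZero q] {c : ZMod q} {R : Rot D' q h c} {θ : IrrCharacter K} {g : IrrCharacter D' → IrrCharacter K}

open Cfsg.Agent.Lib.Tw.Top.Setup

variable (S : Setup M B K D' e' β R m)

include S

theorem zz_central (k : K) : Commute k (rr R (zt q h)) := by
  have h1 := S.hnorm k
  have hz : rr R (zt q h) = rr R (ht q h) * rr R (ht q h) := by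
    rw [← rr_add, ht_add_ht]
  have h2 : k * rr R (zt q h) * k⁻¹ = rr R (zt q h) := by
    rw [hz]
    have e : k * (rr R (ht q h) * rr R (ht q h)) * k⁻¹ = (k * rr R (ht q h) * k⁻¹) * (k * rr R (ht q h) * k⁻¹) := by group
    rw [e]
    rcases h1 with h3 | h3 <;> rw [h3]
    rw [← mul_inv_rev]
    have h4 : (rr R (ht q h) * rr R (ht q h))⁻¹ = rr R (ht q h) * rr R (ht q h) := by
      rw [← hz, inv_eq_iff_mul_eq_one, ← rr_add, zt_add_zt S.hq, rr_zero]
    rw [h4]
  show k * rr R (zt q h) = rr R (zt q h) * k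
  calc k * rr R (zt q h) = (k * rr R (zt q h) * k⁻¹) * k := by group
    _ = _ := by rw [h2]

theorem zz_sq : rr R (zt q h) * rr R (zt q h) = 1 := by
  rw [← rr_add, zt_add_zt S.hq, rr_zero]

variable (hg : ∀ ν, ((g ν : IrrCharacter K) : K → ℂ) = starFun 2 M e' (ν : D' → ℂ) (θ : K → ℂ))
  (hinj : Function.Injective g) (hr : ∀ τ : IrrCharacter K, τ ∈ β ↔ τ ∈ Set.range g)

include hg hinj hr

/-- **The values at the central involution determine the heights.** -/
theorem val_a (hθ : θ ∈ β) (h0 : blockHeight 2 β (θ : K → ℂ) = 0) [Fintype B] (a : B → ℤ)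
    (ha : ∀ x : B, (a x : ℂ) = pp R g x (zt q h)) (hodd : ∃ x, Odd (a x)) (j : B) :
    (2 : ℤ) ^ blockHeight 2 B ((j : IrrCharacter G) : G → ℂ) ∣ a j ∧
      ¬ (2 : ℤ) ^ (blockHeight 2 B ((j : IrrCharacter G) : G → ℂ) + 1) ∣ a j := by
  classical
  have hM := S.hM
  have hp : Nat.Prime 2 := Nat.prime_two
  haveI hMp := isPrime_of_pModular hM
  set z' : K := rr R (zt q h) with hz'
  set f := Setup.cc (M := M) R e' (zt q h) with hf
  have hfb : IsPBlock M f := (S.cc_spec (zt q h)).1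
  set X : GA K := XX z' f with hX
  have hXc : IsCentral X := isCentral_XX (zz_central S) f
  have hXr := rc_XX (M := M) hfb
  set κ : ℂ := lin (θ : K → ℂ) X with hκ
  have hone : ∀ i : ZMod q, (1 : K) ∈ cZ (rr R i) := fun i => Subgroup.one_mem _
  have hFs : ∀ φ : K → ℂ, Fs φ z' f 1 = lin φ X := by
    intro φ
    rw [Fs, mul_one, hX, XX]
  have hκ0 : κ ≠ 0 := by
    have := Cfsg.Agent.Lib.Dih.Sect.Fs_one_ne S.hM S.hmx hθ h0 (R.ρ (zt q h))
    rw [hκ, ← hFs]
    exact this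
  have hκ2 := lin_XX_sq (zz_central S) (zz_sq S) f θ hκ0
  have hsec : ∀ χ : IrrCharacter G, lin (resF K χ) X = pp R g χ (zt q h) * κ := by
    intro χ
    rw [← hFs, hκ, ← hFs]
    exact S.sec_formula hg hinj hr χ (zt q h) (hone _) Cfsg.Agent.Lib.Dih.Top.reg_one'
  -- the central element of `G`
  letI : Fintype (G ⧸ K) := Fintype.ofFinite _
  set T : Subalgebra.center ℂ (GA G) := ⟨TT K X, (mem_center_iff _).mpr (isCentral_TT hXc)⟩ with hT
  have hTl : T ∈ localCenter M G := fun g => rc_TT hXr g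
  have hω : ∀ χ : IrrCharacter G, omegaHom χ T * (χ : G → ℂ) 1 = (K.index : ℂ) * (pp R g χ (zt q h) * κ) := by
    intro χ
    rw [omegaHom_apply, div_mul_cancel₀ _ (irr_one_ne_zero χ.2)]
    rw [← hsec]
    exact lin_TT χ
  -- the valuations
  obtain ⟨ψ₀, hψ₀, -⟩ := exists_minExp 2 (isPBlock_nonempty S.hB)
  have hG2 := Cfsg.Agent.Lib.Blocks.RegPart2.minExp_add_blockDefect (p := 2) hψ₀
  have hK2 := Cfsg.Agent.Lib.Blocks.RegPart2.minExp_add_blockDefect (p := 2) hθ
  have hdef := S.hdef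
  have hθ2 : (charDegree (θ : K → ℂ)).factorization 2 = minExp 2 β := by
    have h1 := minExp_le 2 hθ
    have h2 : (charDegree (θ : K → ℂ)).factorization 2 - minExp 2 β = 0 := h0
    omega
  have hidx : Nat.card G = K.index * Nat.card K := (Subgroup.index_mul_card K).symm
  have hidx0 : K.index ≠ 0 := Subgroup.index_ne_zero_of_finite
  have hG3 : (Nat.card G).factorization 2 = K.index.factorization 2 + (Nat.card K).factorization 2 := by
    rw [hidx, Nat.factorization_mul hidx0 Nat.card_pos.ne']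
    rfl
  have hdθ0 := Cfsg.Agent.Lib.Blocks.Heights.charDegree_ne_zero_irr θ
  set A₀ : ℕ := K.index * charDegree (θ : K → ℂ) with hA₀
  have hA0 : A₀ ≠ 0 := mul_ne_zero hidx0 hdθ0
  have hA2 : A₀.factorization 2 = minExp 2 B := by
    rw [hA₀, Nat.factorization_mul hidx0 hdθ0]
    change K.index.factorization 2 + (charDegree (θ : K → ℂ)).factorization 2 = _
    rw [hθ2]
    omega
  set u : ℕ := A₀ / 2 ^ A₀.factorization 2 with hu
  have hu2 : ¬ 2 ∣ u := Nat.not_dvd_ordCompl hp hA0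
  have huA : A₀ = 2 ^ minExp 2 B * u := by
    rw [← hA2, hu]
    exact (Nat.ordProj_mul_ordCompl_eq_self _ _).symm
  -- the formula for each character
  have hmain : ∀ x : B, ∃ (v : ℕ) (s : ℂ), ¬ 2 ∣ v ∧ (s = 1 ∨ s = -1) ∧
      omegaHom (x : IrrCharacter G) T = s * ((u : ℂ) * (v : ℂ)⁻¹) *
        ((a x : ℂ) / ((2 ^ blockHeight 2 B ((x : IrrCharacter G) : G → ℂ) : ℕ) : ℂ)) := by
    intro x
    have hdχ0 := Cfsg.Agent.Lib.Blocks.Heights.charDegree_ne_zero_irr (x : IrrCharacter G)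
    set dχ := charDegree ((x : IrrCharacter G) : G → ℂ) with hdχ
    set v := dχ / 2 ^ dχ.factorization 2 with hv
    have hv2 : ¬ 2 ∣ v := Nat.not_dvd_ordCompl hp hdχ0
    set ht' := blockHeight 2 B ((x : IrrCharacter G) : G → ℂ) with hht
    have hfac : dχ.factorization 2 = minExp 2 B + ht' := by
      have h1 : minExp 2 B ≤ dχ.factorization 2 := minExp_le 2 x.2
      have h2 : ht' = dχ.factorization 2 - minExp 2 B := rfl
      omega
    have hdχv : dχ = 2 ^ minExp 2 B * 2 ^ ht' * v := by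
      rw [← pow_add, ← hfac, hv]
      exact (Nat.ordProj_mul_ordCompl_eq_self _ _).symm
    have hone' : ((x : IrrCharacter G) : G → ℂ) 1 = (dχ : ℂ) := Cfsg.Agent.Lib.Blocks.Heights.irr_one_eq _
    have hθ1 : (θ : K → ℂ) 1 = (charDegree (θ : K → ℂ) : ℂ) := Cfsg.Agent.Lib.Blocks.Heights.irr_one_eq _
    have hκs : ∃ s : ℂ, (s = 1 ∨ s = -1) ∧ κ = s * (charDegree (θ : K → ℂ) : ℂ) := by
      rw [hθ1] at hκ2
      rcases mul_self_eq_mul_self_iff.mp hκ2 with h1 | h1
      · exact ⟨1, Or.inl rfl, by rw [one_mul]; exact h1⟩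
      · exact ⟨-1, Or.inr rfl, by rw [neg_one_mul]; exact h1⟩
    obtain ⟨s, hs, hκe⟩ := hκs
    refine ⟨v, s, hv2, hs, ?_⟩
    have h1 := hω (x : IrrCharacter G)
    rw [hone', hκe, ← ha x] at h1
    have h2 : (dχ : ℂ) ≠ 0 := Nat.cast_ne_zero.mpr hdχ0
    have hv0 : (v : ℂ) ≠ 0 := Nat.cast_ne_zero.mpr (fun hc => hv2 (by rw [hc]; exact dvd_zero 2))
    have hp0 : ((2 ^ minExp 2 B : ℕ) : ℂ) ≠ 0 := Nat.cast_ne_zero.mpr (by positivity)
    have hp1 : ((2 ^ ht' : ℕ) : ℂ) ≠ 0 := Nat.cast_ne_zero.mpr (by positivity)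
    have hdc : (dχ : ℂ) = ((2 ^ minExp 2 B : ℕ) : ℂ) * ((2 ^ ht' : ℕ) : ℂ) * v := by
      rw [hdχv]
      push_cast
      ring
    have hAc : (K.index : ℂ) * (charDegree (θ : K → ℂ) : ℂ) = ((2 ^ minExp 2 B : ℕ) : ℂ) * u := by
      have : ((A₀ : ℕ) : ℂ) = ((2 ^ minExp 2 B * u : ℕ) : ℂ) := congrArg _ huA
      rw [hA₀] at this
      push_cast at this ⊢
      exact this
    have h3 : omegaHom (x : IrrCharacter G) T * (((2 ^ minExp 2 B : ℕ) : ℂ) * ((2 ^ ht' : ℕ) : ℂ) * v) =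
        ((2 ^ minExp 2 B : ℕ) : ℂ) * u * ((a x : ℂ) * s) := by
      rw [← hdc, h1, ← hAc]
      ring
    field_simp
    field_simp at h3
    linear_combination h3
  -- the block
  have hsame : ∀ {a₁ c₁ : IrrCharacter G}, a₁ ∈ B → c₁ ∈ B → MemLocalIdeal M (omegaHom a₁ T) →
      MemLocalIdeal M (omegaHom c₁ T) := by
    intro a₁ c₁ h1 hc hmem
    have hs : SameBlock M (c₁ : G → ℂ) (a₁ : G → ℂ) := by
      have := isPBlock_eq_blockOf S.hB h1
      rw [this] at hc
      exact sameBlock_symm hc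
    have h2 := omegaHom_sub_mem_of_sameBlock hs hTl
    have h3 := memLocalIdeal_add h2 hmem
    simpa using h3
  have hsl : ∀ s : ℂ, (s = 1 ∨ s = -1) → MemLocalRing M s := by
    rintro s (rfl | rfl)
    · exact memLocalRing_one
    · exact memLocalRing_neg memLocalRing_one
  have hsn : ∀ s : ℂ, (s = 1 ∨ s = -1) → ¬ MemLocalIdeal M s := by
    rintro s (rfl | rfl) h1
    · exact one_notMemLocalIdeal h1
    · have h2 := memLocalIdeal_neg h1
      rw [neg_neg] at h2
      exact one_notMemLocalIdeal h2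
  -- integrality
  have hloc : ∀ x : B, MemLocalRing M ((a x : ℂ) / ((2 ^ blockHeight 2 B ((x : IrrCharacter G) : G → ℂ) : ℕ) : ℂ)) := by
    intro x
    obtain ⟨v, s, hv2, hs, hx⟩ := hmain x
    obtain ⟨h1, h2⟩ := Cfsg.Agent.Lib.Contrib.Major.unit_aux (M := M) hM hv2 hu2
    have hs2 : s * s = 1 := by
      rcases hs with rfl | rfl <;> norm_num
    have hu0 : (u : ℂ) ≠ 0 := Nat.cast_ne_zero.mpr (fun hc => hu2 (by rw [hc]; exact dvd_zero 2))
    have hv0 : (v : ℂ) ≠ 0 := Nat.cast_ne_zero.mpr (fun hc => hv2 (by rw [hc]; exact dvd_zero 2))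
    have h3 : (a x : ℂ) / ((2 ^ blockHeight 2 B ((x : IrrCharacter G) : G → ℂ) : ℕ) : ℂ) =
        s * ((v : ℂ) * (u : ℂ)⁻¹) * omegaHom (x : IrrCharacter G) T := by
      rw [hx]
      field_simp
      linear_combination (-(a x : ℂ)) * hs2
    rw [h3]
    exact memLocalRing_mul (memLocalRing_mul (hsl s hs) h1) (omegaHom_mem_local _ hTl)
  -- the character with an odd value
  obtain ⟨τ, hτ⟩ := hodd
  have hτ0 : blockHeight 2 B ((τ : IrrCharacter G) : G → ℂ) = 0 := by
    by_contra hne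
    have h1 := Cfsg.Agent.Lib.Dih.Maj.dvd_of_local hM _ (a τ) (hloc τ) (by
      have h0' : ((2 ^ blockHeight 2 B ((τ : IrrCharacter G) : G → ℂ) : ℕ) : ℂ) ≠ 0 :=
        Nat.cast_ne_zero.mpr (by positivity)
      field_simp)
    have h2 : (2 : ℤ) ∣ a τ := (dvd_pow_self (2 : ℤ) hne).trans h1
    exact (Int.not_even_iff_odd.mpr hτ) (even_iff_two_dvd.mpr h2)
  have hτn : ¬ MemLocalIdeal M (omegaHom (τ : IrrCharacter G) T) := by
    obtain ⟨v, s, hv2, hs, hx⟩ := hmain τ
    obtain ⟨h1, h2⟩ := Cfsg.Agent.Lib.Contrib.Major.unit_aux (M := M) hM hu2 hv2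
    rw [hx, hτ0]
    have h3 : ¬ MemLocalIdeal M ((a τ : ℂ) / ((2 ^ 0 : ℕ) : ℂ)) := by
      simp only [pow_zero, Nat.cast_one, div_one]
      intro h4
      have h5 := (intCast_memLocalIdeal_iff hM _).mp h4
      exact (Int.not_even_iff_odd.mpr hτ) (even_iff_two_dvd.mpr (by exact_mod_cast h5))
    have h6 := hloc τ
    rw [hτ0] at h6
    exact notMem_mul (memLocalRing_mul (hsl s hs) h1) (notMem_mul (hsl s hs) (hsn s hs) h1 h2) h6 h3
  have hjn : ¬ MemLocalIdeal M ((a j : ℂ) / ((2 ^ blockHeight 2 B ((j : IrrCharacter G) : G → ℂ) : ℕ) : ℂ)) := by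
    intro h1
    apply hτn
    refine hsame j.2 τ.2 ?_
    obtain ⟨v, s, hv2, hs, hx⟩ := hmain j
    obtain ⟨h3, h4⟩ := Cfsg.Agent.Lib.Contrib.Major.unit_aux (M := M) hM hu2 hv2
    rw [hx]
    exact memLocalIdeal_mul_left (memLocalRing_mul (hsl s hs) h3) h1
  exact Cfsg.Agent.Lib.Dih.Maj.val_of_unit hM _ _ (hloc j) hjn

end Val

end Cfsg.Agent.Lib.Tw.LemA
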