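import Mathlib
import Cfsg.Agent.Lib.Tw.LemA
import Cfsg.Agent.Lib.Dih.Main

/-!
# The rows of a block: the general statement
-/

set_option linter.unusedSectionVars false
set_option linter.style.haveILetI false
set_option autoImplicit false

namespace Cfsg.Agent.Lib.Tw.GL

open Cfsg MonoidAlgebra
open Cfsg.Agent.Lib.Blocks.Local Cfsg.Agent.Lib.Blocks.Central Cfsg.Agent.Lib.Blocks.Main
open Cfsg.Agent.Lib.BlockH.Regular Cfsg.Agent.Lib.BlockP.Defect
open Cfsg.Agent.Lib.BP.StarDefs Cfsg.Agent.Lib.BP.Star1 Cfsg.Agent.Lib.BP.Star2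
open Cfsg.Agent.Lib.Char.Basic Cfsg.Agent.Lib.Char.Complete Cfsg.Agent.Lib.Char.Ortho
open Cfsg.Agent.Lib.Contrib.Proj Cfsg.Agent.Lib.Contrib.Sec
open Cfsg.Agent.Lib.Dih.Fou
open Cfsg.Agent.Lib.Dih.Top (resF isCharacter_resF isClass_resF reg_one')
open Cfsg.Agent.Lib.Tw.Row Cfsg.Agent.Lib.Tw.Fou Cfsg.Agent.Lib.Tw.Cnt Cfsg.Agent.Lib.Tw.Grp Cfsg.Agent.Lib.Tw.Top
open Cfsg.Agent.Lib.Tw.Mat Cfsg.Agent.Lib.Tw.LemA
open scoped ComplexConjugate

universe u

section Rep

variable {H : Type u} [Group H] [Fintype H] [Fintype (IrrCharacter H)] {p : ℕ} {M : Ideal AlgInt} [Fact p.Prime]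

/-- A value of the projection is a linear functional of the values on regular elements. -/
theorem PP_rep (hM : IsPModular p M) {c : Set (IrrCharacter H)} (hc : IsPBlock M c) (y : H) :
    ∃ a : H → ℂ, (∀ k, p ∣ orderOf k → a k = 0) ∧ ∀ φ : H → ℂ, PP p c φ y = ∑ k : H, a k * φ k := by
  classical
  refine ⟨fun k => if ¬ p ∣ orderOf k then (Nat.card H : ℂ)⁻¹ * ∑ ξ : IrrCharacter H,
      (if ξ ∈ c then conj ((ξ : H → ℂ) k) * Cfsg.pRegularPart p (ξ : H → ℂ) y else 0) else 0, ?_, ?_⟩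
  · intro k hk
    simp only [not_not, hk, not_true_eq_false, if_false]
  · intro φ
    have h2 : PP p c φ = PP p c (Cfsg.pRegularPart p φ) := by
      apply PP_congr hM hc
      intro t ht
      rw [Cfsg.Agent.Lib.BlockH.Regular.pRegularPart_apply, if_pos (show IsPRegular p t from ht)]
    rw [h2, PP_apply]
    have h3 : ∀ ξ : IrrCharacter H, (if ξ ∈ c then classInner (Cfsg.pRegularPart p φ) (ξ : H → ℂ) *
        Cfsg.pRegularPart p (ξ : H → ℂ) y else 0) = (Nat.card H : ℂ)⁻¹ * ∑ k : H,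
        (if ¬ p ∣ orderOf k then (if ξ ∈ c then conj ((ξ : H → ℂ) k) * Cfsg.pRegularPart p (ξ : H → ℂ) y else 0) * φ k else 0) := by
      intro ξ
      by_cases hξ : ξ ∈ c
      · simp only [if_pos hξ]
        rw [classInner_def, mul_assoc, Finset.sum_mul]
        congr 1
        refine Finset.sum_congr rfl fun k _ => ?_
        rw [Cfsg.Agent.Lib.BlockH.Regular.pRegularPart_apply]
        by_cases hk : ¬ p ∣ orderOf k
        · have hk' : IsPRegular p k := hk
          rw [if_pos hk', if_pos hk]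
          ring
        · have hk' : ¬ IsPRegular p k := hk
          rw [if_neg hk', if_neg hk]
          simp
      · simp only [if_neg hξ]
        simp
    rw [Finset.sum_congr rfl fun ξ _ => h3 ξ, ← Finset.mul_sum, Finset.sum_comm, Finset.mul_sum]
    refine Finset.sum_congr rfl fun k _ => ?_
    by_cases hk : ¬ p ∣ orderOf k
    · simp only [if_pos hk]
      rw [← Finset.sum_mul, mul_assoc]
    · simp only [if_neg hk]
      simp

end Rep

section Arith

/-- Residues. -/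
theorem hN2_of (h m : ℕ) (hq : 2 ^ m = 4 * h) (hh : 1 ≤ h) : h = 1 ∨ 2 ∣ h := by
  have h1 : h ∣ 2 ^ m := ⟨4, by rw [hq]; ring⟩
  obtain ⟨a, -, rfl⟩ := (Nat.dvd_prime_pow Nat.prime_two).mp h1
  rcases a with _ | a
  · left
    simp
  · right
    exact ⟨2 ^ a, by ring⟩

variable {q : ℕ} [NeZero q] (h2 : 2 ∣ q)

theorem hcpar_of {c : ZMod q} (hcc : c * c = 1) : par h2 c = 1 := by
  have h1 : par h2 c * par h2 c = 1 := by
    rw [← par_mul, hcc, par_one]
  rcases zmod2_cases (par h2 c) with h3 | h3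
  · rw [h3, zero_mul] at h1
    exact absurd h1 (by decide)
  · exact h3

end Arith

variable {G : Type u} [Group G] [Fintype G] [Fintype (IrrCharacter G)] {M : Ideal AlgInt}
  [Fact (Nat.Prime 2)] {B : Set (IrrCharacter G)} {K : Subgroup G}

attribute [local instance] fK fIrr fBl

variable {D' : Subgroup K} {e' : Set (IrrCharacter (Subgroup.centralizer (D' : Set K)))} {β : Set (IrrCharacter K)}
  {q h m : ℕ} [NeZero q] {c : ZMod q} {R : Rot D' q h c} {θ : IrrCharacter K} {g : IrrCharacter D' → IrrCharacter K}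

open Cfsg.Agent.Lib.Tw.Top.Setup

/-- Invariance of the values. -/
theorem pp_c (χ : IrrCharacter G) (j : ZMod q) : pp R g χ (c * j) = pp R g χ j := by
  simp only [pp, Cfsg.Agent.Lib.Dih.Sect.piF]
  refine Finset.sum_congr rfl fun ν _ => ?_
  congr 1
  rw [← R.conj]
  exact class_irr ν _ _

variable (S : Setup M B K D' e' β R m)
  (hg : ∀ ν, ((g ν : IrrCharacter K) : K → ℂ) = starFun 2 M e' (ν : D' → ℂ) (θ : K → ℂ))
  (hinj : Function.Injective g) (hr : ∀ τ : IrrCharacter K, τ ∈ β ↔ τ ∈ Set.range g)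
  (hθ : θ ∈ β) (h0 : blockHeight 2 β (θ : K → ℂ) = 0) [Fintype B]

include S hg hinj hr hθ h0

theorem hR_B {j j' : ZMod q} (hj : IsI q h j) (hj' : IsI q h j') :
    ∑ x : B, pp R g x j * conj (pp R g x j') =
      (q : ℂ) * ((if j' = j then 1 else 0) + (if j' = c * j then 1 else 0)) := by
  classical
  rw [← S.sum_pp hg hinj hr hθ h0 hj hj']
  exact Cfsg.Agent.Lib.Dih.Main.sum_B_eq (fun χ => pp R g χ j * conj (pp R g χ j'))
    (fun χ hχ => by rw [S.pp_eq_zero hg hinj hr hθ h0 hj hχ, zero_mul])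

omit S hg hinj hr hθ h0 [Fintype G] [Fintype (IrrCharacter G)] in
theorem exists_f [Fintype G] [Fintype (IrrCharacter G)] [Fintype B] : ∃ f : B → ZMod q → ℤ, ∀ x m, (f x m : ℂ) = dft (fun j => pp R g x j) m := by
  choose c0 hc0 using fun (x : B) (m : ZMod q) => Setup.exists_nat_dft_pp (R := R) (g := g) (x : IrrCharacter G) m
  exact ⟨fun x m => c0 x m, fun x m => by
    simp only [Int.cast_natCast]
    exact (hc0 x m).symm⟩

/-- **The data of the rows.** -/
theorem fdata (h2 : 2 ∣ q) {f : B → ZMod q → ℤ} (hf : ∀ x m, (f x m : ℂ) = dft (fun j => pp R g x j) m) :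
    FData h2 c (fun (x : B) j => pp R g x j) f h where
  hq := S.hq
  hh := S.hh
  hN2 := hN2_of h m (S.hq2 ▸ S.hq) S.hh
  hcpar := hcpar_of h2 S.hcc
  hcc := S.hcc
  hfix := S.hfix
  hcz := S.hcz
  hR := fun _ _ hj hj' => hR_B S hg hinj hr hθ h0 hj hj'
  hPc := fun x j => pp_c _ j
  hf := hf

/-- **Orthogonality of the rows against a section.** -/
theorem perp_PP {z : G} (hz : z = ((rr R (zt q h) : K) : G))
    {b : Set (IrrCharacter (Subgroup.centralizer ({z} : Set G)))} (hb : IsPBlock M b)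
    {j : ZMod q} (hj : IsI q h j) (y : Subgroup.centralizer ({z} : Set G)) :
    ∑ x : B, pp R g x j * conj (PP 2 b (vt z x) y) = 0 := by
  classical
  have hM := S.hM
  obtain ⟨a, ha0, ha⟩ := PP_rep hM hb y
  have hz1 : ∃ k : ℕ, orderOf z = 2 ^ k := by
    rw [hz]
    exact S.order_coe _
  have h1 : ∀ x : B, pp R g x j * conj (PP 2 b (vt z x) y) =
      ∑ k, conj (a k) * (pp R g x j * conj (vt z x k)) := by
    intro x
    rw [ha, map_sum, Finset.mul_sum]
    refine Finset.sum_congr rfl fun k _ => ?_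
    rw [map_mul]
    ring
  simp_rw [h1]
  rw [Finset.sum_comm]
  refine Finset.sum_eq_zero fun k _ => ?_
  by_cases hk : 2 ∣ orderOf k
  · rw [ha0 k hk]
    simp
  rw [← Finset.mul_sum]
  have h2 : ∑ x : B, pp R g x j * conj (vt z x k) = ∑ χ : IrrCharacter G, pp R g χ j * conj ((χ : G → ℂ) (z * (k : G))) :=
    Cfsg.Agent.Lib.Dih.Main.sum_B_eq (fun χ => pp R g χ j * conj ((χ : G → ℂ) (z * (k : G))))
      (fun χ hχ => by rw [S.pp_eq_zero hg hinj hr hθ h0 hj hχ, zero_mul])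
  rw [h2, S.sum_pp_conj hg hinj hr hθ h0 hj, mul_zero]
  intro t ht
  have hk' : Commute (k : G) z := Subgroup.mem_centralizer_singleton_iff.mp k.2
  have hk2 : ¬ 2 ∣ orderOf (k : G) := by rwa [Subgroup.orderOf_coe]
  rw [pPt_mul hz1 hk' hk2, hz] at ht
  have h3 : t * (((rr R j : K) : G) * ((rr R j : K) : G)) * t⁻¹ = 1 := by
    have h4 : t * (((rr R j : K) : G) * ((rr R j : K) : G)) * t⁻¹ =
        (t * ((rr R j : K) : G) * t⁻¹) * (t * ((rr R j : K) : G) * t⁻¹) := by group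
    rw [h4, ht, ← Subgroup.coe_mul, zz_sq S, Subgroup.coe_one]
  have h5 : ((rr R j : K) : G) * ((rr R j : K) : G) = 1 := by
    have h6 : t * (((rr R j : K) : G) * ((rr R j : K) : G)) * t⁻¹ = t * 1 * t⁻¹ := by
      rw [h3]
      simp
    exact mul_left_cancel (mul_right_cancel h6)
  have h7 : rr R (j + j) = 1 := by
    rw [rr_add]
    exact Subtype.ext h5
  rw [← rr_zero R] at h7
  rcases two_zero S.hq S.hh (rr_injective R h7) with h8 | h8
  · exact hj.1 h8
  · exact hj.2 h8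

/-- **Orthogonality of the rows against the integer matrix.** -/
theorem perp_m {z : G} (hz : z = ((rr R (zt q h) : K) : G))
    {b : Set (IrrCharacter (Subgroup.centralizer ({z} : Set G)))} (hb : IsPBlock M b)
    {m₀ : B → B → ℤ} (hm : ∀ i j : B, (m₀ i j : ℂ) = mm 2 z b i j)
    {j : ZMod q} (hj : IsI q h j) (x : B) :
    ∑ y : B, pp R g y j * conj ((m₀ y x : ℤ) : ℂ) = 0 := by
  classical
  have h1 : ∀ y : B, pp R g y j * conj ((m₀ y x : ℤ) : ℂ) =
      ((2 ^ blockDefect 2 b : ℕ) : ℂ) * (Nat.card (Subgroup.centralizer ({z} : Set G)) : ℂ)⁻¹ *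
        ∑ c' : Subgroup.centralizer ({z} : Set G), PP 2 b (vt z x) c' * (pp R g y j * conj (PP 2 b (vt z y) c')) := by
    intro y
    rw [hm, mm, map_mul, Complex.conj_natCast, conj_classInner, classInner_def]
    simp only [Finset.mul_sum]
    refine Finset.sum_congr rfl fun c' _ => ?_
    ring
  simp_rw [h1]
  rw [← Finset.mul_sum, Finset.sum_comm]
  have h2 : ∀ c' : Subgroup.centralizer ({z} : Set G), ∑ y : B, PP 2 b (vt z x) c' * (pp R g y j * conj (PP 2 b (vt z y) c')) = 0 := by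
    intro c'
    rw [← Finset.mul_sum, perp_PP S hg hinj hr hθ h0 hz hb hj c', mul_zero]
  rw [Finset.sum_eq_zero fun c' _ => h2 c', mul_zero]

/-- **The package of the data at the central involution.** -/
structure GLD (h2 : 2 ∣ q) (R : Rot D' q h c) (g : IrrCharacter D' → IrrCharacter K) (z : G)
    (b : Set (IrrCharacter (Subgroup.centralizer ({z} : Set G))))
    (f : B → ZMod q → ℤ) (m₀ : B → B → ℤ) : Prop where
  hD : FData h2 c (fun (x : B) j => pp R g x j) f h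
  hm : ∀ i j : B, (m₀ i j : ℂ) = mm 2 z b i j
  hsym : ∀ i j, m₀ i j = m₀ j i
  hmul : ∀ i, ∑ j, m₀ i j * m₀ i j = 2 ^ blockDefect 2 B * m₀ i i
  htr : ∑ i, m₀ i i = 2 ^ blockDefect 2 B * blockRank 2 b
  hunit : ∀ i j : B, blockHeight 2 B ((i : IrrCharacter G) : G → ℂ) = 0 →
        (2 : ℤ) ^ blockHeight 2 B ((j : IrrCharacter G) : G → ℂ) ∣ m₀ i j ∧
        ¬ (2 : ℤ) ^ (blockHeight 2 B ((j : IrrCharacter G) : G → ℂ) + 1) ∣ m₀ i j
  hdvd : ∀ i j : B, 1 ≤ blockHeight 2 B ((i : IrrCharacter G) : G → ℂ) →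
        (2 : ℤ) ^ (blockHeight 2 B ((j : IrrCharacter G) : G → ℂ) + 1) ∣ m₀ i j
  hperp : ∀ j, IsI q h j → ∀ x : B, ∑ y : B, pp R g y j * conj ((m₀ y x : ℤ) : ℂ) = 0
  hlt : ∀ x, wW h2 (2 * h) (f x) < 2 * (2 * h)
  hval : ∀ j : B, (2 : ℤ) ^ blockHeight 2 B ((j : IrrCharacter G) : G → ℂ) ∣ aA h2 (f j) ∧
      ¬ (2 : ℤ) ^ (blockHeight 2 B ((j : IrrCharacter G) : G → ℂ) + 1) ∣ aA h2 (f j)
  hdq : 2 ^ blockDefect 2 B = 2 * q

/-- **The data at the central involution exist.** -/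
theorem exists_GLD (h2 : 2 ∣ q) {z : G} (hz : z = ((rr R (zt q h) : K) : G)) (hzo : orderOf z = 2 ^ 1)
    {b : Set (IrrCharacter (Subgroup.centralizer ({z} : Set G)))}
    (hb : IsInducedBlock M (Subgroup.centralizer ({z} : Set G)) b B) (hq : blockDefect 2 b = blockDefect 2 B)
    (hdq : 2 ^ blockDefect 2 B = 2 * q) :
    ∃ (f : B → ZMod q → ℤ) (m₀ : B → B → ℤ), GLD h2 R g z b f m₀ := by
  classical
  haveI := isPrime_of_pModular S.hM
  obtain ⟨f, hf⟩ := exists_f (B := B) (R := R) (g := g)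
  have hD := fdata S hg hinj hr hθ h0 h2 hf
  obtain ⟨m₀, hm, hsym, hmul, htr, hunit, hdvd⟩ := exists_int_matrix S.hM hzo S.hB hb hq
  have hperp : ∀ j, IsI q h j → ∀ x : B, ∑ y : B, pp R g y j * conj ((m₀ y x : ℤ) : ℂ) = 0 :=
    fun j hj x => perp_m S hg hinj hr hθ h0 hz hb.1 hm hj x
  obtain ⟨τ, hτ⟩ := Cfsg.Agent.Lib.Contrib.TwoMajor.exists_height_zero (p := 2) (isPBlock_nonempty S.hB)
  have hne : ∀ y, m₀ y τ ≠ 0 := by
    intro y h5
    rw [hsym] at h5
    apply (hunit τ y hτ).2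
    rw [h5]
    exact dvd_zero _
  have hlt : ∀ x, wW h2 (2 * h) (f x) < 2 * (2 * h) := fun x =>
    hD.wW_lt (fun y => ((m₀ y τ : ℤ) : ℂ)) (fun y => Int.cast_ne_zero.mpr (hne y)) (fun j hj => hperp j hj τ) x
  have hty := row_type hD hlt
  have hodd4 := card_odd hD fun x => (hty x).1
  have hodd : ∃ x, Odd (aA h2 (f x)) := by
    have h5 : (Finset.univ.filter fun x => Odd (aA h2 (f x))).Nonempty := by
      rw [← Finset.card_pos, hodd4]
      norm_num
    obtain ⟨x, hx⟩ := h5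
    exact ⟨x, (Finset.mem_filter.mp hx).2⟩
  have hval := fun j : B => val_a S hg hinj hr hθ h0 (fun x => aA h2 (f x)) (fun x => by
      have h5 := P_zt h2 S.hq S.hh (hD.hf x)
      rw [← h5]) hodd j
  exact ⟨f, m₀, hD, hm, hsym, hmul, htr, hunit, hdvd, hperp, hlt, hval, hdq⟩

end Cfsg.Agent.Lib.Tw.GL
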