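import Mathlib
import Cfsg.Agent.Lib.Tw.GL

/-!
# The rows of a block: consequences
-/

set_option linter.unusedSectionVars false
set_option linter.style.haveILetI false
set_option autoImplicit false

namespace Cfsg.Agent.Lib.Tw.GL2

open Cfsg MonoidAlgebra
open Cfsg.Agent.Lib.Blocks.Local Cfsg.Agent.Lib.Blocks.Central Cfsg.Agent.Lib.Blocks.Main
open Cfsg.Agent.Lib.BlockH.Regular Cfsg.Agent.Lib.BlockP.Defect
open Cfsg.Agent.Lib.BP.StarDefs
open Cfsg.Agent.Lib.Char.Basic Cfsg.Agent.Lib.Char.Complete Cfsg.Agent.Lib.Char.Ortho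
open Cfsg.Agent.Lib.Contrib.Proj Cfsg.Agent.Lib.Contrib.Sec
open Cfsg.Agent.Lib.Dih.Fou
open Cfsg.Agent.Lib.Dih.Top (resF)
open Cfsg.Agent.Lib.Tw.Row Cfsg.Agent.Lib.Tw.Fou Cfsg.Agent.Lib.Tw.Cnt Cfsg.Agent.Lib.Tw.Grp Cfsg.Agent.Lib.Tw.Top
open Cfsg.Agent.Lib.Tw.GL
open scoped ComplexConjugate

universe u

variable {G : Type u} [Group G] [Fintype G] [Fintype (IrrCharacter G)] {M : Ideal AlgInt}
  [Fact (Nat.Prime 2)] {B : Set (IrrCharacter G)} {K : Subgroup G}

attribute [local instance] fK fIrr fBl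

variable {D' : Subgroup K} {q h m : ℕ} [NeZero q] {c : ZMod q} {R : Rot D' q h c}
  {g : IrrCharacter D' → IrrCharacter K} [Fintype B] {h2 : 2 ∣ q} {z : G}
  {b : Set (IrrCharacter (Subgroup.centralizer ({z} : Set G)))} {f : B → ZMod q → ℤ} {m₀ : B → B → ℤ}

local notation "ht'" x => blockHeight 2 B (((x : B) : IrrCharacter G) : G → ℂ)

variable (L : GLD h2 R g z b f m₀)

include L

theorem hd3 : 3 ≤ blockDefect 2 B ∧ 2 * h = 2 ^ (blockDefect 2 B - 2) := by
  have h1 := L.hdq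
  have hq := L.hD.hq
  have hh := L.hD.hh
  have h3 : 2 ^ blockDefect 2 B = 8 * h := by omega
  have h4 : 2 ^ 3 ∣ 2 ^ blockDefect 2 B := ⟨h, by rw [h3]; norm_num⟩
  have h5 : 3 ≤ blockDefect 2 B := (Nat.pow_dvd_pow_iff_le_right (by norm_num)).mp h4
  refine ⟨h5, ?_⟩
  obtain ⟨t, ht⟩ : ∃ t, blockDefect 2 B = t + 2 := ⟨blockDefect 2 B - 2, by omega⟩
  rw [ht] at h3 ⊢
  simp only [Nat.add_sub_cancel]
  have h6 : 2 ^ (t + 2) = 4 * 2 ^ t := by ring
  omega

theorem ht_zero_iff (x : B) : (ht' x) = 0 ↔ Odd (aA h2 (f x)) := by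
  have h1 := L.hval x
  constructor
  · intro h5
    rw [h5] at h1
    rw [← Int.not_even_iff_odd, even_iff_two_dvd]
    simpa using h1.2
  · intro h5
    by_contra h6
    have h7 : (2 : ℤ) ∣ aA h2 (f x) := (dvd_pow_self (2 : ℤ) h6).trans h1.1
    exact (Int.not_even_iff_odd.mpr h5) (even_iff_two_dvd.mpr h7)

theorem m_ne {i j : B} (hi : (ht' i) = 0) : m₀ i j ≠ 0 := by
  intro h5
  apply (L.hunit i j hi).2
  rw [h5]
  exact dvd_zero _

theorem exists_tau (hB : B.Nonempty) : ∃ τ : B, (ht' τ) = 0 :=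
  Cfsg.Agent.Lib.Contrib.TwoMajor.exists_height_zero (p := 2) hB

theorem single_sq (i j : B) : m₀ i j * m₀ i j ≤ 2 ^ blockDefect 2 B * m₀ i i := by
  rw [← L.hmul i]
  exact Finset.single_le_sum (f := fun j => m₀ i j * m₀ i j) (fun j _ => mul_self_nonneg _) (Finset.mem_univ j)

theorem two_sq {i j j' : B} (hjj : j ≠ j') : m₀ i j * m₀ i j + m₀ i j' * m₀ i j' ≤ 2 ^ blockDefect 2 B * m₀ i i := by
  classical
  rw [← L.hmul i, ← Finset.add_sum_erase _ _ (Finset.mem_univ j)]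
  have h1 : m₀ i j' * m₀ i j' ≤ ∑ x ∈ Finset.univ.erase j, m₀ i x * m₀ i x :=
    Finset.single_le_sum (f := fun j => m₀ i j * m₀ i j) (fun j _ => mul_self_nonneg _)
      (Finset.mem_erase.mpr ⟨hjj.symm, Finset.mem_univ _⟩)
  linarith

theorem m_pos (hB : B.Nonempty) (i : B) : 0 < m₀ i i := by
  obtain ⟨τ, hτ⟩ := exists_tau L hB
  have h1 := single_sq L i τ
  have h3 : m₀ i τ ≠ 0 := by
    rw [L.hsym]
    exact m_ne L hτ
  have h4 : 0 < m₀ i τ * m₀ i τ := mul_self_pos.mpr h3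
  have h5 : (0 : ℤ) < 2 ^ blockDefect 2 B := by positivity
  by_contra h6
  push Not at h6
  nlinarith

theorem m_le (hB : B.Nonempty) (i : B) : m₀ i i ≤ 2 ^ blockDefect 2 B := by
  have h1 := single_sq L i i
  have h2 := m_pos L hB i
  exact le_of_mul_le_mul_right (by linarith) h2

theorem m_lt (hB : B.Nonempty) {i : B} (hi : 1 ≤ (ht' i)) : m₀ i i < 2 ^ blockDefect 2 B := by
  refine lt_of_le_of_ne (m_le L hB i) fun heq => ?_
  obtain ⟨τ, hτ⟩ := exists_tau L hB
  have hne : i ≠ τ := by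
    rintro rfl
    omega
  have h1 := two_sq L (i := i) hne
  rw [heq] at h1
  have h3 : m₀ i τ ≠ 0 := by
    rw [L.hsym]
    exact m_ne L hτ
  have h4 : 0 < m₀ i τ * m₀ i τ := mul_self_pos.mpr h3
  have h5 : (0 : ℤ) < 2 ^ blockDefect 2 B := by positivity
  nlinarith

/-- **Bessel's inequality for the matrix.** -/
theorem m_add_le (hB : B.Nonempty) (x : B) : m₀ x x + 2 * wW h2 (2 * h) (f x) ≤ 2 * q := by
  classical
  have h1 := L.hD.bessel (fun y => ((m₀ y x : ℤ) : ℂ)) (fun j hj => L.hperp j hj x) x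
  have hnorm : ∀ y, ‖((m₀ y x : ℤ) : ℂ)‖ ^ 2 = ((m₀ x y * m₀ x y : ℤ) : ℝ) := by
    intro y
    rw [Complex.norm_intCast, sq_abs, L.hsym y x]
    push_cast
    ring
  simp only [hnorm] at h1
  rw [← Int.cast_sum, L.hmul x] at h1
  have hq0 : (0 : ℝ) < q := by
    have := NeZero.ne q
    positivity
  have hp := m_pos L hB x
  have hp' : (0 : ℝ) < ((m₀ x x : ℤ) : ℝ) := by exact_mod_cast hp
  have hdq : (2 : ℝ) ^ blockDefect 2 B = 2 * q := by exact_mod_cast L.hdq
  push_cast at h1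
  rw [hdq] at h1
  have h3 : ((m₀ x x : ℤ) : ℝ) * ((m₀ x x : ℤ) : ℝ) ≤ ((m₀ x x : ℤ) : ℝ) * (2 * q - 2 * (wW h2 (2 * h) (f x) : ℝ)) := by
    have h4 : (2 * (q : ℝ) * ((m₀ x x : ℤ) : ℝ)) * (1 - (wW h2 (2 * h) (f x) : ℝ) / q) =
        ((m₀ x x : ℤ) : ℝ) * (2 * q - 2 * (wW h2 (2 * h) (f x) : ℝ)) := by
      field_simp
    rw [← h4]
    linarith
  have h5 := le_of_mul_le_mul_left h3 hp'
  have h6 : (((m₀ x x + 2 * wW h2 (2 * h) (f x) : ℤ)) : ℝ) ≤ ((2 * q : ℤ) : ℝ) := by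
    push_cast
    linarith
  exact_mod_cast h6

/-- The rows with `W = 0`. -/
theorem zero_row (hB : B.Nonempty) {x : B} (hx : wW h2 (2 * h) (f x) = 0) :
    (ht' x) = blockDefect 2 B - 2 ∧ m₀ x x = 2 ^ (blockDefect 2 B - 1) := by
  obtain ⟨hd, hNd⟩ := hd3 L
  have hhh := L.hD.hh
  have hdv : (2 : ℤ) ^ (blockDefect 2 B - 2) ∣ aA h2 (f x) := by
    rcases (row_type L.hD L.hlt x).2 with ⟨-, h5⟩ | ⟨h5, -⟩ | ⟨h6, h5, -⟩ | ⟨-, h5, -⟩
    · rw [hNd] at h5
      exact_mod_cast h5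
    · omega
    · omega
    · omega
  have hval := L.hval x
  have h1 : blockDefect 2 B - 2 ≤ (ht' x) := by
    by_contra h5
    push Not at h5
    exact hval.2 ((pow_dvd_pow (2 : ℤ) h5).trans hdv)
  have h1' : 1 ≤ (ht' x) := by omega
  obtain ⟨t, ht⟩ := L.hdvd x x h1'
  have hp := m_pos L hB x
  have hl := m_lt L hB h1'
  have hle : (ht' x) + 1 < blockDefect 2 B := by
    by_contra h5
    push Not at h5
    have h6 : (2 : ℤ) ^ blockDefect 2 B ≤ 2 ^ ((ht' x) + 1) := pow_le_pow_right₀ (by norm_num) h5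
    rw [ht] at hl hp
    have h7 : 0 < t := (pos_iff_pos_of_mul_pos hp).mp (by positivity)
    have h8 : (2 : ℤ) ^ ((ht' x) + 1) ≤ 2 ^ ((ht' x) + 1) * t := le_mul_of_one_le_right (by positivity) (by omega)
    linarith
  have heq : (ht' x) = blockDefect 2 B - 2 := by omega
  refine ⟨heq, ?_⟩
  rw [heq, show blockDefect 2 B - 2 + 1 = blockDefect 2 B - 1 by omega] at ht
  rw [ht] at hp hl ⊢
  have h7 : 0 < t := (pos_iff_pos_of_mul_pos hp).mp (by positivity)
  have h8 : (2 : ℤ) ^ blockDefect 2 B = 2 ^ (blockDefect 2 B - 1) * 2 := by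
    rw [← pow_succ]
    congr 1
    omega
  rw [h8] at hl
  have h9 : t < 2 := lt_of_mul_lt_mul_left hl (by positivity)
  have h10 : t = 1 := by omega
  rw [h10, mul_one]

/-- Orthogonality of the rows with `W = 0`. -/
theorem zero_orth (hB : B.Nonempty) {x y : B} (hx : wW h2 (2 * h) (f x) = 0) (hy : wW h2 (2 * h) (f y) = 0)
    (hxy : x ≠ y) : m₀ x y = 0 := by
  classical
  obtain ⟨hd, hNd⟩ := hd3 L
  obtain ⟨h1, h3⟩ := zero_row L hB hx
  obtain ⟨h4, -⟩ := zero_row L hB hy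
  obtain ⟨τ, hτ⟩ := exists_tau L hB
  have hne1 : τ ≠ x := by
    rintro rfl
    omega
  have hne2 : τ ≠ y := by
    rintro rfl
    omega
  have h1' : 1 ≤ (ht' x) := by omega
  obtain ⟨t, ht⟩ := L.hdvd x y h1'
  rw [h4, show blockDefect 2 B - 2 + 1 = blockDefect 2 B - 1 by omega] at ht
  by_contra h0
  have ht0 : t ≠ 0 := by
    rintro rfl
    rw [mul_zero] at ht
    exact h0 ht
  -- three terms of the row
  have hsum := L.hmul x
  rw [h3] at hsum
  have hsub : m₀ x x * m₀ x x + (m₀ x y * m₀ x y + m₀ x τ * m₀ x τ) ≤ ∑ j, m₀ x j * m₀ x j := by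
    rw [← Finset.add_sum_erase _ _ (Finset.mem_univ x), ← Finset.add_sum_erase _ _ (Finset.mem_erase.mpr ⟨hxy.symm, Finset.mem_univ y⟩)]
    have h5 : m₀ x τ * m₀ x τ ≤ ∑ j ∈ (Finset.univ.erase x).erase y, m₀ x j * m₀ x j :=
      Finset.single_le_sum (f := fun j => m₀ x j * m₀ x j) (fun j _ => mul_self_nonneg _)
        (Finset.mem_erase.mpr ⟨hne2, Finset.mem_erase.mpr ⟨hne1, Finset.mem_univ _⟩⟩)
    linarith
  rw [h3, hsum, ht] at hsub
  have h5 : m₀ x τ ≠ 0 := by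
    rw [L.hsym]
    exact m_ne L hτ
  have h6 : 0 < m₀ x τ * m₀ x τ := mul_self_pos.mpr h5
  have h7 : (1 : ℤ) ≤ t * t := by
    have : 0 < t * t := mul_self_pos.mpr ht0
    omega
  set P : ℤ := 2 ^ (blockDefect 2 B - 1) with hP
  have hP0 : 0 < P := by positivity
  have h8 : (2 : ℤ) ^ blockDefect 2 B = 2 * P := by
    rw [hP, ← pow_succ']
    congr 1
    omega
  rw [h8] at hsub
  have h9 : P * P * 1 ≤ P * P * (t * t) := mul_le_mul_of_nonneg_left h7 (by positivity)
  nlinarith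

/-- The rows of the even non-zero type have height one. -/
theorem S_row {x : B} (hx : ¬ Odd (aA h2 (f x))) (hW : wW h2 (2 * h) (f x) ≠ 0) : (ht' x) = 1 := by
  have h1 : (2 : ℤ) ∣ aA h2 (f x) - 2 ∧ ¬ (4 : ℤ) ∣ aA h2 (f x) := by
    rcases (row_type L.hD L.hlt x).2 with ⟨h5, -⟩ | ⟨-, h5⟩ | ⟨-, -, -, t, ht⟩ | ⟨-, -, h5⟩
    · exact absurd h5 hW
    · exact absurd h5 hx
    · constructor
      · exact ⟨2 * t, by rw [ht]; ring⟩
      · rintro ⟨u, hu⟩
        omega
    · exact absurd h5 hx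
  have hval := L.hval x
  have h3 : (ht' x) ≠ 0 := fun h5 => hx ((ht_zero_iff L x).mp h5)
  by_contra h5
  have h6 : 2 ≤ (ht' x) := by omega
  exact h1.2 ((pow_dvd_pow (2 : ℤ) h6).trans hval.1)

/-- Rows of the exotic type exclude rows with `W = 0`. -/
theorem T3_Z (hB : B.Nonempty) {x y : B} (hx : wW h2 (2 * h) (f x) = 2 * (2 * h) - 1)
    (hy : wW h2 (2 * h) (f y) = 0) : False := by
  have hhh := L.hD.hh
  have hq := L.hD.hq
  have h1 : (h = 2 ∨ h = 4) ∧ Odd (aA h2 (f x)) := by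
    rcases (row_type L.hD L.hlt x).2 with ⟨h5, -⟩ | ⟨h5, -⟩ | ⟨h6, h5, -⟩ | ⟨h6, -, h5⟩
    · omega
    · omega
    · omega
    · exact ⟨h6, h5⟩
  have hx0 : (ht' x) = 0 := (ht_zero_iff L x).mpr h1.2
  have hle := m_add_le L hB x
  rw [hx] at hle
  have hq' : (q : ℤ) = 4 * h := by exact_mod_cast hq
  rw [hq'] at hle
  have hp := m_pos L hB x
  have hodd : ¬ (2 : ℤ) ∣ m₀ x x := by
    have := (L.hunit x x hx0).2
    rw [hx0] at this
    simpa using this
  have h3 : m₀ x x = 1 := by omega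
  have hxy : x ≠ y := by
    rintro rfl
    have h9 := row_type L.hD L.hlt x
    omega
  have h4 := two_sq L (i := x) hxy
  rw [h3] at h4
  obtain ⟨h5, -⟩ := zero_row L hB hy
  obtain ⟨t, ht⟩ := (L.hunit x y hx0).1
  rw [h5] at ht
  have ht0 : t ≠ 0 := by
    rintro rfl
    rw [mul_zero] at ht
    exact m_ne L hx0 ht
  obtain ⟨-, hNd⟩ := hd3 L
  have hNd' : (2 : ℤ) ^ (blockDefect 2 B - 2) = 2 * h := by exact_mod_cast hNd.symm
  have hdq : (2 : ℤ) ^ blockDefect 2 B = 2 * q := by exact_mod_cast L.hdq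
  rw [ht, hNd', hdq, hq'] at h4
  have h7 : (1 : ℤ) ≤ t * t := by
    have : 0 < t * t := mul_self_pos.mpr ht0
    omega
  have hh' : (h : ℤ) = 2 ∨ (h : ℤ) = 4 := by
    rcases h1.1 with h8 | h8 <;> rw [h8] <;> simp
  rcases hh' with h8 | h8 <;> rw [h8] at h4 <;> nlinarith

/-- The functions of the section lie in the space of the block. -/
theorem PP_mem_span (φ : Subgroup.centralizer ({z} : Set G) → ℂ) :
    PP 2 b φ ∈ Submodule.span ℂ ((fun χ : IrrCharacter (Subgroup.centralizer ({z} : Set G)) =>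
      Cfsg.pRegularPart 2 (χ : _ → ℂ)) '' b) := by
  classical
  have h1 : PP 2 b φ = ∑ ξ : IrrCharacter (Subgroup.centralizer ({z} : Set G)),
      if ξ ∈ b then classInner φ (ξ : _ → ℂ) • Cfsg.pRegularPart 2 (ξ : _ → ℂ) else 0 := by
    funext y
    rw [PP_apply, Finset.sum_apply]
    refine Finset.sum_congr rfl fun ξ _ => ?_
    split_ifs <;> simp
  rw [h1]
  refine Submodule.sum_mem _ fun ξ _ => ?_
  split_ifs with h3
  · exact Submodule.smul_mem _ _ (Submodule.subset_span ⟨ξ, h3, rfl⟩)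
  · exact Submodule.zero_mem _

/-- The pairing of a combination of the functions of the section. -/
theorem pairing {ι : Type*} [Fintype ι] (v : ι → B) (a : ι → ℂ)
    (hs : ∑ i, a i • PP 2 b (vt z (v i : IrrCharacter G)) = 0) (w : B) :
    ∑ i, a i * (m₀ (v i) w : ℂ) = 0 := by
  have hP : ((2 ^ blockDefect 2 b : ℕ) : ℂ) ≠ 0 := Nat.cast_ne_zero.mpr (by positivity)
  have h1 : ∑ i, a i * classInner (PP 2 b (vt z (v i : IrrCharacter G))) (PP 2 b (vt z (w : IrrCharacter G))) = 0 := by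
    rw [← classInner_linear]
    have h3 : (fun y => ∑ i, a i * PP 2 b (vt z (v i : IrrCharacter G)) y) = fun _ => 0 := by
      funext y
      have h4 := congrFun hs y
      simpa [Finset.sum_apply] using h4
    rw [h3, classInner_def]
    simp
  have h5 : ∀ i, a i * (m₀ (v i) w : ℂ) = ((2 ^ blockDefect 2 b : ℕ) : ℂ) *
      (a i * classInner (PP 2 b (vt z (v i : IrrCharacter G))) (PP 2 b (vt z (w : IrrCharacter G)))) := by
    intro i
    rw [L.hm, mm]
    ring
  simp_rw [h5]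
  rw [← Finset.mul_sum, h1, mul_zero]

omit L in
/-- A linearly independent family in the space of the block. -/
theorem card_le_rank {ι : Type*} [Fintype ι] (v : ι → (Subgroup.centralizer ({z} : Set G) → ℂ))
    (hv : LinearIndependent ℂ v)
    (hs : ∀ i, v i ∈ Submodule.span ℂ ((fun χ : IrrCharacter (Subgroup.centralizer ({z} : Set G)) =>
      Cfsg.pRegularPart 2 (χ : _ → ℂ)) '' b)) : Fintype.card ι ≤ blockRank 2 b := by
  have h2 := finrank_span_eq_card hv
  rw [← h2]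
  refine Submodule.finrank_mono ?_
  rw [Submodule.span_le]
  rintro _ ⟨i, rfl⟩
  exact hs i

/-- **The rows with `W = 0` give independent functions.** -/
theorem rank_ge (hB : B.Nonempty) (Z : Finset B) (hZ : ∀ x ∈ Z, wW h2 (2 * h) (f x) = 0) :
    Z.card ≤ blockRank 2 b ∧ (4 ≤ blockDefect 2 B → Z.card + 1 ≤ blockRank 2 b) := by
  classical
  have hmm : ∀ x ∈ Z, ∀ y ∈ Z, (m₀ y x : ℂ) = if y = x then ((2 ^ (blockDefect 2 B - 1) : ℤ) : ℂ) else 0 := by
    intro x hx y hy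
    by_cases hxy : y = x
    · rw [if_pos hxy, hxy, (zero_row L hB (hZ x hx)).2]
    · rw [if_neg hxy, zero_orth L hB (hZ y hy) (hZ x hx) hxy]
      simp
  have hP0 : ((2 ^ (blockDefect 2 B - 1) : ℤ) : ℂ) ≠ 0 := Int.cast_ne_zero.mpr (by positivity)
  have hsub : ∀ (a : B → ℂ) (x : B), x ∈ Z → ∑ y : ↥Z, a y * (m₀ (y : B) x : ℂ) = a x * ((2 ^ (blockDefect 2 B - 1) : ℤ) : ℂ) := by
    intro a x hx
    rw [Finset.sum_eq_single (⟨x, hx⟩ : ↥Z)]
    · rw [hmm x hx x hx, if_pos rfl]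
    · intro y _ hy
      rw [hmm x hx y y.2, if_neg (fun h5 => hy (Subtype.ext h5)), mul_zero]
    · simp
  constructor
  · let v : ↥Z → B := fun x => x
    have hli : LinearIndependent ℂ (fun i : ↥Z => PP 2 b (vt z (v i : IrrCharacter G))) := by
      rw [Fintype.linearIndependent_iff]
      intro a ha i
      have h1 := pairing L v a ha i
      let a' : B → ℂ := fun x => if hx : x ∈ Z then a ⟨x, hx⟩ else 0
      have h3 : ∑ y : ↥Z, a' y * (m₀ (y : B) i : ℂ) = a' i * ((2 ^ (blockDefect 2 B - 1) : ℤ) : ℂ) := hsub a' i i.2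
      have h4 : ∀ y : ↥Z, a' y = a y := fun y => by
        simp only [a', dif_pos y.2]
      simp_rw [h4] at h3
      have h5 : a i * ((2 ^ (blockDefect 2 B - 1) : ℤ) : ℂ) = 0 := by
        rw [← h3]
        exact h1
      exact (mul_eq_zero.mp h5).resolve_right hP0
    have := card_le_rank _ hli (fun i => PP_mem_span L _)
    simpa using this
  · intro hd4
    obtain ⟨τ, hτ⟩ := exists_tau L hB
    let v : Option ↥Z → B := fun i => i.elim τ (fun x => (x : B))
    have hA : 2 ^ (blockDefect 2 B - 1) * m₀ τ τ - ∑ y : ↥Z, m₀ τ y * m₀ (y : B) τ ≠ 0 := by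
      intro hA0
      have hdvd : (2 : ℤ) ^ blockDefect 2 B ∣ ∑ y : ↥Z, m₀ τ y * m₀ (y : B) τ := by
        refine Finset.dvd_sum fun y _ => ?_
        have h5 := (L.hunit τ y hτ).1
        rw [(zero_row L hB (hZ y y.2)).1] at h5
        obtain ⟨t, ht⟩ := h5
        rw [L.hsym (y : B) τ, ht]
        refine ⟨2 ^ (blockDefect 2 B - 4) * t * t, ?_⟩
        have h6 : (2 : ℤ) ^ blockDefect 2 B = 2 ^ (blockDefect 2 B - 4) * 2 ^ 4 := by
          rw [← pow_add]
          congr 1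
          omega
        have h7 : (2 : ℤ) ^ (blockDefect 2 B - 2) * 2 ^ (blockDefect 2 B - 2) = 2 ^ blockDefect 2 B * 2 ^ (blockDefect 2 B - 4) := by
          rw [← pow_add, ← pow_add]
          congr 1
          omega
        calc (2 : ℤ) ^ (blockDefect 2 B - 2) * t * (2 ^ (blockDefect 2 B - 2) * t)
            = ((2 : ℤ) ^ (blockDefect 2 B - 2) * 2 ^ (blockDefect 2 B - 2)) * (t * t) := by ring
          _ = _ := by rw [h7]; ring
      rw [sub_eq_zero] at hA0
      rw [← hA0] at hdvd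
      have h8 : (2 : ℤ) ^ blockDefect 2 B = 2 ^ (blockDefect 2 B - 1) * 2 := by
        rw [← pow_succ]
        congr 1
        omega
      rw [h8] at hdvd
      have h9 := (mul_dvd_mul_iff_left (by positivity : (2 : ℤ) ^ (blockDefect 2 B - 1) ≠ 0)).mp hdvd
      have h10 := (L.hunit τ τ hτ).2
      rw [hτ] at h10
      exact h10 (by simpa using h9)
    have hli : LinearIndependent ℂ (fun i : Option ↥Z => PP 2 b (vt z (v i : IrrCharacter G))) := by
      rw [Fintype.linearIndependent_iff]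
      intro a ha
      have hpair : ∀ w : B, a none * (m₀ τ w : ℂ) + ∑ y : ↥Z, a (some y) * (m₀ (y : B) w : ℂ) = 0 := by
        intro w
        have h1 := pairing L v a ha w
        rw [Fintype.sum_option] at h1
        exact h1
      let a' : B → ℂ := fun x => if hx : x ∈ Z then a (some ⟨x, hx⟩) else 0
      have h4 : ∀ y : ↥Z, a' y = a (some y) := fun y => by
        simp only [a', dif_pos y.2]
      have h5 : ∀ x : ↥Z, a (some x) * ((2 ^ (blockDefect 2 B - 1) : ℤ) : ℂ) = - (a none * (m₀ τ x : ℂ)) := by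
        intro x
        have h3 := hsub a' x x.2
        simp_rw [h4] at h3
        have h6 := hpair x
        rw [h3] at h6
        linear_combination h6
      have h6 := hpair τ
      have h7 : a none * ((2 ^ (blockDefect 2 B - 1) * m₀ τ τ - ∑ y : ↥Z, m₀ τ y * m₀ (y : B) τ : ℤ) : ℂ) = 0 := by
        push_cast
        have h8 : ∑ y : ↥Z, (a (some y) * ((2 ^ (blockDefect 2 B - 1) : ℤ) : ℂ)) * (m₀ (y : B) τ : ℂ) =
            ((2 ^ (blockDefect 2 B - 1) : ℤ) : ℂ) * ∑ y : ↥Z, a (some y) * (m₀ (y : B) τ : ℂ) := by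
          rw [Finset.mul_sum]
          refine Finset.sum_congr rfl fun y _ => ?_
          ring
        simp_rw [h5] at h8
        have h9 : ∑ y : ↥Z, a (some y) * (m₀ (y : B) τ : ℂ) = - (a none * (m₀ τ τ : ℂ)) := by
          linear_combination h6
        rw [h9] at h8
        push_cast at h8
        have h10 : ∑ y : ↥Z, -(a none * (m₀ τ y : ℂ)) * (m₀ (y : B) τ : ℂ) =
            - (a none * ∑ y : ↥Z, (m₀ τ y : ℂ) * (m₀ (y : B) τ : ℂ)) := by
          rw [Finset.mul_sum, ← Finset.sum_neg_distrib]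
          refine Finset.sum_congr rfl fun y _ => ?_
          ring
        rw [h10] at h8
        linear_combination h8
      have h10 : a none = 0 := (mul_eq_zero.mp h7).resolve_right (Int.cast_ne_zero.mpr hA)
      rintro (_ | x)
      · exact h10
      · have h11 := h5 x
        rw [h10, zero_mul, neg_zero] at h11
        exact (mul_eq_zero.mp h11).resolve_right hP0
    have := card_le_rank _ hli (fun i => PP_mem_span L _)
    simpa using this

end Cfsg.Agent.Lib.Tw.GL2
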