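import Mathlib
import Cfsg.Agent.Lib.Tw.GL2

/-!
# Blocks with a central involution in the cyclic subgroup
-/

set_option linter.unusedSectionVars false
set_option linter.style.haveILetI false
set_option autoImplicit false

namespace Cfsg.Agent.Lib.Tw.CL

open Cfsg MonoidAlgebra
open Cfsg.Agent.Lib.Blocks.Local Cfsg.Agent.Lib.Blocks.Central Cfsg.Agent.Lib.Blocks.Main
open Cfsg.Agent.Lib.BlockH.Regular Cfsg.Agent.Lib.BlockP.Defect
open Cfsg.Agent.Lib.BP.StarDefs Cfsg.Agent.Lib.BP.Star1 Cfsg.Agent.Lib.BP.Star2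
open Cfsg.Agent.Lib.BlockH.Subpair
open Cfsg.Agent.Lib.Char.Basic Cfsg.Agent.Lib.Char.Complete Cfsg.Agent.Lib.Char.Ortho
open Cfsg.Agent.Lib.Contrib.Proj Cfsg.Agent.Lib.Contrib.Sec
open Cfsg.Agent.Lib.Dih.Fou
open Cfsg.Agent.Lib.Dih.Top (resF isCharacter_resF isClass_resF reg_one')
open Cfsg.Agent.Lib.Tw.Row Cfsg.Agent.Lib.Tw.Fou Cfsg.Agent.Lib.Tw.Cnt Cfsg.Agent.Lib.Tw.Grp Cfsg.Agent.Lib.Tw.Top
open Cfsg.Agent.Lib.Tw.Mat Cfsg.Agent.Lib.Tw.LemA Cfsg.Agent.Lib.Tw.GL
open scoped ComplexConjugate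

universe u

section Abs

variable {q h : ℕ} [NeZero q] {ι : Type*} [Fintype ι] [DecidableEq ι] {h2 : 2 ∣ q} {c : ZMod q}
  {P : ι → ZMod q → ℂ} {f : ι → ZMod q → ℤ}

/-- The twisted columns. -/
theorem card_twisted (hq : q = 4 * h) (hh : 1 ≤ h)
    (hfix : ∀ m : ZMod q, c * m = m → m = 0 ∨ m = zt q h) (hcz : c * zt q h = zt q h)
    (hcw : c * ht q h = - ht q h) :
    ((Ii q h).filter fun j => j + zt q h = c * j).card = 2 := by
  have hzz := zt_add_zt (h := h) hq
  have hz0 := zt_ne (h := h) hq hh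
  have hhh := ht_add_ht (q := q) (h := h)
  have hh0 := ht_ne (h := h) hq hh
  have hhz : ht q h ≠ zt q h := by
    intro h1
    apply hz0
    rw [h1] at hhh
    rw [← hzz, hhh]
  have h1 : (Ii q h).filter (fun j => j + zt q h = c * j) = {ht q h, ht q h + zt q h} := by
    ext j
    simp only [Finset.mem_filter, mem_Ii, Finset.mem_insert, Finset.mem_singleton]
    constructor
    · rintro ⟨-, h3⟩
      have h4 : c * (j - ht q h) = j - ht q h := by
        rw [mul_sub, ← h3, hcw]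
        linear_combination hzz + hhh
      rcases hfix _ h4 with h5 | h5
      · left
        linear_combination h5
      · right
        linear_combination h5
    · rintro (rfl | rfl)
      · refine ⟨⟨hh0, hhz⟩, ?_⟩
        rw [hcw]
        linear_combination hzz + hhh
      · refine ⟨⟨fun h3 => hhz ?_, fun h3 => hh0 ?_⟩, ?_⟩
        · linear_combination h3 - hzz
        · linear_combination h3
        · rw [mul_add, hcw, hcz]
          linear_combination hzz + hhh
  rw [h1, Finset.card_pair]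
  intro h3
  apply hz0
  linear_combination -h3

variable (D : FData h2 c P f h) {κ : ι → ℤ} (hκ : ∀ x, κ x = 1 ∨ κ x = -1)
  (hsh : ∀ x j, P x (j + zt q h) = (κ x : ℂ) * P x j)

include D hκ hsh

/-- The twisted sum of the numbers `W`. -/
theorem sum_kappa_wW (hcw : c * ht q h = - ht q h) :
    ∑ x, κ x * wW h2 (2 * h) (f x) = q := by
  classical
  have hzz := zt_add_zt (h := h) D.hq
  have hz0 := zt_ne (h := h) D.hq D.hh
  have hI : ∀ j, IsI q h j → IsI q h (j + zt q h) := by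
    intro j hj
    refine ⟨fun h3 => hj.2 ?_, fun h3 => hj.1 ?_⟩
    · linear_combination h3 - hzz
    · linear_combination h3
  have h1 : ∑ j ∈ Ii q h, ∑ x, P x j * conj (P x (j + zt q h)) = 2 * (q : ℂ) := by
    have h3 : ∀ j ∈ Ii q h, ∑ x, P x j * conj (P x (j + zt q h)) =
        (q : ℂ) * (if j + zt q h = c * j then 1 else 0) := by
      intro j hj
      have hj' := mem_Ii.mp hj
      rw [D.hR j _ hj' (hI j hj'), if_neg, zero_add]
      intro h4
      apply hz0
      linear_combination h4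
    rw [Finset.sum_congr rfl h3, ← Finset.mul_sum, ← Finset.sum_filter, Finset.sum_const, nsmul_eq_mul,
      card_twisted D.hq D.hh D.hfix D.hcz hcw]
    push_cast
    ring
  have h3 : ∑ j ∈ Ii q h, ∑ x, P x j * conj (P x (j + zt q h)) = ∑ x, (κ x : ℂ) * (2 * (wW h2 (2 * h) (f x) : ℂ)) := by
    rw [Finset.sum_comm]
    refine Finset.sum_congr rfl fun x _ => ?_
    rw [← D.sum_I_row x, Finset.mul_sum]
    refine Finset.sum_congr rfl fun j _ => ?_
    rw [hsh, map_mul, map_intCast]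
    ring
  rw [h3] at h1
  have h4 : ((∑ x, κ x * wW h2 (2 * h) (f x) : ℤ) : ℂ) = ((q : ℤ) : ℂ) := by
    push_cast
    have h5 : ∑ x, (κ x : ℂ) * (2 * (wW h2 (2 * h) (f x) : ℂ)) = 2 * ∑ x, (κ x : ℂ) * (wW h2 (2 * h) (f x) : ℂ) := by
      rw [Finset.mul_sum]
      refine Finset.sum_congr rfl fun x _ => ?_
      ring
    rw [h5] at h1
    exact mul_left_cancel₀ two_ne_zero h1
  exact_mod_cast h4

/-- A row with `κ = -1` has an even number `a`. -/
theorem not_odd {x : ι} (hx : κ x = -1) : ¬ Odd (aA h2 (f x)) := by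
  classical
  have h1 := hsh x 0
  rw [zero_add, P_zt h2 D.hq D.hh (D.hf x), P_zero h2 (D.hf x), hx] at h1
  have h3 : aA h2 (f x) = -(∑ m ∈ evS h2, f x m + ∑ m ∈ odS h2, f x m) := by
    have : ((aA h2 (f x) : ℤ) : ℂ) = ((-(∑ m ∈ evS h2, f x m + ∑ m ∈ odS h2, f x m) : ℤ) : ℂ) := by
      rw [h1]
      push_cast
      ring
    exact_mod_cast this
  have h4 : aA h2 (f x) = -∑ m ∈ odS h2, f x m := by
    rw [aA] at h3 ⊢
    linarith
  have h5 : (2 : ℤ) ∣ ∑ m ∈ odS h2, f x m := by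
    have hcp : par h2 c = 1 := D.hcpar
    refine two_dvd_sum (fun m => c * m) ?_ ?_ ?_ _ (fun m _ => D.f_c x m)
    · intro m hm
      rw [mem_odS] at hm ⊢
      rw [par_mul, hcp, hm]
      rfl
    · intro m _
      rw [← mul_assoc, D.hcc, one_mul]
    · intro m hm h6
      rw [mem_odS] at hm
      rcases D.hfix m h6 with h7 | h7
      · rw [h7, par_zero] at hm
        exact zero_ne_one hm
      · rw [h7, par_zt] at hm
        exact zero_ne_one hm
  rw [h4]
  rw [odd_neg, ← Int.not_even_iff_odd, not_not]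
  exact even_iff_two_dvd.mpr h5

variable (E : ι → ι → ℂ) (hher : ∀ x y, conj (E x y) = E y x)
  (hid : ∀ x w, ∑ y, E x y * E y w = E x w)
  (hS : ∀ x w, ∑ y, E x y * (κ y : ℂ) * E y w = 0)
  (hperp : ∀ j, IsI q h j → ∀ x, ∑ y, P y j * conj (E y x) = 0)
  (hperp' : ∀ j, IsI q h j → ∀ x, ∑ y, P y j * ((κ y : ℂ) * conj (E y x)) = 0)

include hher hid hS hperp hperp'

/-- The diagonal entries are real. -/
theorem diag_eq (x : ι) : E x x = ((∑ y, ‖E y x‖ ^ 2 : ℝ) : ℂ) := by
  rw [← hid x x]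
  push_cast
  refine Finset.sum_congr rfl fun y _ => ?_
  rw [← hher y x, mul_comm, Complex.mul_conj, Complex.normSq_eq_norm_sq]
  push_cast
  rfl

/-- **The bound for the diagonal entries of the rows with `κ = -1`.** -/
theorem two_e_le (hlt : ∀ x, wW h2 (2 * h) (f x) < 2 * (2 * h)) {x : ι} (hx : κ x = -1) :
    2 * (E x x).re ≤ 1 - (wW h2 (2 * h) (f x) : ℝ) / q := by
  classical
  have hdiag := diag_eq D hκ hsh E hher hid hS hperp hperp' x
  set e : ℝ := ∑ y, ‖E y x‖ ^ 2 with he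
  have he0 : 0 ≤ e := Finset.sum_nonneg fun y _ => by positivity
  have hre : (E x x).re = e := by
    rw [hdiag, Complex.ofReal_re]
  rw [hre]
  set Y : ι → ℂ := fun y => if κ y = -1 then E y x else 0 with hY
  have hYeq : ∀ y, Y y = ((1 - (κ y : ℂ)) / 2) * E y x := by
    intro y
    simp only [hY]
    rcases hκ y with h3 | h3
    · rw [h3, if_neg (by norm_num)]
      simp
    · rw [h3, if_pos rfl]
      push_cast
      ring
  have hperpY : ∀ j, IsI q h j → ∑ y, P y j * conj (Y y) = 0 := by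
    intro j hj
    have h3 : ∀ y, P y j * conj (Y y) = (1 / 2 : ℂ) * (P y j * conj (E y x) - P y j * ((κ y : ℂ) * conj (E y x))) := by
      intro y
      rw [hYeq, map_mul, map_div₀, map_sub, map_one, map_intCast]
      have e2 : conj (2 : ℂ) = 2 := Complex.conj_ofNat 2
      rw [e2]
      ring
    simp_rw [h3]
    rw [← Finset.mul_sum, Finset.sum_sub_distrib, hperp j hj x, hperp' j hj x]
    simp
  have hb := D.bessel Y hperpY x
  have hYx : Y x = E x x := by
    simp only [hY]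
    rw [if_pos hx]
  have hYsum : ∑ y, ‖Y y‖ ^ 2 = e / 2 := by
    apply Complex.ofReal_injective
    have h3 : ∀ y, ((‖Y y‖ ^ 2 : ℝ) : ℂ) = (1 / 2 : ℂ) * (E x y * E y x - E x y * (κ y : ℂ) * E y x) := by
      intro y
      have h4 : ((‖Y y‖ ^ 2 : ℝ) : ℂ) = Y y * conj (Y y) := by
        rw [Complex.mul_conj, Complex.normSq_eq_norm_sq]
      rw [h4]
      simp only [hY]
      rcases hκ y with h5 | h5
      · rw [h5, if_neg (by norm_num)]
        simp
      · rw [h5, if_pos rfl, hher y x]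
        push_cast
        ring
    push_cast
    have h4 : ∀ y, (‖Y y‖ : ℂ) ^ 2 = (1 / 2 : ℂ) * (E x y * E y x - E x y * (κ y : ℂ) * E y x) := by
      intro y
      rw [← h3]
      push_cast
      rfl
    simp_rw [h4]
    rw [← Finset.mul_sum, Finset.sum_sub_distrib, hid x x, hS x x, sub_zero, hdiag]
    ring
  rw [hYx, hYsum, hdiag, Complex.norm_real, Real.norm_eq_abs, sq_abs] at hb
  have hq0 : (0 : ℝ) < q := by
    have := NeZero.ne q
    positivity
  by_cases he1 : e = 0
  · rw [he1, mul_zero, sub_nonneg, div_le_one hq0]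
    have h3 := hlt x
    have h7 : (q : ℤ) = 2 * (2 * h) := by
      have := D.hq
      rw [this]
      push_cast
      ring
    have h8 : wW h2 (2 * h) (f x) ≤ (q : ℤ) := by
      rw [h7]
      exact h3.le
    exact_mod_cast h8
  · have he2 : 0 < e := lt_of_le_of_ne he0 (Ne.symm he1)
    have h3 : e * e ≤ e * ((1 - (wW h2 (2 * h) (f x) : ℝ) / q) / 2) := by
      calc e * e = e ^ 2 := by ring
        _ ≤ _ := hb
        _ = _ := by ring
    have h4 := le_of_mul_le_mul_left h3 he2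
    linarith

/-- **The rank is bounded by the number of rows with `κ = -1`.** -/
theorem L_le (hlt : ∀ x, wW h2 (2 * h) (f x) < 2 * (2 * h)) (hcw : c * ht q h = - ht q h) :
    ∑ x, (E x x).re ≤ ((Finset.univ.filter fun x => κ x = -1).card : ℝ) - ((h : ℝ) - 1) := by
  classical
  have hq0 : (q : ℝ) ≠ 0 := by
    have := NeZero.ne q
    exact_mod_cast this
  have hqh : (q : ℝ) = 4 * h := by
    have := D.hq
    rw [this]
    push_cast
    ring
  -- the twisted trace
  have htr : ∑ x, (κ x : ℝ) * (E x x).re = 0 := by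
    have h3 : ∑ x, (κ x : ℂ) * E x x = 0 := by
      have h4 : ∑ x, ∑ y, E x y * (κ y : ℂ) * E y x = 0 :=
        Finset.sum_eq_zero fun x _ => hS x x
      rw [Finset.sum_comm] at h4
      rw [← h4]
      refine Finset.sum_congr rfl fun y _ => ?_
      rw [← hid y y, Finset.mul_sum]
      refine Finset.sum_congr rfl fun x _ => ?_
      ring
    have h5 := congrArg Complex.re h3
    rw [Complex.re_sum] at h5
    simpa using h5
  have h1 : ∑ x, (E x x).re = ∑ x ∈ Finset.univ.filter (fun x => κ x = -1), 2 * (E x x).re := by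
    rw [Finset.sum_filter]
    have h3 : ∀ x, (if κ x = -1 then 2 * (E x x).re else 0) = (E x x).re - (κ x : ℝ) * (E x x).re := by
      intro x
      rcases hκ x with h4 | h4
      · rw [h4, if_neg (by norm_num)]
        push_cast
        ring
      · rw [h4, if_pos rfl]
        push_cast
        ring
    simp_rw [h3]
    rw [Finset.sum_sub_distrib, htr, sub_zero]
  rw [h1]
  have h3 : ∑ x ∈ Finset.univ.filter (fun x => κ x = -1), 2 * (E x x).re ≤
      ∑ x ∈ Finset.univ.filter (fun x => κ x = -1), (1 - (wW h2 (2 * h) (f x) : ℝ) / q) :=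
    Finset.sum_le_sum fun x hx => two_e_le D hκ hsh E hher hid hS hperp hperp' hlt (Finset.mem_filter.mp hx).2
  refine h3.trans (le_of_eq ?_)
  rw [Finset.sum_sub_distrib, Finset.sum_const, nsmul_eq_mul, mul_one]
  congr 1
  have h4 := sum_kappa_wW D hκ hsh hcw
  have h5 := D.sum_wW
  have h6 : ∑ x ∈ Finset.univ.filter (fun x => κ x = -1), (wW h2 (2 * h) (f x) : ℝ) =
      ((∑ x, wW h2 (2 * h) (f x) : ℤ) - (∑ x, κ x * wW h2 (2 * h) (f x) : ℤ) : ℝ) / 2 := by
    rw [Finset.sum_filter]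
    push_cast
    rw [← Finset.sum_sub_distrib, Finset.sum_div]
    refine Finset.sum_congr rfl fun x _ => ?_
    rcases hκ x with h7 | h7
    · rw [h7, if_neg (by norm_num)]
      push_cast
      ring
    · rw [h7, if_pos rfl]
      push_cast
      ring
  have h7 : (∑ x, (wW h2 (2 * h) (f x) : ℝ)) * 2 = (q : ℝ) * ((q : ℝ) - 2) := by
    have : ((2 * ∑ x, wW h2 (2 * h) (f x) : ℤ) : ℝ) = (((q : ℤ) * ((q : ℤ) - 2) : ℤ) : ℝ) := by
      rw [h5]
    push_cast at this
    linarith
  have h8 : (∑ x, ((κ x : ℝ) * (wW h2 (2 * h) (f x) : ℝ))) = q := by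
    have : ((∑ x, κ x * wW h2 (2 * h) (f x) : ℤ) : ℝ) = ((q : ℤ) : ℝ) := by
      rw [h4]
    push_cast at this
    exact this
  rw [← Finset.sum_div, h6]
  push_cast
  rw [h8]
  field_simp
  rw [hqh] at h7 ⊢
  nlinarith

end Abs

section Cen

variable {H : Type u} [Group H] [Fintype H]

/-- The sign of a character at a central involution. -/
theorem sgn_sq (ξ : IrrCharacter H) {u : H} (hu : ∀ g, u * g = g * u) (hu2 : u * u = 1) :
    ((ξ : H → ℂ) u / (ξ : H → ℂ) 1) * ((ξ : H → ℂ) u / (ξ : H → ℂ) 1) = 1 := by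
  have h1 := Cfsg.Agent.Lib.Contrib.Section.irr_central_mul ξ hu u
  rw [hu2] at h1
  have h0 := irr_one_ne_zero ξ.2
  calc ((ξ : H → ℂ) u / (ξ : H → ℂ) 1) * ((ξ : H → ℂ) u / (ξ : H → ℂ) 1)
      = (((ξ : H → ℂ) u / (ξ : H → ℂ) 1) * (ξ : H → ℂ) u) / (ξ : H → ℂ) 1 := by ring
    _ = (ξ : H → ℂ) 1 / (ξ : H → ℂ) 1 := by rw [← h1]
    _ = 1 := div_self h0

theorem val_ne (ξ : IrrCharacter H) {u : H} (hu : ∀ g, u * g = g * u) (hu2 : u * u = 1) :
    (ξ : H → ℂ) u ≠ 0 := by
  intro h1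
  have h3 := sgn_sq ξ hu hu2
  rw [h1] at h3
  simp at h3

attribute [local instance] fK fIrr fBl

/-- The value of a section at a central element. -/
theorem Fs_central [Fintype (IrrCharacter H)] (τ : IrrCharacter H) {u : H} (hu : ∀ k : H, Commute k u)
    (c : Set (IrrCharacter (cZ u))) :
    ∃ a : ℂ, (a = 0 ∨ a = 1) ∧ Fs (τ : H → ℂ) u c 1 = a * (τ : H → ℂ) u := by
  have hX := isCentral_sub hu c
  have hc := (isCentral_iff_comm _).mp hX
  have h0 := irr_one_ne_zero τ.2
  refine ⟨omega (τ : H → ℂ) (subIdem (cZ u) c), ?_, ?_⟩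
  · have h1 := lin_central_mul τ.2 hX (subIdem (cZ u) c)
    rw [subIdem_mul_self, omega] at h1
    rw [omega]
    set a := lin (τ : H → ℂ) (subIdem (cZ u) c) with ha
    set d := (τ : H → ℂ) 1 with hd
    by_cases ha0 : a = 0
    · left
      rw [ha0, zero_div]
    · right
      have h3 : a * d = a * a := by
        calc a * d = (a / d * a) * d := by rw [← h1]
          _ = a * a := by field_simp
      rw [← mul_left_cancel₀ ha0 h3]
      exact div_self h0
  · rw [Fs, mul_one, hc (single u 1), lin_central_mul τ.2 hX, lin_single, one_mul]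

end Cen

section Conc

variable {G : Type u} [Group G] [Fintype G] [Fintype (IrrCharacter G)] {M : Ideal AlgInt}
  [Fact (Nat.Prime 2)] {B : Set (IrrCharacter G)} {K : Subgroup G}

attribute [local instance] fK fIrr fBl

variable {D' : Subgroup K} {e' : Set (IrrCharacter (Subgroup.centralizer (D' : Set K)))} {β : Set (IrrCharacter K)}
  {q h m : ℕ} [NeZero q] {c : ZMod q} {R : Rot D' q h c} {θ : IrrCharacter K} {g : IrrCharacter D' → IrrCharacter K}

open Cfsg.Agent.Lib.Tw.Top.Setup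

variable (S : Setup M B K D' e' β R m)
  (hg : ∀ ν, ((g ν : IrrCharacter K) : K → ℂ) = starFun 2 M e' (ν : D' → ℂ) (θ : K → ℂ))
  (hθ : θ ∈ β) (h0 : blockHeight 2 β (θ : K → ℂ) = 0)

include S hg hθ h0

/-- The values of the family at a central element. -/
theorem g_val (ν : IrrCharacter D') {w : D'} (hw : ∀ k : K, Commute k (w : K)) (hν : (ν : D' → ℂ) w ≠ 0) :
    ((g ν : IrrCharacter K) : K → ℂ) w = (ν : D' → ℂ) w * (θ : K → ℂ) w := by
  obtain ⟨a, ha, h1⟩ := Fs_central (g ν) hw (Cfsg.Agent.Lib.BP.Nil1.bb 2 M e' (w : K))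
  obtain ⟨a', ha', h2⟩ := Fs_central θ hw (Cfsg.Agent.Lib.BP.Nil1.bb 2 M e' (w : K))
  have hne := Cfsg.Agent.Lib.Dih.Sect.Fs_one_ne S.hM S.hmx hθ h0 w
  have h3 := Cfsg.Agent.Lib.Dih.Sect.Fs_star S.hM S.hnil S.hmx θ ν w (y := 1) (Subgroup.one_mem _) reg_one'
  rw [← hg ν, h1] at h3
  rw [h2] at hne
  have ha'1 : a' = 1 := by
    rcases ha' with h4 | h4
    · rw [h4, zero_mul] at hne
      exact absurd rfl hne
    · exact h4
  rw [h2, ha'1, one_mul] at h3
  have hθw : (θ : K → ℂ) w ≠ 0 := by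
    intro h4
    rw [h4, mul_zero] at hne
    exact hne rfl
  have ha1 : a = 1 := by
    rcases ha with h4 | h4
    · rw [h4, zero_mul] at h3
      exact absurd h3.symm (mul_ne_zero hν hθw)
    · exact h4
  rw [ha1, one_mul] at h3
  exact h3

/-- **The shift of the values by the central involution.** -/
theorem pp_shift (χ : IrrCharacter G) (hzc : ∀ t : G, ((rr R (zt q h) : K) : G) * t = t * ((rr R (zt q h) : K) : G))
    (j : ZMod q) :
    pp R g χ (j + zt q h) = ((χ : G → ℂ) ((rr R (zt q h) : K) : G) / (χ : G → ℂ) 1) *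
      ((θ : K → ℂ) (rr R (zt q h)) / (θ : K → ℂ) 1) * pp R g χ j := by
  classical
  set zK : K := rr R (zt q h) with hzK
  set zD : D' := R.ρ (zt q h) with hzD
  have hzK' : zK = (zD : K) := rfl
  have hcK : ∀ k : K, Commute k zK := zz_central S
  have hcK' : ∀ k : K, zK * k = k * zK := fun k => (hcK k).symm.eq
  have hz2K : zK * zK = 1 := zz_sq S
  have hcD : ∀ d : D', zD * d = d * zD := by
    intro d
    apply Subtype.ext
    exact hcK' (d : K)
  have hz2D : zD * zD = 1 := by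
    apply Subtype.ext
    exact hz2K
  have h1 : ∀ ν : IrrCharacter D', classInner (resF K χ) ((g ν : IrrCharacter K) : K → ℂ) * (ν : D' → ℂ) (R.ρ (j + zt q h)) =
      ((χ : G → ℂ) (zK : G) / (χ : G → ℂ) 1) * ((θ : K → ℂ) zK / (θ : K → ℂ) 1) *
        (classInner (resF K χ) ((g ν : IrrCharacter K) : K → ℂ) * (ν : D' → ℂ) (R.ρ j)) := by
    intro ν
    have hν1 := irr_one_ne_zero ν.2
    have hθ1 := irr_one_ne_zero θ.2
    have e1 : (ν : D' → ℂ) (R.ρ (j + zt q h)) = ((ν : D' → ℂ) zD / (ν : D' → ℂ) 1) * (ν : D' → ℂ) (R.ρ j) := by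
      rw [R.add, ← hzD, ← hcD, Cfsg.Agent.Lib.Contrib.Section.irr_central_mul ν hcD]
    have e2 := g_val S hg hθ h0 ν (w := zD) hcK (val_ne ν hcD hz2D)
    have e3 := g_val S hg hθ h0 ν (w := 1) (fun k => by simp) hν1
    rw [Subgroup.coe_one] at e3
    have e4 := Cfsg.Agent.Lib.Contrib.Section.classInner_central_shift (φ := resF K χ) (g ν) hcK'
    have e5 : (fun c : K => resF K χ (zK * c)) = fun c => ((χ : G → ℂ) (zK : G) / (χ : G → ℂ) 1) * resF K χ c := by
      funext c
      change (χ : G → ℂ) (((zK * c : K)) : G) = _ * (χ : G → ℂ) (c : G)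
      rw [Subgroup.coe_mul]
      exact Cfsg.Agent.Lib.Contrib.Section.irr_central_mul χ hzc (c : G)
    rw [e5] at e4
    have e6 : classInner (fun c : K => ((χ : G → ℂ) (zK : G) / (χ : G → ℂ) 1) * resF K χ c) ((g ν : IrrCharacter K) : K → ℂ) =
        ((χ : G → ℂ) (zK : G) / (χ : G → ℂ) 1) * classInner (resF K χ) ((g ν : IrrCharacter K) : K → ℂ) := by
      simp only [classInner_def, Finset.mul_sum]
      refine Finset.sum_congr rfl fun c _ => ?_
      ring
    rw [← hzK'] at e2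
    rw [e6, e2, e3] at e4
    have hε := sgn_sq θ hcK' hz2K
    set I := classInner (resF K χ) ((g ν : IrrCharacter K) : K → ℂ) with hI
    set σ := (χ : G → ℂ) (zK : G) / (χ : G → ℂ) 1 with hσ
    set ε := (θ : K → ℂ) zK / (θ : K → ℂ) 1 with hε'
    have e7 : ((ν : D' → ℂ) zD * (θ : K → ℂ) zK) / ((ν : D' → ℂ) 1 * (θ : K → ℂ) 1) = ((ν : D' → ℂ) zD / (ν : D' → ℂ) 1) * ε := by
      rw [hε']
      field_simp
    rw [e7] at e4
    rw [e1]
    set η := (ν : D' → ℂ) zD / (ν : D' → ℂ) 1 with hη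
    have e8 : σ * ε * I = η * I := by
      calc σ * ε * I = (σ * I) * ε := by ring
        _ = (η * ε * I) * ε := by rw [e4]
        _ = η * I * (ε * ε) := by ring
        _ = η * I := by rw [hε, mul_one]
    calc I * (η * (ν : D' → ℂ) (R.ρ j)) = (η * I) * (ν : D' → ℂ) (R.ρ j) := by ring
      _ = (σ * ε * I) * (ν : D' → ℂ) (R.ρ j) := by rw [e8]
      _ = _ := by ring
  simp only [pp, Cfsg.Agent.Lib.Dih.Sect.piF]
  rw [Finset.mul_sum]
  exact Finset.sum_congr rfl fun ν _ => h1 ν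

end Conc

section Mat

variable {G : Type u} [Group G] [Fintype G] [Fintype (IrrCharacter G)] {M : Ideal AlgInt}
  [Fact (Nat.Prime 2)] {B : Set (IrrCharacter G)} [Fintype B]

/-- The matrix of the scalar products of the regular parts. -/
noncomputable def EE (B : Set (IrrCharacter G)) (x y : B) : ℂ :=
  classInner (pRegularPart 2 ((x : IrrCharacter G) : G → ℂ)) (pRegularPart 2 ((y : IrrCharacter G) : G → ℂ))

theorem EE_herm (x y : B) : conj (EE B x y) = EE B y x := conj_classInner _ _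

theorem EE_idem (hM : IsPModular 2 M) (hB : IsPBlock M B) (x w : B) :
    ∑ y, EE B x y * EE B y w = EE B x w := by
  classical
  have h1 := sum_inner_reg_mul_inner hM hB ((x : IrrCharacter G) : G → ℂ) (pRegularPart 2 ((w : IrrCharacter G) : G → ℂ))
  rw [PP_irr_of_mem x.2, Finset.sum_subtype (p := (· ∈ B)) (Finset.univ.filter (· ∈ B)) (by simp)] at h1
  exact h1

theorem EE_trace (hM : IsPModular 2 M) (hB : IsPBlock M B) : ∑ x, EE B x x = (blockRank 2 B : ℂ) := by
  classical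
  refine sum_inner_self hM hB (f := fun x : B => pRegularPart 2 ((x : IrrCharacter G) : G → ℂ)) fun y y' => ?_
  rw [Finset.sum_subtype (p := (· ∈ B)) (Finset.univ.filter (· ∈ B)) (by simp)]

theorem reg_of_nonzero {φ : G → ℂ} {c : G} (h : pRegularPart 2 φ c ≠ 0) : ¬ 2 ∣ orderOf c := by
  classical
  intro h1
  apply h
  rw [pRegularPart_apply, if_neg (show ¬ IsPRegular 2 c from fun h2 => h2 h1)]

theorem part_eq {φ : G → ℂ} {c : G} (h : ¬ 2 ∣ orderOf c) : pRegularPart 2 φ c = φ c := by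
  classical
  rw [pRegularPart_apply, if_pos (show IsPRegular 2 c from h)]

/-- Orthogonality of a regular section and a singular section. -/
theorem sec_orth (hM : IsPModular 2 M) (hB : IsPBlock M B) {z : G} (hz : ∃ k : ℕ, orderOf z = 2 ^ k) (hz1 : z ≠ 1)
    (hzc : ∀ t : G, z * t = t * z) {c c' : G} (hc : ¬ 2 ∣ orderOf c) (hc' : ¬ 2 ∣ orderOf c') :
    ∑ y : B, ((y : IrrCharacter G) : G → ℂ) (z * c') * conj (((y : IrrCharacter G) : G → ℂ) c) = 0 := by
  classical
  haveI := isPrime_of_pModular hM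
  have hg : IsPPart 2 (z * c') z := ⟨c', rfl, hzc c', hz, hc'⟩
  have hh : IsPPart 2 c (1 : G) := ⟨c, by simp, Commute.one_left _, ⟨0, by simp⟩, hc⟩
  have hn : ¬ IsConj z (1 : G) := by
    rw [isConj_one_left]
    exact hz1
  have h1 := Cfsg.Agent.Lib.Blocks.Heights.block_orthogonality_section hM hg hh hn hB
  rw [← finsum_subtype_eq_finsum_cond, finsum_eq_sum_of_fintype] at h1
  rw [← h1]
  refine Fintype.sum_congr _ _ fun y => ?_
  rw [Cfsg.Agent.Lib.Char.Ortho.char_inv_eq_conj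
    (Cfsg.Agent.Lib.Char.Basic.isCharacter_of_isIrrCharacter (y : IrrCharacter G).2)]

/-- The twisted square of the matrix vanishes. -/
theorem EE_S (hM : IsPModular 2 M) (hB : IsPBlock M B) {z : G} (hz : ∃ k : ℕ, orderOf z = 2 ^ k) (hz1 : z ≠ 1)
    (hzc : ∀ t : G, z * t = t * z) (σ : B → ℂ)
    (hσ : ∀ (y : B) (c : G), ((y : IrrCharacter G) : G → ℂ) (z * c) = σ y * ((y : IrrCharacter G) : G → ℂ) c) (x w : B) :
    ∑ y, EE B x y * σ y * EE B y w = 0 := by
  classical
  set A : ℂ := (Nat.card G : ℂ)⁻¹ with hA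
  let ρ : B → G → ℂ := fun y => pRegularPart 2 ((y : IrrCharacter G) : G → ℂ)
  have h1 : ∀ y, EE B x y * σ y * EE B y w =
      A * A * ∑ c, ∑ c', (ρ x c * conj (ρ w c')) * (σ y * ρ y c' * conj (ρ y c)) := by
    intro y
    simp only [EE, classInner_def]
    have e : ∑ c, ∑ c', (ρ x c * conj (ρ w c')) * (σ y * ρ y c' * conj (ρ y c)) =
        σ y * ((∑ c, ρ x c * conj (ρ y c)) * ∑ c', ρ y c' * conj (ρ w c')) := by
      rw [Finset.sum_mul_sum, Finset.mul_sum]
      refine Finset.sum_congr rfl fun c _ => ?_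
      rw [Finset.mul_sum]
      refine Finset.sum_congr rfl fun c' _ => ?_
      ring
    rw [e, hA]
    ring
  simp_rw [h1]
  rw [← Finset.mul_sum, Finset.sum_comm]
  rw [Finset.sum_eq_zero, mul_zero]
  intro c _
  rw [Finset.sum_comm]
  refine Finset.sum_eq_zero fun c' _ => ?_
  rw [← Finset.mul_sum]
  by_cases hc : ¬ 2 ∣ orderOf c
  · by_cases hc' : ¬ 2 ∣ orderOf c'
    · have h2 : ∑ y : B, σ y * ρ y c' * conj (ρ y c) = 0 := by
        rw [← sec_orth hM hB hz hz1 hzc hc hc']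
        refine Finset.sum_congr rfl fun y _ => ?_
        simp only [ρ]
        rw [part_eq hc, part_eq hc', hσ]
      rw [h2, mul_zero]
    · have h2 : ρ w c' = 0 := by
        by_contra h3
        exact hc' (reg_of_nonzero h3)
      rw [h2]
      simp
  · have h2 : ρ x c = 0 := by
      by_contra h3
      exact hc (reg_of_nonzero h3)
    rw [h2]
    simp

/-- A general orthogonality against the column vector. -/
theorem EE_perp (P : B → ℂ) (x : B) (hP : ∀ c : G, ¬ 2 ∣ orderOf c →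
      ∑ y : B, P y * conj (((y : IrrCharacter G) : G → ℂ) c) = 0) :
    ∑ y, P y * conj (EE B y x) = 0 := by
  classical
  have h1 : ∀ y, P y * conj (EE B y x) = (Nat.card G : ℂ)⁻¹ *
      ∑ c, pRegularPart 2 ((x : IrrCharacter G) : G → ℂ) c * (P y * conj (pRegularPart 2 ((y : IrrCharacter G) : G → ℂ) c)) := by
    intro y
    rw [EE_herm]
    simp only [EE, classInner_def]
    rw [mul_left_comm, Finset.mul_sum]
    congr 1
    refine Finset.sum_congr rfl fun c _ => ?_
    ring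
  simp_rw [h1]
  rw [← Finset.mul_sum, Finset.sum_comm, Finset.sum_eq_zero, mul_zero]
  intro c _
  rw [← Finset.mul_sum]
  by_cases hc : ¬ 2 ∣ orderOf c
  · have h2 : ∑ y : B, P y * conj (pRegularPart 2 ((y : IrrCharacter G) : G → ℂ) c) = 0 := by
      rw [← hP c hc]
      refine Finset.sum_congr rfl fun y _ => ?_
      rw [part_eq hc]
    rw [h2, mul_zero]
  · have h2 : pRegularPart 2 ((x : IrrCharacter G) : G → ℂ) c = 0 := by
      by_contra h3
      exact hc (reg_of_nonzero h3)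
    rw [h2, zero_mul]

end Mat

section Main

variable {G : Type u} [Group G] [Fintype G] [Fintype (IrrCharacter G)] {M : Ideal AlgInt}
  [Fact (Nat.Prime 2)] {B : Set (IrrCharacter G)} {K : Subgroup G}

attribute [local instance] fK fIrr fBl

variable {D' : Subgroup K} {e' : Set (IrrCharacter (Subgroup.centralizer (D' : Set K)))} {β : Set (IrrCharacter K)}
  {q h m : ℕ} [NeZero q] {c : ZMod q} {R : Rot D' q h c} {θ : IrrCharacter K} {g : IrrCharacter D' → IrrCharacter K}

open Cfsg.Agent.Lib.Tw.Top.Setup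

variable (S : Setup M B K D' e' β R m)
  (hg : ∀ ν, ((g ν : IrrCharacter K) : K → ℂ) = starFun 2 M e' (ν : D' → ℂ) (θ : K → ℂ))
  (hinj : Function.Injective g) (hr : ∀ τ : IrrCharacter K, τ ∈ β ↔ τ ∈ Set.range g)
  (hθ : θ ∈ β) (h0 : blockHeight 2 β (θ : K → ℂ) = 0) [Fintype B]

include S hg hinj hr hθ h0

/-- Orthogonality of a column and a regular element. -/
theorem pp_reg {j : ZMod q} (hj : IsI q h j) {a : G} (ha : ¬ 2 ∣ orderOf a) :
    ∑ y : B, pp R g y j * conj (((y : IrrCharacter G) : G → ℂ) a) = 0 := by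
  classical
  have h2 : ∑ x : B, pp R g x j * conj (((x : IrrCharacter G) : G → ℂ) a) =
      ∑ χ : IrrCharacter G, pp R g χ j * conj ((χ : G → ℂ) a) :=
    Cfsg.Agent.Lib.Dih.Main.sum_B_eq (fun χ => pp R g χ j * conj ((χ : G → ℂ) a))
      (fun χ hχ => by rw [S.pp_eq_zero hg hinj hr hθ h0 hj hχ, zero_mul])
  rw [h2, S.sum_pp_conj hg hinj hr hθ h0 hj]
  intro t ht
  have h1 : pPt 2 a = 1 := pPt_eq ⟨a, by simp, Commute.one_left _, ⟨0, by simp⟩, ha⟩
  rw [h1, conj_eq_one_iff] at ht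
  have h3 : rr R j = 1 := Subtype.ext ht
  rw [← rr_zero R] at h3
  exact hj.1 (rr_injective R h3)

/-- Orthogonality of a column and a section at the central involution. -/
theorem pp_sec {j : ZMod q} (hj : IsI q h j) {z : G} (hz : z = ((rr R (zt q h) : K) : G))
    (hzc : ∀ t : G, z * t = t * z) {a : G} (ha : ¬ 2 ∣ orderOf a) :
    ∑ y : B, pp R g y j * conj (((y : IrrCharacter G) : G → ℂ) (z * a)) = 0 := by
  classical
  have h2 : ∑ x : B, pp R g x j * conj (((x : IrrCharacter G) : G → ℂ) (z * a)) =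
      ∑ χ : IrrCharacter G, pp R g χ j * conj ((χ : G → ℂ) (z * a)) :=
    Cfsg.Agent.Lib.Dih.Main.sum_B_eq (fun χ => pp R g χ j * conj ((χ : G → ℂ) (z * a)))
      (fun χ hχ => by rw [S.pp_eq_zero hg hinj hr hθ h0 hj hχ, zero_mul])
  rw [h2, S.sum_pp_conj hg hinj hr hθ h0 hj]
  intro t ht
  have hz1 : ∃ k : ℕ, orderOf z = 2 ^ k := by
    rw [hz]
    exact S.order_coe _
  have hk' : Commute a z := (hzc a).symm
  rw [pPt_mul hz1 hk' ha, hz] at ht
  have h3 : t * (((rr R j : K) : G) * ((rr R j : K) : G)) * t⁻¹ = 1 := by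
    have h4 : t * (((rr R j : K) : G) * ((rr R j : K) : G)) * t⁻¹ =
        (t * ((rr R j : K) : G) * t⁻¹) * (t * ((rr R j : K) : G) * t⁻¹) := by group
    rw [h4, ht, ← Subgroup.coe_mul, zz_sq S, Subgroup.coe_one]
  have h5 : ((rr R j : K) : G) * ((rr R j : K) : G) = 1 := by
    rwa [conj_eq_one_iff] at h3
  have h7 : rr R (j + j) = 1 := by
    rw [rr_add]
    exact Subtype.ext h5
  rw [← rr_zero R] at h7
  rcases two_zero S.hq S.hh (rr_injective R h7) with h8 | h8
  · exact hj.1 h8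
  · exact hj.2 h8

theorem hperp_test {j : ZMod q} (hj : IsI q h j) (x : B) : ∑ y : B, pp R g y j * conj (EE B y x) = 0 := by
  refine EE_perp (fun y : B => pp R g y j) x ?_
  intro a ha
  exact pp_reg S hg hinj hr hθ h0 hj ha

/-- **The bound at a central involution.** -/
theorem central_bound (h2 : 2 ∣ q) {z : G} (hz : z = ((rr R (zt q h) : K) : G)) (hzc : ∀ t : G, z * t = t * z)
    {b : Set (IrrCharacter (Subgroup.centralizer ({z} : Set G)))} {f : B → ZMod q → ℤ} {m₀ : B → B → ℤ}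
    (L : GLD h2 R g z b f m₀) (hcw : c * ht q h = - ht q h) :
    ∃ κ : B → ℤ, (∀ x, κ x = 1 ∨ κ x = -1) ∧
      (∀ x : B, (κ x : ℂ) = (((x : IrrCharacter G) : G → ℂ) z / ((x : IrrCharacter G) : G → ℂ) 1) *
        ((θ : K → ℂ) (rr R (zt q h)) / (θ : K → ℂ) 1)) ∧
      (∀ x, κ x = -1 → ¬ Odd (aA h2 (f x))) ∧
      (∑ x, κ x * wW h2 (2 * h) (f x) = q) ∧
      (blockRank 2 B : ℤ) + h - 1 ≤ (Finset.univ.filter fun x => κ x = -1).card := by
  classical
  have hM := S.hM
  have hB := S.hB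
  have hcK' : ∀ k : K, rr R (zt q h) * k = k * rr R (zt q h) := fun k => (zz_central S k).symm.eq
  have hz2K : rr R (zt q h) * rr R (zt q h) = 1 := zz_sq S
  have hz2 : z * z = 1 := by
    rw [hz, ← Subgroup.coe_mul, hz2K, Subgroup.coe_one]
  have hz1' : ∃ k : ℕ, orderOf z = 2 ^ k := by
    rw [hz]
    exact S.order_coe _
  have hzne : z ≠ 1 := by
    rw [hz]
    intro h3
    have h4 : rr R (zt q h) = 1 := Subtype.ext h3
    rw [← rr_zero R] at h4
    exact zt_ne S.hq S.hh (rr_injective R h4)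
  set ε : ℂ := (θ : K → ℂ) (rr R (zt q h)) / (θ : K → ℂ) 1 with hε
  have hε2 : ε * ε = 1 := sgn_sq θ hcK' hz2K
  set σ : B → ℂ := fun x => ((x : IrrCharacter G) : G → ℂ) z / ((x : IrrCharacter G) : G → ℂ) 1 with hσ
  have hσ2 : ∀ x, σ x * σ x = 1 := fun x => sgn_sq (x : IrrCharacter G) hzc hz2
  have hσε : ∀ x, σ x * ε = 1 ∨ σ x * ε = -1 := by
    intro x
    have h1 : (σ x * ε) * (σ x * ε) = 1 := by
      calc (σ x * ε) * (σ x * ε) = (σ x * σ x) * (ε * ε) := by ring
        _ = 1 := by rw [hσ2, hε2, one_mul]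
    exact mul_self_eq_one_iff.mp h1
  set κ : B → ℤ := fun x => if σ x * ε = 1 then 1 else -1 with hκd
  have hκ : ∀ x, κ x = 1 ∨ κ x = -1 := by
    intro x
    simp only [hκd]
    split_ifs
    · exact Or.inl rfl
    · exact Or.inr rfl
  have hκc : ∀ x, (κ x : ℂ) = σ x * ε := by
    intro x
    simp only [hκd]
    rcases hσε x with h1 | h1
    · rw [if_pos h1, h1]
      simp
    · have h3 : σ x * ε ≠ 1 := by
        rw [h1]
        norm_num
      rw [if_neg h3, h1]
      simp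
  have hσκ : ∀ x, σ x = (κ x : ℂ) * ε := by
    intro x
    rw [hκc, mul_assoc, hε2, mul_one]
  have hσmul : ∀ (y : B) (a : G), ((y : IrrCharacter G) : G → ℂ) (z * a) = σ y * ((y : IrrCharacter G) : G → ℂ) a :=
    fun y a => Cfsg.Agent.Lib.Contrib.Section.irr_central_mul (y : IrrCharacter G) hzc a
  have hσre : ∀ y, conj (σ y) = σ y := by
    intro y
    have hε' : ε = 1 ∨ ε = -1 := mul_self_eq_one_iff.mp hε2
    have hσ' : σ y = 1 ∨ σ y = -1 := mul_self_eq_one_iff.mp (hσ2 y)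
    rcases hσ' with h1 | h1 <;> rw [h1] <;> simp
  have hsh : ∀ (x : B) (j : ZMod q), pp R g x (j + zt q h) = (κ x : ℂ) * pp R g x j := by
    intro x j
    rw [pp_shift S hg hθ h0 (x : IrrCharacter G) (by rw [← hz]; exact hzc), hκc, ← hz]
  have hSE : ∀ x w : B, ∑ y : B, EE B x y * (κ y : ℂ) * EE B y w = 0 := by
    intro x w
    have h1 := EE_S hM hB hz1' hzne hzc σ hσmul x w
    have h3 : ∀ y : B, EE B x y * (κ y : ℂ) * EE B y w = ε * (EE B x y * σ y * EE B y w) := by
      intro y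
      rw [hκc]
      ring
    simp_rw [h3]
    rw [← Finset.mul_sum, h1, mul_zero]
  have hperp : ∀ j, IsI q h j → ∀ x : B, ∑ y : B, pp R g y j * conj (EE B y x) = 0 := fun j hj x =>
    hperp_test S hg hinj hr hθ h0 hj x
  have hperp' : ∀ j, IsI q h j → ∀ x : B, ∑ y : B, pp R g y j * ((κ y : ℂ) * conj (EE B y x)) = 0 := by
    intro j hj x
    have h1 : ∑ y : B, (pp R g y j * σ y) * conj (EE B y x) = 0 := by
      refine EE_perp (fun y : B => pp R g y j * σ y) x fun a ha => ?_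
      refine Eq.trans (Finset.sum_congr rfl fun y _ => ?_) (pp_sec S hg hinj hr hθ h0 hj hz hzc ha)
      rw [hσmul, map_mul, hσre]
      ring
    have h3 : ∀ y : B, pp R g y j * ((κ y : ℂ) * conj (EE B y x)) = ε * (pp R g y j * σ y * conj (EE B y x)) := by
      intro y
      rw [hκc]
      ring
    simp_rw [h3]
    rw [← Finset.mul_sum, h1, mul_zero]
  have hD := L.hD
  have hbound := L_le hD hκ hsh (EE B) EE_herm (EE_idem hM hB) hSE hperp hperp' L.hlt hcw
  refine ⟨κ, hκ, hκc, fun x hx => not_odd hD hκ hsh hx, sum_kappa_wW hD hκ hsh hcw, ?_⟩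
  have htr : ∑ x, (EE B x x).re = (blockRank 2 B : ℝ) := by
    have h1 := congrArg Complex.re (EE_trace hM hB)
    rw [Complex.re_sum] at h1
    simpa using h1
  rw [htr] at hbound
  have h5 : ((blockRank 2 B : ℝ) + (h : ℝ) - 1 : ℝ) ≤ ((Finset.univ.filter fun x => κ x = -1).card : ℝ) := by
    linarith
  exact_mod_cast h5

end Main

end Cfsg.Agent.Lib.Tw.CL
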