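import Mathlib
import Cfsg.Agent.Lib.Tw.CL
import Cfsg.Agent.Lib.Tw.Exist

/-!
# The rows of a block with a defect group with a cyclic subgroup of index two
-/

set_option linter.unusedSectionVars false
set_option linter.style.haveILetI false
set_option autoImplicit false

namespace Cfsg.Agent.Lib.Tw.Rows

open Cfsg MonoidAlgebra
open Cfsg.Agent.Lib.Blocks.Local Cfsg.Agent.Lib.Blocks.Central Cfsg.Agent.Lib.Blocks.Main
open Cfsg.Agent.Lib.BlockH.Regular Cfsg.Agent.Lib.BlockP.Defect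
open Cfsg.Agent.Lib.BP.StarDefs Cfsg.Agent.Lib.BP.Nil4
open Cfsg.Agent.Lib.Dih.Sect
open Cfsg.Agent.Lib.Tw.Row Cfsg.Agent.Lib.Tw.Fou Cfsg.Agent.Lib.Tw.Cnt Cfsg.Agent.Lib.Tw.Grp Cfsg.Agent.Lib.Tw.Top
open Cfsg.Agent.Lib.Tw.LemA Cfsg.Agent.Lib.Tw.GL Cfsg.Agent.Lib.Tw.GL2 Cfsg.Agent.Lib.Tw.CL Cfsg.Agent.Lib.Tw.Exist
open scoped ComplexConjugate

universe u

variable {G : Type u} [Group G] [Fintype G] [Fintype (IrrCharacter G)] {M : Ideal AlgInt}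
  [Fact (Nat.Prime 2)] {B : Set (IrrCharacter G)} {q h m : ℕ} [NeZero q] {c : ZMod q}

attribute [local instance] fK fIrr fBl

/-- **The data of the rows of a block.** -/
structure Rows (h2 : 2 ∣ q) (h : ℕ) (B : Set (IrrCharacter G)) [Fintype B] {z : G}
    (b : Set (IrrCharacter (Subgroup.centralizer ({z} : Set G))))
    (f : B → ZMod q → ℤ) (Z S T3 : Finset B) : Prop where
  hC : Counts h2 f h Z S T3
  h0 : ∀ x : B, blockHeight 2 B ((x : IrrCharacter G) : G → ℂ) = 0 ↔ Odd (aA h2 (f x))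
  hSr : ∀ x ∈ S, blockHeight 2 B ((x : IrrCharacter G) : G → ℂ) = 1
  hZr : ∀ x ∈ Z, blockHeight 2 B ((x : IrrCharacter G) : G → ℂ) = blockDefect 2 B - 2
  hTZ : ∀ x ∈ T3, ∀ y ∈ Z, False
  hd : 3 ≤ blockDefect 2 B ∧ 2 * h = 2 ^ (blockDefect 2 B - 2)
  hr : Z.card ≤ blockRank 2 b ∧ (4 ≤ blockDefect 2 B → Z.card + 1 ≤ blockRank 2 b)
  hty : ∀ x, (wW h2 (2 * h) (f x) = 0) ∨ (wW h2 (2 * h) (f x) = 2 * h - 1 ∧ Odd (aA h2 (f x))) ∨
     (2 ≤ h ∧ wW h2 (2 * h) (f x) = 2 * (2 * h) - 4 ∧ ¬ Odd (aA h2 (f x)) ∧ (4 : ℤ) ∣ aA h2 (f x) - 2) ∨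
     ((h = 2 ∨ h = 4) ∧ wW h2 (2 * h) (f x) = 2 * (2 * h) - 1 ∧ Odd (aA h2 (f x)))
  hW : 2 * ∑ x, wW h2 (2 * h) (f x) = (q : ℤ) * ((q : ℤ) - 2)
  h4 : (Finset.univ.filter fun x => Odd (aA h2 (f x))).card = 4

/-- **The rows exist.** -/
theorem exists_rows {D : Subgroup G} (R : Rot D q h c) (hM : IsPModular 2 M) (hB : IsPBlock M B)
    (hD : IsDefectGroup 2 M B D) [Fintype B] (h2 : 2 ∣ q) (hq : q = 4 * h) (hh : 1 ≤ h) (hq2 : q = 2 ^ m)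
    (hcc : c * c = 1) (hfix : ∀ j : ZMod q, c * j = j → j = 0 ∨ j = zt q h) (hcz : c * zt q h = zt q h)
    (hcw : c * ht q h = - ht q h) (hcard : Nat.card D = 2 * q) {z : G} (hz : z = rr R (zt q h)) (hzo : orderOf z = 2 ^ 1)
    {b : Set (IrrCharacter (Subgroup.centralizer ({z} : Set G)))}
    (hb : IsInducedBlock M (Subgroup.centralizer ({z} : Set G)) b B) (hdb : blockDefect 2 b = blockDefect 2 B) :
    ∃ (f : B → ZMod q → ℤ) (Z S T3 : Finset B), Rows h2 h B b f Z S T3 ∧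
      ((∀ t : G, z * t = t * z) → ∃ (κ : B → ℤ) (ε : ℂ), ε * ε = 1 ∧ (∀ x, κ x = 1 ∨ κ x = -1) ∧
        (∀ x : B, (κ x : ℂ) = (((x : IrrCharacter G) : G → ℂ) z / ((x : IrrCharacter G) : G → ℂ) 1) * ε) ∧
        (∀ x, κ x = -1 → ¬ Odd (aA h2 (f x))) ∧
        (∑ x, κ x * wW h2 (2 * h) (f x) = q) ∧
        (blockRank 2 B : ℤ) + h - 1 ≤ (Finset.univ.filter fun x => κ x = -1).card) := by
  classical
  haveI := isPrime_of_pModular hM
  obtain ⟨e, hmax⟩ := exists_pair_of_defect hM hB hD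
  obtain ⟨e', β, S⟩ := exists_setup R hM hB hq hh hq2 hcc hfix hcz hcw hmax
  have hβ := S.hmx.1.2.1
  obtain ⟨θ, hθ, h0, hs⟩ := exists_height_zero (p := 2) (isPBlock_nonempty hβ)
  obtain ⟨g, hg, hinj, hr⟩ := exists_star_family hM S.hnil S.hmx hθ h0 hs
  have hz' : z = ((rr (Rk R hcw) (zt q h) : Kk R) : G) := hz
  have hdq : 2 ^ blockDefect 2 B = 2 * q := by
    rw [← Cfsg.Agent.Lib.Blocks.Inducing.card_eq_pow_blockDefect hM hB hD, hcard]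
  obtain ⟨f, m₀, L⟩ := exists_GLD S hg hinj hr hθ h0 h2 hz' hzo hb hdb hdq
  have hne : B.Nonempty := isPBlock_nonempty hB
  have hC := counts L.hD L.hlt
  refine ⟨f, _, _, _, ⟨hC, ?_, ?_, ?_, ?_, hd3 L, rank_ge L hne _ ?_, ?_, L.hD.sum_wW, card_odd L.hD fun x => (row_type L.hD L.hlt x).1⟩, ?_⟩
  · exact ht_zero_iff L
  · intro x hx
    exact S_row L (hC.hS x |>.mp hx).1 (hC.hS x |>.mp hx).2
  · intro x hx
    exact (zero_row L hne ((hC.hZ x).mp hx)).1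
  · intro x hx y hy
    exact T3_Z L hne ((hC.hT3 x).mp hx) ((hC.hZ y).mp hy)
  · intro x hx
    exact (hC.hZ x).mp hx
  · intro x
    rcases (row_type L.hD L.hlt x).2 with ⟨h5, -⟩ | h5 | h5 | h5
    · exact Or.inl h5
    · exact Or.inr (Or.inl h5)
    · exact Or.inr (Or.inr (Or.inl h5))
    · exact Or.inr (Or.inr (Or.inr h5))
  · intro hzc
    obtain ⟨κ, h1, h3, h4, h5, h6⟩ := central_bound S hg hinj hr hθ h0 h2 hz' hzc L hcw
    refine ⟨κ, _, sgn_sq θ (fun k => (zz_central S k).symm.eq) (zz_sq S), h1, h3, h4, h5, h6⟩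

end Cfsg.Agent.Lib.Tw.Rows
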