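import Mathlib
import Cfsg.Agent.Lib.Tw.Rows
import Cfsg.Agent.Lib.Blocks.Rank1

/-!
# The decomposition numbers of a block of rank one
-/

set_option linter.unusedSectionVars false
set_option linter.style.haveILetI false
set_option autoImplicit false

namespace Cfsg.Agent.Lib.Tw.Car

open Cfsg MonoidAlgebra
open Cfsg.Agent.Lib.Blocks.Local Cfsg.Agent.Lib.Blocks.Central Cfsg.Agent.Lib.Blocks.Main
open Cfsg.Agent.Lib.BlockH.Regular Cfsg.Agent.Lib.BlockP.Defect
open Cfsg.Agent.Lib.Tw.Row Cfsg.Agent.Lib.Tw.Fou Cfsg.Agent.Lib.Tw.Cnt Cfsg.Agent.Lib.Tw.Grp Cfsg.Agent.Lib.Tw.Rows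

universe u

section Dec

variable {G : Type u} [Group G] [Fintype G] [Fintype (IrrCharacter G)] {M : Ideal AlgInt}
  [Fact (Nat.Prime 2)] {B : Set (IrrCharacter G)}

/-- **The decomposition numbers of a block of rank one and the heights.** -/
theorem rank_one_d (hM : IsPModular 2 M) (hB : IsPBlock M B) {P : Subgroup G} (hP : IsDefectGroup 2 M B P)
    (hl : blockRank 2 B = 1) [Fintype B] :
    ∃ d : B → ℕ, (∀ x, d x ≠ 0) ∧ ∑ x, d x ^ 2 = Nat.card P ∧
      ∀ x : B, (d x).factorization 2 = blockHeight 2 B ((x : IrrCharacter G) : G → ℂ) := by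
  classical
  haveI := isPrime_of_pModular hM
  obtain ⟨φ, d, ⟨n, hn⟩, hd, hsum⟩ := Cfsg.Agent.Lib.Blocks.Rank1.exists_decomposition_of_rank_one hM hB hP hl
  have hreg1 : IsPRegular 2 (1 : G) := by
    rw [IsPRegular, orderOf_one]
    norm_num
  have hone : ∀ χ ∈ B, (charDegree (χ : G → ℂ) : ℂ) = (d χ : ℂ) * φ 1 := by
    intro χ hχ
    rw [← Cfsg.Agent.Lib.Blocks.Heights.irr_one_eq χ]
    exact hd χ hχ 1 hreg1
  have hdeg0 : ∀ χ : IrrCharacter G, (charDegree (χ : G → ℂ) : ℂ) ≠ 0 := fun χ =>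
    Nat.cast_ne_zero.mpr (Cfsg.Agent.Lib.Blocks.Heights.charDegree_ne_zero_irr χ)
  have hd0 : ∀ χ ∈ B, d χ ≠ 0 := by
    intro χ hχ h0
    apply hdeg0 χ
    rw [hone χ hχ, h0]
    simp
  obtain ⟨χ₁, hχ₁⟩ := isPBlock_nonempty hB
  have hφ1 : φ 1 ≠ 0 := by
    intro h0
    apply hdeg0 χ₁
    rw [hone χ₁ hχ₁, h0, mul_zero]
  have hcross : ∀ χ ∈ B, ∀ ψ ∈ B, charDegree (χ : G → ℂ) * d ψ = charDegree (ψ : G → ℂ) * d χ := by
    intro χ hχ ψ hψ
    have h1 : (charDegree (χ : G → ℂ) : ℂ) * (d ψ : ℂ) = (charDegree (ψ : G → ℂ) : ℂ) * (d χ : ℂ) := by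
      rw [hone χ hχ, hone ψ hψ]
      ring
    exact_mod_cast h1
  -- an odd decomposition number
  have hodd : ∃ ψ ∈ B, ¬ 2 ∣ d ψ := by
    by_contra hno
    push Not at hno
    have h1 := hn 1 hreg1
    have h2 : (∑ ψ : IrrCharacter G, if ψ ∈ B then n ψ * (d ψ : ℤ) else 0) = 1 := by
      have h3 : φ 1 * ((∑ ψ : IrrCharacter G, if ψ ∈ B then n ψ * (d ψ : ℤ) else 0 : ℤ) : ℂ) = φ 1 * 1 := by
        rw [mul_one]
        conv_rhs => rw [h1]
        push_cast
        rw [Finset.mul_sum]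
        refine Finset.sum_congr rfl fun ψ _ => ?_
        by_cases hψ : ψ ∈ B
        · rw [if_pos hψ, if_pos hψ, Cfsg.Agent.Lib.Blocks.Heights.irr_one_eq ψ, hone ψ hψ]
          ring
        · rw [if_neg hψ, if_neg hψ, mul_zero]
      exact_mod_cast mul_left_cancel₀ hφ1 h3
    have h3 : (2 : ℤ) ∣ ∑ ψ : IrrCharacter G, if ψ ∈ B then n ψ * (d ψ : ℤ) else 0 := by
      refine Finset.dvd_sum fun ψ _ => ?_
      by_cases hψ : ψ ∈ B
      · rw [if_pos hψ]
        exact Dvd.dvd.mul_left (by exact_mod_cast hno ψ hψ) _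
      · rw [if_neg hψ]
        exact dvd_zero _
    rw [h2] at h3
    omega
  obtain ⟨ψ₀, hψ₀, hψodd⟩ := hodd
  have hfac : ∀ χ ∈ B, (charDegree (χ : G → ℂ)).factorization 2 =
      (charDegree (ψ₀ : G → ℂ)).factorization 2 + (d χ).factorization 2 := by
    intro χ hχ
    have h1 : (charDegree (χ : G → ℂ) * d ψ₀).factorization 2 = (charDegree (ψ₀ : G → ℂ) * d χ).factorization 2 := by
      rw [hcross χ hχ ψ₀ hψ₀]
    rw [Nat.factorization_mul (Cfsg.Agent.Lib.Blocks.Heights.charDegree_ne_zero_irr χ) (hd0 ψ₀ hψ₀),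
      Nat.factorization_mul (Cfsg.Agent.Lib.Blocks.Heights.charDegree_ne_zero_irr ψ₀) (hd0 χ hχ),
      Finsupp.add_apply, Finsupp.add_apply, Nat.factorization_eq_zero_of_not_dvd hψodd] at h1
    omega
  have hmin : minExp 2 B = (charDegree (ψ₀ : G → ℂ)).factorization 2 := by
    obtain ⟨χ₂, hχ₂, h2⟩ := exists_minExp 2 (isPBlock_nonempty hB)
    have h3 := minExp_le 2 hψ₀
    have h4 := hfac χ₂ hχ₂
    omega
  refine ⟨fun x => d x, fun x => hd0 x x.2, ?_, fun x => ?_⟩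
  · rw [← hsum, ← Finset.sum_subtype (Finset.univ.filter (· ∈ B)) (by simp) (fun χ => d χ ^ 2), Finset.sum_filter]
  · change (d x).factorization 2 = _ - minExp 2 B
    rw [hfac x x.2, hmin]
    omega

end Dec

section Rows

variable {G : Type u} [Group G] [Fintype G] [Fintype (IrrCharacter G)] {M : Ideal AlgInt}
  [Fact (Nat.Prime 2)] {B : Set (IrrCharacter G)} {q h : ℕ} [NeZero q] [Fintype B] {h2 : 2 ∣ q} {z : G}
  {b : Set (IrrCharacter (Subgroup.centralizer ({z} : Set G)))} {f : B → ZMod q → ℤ} {Z S T3 : Finset B}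

/-- **A block of rank one has no row of type zero.** -/
theorem rank_one_Z (L : Rows h2 h B b f Z S T3) (hM : IsPModular 2 M) (hB : IsPBlock M B) {P : Subgroup G}
    (hP : IsDefectGroup 2 M B P) (hl : blockRank 2 B = 1) (hcard : Nat.card P = 4 * (2 * h))
    (hS : (S.card : ℤ) = 2 * h - 1) (hh : 1 ≤ h) : Z.card = 0 := by
  classical
  obtain ⟨d, hd0, hsum, hht⟩ := rank_one_d hM hB hP hl
  have hC := L.hC
  have hSZ : ∀ x, x ∈ Z → x ∉ S := by
    intro x hx hx'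
    exact ((hC.hS x).mp hx').2 ((hC.hZ x).mp hx)
  have hlow : ∀ x, 1 + (if x ∈ S then 3 else 0) + (if x ∈ Z then 4 * h ^ 2 - 1 else 0) ≤ d x ^ 2 := by
    intro x
    have h1 : 1 ≤ d x ^ 2 := Nat.one_le_pow _ _ (Nat.pos_of_ne_zero (hd0 x))
    by_cases hxZ : x ∈ Z
    · rw [if_neg (hSZ x hxZ), if_pos hxZ]
      have h3 := L.hZr x hxZ
      have h4 := hht x
      rw [h3] at h4
      have h5 : 2 ^ (blockDefect 2 B - 2) ∣ d x :=
        (Nat.Prime.pow_dvd_iff_le_factorization Nat.prime_two (hd0 x)).mpr h4.ge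
      rw [← L.hd.2] at h5
      have h6 := Nat.le_of_dvd (Nat.pos_of_ne_zero (hd0 x)) h5
      have h7 : (2 * h) ^ 2 ≤ d x ^ 2 := Nat.pow_le_pow_left h6 2
      have h8 : (2 * h) ^ 2 = 4 * h ^ 2 := by ring
      omega
    · rw [if_neg hxZ, add_zero]
      by_cases hxS : x ∈ S
      · rw [if_pos hxS]
        have h3 := L.hSr x hxS
        have h4 := hht x
        rw [h3] at h4
        have h5 : 2 ^ 1 ∣ d x :=
          (Nat.Prime.pow_dvd_iff_le_factorization Nat.prime_two (hd0 x)).mpr h4.ge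
        have h6 := Nat.le_of_dvd (Nat.pos_of_ne_zero (hd0 x)) h5
        have h7 : 2 ^ 2 ≤ d x ^ 2 := Nat.pow_le_pow_left (by simpa using h6) 2
        omega
      · rw [if_neg hxS]
        omega
  have hsum' := Finset.sum_le_sum fun x (_ : x ∈ Finset.univ) => hlow x
  rw [hsum, Finset.sum_add_distrib, Finset.sum_add_distrib, Finset.sum_const, Finset.sum_ite_mem, Finset.sum_ite_mem,
    Finset.univ_inter, Finset.univ_inter, Finset.sum_const, Finset.sum_const, hcard, Finset.card_univ, hC.hk] at hsum'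
  simp only [smul_eq_mul, mul_one] at hsum'
  have hS' : S.card + 1 = 2 * h := by omega
  have h4 : 1 ≤ 4 * h ^ 2 := by
    have : 1 ≤ h ^ 2 := Nat.one_le_pow _ _ hh
    omega
  by_contra hZ0
  have h5 : 4 * h ^ 2 - 1 ≤ Z.card * (4 * h ^ 2 - 1) := Nat.le_mul_of_pos_left _ (Nat.pos_of_ne_zero hZ0)
  omega

/-- **The parity of the decomposition numbers.** -/
theorem rank_one_T (L : Rows h2 h B b f Z S T3) (hM : IsPModular 2 M) (hB : IsPBlock M B) {P : Subgroup G}
    (hP : IsDefectGroup 2 M B P) (hl : blockRank 2 B = 1) (hcard : Nat.card P = 16) (hZ : Z.card = 0) (hS : S.card = 2) :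
    False := by
  classical
  obtain ⟨d, hd0, hsum, hht⟩ := rank_one_d hM hB hP hl
  have hC := L.hC
  have hZe : Z = ∅ := Finset.card_eq_zero.mp hZ
  have hmod : ∀ x, (8 : ℤ) ∣ ((d x : ℤ) ^ 2 - ((if x ∈ S then 4 else 1 : ℕ) : ℤ)) := by
    intro x
    by_cases hxS : x ∈ S
    · rw [if_pos hxS]
      have h3 := L.hSr x hxS
      have h4 := hht x
      rw [h3] at h4
      have h5 : 2 ^ 1 ∣ d x :=
        (Nat.Prime.pow_dvd_iff_le_factorization Nat.prime_two (hd0 x)).mpr h4.ge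
      have h6 : ¬ 2 ^ 2 ∣ d x := by
        intro h7
        have h8 := (Nat.Prime.pow_dvd_iff_le_factorization Nat.prime_two (hd0 x)).mp h7
        omega
      obtain ⟨t, ht⟩ : ∃ t, d x = 4 * t + 2 := by
        refine ⟨d x / 4, ?_⟩
        omega
      rw [ht]
      refine ⟨2 * (t : ℤ) ^ 2 + 2 * t, ?_⟩
      push_cast
      ring
    · rw [if_neg hxS]
      have h3 : Odd (aA h2 (f x)) := by
        by_contra h4
        by_cases h5 : wW h2 (2 * h) (f x) = 0
        · have h6 := (hC.hZ x).mpr h5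
          rw [hZe] at h6
          simp at h6
        · exact hxS ((hC.hS x).mpr ⟨h4, h5⟩)
      have h4 := (L.h0 x).mpr h3
      have h5 := hht x
      rw [h4] at h5
      have h6 : ¬ 2 ∣ d x := by
        intro h7
        have h8 := (Nat.Prime.pow_dvd_iff_le_factorization Nat.prime_two (hd0 x)).mp (by simpa using h7 : 2 ^ 1 ∣ d x)
        omega
      obtain ⟨t, ht⟩ : ∃ t, d x = 2 * t + 1 := ⟨d x / 2, by omega⟩
      obtain ⟨c, hc⟩ : (2 : ℤ) ∣ (t : ℤ) * t - t := two_dvd_sq_sub _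
      rw [ht]
      refine ⟨(c + t : ℤ), ?_⟩
      push_cast
      linear_combination 4 * hc
  have h3 : (8 : ℤ) ∣ ∑ x, ((d x : ℤ) ^ 2 - ((if x ∈ S then 4 else 1 : ℕ) : ℤ)) := Finset.dvd_sum fun x _ => hmod x
  have h4 : ∑ x, ((if x ∈ S then 4 else 1 : ℕ) : ℤ) = 12 := by
    have h5 : ∀ x, ((if x ∈ S then 4 else 1 : ℕ) : ℤ) = 1 + (if x ∈ S then 3 else 0) := by
      intro x
      split_ifs <;> norm_num
    rw [Finset.sum_congr rfl fun x _ => h5 x, Finset.sum_add_distrib, Finset.sum_const, Finset.sum_ite_mem,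
      Finset.univ_inter, Finset.sum_const, Finset.card_univ, hC.hk, hZ, hS]
    norm_num
  rw [Finset.sum_sub_distrib, h4] at h3
  have h5 : ∑ x, (d x : ℤ) ^ 2 = 16 := by
    have h6 : ∑ x, d x ^ 2 = 16 := hsum.trans hcard
    exact_mod_cast h6
  rw [h5] at h3
  omega

end Rows

end Cfsg.Agent.Lib.Tw.Car
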