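import Mathlib
import Cfsg.Agent.Lib.Tw.Rows
import Cfsg.Agent.S4528
import Cfsg.Agent.Lib.KS84.Dom
import Cfsg.Agent.Lib.PGroups.Presentations

/-!
# The invariants of a block with a central involution in the cyclic subgroup
-/

set_option linter.unusedSectionVars false
set_option linter.style.haveILetI false
set_option autoImplicit false

namespace Cfsg.Agent.Lib.Tw.Cent

open Cfsg MonoidAlgebra
open Cfsg.Agent.Lib.Blocks.Local Cfsg.Agent.Lib.Blocks.Central Cfsg.Agent.Lib.Blocks.Main
open Cfsg.Agent.Lib.BlockH.Regular Cfsg.Agent.Lib.BlockP.Defect Cfsg.Agent.Lib.BlockH.Transport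
open Cfsg.Agent.Lib.Blocks.Quot Cfsg.Agent.Lib.Char.Complete
open Cfsg.Agent.Lib.Tw.Row Cfsg.Agent.Lib.Tw.Fou Cfsg.Agent.Lib.Tw.Cnt Cfsg.Agent.Lib.Tw.Grp
open Cfsg.Agent.Lib.Tw.Rows
open scoped ComplexConjugate

universe u

section Numeric

variable {G : Type u} [Group G] [Fintype G] [Fintype (IrrCharacter G)]
  [Fact (Nat.Prime 2)] {B : Set (IrrCharacter G)} {q h : ℕ} [NeZero q] [Fintype B] {h2 : 2 ∣ q} {z : G}
  {b : Set (IrrCharacter (Subgroup.centralizer ({z} : Set G)))} {f : B → ZMod q → ℤ} {Z S T3 : Finset B}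

/-- **The count of the rows with `κ = -1`.** -/
theorem central_numeric (L : Rows h2 h B b f Z S T3) (hq : q = 4 * h) (hh : 1 ≤ h) {κ : B → ℤ}
    (hκ : ∀ x, κ x = 1 ∨ κ x = -1) (hodd : ∀ x, κ x = -1 → ¬ Odd (aA h2 (f x)))
    (hsum : ∑ x, κ x * wW h2 (2 * h) (f x) = q)
    (hbound : (blockRank 2 B : ℤ) + h - 1 ≤ (Finset.univ.filter fun x => κ x = -1).card)
    (hrank : blockRank 2 b = blockRank 2 B) :
    (2 ≤ h → (Finset.univ.filter fun x => κ x = -1).card = h + Z.card ∧ blockRank 2 B = Z.card + 1) ∧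
      (h = 1 → blockRank 2 B = Z.card) := by
  classical
  set N := Finset.univ.filter fun x => κ x = -1 with hN
  have hC := L.hC
  have hd4 : 2 ≤ h → 4 ≤ blockDefect 2 B := by
    intro h3
    obtain ⟨h4, h5⟩ := L.hd
    by_contra h6
    have h7 : blockDefect 2 B = 3 := by omega
    rw [h7] at h5
    norm_num at h5
    omega
  set Sm := N.filter (· ∈ S) with hSm
  set Zm := N.filter (· ∈ Z) with hZm
  have hNsplit : N.card = Sm.card + Zm.card := by
    rw [hSm, hZm, ← Finset.card_union_of_disjoint]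
    · congr 1
      ext x
      simp only [Finset.mem_union, Finset.mem_filter, hN, Finset.mem_univ, true_and]
      constructor
      · intro hx
        by_cases hW : wW h2 (2 * h) (f x) = 0
        · exact Or.inr ⟨hx, (hC.hZ x).mpr hW⟩
        · exact Or.inl ⟨hx, (hC.hS x).mpr ⟨hodd x hx, hW⟩⟩
      · rintro (h3 | h3) <;> exact h3.1
    · rw [Finset.disjoint_left]
      intro x hx hx'
      have h3 := ((hC.hS x).mp (Finset.mem_filter.mp hx).2).2
      exact h3 ((hC.hZ x).mp (Finset.mem_filter.mp hx').2)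
  have hZmle : Zm.card ≤ Z.card := by
    refine Finset.card_le_card fun x hx => (Finset.mem_filter.mp hx).2
  -- the sum of `W` over `N`
  have hsN : 4 * ∑ x ∈ N, wW h2 (2 * h) (f x) = (q : ℤ) * ((q : ℤ) - 4) := by
    have h3 : 2 * ∑ x ∈ N, wW h2 (2 * h) (f x) = ∑ x, wW h2 (2 * h) (f x) - ∑ x, κ x * wW h2 (2 * h) (f x) := by
      rw [hN, Finset.sum_filter, Finset.mul_sum, ← Finset.sum_sub_distrib]
      refine Finset.sum_congr rfl fun x _ => ?_
      rcases hκ x with h4 | h4
      · rw [h4, if_neg (by norm_num)]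
        ring
      · rw [h4, if_pos rfl]
        ring
    have h4 := L.hW
    rw [hsum] at h3
    nlinarith
  have hsN2 : ∑ x ∈ N, wW h2 (2 * h) (f x) = Sm.card * (2 * (2 * h) - 4) := by
    rw [hSm, Finset.card_filter]
    push_cast
    rw [Finset.sum_mul]
    refine Finset.sum_congr rfl fun x hx => ?_
    have hxN : κ x = -1 := (Finset.mem_filter.mp hx).2
    by_cases hS' : x ∈ S
    · rw [if_pos hS', one_mul]
      obtain ⟨h5, h6⟩ := (hC.hS x).mp hS'
      rcases L.hty x with h7 | ⟨-, h7⟩ | ⟨-, h7, -⟩ | ⟨-, -, h7⟩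
      · exact absurd h7 h6
      · exact absurd h7 h5
      · exact h7
      · exact absurd h7 h5
    · rw [if_neg hS', zero_mul]
      by_contra h6
      exact hS' ((hC.hS x).mpr ⟨hodd x hxN, h6⟩)
  constructor
  · intro h3
    have h5 := L.hr.2 (hd4 h3)
    rw [hrank] at h5
    have hSmc : Sm.card = h := by
      rw [hsN2, hq] at hsN
      push_cast at hsN
      have h6 : (16 * ((h : ℤ) - 1)) * ((Sm.card : ℤ) - h) = 0 := by
        linear_combination hsN
      have h7 : (16 * ((h : ℤ) - 1)) ≠ 0 := by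
        have : (2 : ℤ) ≤ h := by exact_mod_cast h3
        omega
      have h8 := (mul_eq_zero.mp h6).resolve_left h7
      omega
    omega
  · rintro rfl
    have h5 := L.hr.1
    rw [hrank] at h5
    have hSm0 : Sm.card = 0 := by
      rw [Finset.card_eq_zero, hSm, Finset.filter_eq_empty_iff]
      intro x _ hx
      have := hC.hS2 x hx
      omega
    omega

end Numeric

section Top

variable {G : Type u} [Group G] [Fintype G] [Fintype (IrrCharacter G)] {M : Ideal AlgInt} {z : G}

/-- The centralizer of a central element. -/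
def topIso (hzc : ∀ t : G, z * t = t * z) : G ≃* Subgroup.centralizer ({z} : Set G) where
  toFun t := ⟨t, by
    rw [Subgroup.mem_centralizer_singleton_iff]
    exact (hzc t).symm⟩
  invFun t := t
  left_inv _ := rfl
  right_inv _ := rfl
  map_mul' _ _ := rfl

attribute [local instance] Cfsg.Agent.Lib.BP.StarDefs.fK Cfsg.Agent.Lib.BP.StarDefs.fIrr

theorem isInduced_top (hzc : ∀ t : G, z * t = t * z) [M.IsPrime] {B : Set (IrrCharacter G)} (hB : IsPBlock M B) :
    IsInducedBlock M (Subgroup.centralizer ({z} : Set G)) (blockMap (topIso hzc) B) B := by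
  classical
  obtain ⟨χ, hχ⟩ := isPBlock_nonempty hB
  rw [isPBlock_eq_blockOf hB hχ, blockMap_blockOf]
  refine Cfsg.Agent.Lib.Blocks.Induced.isInducedBlock_blockOf _ fun y _ => ?_
  have h1 : Cfsg.Agent.Lib.Blocks.Induced.indHom (Subgroup.centralizer ({z} : Set G))
      (irrMap (topIso hzc) χ) y = omegaHom χ y := by
    rw [Cfsg.Agent.Lib.Blocks.Induced.indHom_apply, omegaHom_apply, omegaHom_apply, lin_apply, lin_apply]
    have h3 : ((irrMap (topIso hzc) χ : IrrCharacter (Subgroup.centralizer ({z} : Set G))) : Subgroup.centralizer ({z} : Set G) → ℂ) 1 = (χ : G → ℂ) 1 := by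
      rw [irrMap_apply, map_one]
    rw [h3]
    congr 1
    symm
    refine Fintype.sum_equiv (topIso hzc).toEquiv _ _ fun t => ?_
    simp only [MulEquiv.toEquiv_eq_coe, EquivLike.coe_coe, irrMap_apply, MulEquiv.symm_apply_apply]
    rfl
  rw [h1, sub_self]
  exact memLocalIdeal_zero

end Top

section Quot

variable {G : Type u} [Group G] [Fintype G] [Fintype (IrrCharacter G)] {M : Ideal AlgInt} {z : G}
  {B : Set (IrrCharacter G)} {D : Subgroup G}

/-- **The quotient by a central involution and the dominated block.** -/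
theorem exists_quot_central [Fact (Nat.Prime 2)] (hM : IsPModular 2 M) (hB : IsPBlock M B) (hD : IsDefectGroup 2 M B D)
    (hz : orderOf z = 2) (hzc : ∀ t : G, z * t = t * z) :
    ∃ (X : Type u) (_ : Group X) (_ : Fintype X) (_ : Fintype (IrrCharacter X)) (π : G →* X) (hπ : Function.Surjective π),
      π.ker = Subgroup.zpowers z ∧ ∃ A : Set (IrrCharacter X), IsPBlock M A ∧
        (∀ ψ, ψ ∈ A ↔ inflI π hπ ψ ∈ B) ∧ IsDefectGroup 2 M A (D.map π) := by
  classical
  haveI := isPrime_of_pModular hM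
  set Zz := Subgroup.zpowers z with hZz
  have hZc : ∀ u ∈ Zz, ∀ c : G, Commute u c := by
    intro u hu c
    obtain ⟨i, rfl⟩ := hu
    have : Commute z c := hzc c
    exact this.zpow_left i
  haveI hZn : Zz.Normal := ⟨fun n hn g => by
    have : g * n * g⁻¹ = n := by
      have h := (hZc n hn g).eq
      rw [← h, mul_inv_cancel_right]
    rw [this]
    exact hn⟩
  letI : Fintype (G ⧸ Zz) := Fintype.ofFinite _
  haveI := Cfsg.Agent.Lib.Char.Ortho.finite_irrCharacter (G := G ⧸ Zz)
  letI : Fintype (IrrCharacter (G ⧸ Zz)) := Fintype.ofFinite _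
  have hkerZ : (QuotientGroup.mk' Zz).ker = Zz := QuotientGroup.ker_mk' Zz
  have hπ : Function.Surjective (QuotientGroup.mk' Zz) := QuotientGroup.mk'_surjective Zz
  have hcard : Nat.card Zz = 2 ^ 1 := by
    rw [hZz, Nat.card_zpowers, hz, pow_one]
  have hker : IsPGroup 2 (QuotientGroup.mk' Zz).ker := by
    rw [hkerZ]
    exact IsPGroup.of_card hcard
  have hcen : ∀ u ∈ (QuotientGroup.mk' Zz).ker, ∀ c : G, Commute u c := by
    intro u hu c
    rw [hkerZ] at hu
    exact hZc u hu c
  refine ⟨G ⧸ Zz, inferInstance, inferInstance, inferInstance, QuotientGroup.mk' Zz, hπ, hkerZ, ?_⟩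
  obtain ⟨A, hA, hAiff⟩ := Cfsg.Agent.Lib.Contrib.Dom.exists_dominated _ hπ hker hcen hM hB
  obtain ⟨Bb, hBb, hsub, hdef⟩ := exists_block_map _ hπ hM hker hB
  obtain ⟨χ, hχ⟩ := isPBlock_nonempty hBb
  have hAB : A = Bb := isPBlock_mem_unique hA hBb ((hAiff χ).mpr (hsub χ hχ)) hχ
  refine ⟨A, hA, hAiff, ?_⟩
  rw [hAB]
  exact (hdef _).mpr ⟨D, hD, rfl⟩

end Quot

section Dih

variable {G X : Type u} [Group G] [Fintype G] [Group X] [Finite X] {z : G} {D : Subgroup G} {q h m : ℕ} [NeZero q]
  {c : ZMod q}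

/-- The image in the quotient of the dihedral type. -/
theorem dih_map (R : Rot D q h c) (π : G →* X) (hker : π.ker = Subgroup.zpowers z) (hz : z = rr R (zt q h))
    (hq : q = 4 * h) (hh : 1 ≤ h) (hq2 : q = 2 ^ m) (hcc : c * c = 1)
    (hfix : ∀ j : ZMod q, c * j = j → j = 0 ∨ j = zt q h)
    (hc1 : c + 1 = 0 ∨ c + 1 = zt q h) (hcard : Nat.card D = 2 * q) :
    Nonempty (DihedralGroup (2 * h) ≃* ↥(D.map π)) := by
  classical
  have hz2 : z * z = 1 := by
    rw [hz, ← rr_add, zt_add_zt hq, rr_zero]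
  have hzne : z ≠ 1 := by
    rw [hz, ← rr_zero R]
    intro h3
    exact zt_ne hq hh (rr_injective R h3)
  have hmemZ : ∀ u : G, u ∈ Subgroup.zpowers z ↔ u = 1 ∨ u = z := by
    intro u
    constructor
    · rintro ⟨k, rfl⟩
      rcases Int.even_or_odd' k with ⟨t, rfl | rfl⟩
      · left
        simp only
        rw [zpow_mul, zpow_two, hz2, one_zpow]
      · right
        simp only
        rw [zpow_add, zpow_mul, zpow_two, hz2, one_zpow, one_mul, zpow_one]
    · rintro (rfl | rfl)
      · exact Subgroup.one_mem _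
      · exact Subgroup.mem_zpowers _
  have hπker : ∀ u : G, π u = 1 ↔ u = 1 ∨ u = z := by
    intro u
    rw [← MonoidHom.mem_ker, hker, hmemZ]
  have hπρ : ∀ i : ZMod q, π (rr R i) = 1 ↔ i = 0 ∨ i = zt q h := by
    intro i
    rw [hπker, hz, ← rr_zero R]
    exact or_congr (rr_injective R).eq_iff (rr_injective R).eq_iff
  -- the powers
  have hpow : ∀ k : ℕ, rr R 1 ^ k = rr R (k : ZMod q) := by
    intro k
    induction k with
    | zero => simp [rr_zero]
    | succ k ih =>
      rw [pow_succ, ih, ← rr_add]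
      congr 1
      push_cast
      rfl
  obtain ⟨n, hm⟩ : ∃ n, m = n + 2 := by
    refine ⟨m - 2, ?_⟩
    have h3 : 2 ≤ m := by
      by_contra h4
      have h5 : m = 0 ∨ m = 1 := by omega
      rcases h5 with rfl | rfl <;> omega
    omega
  have hhn : h = 2 ^ n := by
    rw [hm, pow_add] at hq2
    omega
  haveI : NeZero (2 * h) := ⟨by omega⟩
  let a : ↥(D.map π) := ⟨π (rr R 1), ⟨rr R 1, (R.ρ 1).2, rfl⟩⟩
  let y : ↥(D.map π) := ⟨π (R.s : D), ⟨(R.s : D), R.s.2, rfl⟩⟩
  have ha' : ∀ k : ℕ, ((a ^ k : ↥(D.map π)) : X) = π (rr R (k : ZMod q)) := by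
    intro k
    rw [Subgroup.coe_pow, ← map_pow, hpow]
  have hao : orderOf a = 2 * h := by
    have h3 : 2 * h = 2 ^ (n + 1) := by
      rw [hhn]
      ring
    rw [h3]
    refine orderOf_eq_prime_pow ?_ ?_
    · intro h4
      have h5 := congrArg Subtype.val h4
      rw [ha' (2 ^ n), Subgroup.coe_one, hπρ, ← hhn] at h5
      rcases h5 with h5 | h5
      · exact ht_ne hq hh h5
      · apply zt_ne hq hh
        have h6 := ht_add_ht (q := q) (h := h)
        have h7 : ht q h = zt q h := h5
        rw [h7] at h6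
        rw [← zt_add_zt hq, h6]
    · apply Subtype.ext
      rw [ha' (2 ^ (n + 1)), Subgroup.coe_one, hπρ, ← h3]
      right
      rfl
  have hss : (R.s * R.s : D) = 1 ∨ (R.s * R.s : D) = (R.ρ (zt q h) : D) := by
    rcases R.cover (R.s * R.s) with ⟨i, hi⟩ | ⟨i, hi⟩
    · have h3 : c * i = i := by
        apply R.inj
        rw [← R.conj, ← hi]
        group
      rcases hfix i h3 with h4 | h4
      · left
        rw [hi, h4, R.zero]
      · right
        rw [hi, h4]
    · exact absurd (mul_left_cancel hi) (R.s_ne i)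
  have hy2 : y ^ 2 = 1 := by
    apply Subtype.ext
    rw [pow_two, Subgroup.coe_mul, Subgroup.coe_one]
    change π (R.s : D) * π (R.s : D) = 1
    rw [← map_mul, hπker, ← Subgroup.coe_mul]
    rcases hss with h3 | h3
    · left
      rw [h3, Subgroup.coe_one]
    · right
      rw [h3, hz]
      rfl
  have hconj : y * a * y⁻¹ = a⁻¹ := by
    apply Subtype.ext
    rw [Subgroup.coe_inv, Subgroup.coe_mul, Subgroup.coe_mul, Subgroup.coe_inv]
    change π (R.s : D) * π (rr R 1) * (π (R.s : D))⁻¹ = (π (rr R 1))⁻¹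
    rw [← map_inv, ← map_mul, ← map_mul, eq_inv_iff_mul_eq_one, ← map_mul]
    have h3 : ((R.s : D) : G) * rr R 1 * ((R.s : D) : G)⁻¹ = rr R (c * 1) := by
      have := congrArg Subtype.val (R.conj 1)
      simpa [rr] using this
    rw [h3, mul_one, ← rr_add, hπρ]
    exact hc1
  have hyA : y ∉ Subgroup.zpowers a := by
    intro h3
    rw [← mem_powers_iff_mem_zpowers] at h3
    obtain ⟨k, hk⟩ := h3
    have h4 : π (R.s : D) = π (rr R (k : ZMod q)) := by
      have := congrArg Subtype.val hk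
      rw [ha' k] at this
      exact this.symm
    have h5 : π (((R.s * R.ρ (-(k : ZMod q)) : D)) : G) = 1 := by
      rw [Subgroup.coe_mul, map_mul, h4, ← map_mul]
      have : ((R.ρ (-(k : ZMod q)) : D) : G) = rr R (-(k : ZMod q)) := rfl
      rw [this, ← rr_add, add_neg_cancel, rr_zero, map_one]
    rw [hπker] at h5
    rcases h5 with h5 | h5
    · exact R.ne_refl 0 _ (Subtype.ext (by rw [h5, R.zero]; rfl))
    · exact R.ne_refl (zt q h) _ (Subtype.ext (by rw [h5, hz]; rfl))
  have hcardm : Nat.card ↥(D.map π) = 2 * (2 * h) := by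
    let f : D →* X := π.comp D.subtype
    have hr : f.range = D.map π := by
      rw [MonoidHom.range_comp, Subgroup.range_subtype]
    have hk : f.ker = (Subgroup.zpowers z).subgroupOf D := by
      ext d
      rw [MonoidHom.mem_ker, Subgroup.mem_subgroupOf, ← hker, MonoidHom.mem_ker]
      rfl
    have hzD : Subgroup.zpowers z ≤ D := by
      rw [Subgroup.zpowers_le, hz]
      exact (R.ρ _).2
    have h3 : Nat.card f.ker = 2 := by
      rw [hk, Nat.card_congr (Subgroup.subgroupOfEquivOfLe hzD).toEquiv, Nat.card_zpowers]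
      exact orderOf_eq_prime (by rw [pow_two, hz2]) hzne
    have h4 := f.ker.card_mul_index
    rw [Subgroup.index_ker, hr, h3, hcard] at h4
    have h5 : Nat.card ↥(D.map π) = q := by omega
    rw [h5, hq]
    ring
  obtain ⟨e⟩ := Cfsg.Agent.Lib.PGroups.Presentations.nonempty_dihedral_equiv hao hy2 hconj hyA hcardm
  exact ⟨e⟩

end Dih

section Formula

variable {G : Type u} [Group G] [Fintype G] [Fintype (IrrCharacter G)] {M : Ideal AlgInt} {z : G}
  {B : Set (IrrCharacter G)} {D : Subgroup G} {q h m : ℕ} [NeZero q] {c : ZMod q}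

/-- The members of the dominated block. -/
theorem card_dominated {X : Type u} [Group X] [Fintype X] [Fintype B] (π : G →* X) (hπ : Function.Surjective π)
    (hker : π.ker = Subgroup.zpowers z) (hz : z * z = 1) {A : Set (IrrCharacter X)} (hA : ∀ ψ, ψ ∈ A ↔ inflI π hπ ψ ∈ B) :
    Nat.card A = (Finset.univ.filter fun x : B => ((x : IrrCharacter G) : G → ℂ) z = ((x : IrrCharacter G) : G → ℂ) 1).card := by
  classical
  have hπz : π z = 1 := by
    rw [← MonoidHom.mem_ker, hker]
    exact Subgroup.mem_zpowers z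
  rw [← Fintype.card_subtype, ← Nat.card_eq_fintype_card]
  refine Nat.card_eq_of_bijective (fun ψ : A => ⟨⟨inflI π hπ (ψ : IrrCharacter X), (hA _).mp ψ.2⟩, ?_⟩) ?_
  · change (ψ : X → ℂ) (π z) = (ψ : X → ℂ) (π 1)
    rw [hπz, map_one]
  · constructor
    · intro ψ ψ' h1
      have h3 : inflI π hπ (ψ : IrrCharacter X) = inflI π hπ (ψ' : IrrCharacter X) :=
        congrArg (fun u => ((u : {x : B // _}) : B).1) h1
      have h4 : (((ψ : IrrCharacter X) : X → ℂ) ∘ π) = (((ψ' : IrrCharacter X) : X → ℂ) ∘ π) :=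
        congrArg (fun u : IrrCharacter G => (u : G → ℂ)) h3
      apply Subtype.ext
      apply Subtype.ext
      exact hπ.injective_comp_right h4
    · rintro ⟨x, hx⟩
      obtain ⟨φ, hφ, hxφ⟩ := Cfsg.Agent.Lib.Char.Linear.isIrrCharacter_descend π hπ (x : IrrCharacter G).2 (fun k hk => by
        rw [hker] at hk
        obtain ⟨i, rfl⟩ := hk
        simp only
        rcases Int.even_or_odd' i with ⟨t, rfl | rfl⟩
        · rw [zpow_mul, zpow_two, hz, one_zpow]
        · rw [zpow_add, zpow_mul, zpow_two, hz, one_zpow, one_mul, zpow_one]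
          exact hx)
      let ψ : IrrCharacter X := ⟨φ, hφ⟩
      have h1 : inflI π hπ ψ = (x : IrrCharacter G) := Subtype.ext hxφ.symm
      refine ⟨⟨ψ, (hA ψ).mpr (by rw [h1]; exact x.2)⟩, ?_⟩
      apply Subtype.ext
      apply Subtype.ext
      exact h1

variable [Fact (Nat.Prime 2)]

/-- **The invariants of a block with a central involution.** -/
theorem central_formula (R : Rot D q h c) (hM : IsPModular 2 M) (hB : IsPBlock M B) (hD : IsDefectGroup 2 M B D)
    [Fintype B] (h2 : 2 ∣ q) (hq : q = 4 * h) (hh : 1 ≤ h) (hq2 : q = 2 ^ m)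
    (hcc : c * c = 1) (hfix : ∀ j : ZMod q, c * j = j → j = 0 ∨ j = zt q h) (hcz : c * zt q h = zt q h)
    (hcw : c * ht q h = - ht q h) (hc1 : c + 1 = 0 ∨ c + 1 = zt q h) (hcard : Nat.card D = 2 * q)
    (hz : z = rr R (zt q h)) (hzo : orderOf z = 2 ^ 1) (hzc : ∀ t : G, z * t = t * z) :
    Fintype.card B = 2 * h + 2 + blockRank 2 B ∧ blockRank 2 B ≤ 3 := by
  classical
  haveI := isPrime_of_pModular hM
  have hrank : blockRank 2 (blockMap (topIso hzc) B) = blockRank 2 B :=
    Cfsg.Agent.Lib.Blocks.ChainBlocks.blockRank_blockMap _ _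
  obtain ⟨f, Z, S, T3, L, hcent⟩ := exists_rows R hM hB hD h2 hq hh hq2 hcc hfix hcz hcw hcard hz hzo
    (isInduced_top hzc hB) (Cfsg.Agent.Lib.Blocks.ExtCrit.blockDefect_blockMap _ _)
  obtain ⟨κ, ε, hε, hκ, hκc, hodd, hsum, hbound⟩ := hcent hzc
  obtain ⟨hn1, hn2⟩ := central_numeric L hq hh hκ hodd hsum hbound hrank
  have hzo' : orderOf z = 2 := by rw [hzo, pow_one]
  have hz2 : z * z = 1 := by
    rw [← pow_two, ← hzo']
    exact pow_orderOf_eq_one z
  obtain ⟨X, _, _, _, π, hπ, hker, A, hA, hAiff, hAD⟩ := exists_quot_central hM hB hD hzo' hzc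
  letI : Fintype A := Fintype.ofFinite _
  have hkerP : IsPGroup 2 π.ker := by
    rw [hker]
    exact IsPGroup.of_card (by rw [Nat.card_zpowers, hzo])
  have hcen : ∀ u ∈ π.ker, ∀ c : G, Commute u c := by
    intro u hu c
    rw [hker] at hu
    obtain ⟨i, rfl⟩ := hu
    have h1 : Commute z c := hzc c
    exact h1.zpow_left i
  have hle := Cfsg.Agent.Lib.KS84.Dom.blockRank_le_dominated π hπ hkerP hcen hM hB hAiff
  obtain ⟨φ⟩ := dih_map R π hker hz hq hh hq2 hcc hfix hc1 hcard
  have hcardA : Nat.card ↥(D.map π) = q := by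
    rw [← Nat.card_congr φ.toEquiv, DihedralGroup.nat_card, hq]
    ring
  have hdA := Cfsg.Agent.Lib.Blocks.Inducing.card_eq_pow_blockDefect hM hA hAD
  have hdB := Cfsg.Agent.Lib.Blocks.Inducing.card_eq_pow_blockDefect hM hB hD
  rw [hcardA, hq2] at hdA
  rw [hcard, hq2, ← pow_succ'] at hdB
  have hdA' : blockDefect 2 A = m := (Nat.pow_right_injective (le_refl 2) hdA).symm
  have hdB' : blockDefect 2 B = m + 1 := (Nat.pow_right_injective (le_refl 2) hdB).symm
  obtain ⟨n, hm⟩ : ∃ n, m = n + 2 := by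
    refine ⟨m - 2, ?_⟩
    have h3 : 2 ≤ m := by
      by_contra h4
      have h5 : m = 0 ∨ m = 1 := by omega
      rcases h5 with rfl | rfl <;> omega
    omega
  have hhn : h = 2 ^ n := by
    rw [hm, pow_add] at hq2
    omega
  have hC := L.hC
  by_cases h2h : 2 ≤ h
  · -- the dominated block is dihedral
    obtain ⟨hNc, hl⟩ := hn1 h2h
    have hn1' : 1 ≤ n := by
      by_contra h4
      have h5 : n = 0 := by omega
      rw [h5] at hhn
      simp at hhn
      omega
    have h3m : 3 ≤ m := by omega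
    have e1 : 2 ^ (m - 1) = 2 * h := by
      rw [hm, hhn, show n + 2 - 1 = n + 1 by omega]
      ring
    have e2 : 2 ^ (m - 2) = h := by
      rw [hm, hhn, show n + 2 - 2 = n by omega]
    have hS4528 := Cfsg.Agent.S4528.result M hM A hA (D.map π) hAD m h3m ⟨by rw [e1]; exact φ.symm⟩
    obtain ⟨hkA, -, hlA, -, -⟩ := hS4528
    rw [e2] at hkA
    -- the sign is trivial
    have hε1 : ε = 1 := by
      obtain ⟨ψ₀, hψ₀, hψm⟩ := exists_minExp 2 (isPBlock_nonempty hA)
      have hx₀ := (hAiff ψ₀).mp hψ₀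
      have h1 := Cfsg.Agent.Lib.Blocks.RegPart2.minExp_add_blockDefect (p := 2) hψ₀
      have h3 := Cfsg.Agent.Lib.Blocks.RegPart2.minExp_add_blockDefect (p := 2) hx₀
      have h4 := minExp_le 2 hx₀
      have hcg := Cfsg.Agent.Lib.Contrib.Dom.card_eq_mul π hπ
      have hfac : (Nat.card G).factorization 2 = 1 + (Nat.card X).factorization 2 := by
        rw [hcg, Nat.factorization_mul Nat.card_pos.ne' Nat.card_pos.ne', hker, Nat.card_zpowers, hzo, pow_one,
          Finsupp.add_apply, Nat.prime_two.factorization_self]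
      rw [Cfsg.Agent.Lib.Contrib.Dom.charDegree_infl] at h4
      have hht : blockHeight 2 B ((inflI π hπ ψ₀ : IrrCharacter G) : G → ℂ) = 0 := by
        change (charDegree ((inflI π hπ ψ₀ : IrrCharacter G) : G → ℂ)).factorization 2 - minExp 2 B = 0
        rw [Cfsg.Agent.Lib.Contrib.Dom.charDegree_infl]
        omega
      have hoddx := (L.h0 ⟨_, hx₀⟩).mp hht
      have hκ1 : κ ⟨_, hx₀⟩ = 1 := by
        rcases hκ ⟨_, hx₀⟩ with h5 | h5
        · exact h5
        · exact absurd hoddx (hodd _ h5)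
      have h5 := hκc ⟨_, hx₀⟩
      rw [hκ1] at h5
      have hπz : π z = 1 := by
        rw [← MonoidHom.mem_ker, hker]
        exact Subgroup.mem_zpowers z
      have h6 : (ψ₀ : X → ℂ) (π z) / (ψ₀ : X → ℂ) (π 1) = 1 := by
        rw [hπz, map_one]
        exact div_self (irr_one_ne_zero ψ₀.2)
      have h7 : ((inflI π hπ ψ₀ : IrrCharacter G) : G → ℂ) z / ((inflI π hπ ψ₀ : IrrCharacter G) : G → ℂ) 1 = 1 := h6
      simp only at h5
      rw [h7, one_mul] at h5
      push_cast at h5
      exact h5.symm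
    have hκiff : ∀ x : B, κ x = 1 ↔ ((x : IrrCharacter G) : G → ℂ) z = ((x : IrrCharacter G) : G → ℂ) 1 := by
      intro x
      have h5 := hκc x
      rw [hε1, mul_one] at h5
      have hx1 := irr_one_ne_zero (x : IrrCharacter G).2
      constructor
      · intro h6
        rw [h6] at h5
        push_cast at h5
        exact ((div_eq_one_iff_eq hx1).mp h5.symm)
      · intro h6
        rw [h6, div_self hx1] at h5
        exact_mod_cast h5
    have hcA := card_dominated π hπ hker hz2 hAiff
    have hfil : (Finset.univ.filter fun x : B => ((x : IrrCharacter G) : G → ℂ) z = ((x : IrrCharacter G) : G → ℂ) 1) =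
        Finset.univ.filter fun x : B => ¬ κ x = -1 := by
      ext x
      simp only [Finset.mem_filter, Finset.mem_univ, true_and]
      rw [← hκiff]
      rcases hκ x with h5 | h5
      · rw [h5]
        norm_num
      · rw [h5]
        norm_num
    rw [hfil, hkA] at hcA
    have hpart := Finset.card_filter_add_card_filter_not (s := (Finset.univ : Finset B)) (fun x => κ x = -1)
    rw [hNc, ← hcA, Finset.card_univ, hC.hk] at hpart
    refine ⟨?_, hle.trans hlA⟩
    rw [hC.hk, hl]
    omega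
  · have hh1 : h = 1 := by omega
    have hl := hn2 hh1
    have hS0 : S.card = 0 := by
      rw [Finset.card_eq_zero, Finset.eq_empty_iff_forall_notMem]
      intro x hx
      have := hC.hS2 x hx
      omega
    refine ⟨?_, hle.trans (Cfsg.Agent.Lib.KS84.Dom.blockRank_le_three hM hA ?_)⟩
    · rw [hC.hk, hS0, hh1, hl]
    · have hn0 : n = 0 := by
        by_contra h5
        have := Nat.one_lt_two_pow h5
        omega
      rw [hdA', hm, hn0]

end Formula

end Cfsg.Agent.Lib.Tw.Cent
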