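import Mathlib
import Cfsg.Agent.Lib.Blocks.ChainBlocks
import Cfsg.Agent.Lib.Dih.Down
import Cfsg.Agent.Lib.Contrib.Section

/-!
# Comparing the section counts of a block and of a block of the centralizer of an involution
-/

set_option linter.unusedSectionVars false
set_option linter.style.haveILetI false
set_option autoImplicit false

namespace Cfsg.Agent.Lib.Tw.Cmp

open Cfsg
open Cfsg.Agent.Lib.Blocks.Local Cfsg.Agent.Lib.Blocks.Central
open Cfsg.Agent.Lib.Blocks.SectionCount Cfsg.Agent.Lib.Blocks.ChainBlocks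
open Cfsg.Agent.Lib.BlockH.Regular Cfsg.Agent.Lib.BlockH.Transport
open Cfsg.Agent.Lib.Blocks.Weak Cfsg.Agent.Lib.Blocks.Main Cfsg.Agent.Lib.Blocks.ClosedRank Cfsg.Agent.Lib.Blocks.NormRank
open scoped ComplexConjugate

universe u

section Sat

variable {G : Type u} [Group G] [Fintype G]

open Classical in
/-- The number of elements conjugating `x` into a set on which conjugation is controlled by `C`. -/
theorem card_conj_into (C : Subgroup G) (Y : G → Prop)
    (hYC : ∀ c ∈ C, ∀ y, Y y → Y (c * y * c⁻¹))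
    (hconj : ∀ t y, Y y → Y (t * y * t⁻¹) → t ∈ C) {x t : G} (ht : Y (t * x * t⁻¹)) :
    (Finset.univ.filter fun g : G => Y (g⁻¹ * x * g)).card = Nat.card C := by
  rw [Nat.card_eq_fintype_card, ← Finset.card_univ]
  symm
  refine Finset.card_bij (fun c _ => t⁻¹ * (c : G)) ?_ ?_ ?_
  · intro c _
    rw [Finset.mem_filter]
    refine ⟨Finset.mem_univ _, ?_⟩
    have h1 := hYC (c : G)⁻¹ (C.inv_mem c.2) _ ht
    have e : (t⁻¹ * (c : G))⁻¹ * x * (t⁻¹ * (c : G)) = (c : G)⁻¹ * (t * x * t⁻¹) * ((c : G)⁻¹)⁻¹ := by group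
    rw [e]
    exact h1
  · intro c _ c' _ h
    exact Subtype.ext (mul_left_cancel h)
  · intro g hg
    rw [Finset.mem_filter] at hg
    have h1 : (t * g)⁻¹ * (t * x * t⁻¹) * (t * g)⁻¹⁻¹ = g⁻¹ * x * g := by group
    have h2 := hconj (t * g)⁻¹ _ ht (by rw [h1]; exact hg.2)
    refine ⟨⟨t * g, by simpa using C.inv_mem h2⟩, Finset.mem_univ _, ?_⟩
    group

open Classical in
/-- **Saturation of a sum of a class function.** -/
theorem sum_sat (C : Subgroup G) (Y : G → Prop) (φ : G → ℂ) (hφ : ∀ g x, φ (g * x * g⁻¹) = φ x)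
    (hYC : ∀ c ∈ C, ∀ y, Y y → Y (c * y * c⁻¹))
    (hconj : ∀ t y, Y y → Y (t * y * t⁻¹) → t ∈ C) :
    (Nat.card C : ℂ) * ∑ x, (if ∃ t, Y (t * x * t⁻¹) then φ x else 0) =
      (Nat.card G : ℂ) * ∑ y, (if Y y then φ y else 0) := by
  have h1 : ∀ g : G, ∑ y, (if Y y then φ y else 0) = ∑ x, (if Y (g⁻¹ * x * g) then φ x else 0) := by
    intro g
    refine Fintype.sum_equiv (MulAut.conj g).toEquiv _ _ fun y => ?_
    have e : g⁻¹ * (MulAut.conj g).toEquiv y * g = y := by
      simp [mul_assoc]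
    rw [e]
    have e2 : φ ((MulAut.conj g).toEquiv y) = φ y := hφ g y
    rw [e2]
  have h2 : (Nat.card G : ℂ) * ∑ y, (if Y y then φ y else 0) =
      ∑ g : G, ∑ x, (if Y (g⁻¹ * x * g) then φ x else 0) := by
    rw [Finset.sum_congr rfl fun g _ => (h1 g).symm, Finset.sum_const, Finset.card_univ,
      nsmul_eq_mul, Nat.card_eq_fintype_card]
  rw [h2, Finset.sum_comm, Finset.mul_sum]
  refine Finset.sum_congr rfl fun x _ => ?_
  by_cases h3 : ∃ t, Y (t * x * t⁻¹)
  · obtain ⟨t, ht⟩ := h3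
    rw [if_pos ⟨t, ht⟩, ← Finset.sum_filter, Finset.sum_const, nsmul_eq_mul,
      card_conj_into C Y hYC hconj ht]
  · rw [if_neg h3, mul_zero]
    symm
    refine Finset.sum_eq_zero fun g _ => ?_
    rw [if_neg]
    intro h4
    exact h3 ⟨g⁻¹, by simpa using h4⟩

end Sat

section Phi

variable {G : Type u} [Group G] [Fintype G] {M : Ideal AlgInt} {p : ℕ} [Fact p.Prime]

open Classical in
/-- The term of the section count. -/
noncomputable def phi (M : Ideal AlgInt) (p : ℕ) (A : Set (IrrCharacter G)) (x : G) : ℂ :=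
  if x ≠ 1 ∧ ∃ k : ℕ, orderOf x = p ^ k then
    (Nat.card (Cn x) : ℂ) * (blockRank p (indU M (Cn x) A) : ℂ) else 0

theorem orderOf_conj'' (g x : G) : orderOf (g * x * g⁻¹) = orderOf x := by
  have : g * x * g⁻¹ = (MulAut.conj g) x := rfl
  rw [this, MulEquiv.orderOf_eq]

open Classical in
/-- The term of the section count is a class function. -/
theorem phi_conj (hM : IsPModular p M) {A : Set (IrrCharacter G)} (hA : IsClosedB M A) (g x : G) :
    phi M p A (g * x * g⁻¹) = phi M p A x := by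
  haveI := isPrime_of_pModular hM
  haveI := Cfsg.Agent.Lib.Char.Ortho.finite_irrCharacter (G := G)
  letI : Fintype (IrrCharacter G) := Fintype.ofFinite _
  letI : ∀ x : G, Fintype (Cn x) := fun x => Fintype.ofFinite _
  haveI : ∀ x : G, Finite (IrrCharacter (Cn x)) := fun x =>
    Cfsg.Agent.Lib.Char.Ortho.finite_irrCharacter (G := Cn x)
  letI : ∀ x : G, Fintype (IrrCharacter (Cn x)) := fun x => Fintype.ofFinite _
  unfold phi
  have h1 : (g * x * g⁻¹ ≠ 1 ∧ ∃ k : ℕ, orderOf (g * x * g⁻¹) = p ^ k) ↔ (x ≠ 1 ∧ ∃ k : ℕ, orderOf x = p ^ k) := by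
    rw [orderOf_conj'']
    refine and_congr_left fun _ => ?_
    rw [Ne, Ne, conj_eq_one_iff]
  by_cases h2 : x ≠ 1 ∧ ∃ k : ℕ, orderOf x = p ^ k
  · rw [if_pos (h1.mpr h2), if_pos h2, rank_sec hM (h1.mpr h2).2 hA, rank_sec hM h2.2 hA]
    refine Finset.sum_congr rfl fun χ _ => ?_
    by_cases hχ : χ ∈ A
    · rw [if_pos hχ, if_pos hχ]
      have hcl := Cfsg.Agent.Lib.Char.Basic.isClassFunction_of_isIrrCharacter χ.2
      let e : Cn x ≃ Cn (g * x * g⁻¹) :=
        { toFun := fun s => ⟨g * s * g⁻¹, by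
            rw [Subgroup.mem_centralizer_singleton_iff]
            have := Subgroup.mem_centralizer_singleton_iff.mp s.2
            calc g * (s : G) * g⁻¹ * (g * x * g⁻¹) = g * ((s : G) * x) * g⁻¹ := by group
              _ = g * (x * s) * g⁻¹ := by rw [this]
              _ = _ := by group⟩
          invFun := fun s => ⟨g⁻¹ * s * g, by
            rw [Subgroup.mem_centralizer_singleton_iff]
            have := Subgroup.mem_centralizer_singleton_iff.mp s.2
            calc g⁻¹ * (s : G) * g * x = g⁻¹ * ((s : G) * (g * x * g⁻¹)) * g := by group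
              _ = g⁻¹ * ((g * x * g⁻¹) * s) * g := by rw [this]
              _ = _ := by group⟩
          left_inv := fun s => Subtype.ext (by change g⁻¹ * (g * (s : G) * g⁻¹) * g = s; group)
          right_inv := fun s => Subtype.ext (by change g * (g⁻¹ * (s : G) * g) * g⁻¹ = s; group) }
      symm
      refine Fintype.sum_equiv e _ _ fun s => ?_
      have e1 : (e s : G) = g * s * g⁻¹ := rfl
      have e2 : orderOf (e s) = orderOf s := by
        rw [← Subgroup.orderOf_coe, ← Subgroup.orderOf_coe (a := s), e1, orderOf_conj'']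
      have e3 : g * x * g⁻¹ * (e s : G) = g * (x * s) * g⁻¹ := by
        rw [e1]
        group
      have e4 : (χ : G → ℂ) (g * (x * s) * g⁻¹) = (χ : G → ℂ) (x * s) := by
        have := hcl (x * s) g
        simpa using this
      rw [e2, e3, e4]
    · rw [if_neg hχ, if_neg hχ]
  · rw [if_neg fun h => h2 (h1.mp h), if_neg h2]

theorem blockRank_empty {H : Type u} [Group H] (p : ℕ) : blockRank p (∅ : Set (IrrCharacter H)) = 0 := by
  unfold blockRank
  rw [Set.image_empty, Submodule.span_empty]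
  exact finrank_bot _ _

end Phi

section Compare

variable {G : Type u} [Group G] [Fintype G] {M : Ideal AlgInt} {p : ℕ} [Fact p.Prime]

/-- **Comparison of the section counts.** -/
theorem compare (hM : IsPModular p M) {B : Set (IrrCharacter G)} (hB : IsPBlock M B) {z : G}
    (hz : ∃ k : ℕ, orderOf z = p ^ k) (Y : G → Prop)
    (hYC : ∀ c ∈ Cn z, ∀ y, Y y → Y (c * y * c⁻¹))
    (hconj : ∀ t y, Y y → Y (t * y * t⁻¹) → t ∈ Cn z)
    (hY : ∀ y, Y y → y ≠ 1 ∧ (∃ k : ℕ, orderOf y = p ^ k) ∧ Cn y ≤ Cn z ∧ y ∈ Cn z)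
    (h1 : ∀ x : G, x ≠ 1 → (∃ k : ℕ, orderOf x = p ^ k) → (bN M (Cn x) B).Nonempty → ∃ t, Y (t * x * t⁻¹))
    (h2 : ∀ x : Cn z, (x : G) ≠ 1 → (∃ k : ℕ, orderOf x = p ^ k) → ¬ Y x →
      ¬ (bN M (Cn z ⊓ Cn (x : G)) B).Nonempty) :
    (Nat.card B : ℂ) - blockRank p B =
      (Nat.card (bN M (Cn z) B) : ℂ) - blockRank p (bN M (Cn z) B) := by
  classical
  haveI := isPrime_of_pModular hM
  letI : Fintype (Cn z) := Fintype.ofFinite _
  haveI := Cfsg.Agent.Lib.Char.Ortho.finite_irrCharacter (G := G)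
  letI : Fintype (IrrCharacter G) := Fintype.ofFinite _
  have hA : IsClosedB M B := isClosedB_of_isPBlock hB
  have hG : (Nat.card G : ℂ) ≠ 0 := Nat.cast_ne_zero.mpr Nat.card_pos.ne'
  have hC : (Nat.card (Cn z) : ℂ) ≠ 0 := Nat.cast_ne_zero.mpr Nat.card_pos.ne'
  have hG1 := section_count hM hA
  have hC1 := section_count_bN (b := B) hM (isBrauerPair_zpowers hz)
  have hφ : ∀ x, (if x ≠ 1 ∧ ∃ k : ℕ, orderOf x = p ^ k then
      (Nat.card (Cn x) : ℂ) * (blockRank p (indU M (Cn x) B) : ℂ) else 0) = phi M p B x := fun x => rfl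
  simp_rw [hφ] at hG1
  have hsat := sum_sat (Cn z) Y (phi M p B) (phi_conj hM hA) hYC hconj
  have h3 : ∑ x, (if ∃ t, Y (t * x * t⁻¹) then phi M p B x else 0) = ∑ x, phi M p B x := by
    refine Finset.sum_congr rfl fun x _ => ?_
    by_cases h4 : ∃ t, Y (t * x * t⁻¹)
    · rw [if_pos h4]
    · rw [if_neg h4]
      unfold phi
      by_cases h5 : x ≠ 1 ∧ ∃ k : ℕ, orderOf x = p ^ k
      · rw [if_pos h5]
        have h6 : ¬ (bN M (Cn x) B).Nonempty := fun h7 => h4 (h1 x h5.1 h5.2 h7)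
        rw [indU_eq_bN hM hB, Set.not_nonempty_iff_eq_empty.mp h6, blockRank_empty]
        simp
      · rw [if_neg h5]
  rw [h3] at hsat
  have h4 : ∑ y, (if Y y then phi M p B y else 0) = ∑ x : Cn z, (if x ≠ 1 ∧ ∃ k : ℕ, orderOf x = p ^ k then
        (Nat.card ↥(Cn z ⊓ Cn (x : G)) : ℂ) * (blockRank p (bN M (Cn z ⊓ Cn (x : G)) B) : ℂ) else 0) := by
    have h5 : ∀ x : Cn z, (if x ≠ 1 ∧ ∃ k : ℕ, orderOf x = p ^ k then
        (Nat.card ↥(Cn z ⊓ Cn (x : G)) : ℂ) * (blockRank p (bN M (Cn z ⊓ Cn (x : G)) B) : ℂ) else 0) =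
        if Y x then phi M p B x else 0 := by
      intro x
      have hne : (x ≠ 1) ↔ ((x : G) ≠ 1) := by
        rw [Ne, Ne, OneMemClass.coe_eq_one]
      by_cases hY' : Y x
      · obtain ⟨h6, h7, h8, -⟩ := hY _ hY'
        have h9 : x ≠ 1 ∧ ∃ k : ℕ, orderOf x = p ^ k := ⟨hne.mpr h6, by rwa [← Subgroup.orderOf_coe]⟩
        have h10 : (x : G) ≠ 1 ∧ ∃ k : ℕ, orderOf (x : G) = p ^ k := ⟨h6, h7⟩
        rw [if_pos h9, if_pos hY', phi, if_pos h10, inf_eq_right.mpr h8, indU_eq_bN hM hB]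
      · rw [if_neg hY']
        by_cases h9 : x ≠ 1 ∧ ∃ k : ℕ, orderOf x = p ^ k
        · rw [if_pos h9]
          have h10 := h2 x (hne.mp h9.1) (by simpa only [Subgroup.orderOf_coe] using h9.2) hY'
          rw [Set.not_nonempty_iff_eq_empty.mp h10, blockRank_empty]
          simp
        · rw [if_neg h9]
    rw [Finset.sum_congr rfl fun x _ => h5 x]
    have h6 : ∑ y, (if Y y then phi M p B y else 0) =
        ∑ y ∈ Finset.univ.filter (· ∈ Cn z), (if Y y then phi M p B y else 0) := by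
      symm
      refine Finset.sum_subset (Finset.filter_subset _ _) ?_
      intro y _ hy
      rw [if_neg]
      intro h7
      exact hy (Finset.mem_filter.mpr ⟨Finset.mem_univ _, (hY y h7).2.2.2⟩)
    rw [h6, Finset.sum_subtype (p := (· ∈ Cn z)) _ (fun y => by simp)]
  rw [h4] at hsat
  have h5 : (Nat.card (Cn z) : ℂ) * ((Nat.card G : ℂ) * ((Nat.card B : ℂ) - blockRank p B)) =
      (Nat.card G : ℂ) * ((Nat.card (Cn z) : ℂ) * ((Nat.card (bN M (Cn z) B) : ℂ) - blockRank p (bN M (Cn z) B))) := by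
    have e1 : (Nat.card G : ℂ) * ((Nat.card B : ℂ) - blockRank p B) = ∑ x, phi M p B x := by
      rw [mul_sub, hG1]
      ring
    have e2 : (Nat.card (Cn z) : ℂ) * ((Nat.card (bN M (Cn z) B) : ℂ) - blockRank p (bN M (Cn z) B)) =
        ∑ x : Cn z, (if x ≠ 1 ∧ ∃ k : ℕ, orderOf x = p ^ k then
        (Nat.card ↥(Cn z ⊓ Cn (x : G)) : ℂ) * (blockRank p (bN M (Cn z ⊓ Cn (x : G)) B) : ℂ) else 0) := by
      rw [mul_sub, hC1, add_sub_cancel_left]
      congr!
    rw [e1, e2, hsat]
  have h6 := mul_left_cancel₀ (mul_ne_zero hC hG) (by linear_combination h5 :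
    ((Nat.card (Cn z) : ℂ) * (Nat.card G : ℂ)) * ((Nat.card B : ℂ) - blockRank p B) =
    ((Nat.card (Cn z) : ℂ) * (Nat.card G : ℂ)) * ((Nat.card (bN M (Cn z) B) : ℂ) - blockRank p (bN M (Cn z) B)))
  exact h6

end Compare

section Pairs

variable {G : Type u} [Group G] [Fintype G] {M : Ideal AlgInt} {p : ℕ} [Fact p.Prime]
  {B : Set (IrrCharacter G)} {P : Subgroup G} {e : Set (IrrCharacter (Subgroup.centralizer (P : Set G)))}

open Cfsg.Agent.Lib.BlockH.Sylow Cfsg.Agent.Lib.BlockH.SubpairLE Cfsg.Agent.Lib.BlockH.ConjPair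

/-- The subgroup of a pair of the block is conjugate into the defect group. -/
theorem exists_conj_le (hM : IsPModular p M) (hmax : IsMaximalBrauerPair p M B P e) {Q L : Subgroup G}
    (hL : L = Subgroup.centralizer (Q : Set G)) (hQ : IsPGroup p Q) {β : Set (IrrCharacter L)}
    (hβ : IsInducedBlock M L β B) :
    ∃ t : G, ∀ q ∈ Q, t * q * t⁻¹ ∈ P := by
  subst hL
  haveI := isPrime_of_pModular hM
  have h1 := Cfsg.Agent.Lib.Contrib.Section.isBrauerPairOf_of_induced hM hQ hβ
  obtain ⟨t, ht⟩ := exists_conj_subpairLE hM hmax h1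
  refine ⟨t, fun q hq => ?_⟩
  exact le_of_subpairLE ht ⟨q, hq, rfl⟩

/-- Conjugation by an element of the centralizer fixes the block. -/
theorem blockMap_conj_self {Q : Subgroup G} {t : G} (ht : t ∈ Subgroup.centralizer (Q : Set G))
    (h : Q.map (MulAut.conj t).toMonoidHom = Q) (f : Set (IrrCharacter (Subgroup.centralizer (Q : Set G)))) :
    blockMap (conjEquivOf t h) f = f := by
  classical
  have h1 : ∀ ξ : IrrCharacter (Subgroup.centralizer (Q : Set G)), irrMap (conjEquivOf t h) ξ = ξ := by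
    intro ξ
    apply Subtype.ext
    funext c
    rw [irrMap_apply]
    have hcl := Cfsg.Agent.Lib.Char.Basic.isClassFunction_of_isIrrCharacter ξ.2
    have h2 : (conjEquivOf t h).symm c = (⟨t, ht⟩ : Subgroup.centralizer (Q : Set G))⁻¹ * c *
        ((⟨t, ht⟩ : Subgroup.centralizer (Q : Set G))⁻¹)⁻¹ := by
      apply Subtype.ext
      simp
    rw [h2]
    have := hcl c (⟨t, ht⟩ : Subgroup.centralizer (Q : Set G))⁻¹
    simpa using this
  ext ξ
  rw [mem_blockMap_iff]
  have h3 := h1 (irrMap (conjEquivOf t h).symm ξ)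
  have h4 : irrMap (conjEquivOf t h) (irrMap (conjEquivOf t h).symm ξ) = ξ :=
    (irrEquiv (conjEquivOf t h)).right_inv ξ
  rw [h4] at h3
  rw [← h3]

/-- A pair of the block at a subgroup whose conjugates into the defect group are centralized lies
below the maximal pair. -/
theorem subpairLE_of_centralizing (hM : IsPModular p M) (hmax : IsMaximalBrauerPair p M B P e) {Q : Subgroup G}
    (hQ : IsPGroup p Q) (hc : ∀ t : G, (∀ q ∈ Q, t * q * t⁻¹ ∈ P) → t ∈ Subgroup.centralizer (Q : Set G))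
    {β : Set (IrrCharacter (Subgroup.centralizer (Q : Set G)))}
    (hβ : IsInducedBlock M (Subgroup.centralizer (Q : Set G)) β B) :
    SubpairLE p M Q β P e := by
  haveI := isPrime_of_pModular hM
  have h1 := Cfsg.Agent.Lib.Contrib.Section.isBrauerPairOf_of_induced hM hQ hβ
  obtain ⟨t, ht⟩ := exists_conj_subpairLE hM hmax h1
  have htc : t ∈ Subgroup.centralizer (Q : Set G) := hc t fun q hq => le_of_subpairLE ht ⟨q, hq, rfl⟩
  have hmap : Q.map (MulAut.conj t).toMonoidHom = Q := by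
    ext g
    rw [mem_map_conj]
    have h2 : ∀ q ∈ Q, t⁻¹ * q * t = q := by
      intro q hq
      have := Subgroup.mem_centralizer_iff.mp htc q hq
      calc t⁻¹ * q * t = t⁻¹ * (q * t) := by group
        _ = t⁻¹ * (t * q) := by rw [this]
        _ = q := by group
    constructor
    · intro h3
      have h5 := Subgroup.mem_centralizer_iff.mp htc _ h3
      have h6 : g = t⁻¹ * g * t := by
        have h7 : t * (t⁻¹ * g * t) * t⁻¹ = g := by group
        rw [← h5] at h7
        have h8 : t⁻¹ * g * t * t * t⁻¹ = t⁻¹ * g * t := by group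
        rw [h8] at h7
        exact h7.symm
      rw [h6]
      exact h3
    · intro h3
      rw [h2 g h3]
      exact h3
  rw [conjBlock_eq] at ht
  have key : ∀ (Q' : Subgroup G) (h' : Q.map (MulAut.conj t).toMonoidHom = Q'),
      SubpairLE p M Q' (blockMap (conjEquivOf t h') β) P e := by
    rintro Q' rfl
    exact ht
  have h3 := key Q hmap
  rwa [blockMap_conj_self htc hmap] at h3

/-- **Uniqueness of the block below the maximal pair.** -/
theorem block_unique (hM : IsPModular p M) (hmax : IsMaximalBrauerPair p M B P e) {Q L : Subgroup G}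
    (hL : L = Subgroup.centralizer (Q : Set G)) (hQP : Q ≤ P) 
    (hc : ∀ t : G, (∀ q ∈ Q, t * q * t⁻¹ ∈ P) → t ∈ Subgroup.centralizer (Q : Set G))
    {β β' : Set (IrrCharacter L)} (hβ : IsInducedBlock M L β B) (hβ' : IsInducedBlock M L β' B) : β = β' := by
  subst hL
  have hQ : IsPGroup p Q := hmax.1.1.1.to_le hQP
  have h1 := subpairLE_of_centralizing hM hmax hQ hc hβ
  have h2 := subpairLE_of_centralizing hM hmax hQ hc hβ'
  exact (existsUnique_subpairLE hM hmax.1.1 hQP).unique ⟨hβ.1, h1⟩ ⟨hβ'.1, h2⟩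

end Pairs

section Unique

variable {G : Type u} [Group G] [Fintype G] {M : Ideal AlgInt} [Fact (Nat.Prime 2)]
  {B : Set (IrrCharacter G)} {P : Subgroup G} {e : Set (IrrCharacter (Subgroup.centralizer (P : Set G)))}

/-- The involution of a cyclic subgroup is unique. -/
theorem eq_of_mem_zpowers {w u v : G} (hu : u ∈ Subgroup.zpowers w) (hv : v ∈ Subgroup.zpowers w)
    (ou : orderOf u = 2) (ov : orderOf v = 2) : u = v := by
  classical
  obtain ⟨i, rfl⟩ := hu
  obtain ⟨j, rfl⟩ := hv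
  have h1 : w ^ (2 * i) = 1 := by
    rw [mul_comm, zpow_mul]
    have := pow_orderOf_eq_one (w ^ i)
    rw [ou] at this
    exact_mod_cast this
  have h2 : w ^ (2 * j) = 1 := by
    rw [mul_comm, zpow_mul]
    have := pow_orderOf_eq_one (w ^ j)
    rw [ov] at this
    exact_mod_cast this
  obtain ⟨a, ha⟩ := orderOf_dvd_iff_zpow_eq_one.mpr h1
  obtain ⟨b, hb⟩ := orderOf_dvd_iff_zpow_eq_one.mpr h2
  have hi : ¬ (orderOf w : ℤ) ∣ i := fun h3 => by
    rw [orderOf_dvd_iff_zpow_eq_one] at h3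
    simp only [h3, orderOf_one] at ou
    omega
  have hj : ¬ (orderOf w : ℤ) ∣ j := fun h3 => by
    rw [orderOf_dvd_iff_zpow_eq_one] at h3
    simp only [h3, orderOf_one] at ov
    omega
  have hN : (orderOf w : ℤ) ≠ 0 := by
    intro h3
    rw [h3, zero_mul] at ha
    apply hi
    rw [show i = 0 by omega]
    exact dvd_zero _
  have oa : Odd a := by
    rw [← Int.not_even_iff_odd]
    rintro ⟨c, rfl⟩
    apply hi
    refine ⟨c, ?_⟩
    have : 2 * i = 2 * ((orderOf w : ℤ) * c) := by rw [ha]; ring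
    omega
  have ob : Odd b := by
    rw [← Int.not_even_iff_odd]
    rintro ⟨c, rfl⟩
    apply hj
    refine ⟨c, ?_⟩
    have : 2 * j = 2 * ((orderOf w : ℤ) * c) := by rw [hb]; ring
    omega
  obtain ⟨a', rfl⟩ := oa
  obtain ⟨b', rfl⟩ := ob
  have h3 : i - j = (orderOf w : ℤ) * (a' - b') := by
    have : 2 * (i - j) = 2 * ((orderOf w : ℤ) * (a' - b')) := by
      rw [mul_sub, ha, hb]
      ring
    omega
  have h4 : w ^ (i - j) = 1 := orderOf_dvd_iff_zpow_eq_one.mp ⟨_, h3⟩
  have h5 : w ^ i = w ^ (i - j) * w ^ j := by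
    rw [← zpow_add]
    congr 1
    ring
  change w ^ i = w ^ j
  rw [h5, h4, one_mul]

/-- The elements whose cyclic subgroup contains `z`. -/
def YY (z y : G) : Prop := (∃ k : ℕ, orderOf y = 2 ^ k) ∧ z ∈ Subgroup.zpowers y

theorem YY_ne_one {z y : G} (hz : orderOf z = 2) (h : YY z y) : y ≠ 1 := by
  rintro rfl
  have h1 := h.2
  rw [Subgroup.zpowers_one_eq_bot, Subgroup.mem_bot] at h1
  rw [h1, orderOf_one] at hz
  omega

theorem le_of_YY {z y : G} (h : YY z y) : Cn y ≤ Cn z := by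
  intro c hc
  rw [Subgroup.mem_centralizer_singleton_iff] at hc ⊢
  obtain ⟨k, hk⟩ := h.2
  rw [← hk]
  have h1 : Commute c y := hc
  exact (h1.zpow_right k).eq

theorem mem_Cn_of_YY {z y : G} (h : YY z y) : y ∈ Cn z := by
  rw [Subgroup.mem_centralizer_singleton_iff]
  obtain ⟨k, hk⟩ := h.2
  rw [← hk]
  exact ((Commute.refl y).zpow_right k).eq

theorem YY_conj {z t y : G} (ht : t * z * t⁻¹ = z) (h : YY z y) : YY z (t * y * t⁻¹) := by
  refine ⟨by rw [Cfsg.Agent.Lib.Tw.Cmp.orderOf_conj'']; exact h.1, ?_⟩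
  obtain ⟨k, hk⟩ := h.2
  have hk' : y ^ k = z := hk
  refine ⟨k, ?_⟩
  change (t * y * t⁻¹) ^ k = z
  rw [conj_zpow, hk']
  exact ht

theorem mem_Cn_iff {z t : G} : t ∈ Cn z ↔ t * z * t⁻¹ = z := by
  rw [Subgroup.mem_centralizer_singleton_iff]
  constructor
  · intro h
    rw [h]
    group
  · intro h
    calc t * z = t * z * t⁻¹ * t := by group
      _ = z * t := by rw [h]

/-- **The count at the unique involution.** -/
theorem compare_Q (hM : IsPModular 2 M) (hmax : IsMaximalBrauerPair 2 M B P e) {z : G} (hz : orderOf z = 2)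
    (hzP : z ∈ P) (hUI : ∀ x ∈ P, x ≠ 1 → z ∈ Subgroup.zpowers x)
    {b : Set (IrrCharacter (Cn z))} (hb : IsInducedBlock M (Cn z) b B) :
    (Nat.card B : ℂ) - blockRank 2 B = (Nat.card b : ℂ) - blockRank 2 b := by
  classical
  haveI := isPrime_of_pModular hM
  haveI := Cfsg.Agent.Lib.Char.Ortho.finite_irrCharacter (G := G)
  letI : Fintype (IrrCharacter G) := Fintype.ofFinite _
  have hz2 : ∃ k : ℕ, orderOf z = 2 ^ k := ⟨1, by rw [hz, pow_one]⟩
  have hB := hmax.1.2.1
  -- the conjugates of `z` in the defect group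
  have hfix : ∀ t : G, t * z * t⁻¹ ∈ P → t ∈ Cn z := by
    intro t ht
    have h1 : t * z * t⁻¹ ≠ 1 := by
      rw [Ne, conj_eq_one_iff]
      rintro rfl
      rw [orderOf_one] at hz
      omega
    have h2 := hUI _ ht h1
    have h3 := eq_of_mem_zpowers (Subgroup.mem_zpowers (t * z * t⁻¹)) h2 (by rw [orderOf_conj'', hz]) hz
    exact mem_Cn_iff.mpr h3
  have hQP : Subgroup.zpowers z ≤ P := (Subgroup.zpowers_le).mpr hzP
  have hbN : bN M (Cn z) B = b := by
    ext ψ
    constructor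
    · rintro ⟨β, hψ, hβ⟩
      have h1 : β = b := block_unique hM hmax (Cfsg.Agent.Lib.Blocks.Main.centralizer_zpowers_eq z).symm hQP ?_ hβ hb
      · rwa [← h1]
      · intro t ht
        have h2 := hfix t (ht z (Subgroup.mem_zpowers z))
        rw [Cfsg.Agent.Lib.Blocks.Main.centralizer_zpowers_eq]
        exact h2
    · intro hψ
      exact ⟨b, hψ, hb⟩
  rw [← hbN]
  refine compare hM hB hz2 (YY z) ?_ ?_ ?_ ?_ ?_
  · intro c hc y hy
    exact YY_conj (mem_Cn_iff.mp hc) hy
  · intro t y hy hty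
    have h1 : t * z * t⁻¹ ∈ Subgroup.zpowers (t * y * t⁻¹) := by
      obtain ⟨k, hk⟩ := hy.2
      refine ⟨k, ?_⟩
      simp only
      rw [conj_zpow, ← hk]
    exact mem_Cn_iff.mpr (eq_of_mem_zpowers h1 hty.2 (by rw [orderOf_conj'', hz]) hz)
  · intro y hy
    exact ⟨YY_ne_one hz hy, hy.1, le_of_YY hy, mem_Cn_of_YY hy⟩
  · rintro x hx1 hx2 ⟨ψ, β, -, hβ⟩
    have hxQ : IsPGroup 2 (Subgroup.zpowers x) := isPGroup_zpowers_of_order hx2
    obtain ⟨t, ht⟩ := exists_conj_le hM hmax (Cfsg.Agent.Lib.Blocks.Main.centralizer_zpowers_eq x).symm hxQ hβ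
    refine ⟨t, ?_, hUI _ (ht x (Subgroup.mem_zpowers x)) (by rwa [Ne, conj_eq_one_iff])⟩
    rwa [orderOf_conj'']
  · rintro x hx1 hx2 hx ⟨ψ, β, -, hβ⟩
    have hcx : Commute (x : G) z := Subgroup.mem_centralizer_singleton_iff.mp x.2
    have hx2' : ∃ k : ℕ, orderOf (x : G) = 2 ^ k := by
      simpa only [Subgroup.orderOf_coe] using hx2
    have hT : IsPGroup 2 ↥(Subgroup.zpowers z ⊔ Subgroup.zpowers (x : G)) := by
      refine IsPGroup.to_sup_of_normal_right' (isPGroup_zpowers_of_order hz2) (isPGroup_zpowers_of_order hx2') ?_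
      rw [Subgroup.zpowers_le, Subgroup.mem_normalizer_iff]
      intro y
      constructor
      · rintro ⟨k, hk⟩
        have hk' : (x : G) ^ k = y := hk
        have h5 : z * y * z⁻¹ = y := by
          rw [← hk', ((hcx.symm).zpow_right k).eq]
          group
        rw [h5]
        exact ⟨k, hk⟩
      · rintro ⟨k, hk⟩
        have hk' : (x : G) ^ k = z * y * z⁻¹ := hk
        have h5 : y = (x : G) ^ k := by
          have h6 : z⁻¹ * (x : G) ^ k * z = (x : G) ^ k := by
            have h7 := ((hcx.symm).zpow_right k).eq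
            calc z⁻¹ * (x : G) ^ k * z = z⁻¹ * ((x : G) ^ k * z) := by group
              _ = z⁻¹ * (z * (x : G) ^ k) := by rw [h7]
              _ = _ := by group
          rw [← h6, hk']
          group
        rw [h5]
        exact Subgroup.zpow_mem_zpowers _ _
    have hL : Cn z ⊓ Cn (x : G) = Subgroup.centralizer
        ((Subgroup.zpowers z ⊔ Subgroup.zpowers (x : G) : Subgroup G) : Set G) := by
      ext g
      rw [Subgroup.mem_inf, Subgroup.mem_centralizer_singleton_iff, Subgroup.mem_centralizer_singleton_iff,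
        Subgroup.mem_centralizer_iff]
      constructor
      · rintro ⟨h5, h6⟩ y hy
        have h7 : Subgroup.zpowers z ⊔ Subgroup.zpowers (x : G) ≤ Cn g := by
          refine sup_le ?_ ?_
          · rw [Subgroup.zpowers_le, Subgroup.mem_centralizer_singleton_iff]
            exact h5.symm
          · rw [Subgroup.zpowers_le, Subgroup.mem_centralizer_singleton_iff]
            exact h6.symm
        exact Subgroup.mem_centralizer_singleton_iff.mp (h7 hy)
      · intro h5
        exact ⟨(h5 z ((le_sup_left : Subgroup.zpowers z ≤ _) (Subgroup.mem_zpowers z))).symm,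
          (h5 _ ((le_sup_right : Subgroup.zpowers (x : G) ≤ _) (Subgroup.mem_zpowers (x : G)))).symm⟩
    obtain ⟨t, ht⟩ := exists_conj_le hM hmax hL hT hβ
    have h1 := hfix t (ht z ((le_sup_left : Subgroup.zpowers z ≤ _) (Subgroup.mem_zpowers z)))
    have h2 := ht _ ((le_sup_right : Subgroup.zpowers (x : G) ≤ _) (Subgroup.mem_zpowers (x : G)))
    have h3 : t * (x : G) * t⁻¹ ≠ 1 := by rwa [Ne, conj_eq_one_iff]
    have h4 := hUI _ h2 h3
    apply hx
    refine ⟨hx2', ?_⟩
    obtain ⟨k, hk⟩ := h4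
    have hk' : (t * (x : G) * t⁻¹) ^ k = z := hk
    refine ⟨k, ?_⟩
    change (x : G) ^ k = z
    rw [conj_zpow] at hk'
    have h5 : (x : G) ^ k = t⁻¹ * (t * (x : G) ^ k * t⁻¹) * t := by group
    rw [hk'] at h5
    rw [h5]
    have h6 := mem_Cn_iff.mp h1
    calc t⁻¹ * z * t = t⁻¹ * (t * z * t⁻¹) * t := by rw [h6]
      _ = z := by group

end Unique

end Cfsg.Agent.Lib.Tw.Cmp
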