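import Mathlib
import Cfsg.Agent.Lib.Dih.Main

/-!
# Blocks with dihedral defect group: an extra column
-/

set_option linter.unusedSectionVars false
set_option linter.style.haveILetI false
set_option autoImplicit false

namespace Cfsg.Agent.Lib.Tw.DE

open Cfsg MonoidAlgebra
open Cfsg.Agent.Lib.Blocks.Local Cfsg.Agent.Lib.Blocks.Central Cfsg.Agent.Lib.Blocks.Main
open Cfsg.Agent.Lib.BlockH.Transport Cfsg.Agent.Lib.BlockH.Descent
open Cfsg.Agent.Lib.BP.StarDefs Cfsg.Agent.Lib.BP.Star1 Cfsg.Agent.Lib.BP.Star2 Cfsg.Agent.Lib.BP.Nil1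
open Cfsg.Agent.Lib.BP.Nil4
open Cfsg.Agent.Lib.Char.Basic Cfsg.Agent.Lib.Char.Complete Cfsg.Agent.Lib.Char.Ortho
open Cfsg.Agent.Lib.Contrib.Proj
open Cfsg.Agent.Lib.Dih.Grp Cfsg.Agent.Lib.Dih.Sect Cfsg.Agent.Lib.Dih.Down Cfsg.Agent.Lib.Dih.Fou
open Cfsg.Agent.Lib.Dih.Top Cfsg.Agent.Lib.Dih.Main
open scoped ComplexConjugate

universe u

variable {G : Type u} [Group G] [Fintype G] [Fintype (IrrCharacter G)] {M : Ideal AlgInt}
  [Fact (Nat.Prime 2)] {B : Set (IrrCharacter G)} {K : Subgroup G}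

attribute [local instance] fK fIrr fBl

variable {D' : Subgroup K} {e' : Set (IrrCharacter (Subgroup.centralizer (D' : Set K)))} {β : Set (IrrCharacter K)}
  {q h m : ℕ} [NeZero q]

variable {φ : DihedralGroup q ≃* D'} {θ : IrrCharacter K} {g : IrrCharacter D' → IrrCharacter K}

/-- The class function property of characters. -/
theorem class_irr' (χ : IrrCharacter G) : IsClassFunction G (χ : G → ℂ) :=
  isClassFunction_of_isIrrCharacter χ.2

/-- **The extra column.** -/
theorem rank_ext (S : Setup M B K D' e' β φ h m)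
    (hg : ∀ ν, ((g ν : IrrCharacter K) : K → ℂ) = starFun 2 M e' (ν : D' → ℂ) (θ : K → ℂ))
    (hinj : Function.Injective g) (hr : ∀ τ : IrrCharacter K, τ ∈ β ↔ τ ∈ Set.range g)
    (hθ : θ ∈ β) (h0 : blockHeight 2 β (θ : K → ℂ) = 0) [Fintype B]
    {D : Subgroup G} {e : Set (IrrCharacter (Subgroup.centralizer (D : Set G)))}
    (hmax : IsMaximalBrauerPair 2 M B D e) {w : G} (hw : w ∈ D) (hw1 : w ≠ 1)
    (hnc : ∀ i : ZMod q, i ≠ 0 → ∀ t : G, t * ((rr φ i : K) : G) * t⁻¹ ≠ w) :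
    blockRank 2 B + 2 * h + 1 ≤ Fintype.card B := by
  classical
  haveI := isPrime_of_pModular S.hM
  let P : B → ZMod q → ℂ := fun x j => Setup.pp φ g x j
  have hR : ∀ j j' : ZMod q, j ≠ 0 → j' ≠ 0 → ∑ x, P x j * conj (P x j') =
      (q : ℂ) * ((if j' = j then 1 else 0) + (if j' = -j then 1 else 0)) := by
    intro j j' hj hj'
    rw [← S.sum_pp hg hinj hr hθ h0 hj hj']
    exact sum_B_eq (fun χ => Setup.pp φ g χ j * conj (Setup.pp φ g χ j'))
      (fun χ hχ => by rw [S.pp_eq_zero hg hinj hr hθ h0 hj hχ, zero_mul])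
  choose c0 hc0 using fun (x : B) (m : ZMod q) => Setup.exists_nat_dft_pp (φ := φ) (g := g) (x : IrrCharacter G) m
  let c : B → ZMod q → ℤ := fun x m => c0 x m
  have hc : ∀ x m, (c x m : ℂ) = dft (P x) m := by
    intro x m
    simp only [c, P, Int.cast_natCast]
    exact (hc0 x m).symm
  let v : B → (G → ℂ) := fun x => pRegularPart 2 ((x : IrrCharacter G) : G → ℂ)
  let Ψ : (B → ℂ) →ₗ[ℂ] (G → ℂ) := Fintype.linearCombination ℂ v
  have hrank : blockRank 2 B = Module.finrank ℂ (LinearMap.range Ψ) := by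
    rw [blockRank, Fintype.range_linearCombination, Set.image_eq_range]
  obtain ⟨W, hW, hWY⟩ := exists_indep P hR c hc S.hq S.hh
  have hWker : ∀ i, W i ∈ LinearMap.ker Ψ := by
    intro i
    rw [LinearMap.mem_ker, Fintype.linearCombination_apply]
    funext g₀
    simp only [Finset.sum_apply, Pi.smul_apply, smul_eq_mul, Pi.zero_apply, v]
    by_cases hg₀ : 2 ∣ orderOf g₀
    · refine Finset.sum_eq_zero fun x _ => ?_
      rw [Cfsg.Agent.Lib.BlockH.Regular.pRegularPart_apply, if_neg (show ¬ IsPRegular 2 g₀ from fun h1 => h1 hg₀), mul_zero]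
    · have h1 := hWY i (fun x => ((x : IrrCharacter G) : G → ℂ) g₀) (fun j hj => by
        have h2 := S.sum_pp_conj_reg hg hinj hr hθ h0 hj g₀⁻¹ (by rwa [orderOf_inv])
        rw [← sum_B_eq _ (fun χ hχ => by rw [S.pp_eq_zero hg hinj hr hθ h0 hj hχ, zero_mul])] at h2
        rw [← h2]
        refine Finset.sum_congr rfl fun x _ => ?_
        rw [← char_inv_eq_conj (isCharacter_of_isIrrCharacter (x : IrrCharacter G).2), inv_inv])
      rw [← h1]
      refine Finset.sum_congr rfl fun x _ => ?_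
      rw [Cfsg.Agent.Lib.BlockH.Regular.pRegularPart_apply, if_pos (show IsPRegular 2 g₀ from hg₀)]
  -- the extra column
  have hwo : ∃ k : ℕ, orderOf w = 2 ^ k := Cfsg.Agent.Lib.Blocks.Third.orderOf_of_mem_isPGroup hmax.1.1.1 hw
  obtain ⟨hcb, hcu⟩ := bb_spec S.hM hmax hw
  set cb := bb 2 M e w with hcbdef
  let u : IrrCharacter G → ℂ := fun χ => Fs (χ : G → ℂ) w cb 1
  have hu0 : ∀ χ, χ ∉ B → u χ = 0 := by
    intro χ hχ
    have h1 := Fs_notMem S.hM hmax hχ ⟨w, hw⟩ (y := 1) (Subgroup.one_mem _) reg_one'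
    exact h1
  -- orthogonality to the regular classes
  have hU1 : ∀ g₀ : G, ¬ 2 ∣ orderOf g₀ → ∑ χ : IrrCharacter G, u χ * conj ((χ : G → ℂ) g₀) = 0 := by
    intro g₀ hg₀
    have h1 := sum_Fs_zero S.hM hcb (y := 1) reg_one' (fun χ : IrrCharacter G => (χ : G → ℂ)) class_irr'
      (fun χ => conj ((χ : G → ℂ) g₀)) (fun k hk => by
        rw [sum_irr_mul_conj, if_neg]
        intro hconj
        obtain ⟨t, ht⟩ := isConj_iff.mp hconj
        have h2 := pPt_conj (p := 2) t (w * (k : G))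
        have hreg : pPt 2 g₀ = 1 := pPt_eq ⟨g₀, by simp, Commute.one_left g₀, ⟨0, by simp⟩, hg₀⟩
        have hkc : Commute (k : G) w := mem_cZ.mp k.2
        have hk' : ¬ 2 ∣ orderOf (k : G) := by rwa [Subgroup.orderOf_coe]
        rw [ht, hreg, pPt_mul hwo hkc hk'] at h2
        apply hw1
        have h4 : t * w * t⁻¹ = t * 1 * t⁻¹ := by
          rw [← h2]
          group
        simpa using h4)
    simpa [u, Subgroup.coe_one] using h1
  -- orthogonality to the rotations
  have hU2 : ∀ j : ZMod q, j ≠ 0 → ∑ χ : IrrCharacter G, Setup.pp φ g χ j * conj (u χ) = 0 := by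
    intro j hj
    have hyp : ∀ k : cZ (rr φ j), ¬ 2 ∣ orderOf k →
        ∑ χ : IrrCharacter G, resF K χ (rr φ j * k) * conj (u χ) = 0 := by
      intro k hk
      have h1 := sum_Fs_zero S.hM hcb (y := 1) reg_one' (fun χ : IrrCharacter G => (χ : G → ℂ)) class_irr'
        (fun χ => conj (resF K χ (rr φ j * k))) (fun k' hk' => by
          have e1 : ∀ χ : IrrCharacter G, resF K χ (rr φ j * k) = (χ : G → ℂ) (((rr φ j * k : K)) : G) := fun χ => rfl
          simp_rw [e1]
          rw [sum_irr_mul_conj, if_neg]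
          intro hconj
          obtain ⟨t, ht⟩ := isConj_iff.mp hconj
          have h2 := pPt_conj (p := 2) t (w * (k' : G))
          have hkc : Commute (k' : G) w := mem_cZ.mp k'.2
          have hk'' : ¬ 2 ∣ orderOf (k' : G) := by rwa [Subgroup.orderOf_coe]
          rw [ht, S.pPt_section j k hk, pPt_mul hwo hkc hk''] at h2
          exact hnc j hj t⁻¹ (by rw [h2]; group))
      have h2 : ∑ χ : IrrCharacter G, u χ * conj (resF K χ (rr φ j * k)) = 0 := by
        simpa [u, Subgroup.coe_one] using h1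
      have h3 := congrArg (starRingEnd ℂ) h2
      rw [map_sum, map_zero] at h3
      rw [← h3]
      refine Finset.sum_congr rfl fun χ _ => ?_
      rw [map_mul, Complex.conj_conj, mul_comm]
    have h1 := sum_Fs_zero S.hM (S.cc_spec j).1 (y := 1) reg_one' (resF K) isClass_resF
      (fun χ => conj (u χ)) hyp
    have h2 : ∀ χ : IrrCharacter G, Fs (resF K χ) (rr φ j) (Setup.cc (M := M) φ e' j) ((1 : cZ (rr φ j)) : K) * conj (u χ) =
        Fs (θ : K → ℂ) (rr φ j) (Setup.cc (M := M) φ e' j) 1 * (Setup.pp φ g χ j * conj (u χ)) := by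
      intro χ
      have h3 := S.sec_formula hg hinj hr χ j (y := 1) (Subgroup.one_mem _) reg_one'
      rw [Subgroup.coe_one, h3]
      ring
    rw [Finset.sum_congr rfl fun χ _ => h2 χ, ← Finset.mul_sum] at h1
    have h5 : Fs (θ : K → ℂ) (rr φ j) (Setup.cc (M := M) φ e' j) 1 ≠ 0 :=
      Fs_one_ne S.hM S.hmx hθ h0 (φ (DihedralGroup.r j))
    exact (mul_eq_zero.mp h1).resolve_left h5
  -- the column is not zero
  obtain ⟨χ₀, hχ₀, h00, -⟩ := exists_height_zero (p := 2) (isPBlock_nonempty S.hB)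
  have hu1 : u χ₀ ≠ 0 := Fs_one_ne S.hM hmax hχ₀ h00 ⟨w, hw⟩
  let U : B → ℂ := fun x => u x
  have hUker : U ∈ LinearMap.ker Ψ := by
    rw [LinearMap.mem_ker, Fintype.linearCombination_apply]
    funext g₀
    simp only [Finset.sum_apply, Pi.smul_apply, smul_eq_mul, Pi.zero_apply, v]
    by_cases hg₀ : 2 ∣ orderOf g₀
    · refine Finset.sum_eq_zero fun x _ => ?_
      rw [Cfsg.Agent.Lib.BlockH.Regular.pRegularPart_apply, if_neg (show ¬ IsPRegular 2 g₀ from fun h1 => h1 hg₀), mul_zero]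
    · have h2 := hU1 g₀⁻¹ (by rwa [orderOf_inv])
      rw [← sum_B_eq (fun χ => u χ * conj ((χ : G → ℂ) g₀⁻¹)) (fun χ hχ => by rw [hu0 χ hχ, zero_mul])] at h2
      rw [← h2]
      refine Finset.sum_congr rfl fun x _ => ?_
      rw [Cfsg.Agent.Lib.BlockH.Regular.pRegularPart_apply, if_pos (show IsPRegular 2 g₀ from hg₀),
        ← char_inv_eq_conj (isCharacter_of_isIrrCharacter (x : IrrCharacter G).2), inv_inv]
  have hperp : ∀ i, ∑ x, W i x * conj (U x) = 0 := by
    intro i
    refine hWY i (fun x => conj (U x)) fun j hj => ?_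
    have h2 := hU2 j hj
    rw [← sum_B_eq (fun χ => Setup.pp φ g χ j * conj (u χ)) (fun χ hχ => by rw [hu0 χ hχ, map_zero, mul_zero])] at h2
    exact h2
  -- the linear functional
  let ℓ : (B → ℂ) →ₗ[ℂ] ℂ := Fintype.linearCombination ℂ (fun x => conj (U x))
  have hℓ : ∀ a : B → ℂ, ℓ a = ∑ x, a x * conj (U x) := by
    intro a
    simp only [ℓ, Fintype.linearCombination_apply, smul_eq_mul]
  have hspan : Submodule.span ℂ (Set.range W) ≤ LinearMap.ker ℓ := by
    rw [Submodule.span_le]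
    rintro _ ⟨i, rfl⟩
    simp only [SetLike.mem_coe, LinearMap.mem_ker]
    rw [hℓ]
    exact hperp i
  have hUne : ℓ U ≠ 0 := by
    rw [hℓ]
    intro h3
    have h4 : ∀ x : B, U x * conj (U x) = ((Complex.normSq (U x) : ℝ) : ℂ) := fun x => Complex.mul_conj _
    rw [Finset.sum_congr rfl fun x _ => h4 x] at h3
    have h5 : ∑ x : B, Complex.normSq (U x) = 0 := by exact_mod_cast h3
    have h6 := (Finset.sum_eq_zero_iff_of_nonneg fun x _ => Complex.normSq_nonneg (U x)).mp h5
      ⟨χ₀, hχ₀⟩ (Finset.mem_univ _)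
    exact hu1 (Complex.normSq_eq_zero.mp h6)
  have hlt : Submodule.span ℂ (Set.range W) < LinearMap.ker Ψ := by
    refine lt_of_le_of_ne (Submodule.span_le.mpr (by rintro _ ⟨i, rfl⟩; exact hWker i)) ?_
    intro h3
    apply hUne
    have h5 : U ∈ Submodule.span ℂ (Set.range W) := by
      rw [h3]
      exact hUker
    exact hspan h5
  have h1 := LinearMap.finrank_range_add_finrank_ker Ψ
  rw [Module.finrank_fintype_fun_eq_card, ← hrank] at h1
  have h2 : Module.finrank ℂ (Submodule.span ℂ (Set.range W)) = 2 * h := by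
    rw [finrank_span_eq_card hW, Fintype.card_fin]
  have h3 := Submodule.finrank_lt_finrank_of_lt hlt
  omega

/-- **A reflection not conjugate to the central involution forces the rank to be at most two.** -/
theorem rank_le_two (hM : IsPModular 2 M) (hB : IsPBlock M B) {D : Subgroup G} (hD : IsDefectGroup 2 M B D)
    (hq : q = 4 * h) (hh : 1 ≤ h) (hq2 : q = 2 ^ m) (φ : DihedralGroup q ≃* D) [Fintype B] {w : G} (hw : w ∈ D)
    (hw1 : w ≠ 1) (hwo : w * w = 1) (hnc : ∀ t : G, t * zz φ h * t⁻¹ ≠ w) : blockRank 2 B ≤ 2 := by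
  classical
  haveI := isPrime_of_pModular hM
  obtain ⟨e, hmax⟩ := exists_pair_of_defect hM hB hD
  have hDz : D ≤ cZ (zz φ h) := fun d hd => mem_cZ.mpr (zz_commute φ hq hd)
  have hz : zz φ h ∈ D := rr_mem φ _
  obtain ⟨hβ, hu⟩ := bb_spec hM hmax hz
  have hmx := isMaximal_down' hM hmax hDz hz hu
  let φ' : DihedralGroup q ≃* ((D.subgroupOf (cZ (zz φ h)) : Subgroup (cZ (zz φ h)))) :=
    φ.trans (Subgroup.subgroupOfEquivOfLe hDz).symm
  have S : Setup M B (cZ (zz φ h)) (D.subgroupOf (cZ (zz φ h))) (eDown' e hDz hz) (bb 2 M e (zz φ h)) φ' h m :=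
    { hM := hM
      hB := hB
      hq := hq
      hh := hh
      hq2 := hq2
      hmx := hmx
      hind := induced_of_under hM hmax hu
      hctrl := fun t ht => mem_cZ.mpr ht
      hcent := fun k => Subtype.ext (mem_cZ.mp k.2)
      hdef := blockDefect_eq' hM hmax hDz hz hu }
  obtain ⟨θ, hθ, h0, hs⟩ := exists_height_zero (p := 2) (isPBlock_nonempty hβ)
  obtain ⟨g, hg, hinj, hr⟩ := exists_star_family hM S.hnil hmx hθ h0 hs
  have hcard := (main_setup S hg hinj hr hθ h0 hD (by rw [← Nat.card_congr φ.toEquiv, DihedralGroup.nat_card])).1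
  have hext := rank_ext S hg hinj hr hθ h0 hmax hw hw1 (by
    intro i hi t ht
    have hri : ((rr φ' i : cZ (zz φ h)) : G) = rr φ i := rfl
    rw [hri] at ht
    have h1 : rr φ i * rr φ i = 1 := by
      have h3 : t * (rr φ i * rr φ i) * t⁻¹ = 1 := by
        calc t * (rr φ i * rr φ i) * t⁻¹ = (t * rr φ i * t⁻¹) * (t * rr φ i * t⁻¹) := by group
          _ = 1 := by rw [ht, hwo]
      rwa [conj_eq_one_iff] at h3
    rw [← rr_add, ← rr_zero φ] at h1
    have h3 : i + i = 0 := rr_injective φ h1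
    have h4 : i = ((2 * h : ℕ) : ZMod q) := eq_two_of_add_self hq hi h3
    apply hnc t
    rw [← ht, zz, h4])
  omega

end Cfsg.Agent.Lib.Tw.DE
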