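import Mathlib
import Cfsg.Agent.Lib.Tw.Cent
import Cfsg.Agent.Lib.Tw.Cmp

/-!
# Blocks with generalized quaternion defect groups
-/

set_option linter.unusedSectionVars false
set_option linter.style.haveILetI false
set_option autoImplicit false

namespace Cfsg.Agent.Lib.Tw.Qq

open Cfsg MonoidAlgebra
open Cfsg.Agent.Lib.Blocks.Local Cfsg.Agent.Lib.Blocks.Central Cfsg.Agent.Lib.Blocks.Main
open Cfsg.Agent.Lib.BlockH.Regular Cfsg.Agent.Lib.BlockP.Defect Cfsg.Agent.Lib.BlockH.Transport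
open Cfsg.Agent.Lib.BP.StarDefs Cfsg.Agent.Lib.BP.Nil4 Cfsg.Agent.Lib.BP.Nil1
open Cfsg.Agent.Lib.BP.Star2 Cfsg.Agent.Lib.Dih.Down Cfsg.Agent.Lib.Blocks.NormRank Cfsg.Agent.Lib.Blocks.Induced
open Cfsg.Agent.Lib.Tw.Row Cfsg.Agent.Lib.Tw.Fou Cfsg.Agent.Lib.Tw.Cnt Cfsg.Agent.Lib.Tw.Grp
open Cfsg.Agent.Lib.Tw.Exist Cfsg.Agent.Lib.Tw.Rows Cfsg.Agent.Lib.Tw.Cent Cfsg.Agent.Lib.Tw.Cmp

universe u

/-- The rotations of the generalized quaternion group. -/
def rotQ (m h : ℕ) : Rot (QuaternionGroup m) (2 * m) h (-1) where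
  ρ i := QuaternionGroup.a i
  add i j := by rw [QuaternionGroup.a_mul_a]
  inj i j hij := QuaternionGroup.a.inj hij
  s := QuaternionGroup.xa 0
  conj i := by
    have h0 : (QuaternionGroup.xa (0 : ZMod (2 * m)) : QuaternionGroup m)⁻¹ =
        QuaternionGroup.xa ((m : ZMod (2 * m)) + 0) := rfl
    rw [h0, QuaternionGroup.xa_mul_a, QuaternionGroup.xa_mul_xa]
    congr 1
    have h1 : ((2 * m : ℕ) : ZMod (2 * m)) = 0 := ZMod.natCast_self _
    push_cast at h1
    linear_combination h1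
  cover d := by
    cases d with
    | a i => exact Or.inl ⟨i, rfl⟩
    | xa i =>
      right
      refine ⟨i, ?_⟩
      rw [QuaternionGroup.xa_mul_a, zero_add]
  s_ne i := by simp
  fourth k := by
    rw [QuaternionGroup.xa_mul_a]
    exact QuaternionGroup.xa_pow_four _

section Gen

variable {A : Type*} [Group A] {q h m : ℕ} [NeZero q] {c : ZMod q} (R : Rot A q h c)

/-- The rotation of order two is central. -/
theorem zt_central (hcz : c * zt q h = zt q h) (d : A) : d * R.ρ (zt q h) = R.ρ (zt q h) * d := by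
  rcases R.cover d with ⟨i, rfl⟩ | ⟨i, rfl⟩
  · exact R.comm _ _
  · have h1 := R.conj (zt q h)
    rw [hcz] at h1
    have h2 : R.s * R.ρ (zt q h) = R.ρ (zt q h) * R.s := by
      calc R.s * R.ρ (zt q h) = R.s * R.ρ (zt q h) * R.s⁻¹ * R.s := by group
        _ = _ := by rw [h1]
    calc R.s * R.ρ i * R.ρ (zt q h) = R.s * (R.ρ (zt q h) * R.ρ i) := by rw [mul_assoc, R.comm]
      _ = R.s * R.ρ (zt q h) * R.ρ i := by group
      _ = R.ρ (zt q h) * R.s * R.ρ i := by rw [h2]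
      _ = _ := by group

/-- A rotation's cyclic group contains the rotation of order two. -/
theorem zt_mem_zpowers (hq : q = 4 * h) (hh : 1 ≤ h) (hq2 : q = 2 ^ m) {i : ZMod q} (hi : i ≠ 0) :
    R.ρ (zt q h) ∈ Subgroup.zpowers (R.ρ i) := by
  obtain ⟨a, ha⟩ := exists_order R hq2 i
  have hne : R.ρ i ≠ 1 := fun h1 => hi (R.eq_one_iff.mp h1)
  obtain ⟨b, rfl⟩ : ∃ b, a = b + 1 := by
    rcases a with _ | a
    · rw [pow_zero, orderOf_eq_one_iff] at ha
      exact absurd ha hne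
    · exact ⟨a, rfl⟩
  set k : ZMod q := (2 ^ b) • i with hk
  have h1 : R.ρ i ^ 2 ^ b = R.ρ k := R.pow i _
  have h2 : k + k = 0 := by
    have h3 : R.ρ (k + k) = 1 := by
      rw [R.add, ← h1, ← pow_add, show 2 ^ b + 2 ^ b = 2 ^ (b + 1) by ring, ← ha, pow_orderOf_eq_one]
    exact R.eq_one_iff.mp h3
  have h3 : k ≠ 0 := by
    intro h4
    have h5 : R.ρ i ^ 2 ^ b = 1 := by rw [h1, h4, R.zero]
    have h6 := orderOf_dvd_of_pow_eq_one h5
    rw [ha] at h6
    have h7 := Nat.le_of_dvd (by positivity) h6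
    have h8 : 2 ^ b < 2 ^ (b + 1) := Nat.pow_lt_pow_right (by norm_num) (by omega)
    omega
  have h4 : k = zt q h := (two_zero hq hh h2).resolve_left h3
  rw [← h4, ← h1]
  exact ⟨(2 ^ b : ℕ), by simp only [zpow_natCast]⟩

end Gen

section Down

variable {G : Type u} [Group G] [Fintype G] {M : Ideal AlgInt} [Fact (Nat.Prime 2)]
  {B : Set (IrrCharacter G)} {D : Subgroup G}

attribute [local instance] fK fIrr fBl

/-- **The block of the centralizer of a central involution of the defect group.** -/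
theorem exists_down {e : Set (IrrCharacter (Subgroup.centralizer (D : Set G)))} (hM : IsPModular 2 M)
    (hmax : IsMaximalBrauerPair 2 M B D e) {z : G} (hzD : z ∈ D) (hDz : D ≤ Cn z) :
    ∃ (b : Set (IrrCharacter (Cn z)))
      (e₂ : Set (IrrCharacter (Subgroup.centralizer ((D.subgroupOf (Cn z) : Subgroup (Cn z)) : Set (Cn z))))),
      IsInducedBlock M (Cn z) b B ∧ blockDefect 2 b = blockDefect 2 B ∧
        IsMaximalBrauerPair 2 M b (D.subgroupOf (Cn z)) e₂ := by
  have hP : D ≤ cZ z := by rw [cZ_eq]; exact hDz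
  obtain ⟨-, hu⟩ := bb_spec hM hmax hzD
  have main : ∀ C : Subgroup G, cZ z = C → ∃ (b : Set (IrrCharacter C))
      (e₂ : Set (IrrCharacter (Subgroup.centralizer ((D.subgroupOf C : Subgroup C) : Set C)))),
      IsInducedBlock M C b B ∧ blockDefect 2 b = blockDefect 2 B ∧ IsMaximalBrauerPair 2 M b (D.subgroupOf C) e₂ := by
    rintro C rfl
    exact ⟨bb 2 M e z, eDown' e hP hzD, induced_of_under hM hmax hu, blockDefect_eq' hM hmax hP hzD hu,
      isMaximal_down' hM hmax hP hzD hu⟩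
  exact main _ (cZ_eq z)

variable {q h m : ℕ} [NeZero q] {c : ZMod q}

/-- **The invariants of the block of the centralizer.** -/
theorem central_at (R : Rot D q h c) (hM : IsPModular 2 M) {z : G} (hDz : D ≤ Cn z)
    {b : Set (IrrCharacter (Cn z))}
    {e₂ : Set (IrrCharacter (Subgroup.centralizer ((D.subgroupOf (Cn z) : Subgroup (Cn z)) : Set (Cn z))))}
    (hmax : IsMaximalBrauerPair 2 M b (D.subgroupOf (Cn z)) e₂)
    (h2 : 2 ∣ q) (hq : q = 4 * h) (hh : 1 ≤ h) (hq2 : q = 2 ^ m)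
    (hcc : c * c = 1) (hfix : ∀ j : ZMod q, c * j = j → j = 0 ∨ j = zt q h) (hcz : c * zt q h = zt q h)
    (hcw : c * ht q h = - ht q h) (hc1 : c + 1 = 0 ∨ c + 1 = zt q h) (hcard : Nat.card D = 2 * q)
    (hz : z = rr R (zt q h)) (hzo : orderOf z = 2 ^ 1) :
    Nat.card b = 2 * h + 2 + blockRank 2 b ∧ blockRank 2 b ≤ 3 := by
  classical
  letI : Fintype b := Fintype.ofFinite _
  let R' : Rot ↥(D.subgroupOf (Cn z)) q h c := Rot.map R (Subgroup.subgroupOfEquivOfLe hDz).symm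
  have hcard' : Nat.card (D.subgroupOf (Cn z)) = 2 * q := by
    rw [← hcard]
    exact Nat.card_congr (Subgroup.subgroupOfEquivOfLe hDz).toEquiv
  have hzc : z ∈ Cn z := by
    rw [Subgroup.mem_centralizer_iff]
    intro y hy
    rw [Set.mem_singleton_iff.mp hy]
  have hz' : (⟨z, hzc⟩ : Cn z) = rr R' (zt q h) := by
    apply Subtype.ext
    exact hz
  have hzo' : orderOf (⟨z, hzc⟩ : Cn z) = 2 ^ 1 := by
    rw [Subgroup.orderOf_mk, hzo]
  have hzcc : ∀ t : Cn z, (⟨z, hzc⟩ : Cn z) * t = t * (⟨z, hzc⟩ : Cn z) := by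
    intro t
    apply Subtype.ext
    have h1 := Subgroup.mem_centralizer_iff.mp t.2 z rfl
    exact h1
  obtain ⟨h3, h4⟩ := central_formula R' hM hmax.1.2.1
    (Cfsg.Agent.Lib.BlockH.MaxPair.isDefectGroup_of_isMaximal hM hmax) h2 hq hh hq2 hcc hfix hcz hcw hc1 hcard'
    hz' hzo' hzcc
  refine ⟨?_, h4⟩
  rw [Nat.card_eq_fintype_card]
  exact h3

end Down

section Inv

variable {G : Type u} [Group G] [Fintype G] [Fintype (IrrCharacter G)] {M : Ideal AlgInt} [Fact (Nat.Prime 2)]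
  {B : Set (IrrCharacter G)} {D : Subgroup G} {q h m : ℕ} [NeZero q] {c : ZMod q}

attribute [local instance] fK fIrr fBl

/-- A height count. -/
theorem card_height [Fintype B] {k : ℕ} (P : B → Prop) [DecidablePred P]
    (hP : ∀ x : B, blockHeight 2 B ((x : IrrCharacter G) : G → ℂ) = k ↔ P x) :
    Nat.card {χ : IrrCharacter G // χ ∈ B ∧ blockHeight 2 B (χ : G → ℂ) = k} = (Finset.univ.filter P).card := by
  have e1 : {χ : IrrCharacter G // χ ∈ B ∧ blockHeight 2 B (χ : G → ℂ) = k} ≃ {x : B // P x} :=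
    (Equiv.subtypeSubtypeEquivSubtypeInter (· ∈ B) (fun χ : IrrCharacter G => blockHeight 2 B (χ : G → ℂ) = k)).symm.trans
      (Equiv.subtypeEquivRight hP)
  rw [Nat.card_congr e1, Nat.card_eq_fintype_card, Fintype.card_subtype]

/-- **The invariants of a block with all elements of the defect group above the central involution.** -/
theorem qq_generic (R : Rot D q h c) (hM : IsPModular 2 M) (hB : IsPBlock M B) (hD : IsDefectGroup 2 M B D)
    [Fintype B] (h2 : 2 ∣ q) (hq : q = 4 * h) (hh : 1 ≤ h) (hq2 : q = 2 ^ m)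
    (hcc : c * c = 1) (hfix : ∀ j : ZMod q, c * j = j → j = 0 ∨ j = zt q h) (hcz : c * zt q h = zt q h)
    (hcw : c * ht q h = - ht q h) (hc1 : c + 1 = 0 ∨ c + 1 = zt q h) (hcard : Nat.card D = 2 * q)
    {z : G} (hz : z = rr R (zt q h)) (hzo : orderOf z = 2 ^ 1)
    (hUI : ∀ x ∈ D, x ≠ 1 → z ∈ Subgroup.zpowers x) :
    1 ≤ blockRank 2 B ∧ blockRank 2 B ≤ 3 ∧ Nat.card B = blockRank 2 B + 2 * h + 2 ∧
    Nat.card {χ : IrrCharacter G // χ ∈ B ∧ blockHeight 2 B (χ : G → ℂ) = 0} = 4 ∧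
    (∀ χ ∈ B, blockHeight 2 B (χ : G → ℂ) = 0 ∨ blockHeight 2 B (χ : G → ℂ) = 1 ∨
      blockHeight 2 B (χ : G → ℂ) = blockDefect 2 B - 2) ∧
    (2 ≤ h → Nat.card {χ : IrrCharacter G // χ ∈ B ∧ blockHeight 2 B (χ : G → ℂ) = 1} = 2 * h - 1) := by
  classical
  haveI := isPrime_of_pModular hM
  obtain ⟨e, hmax⟩ := exists_pair_of_defect hM hB hD
  have hzD : z ∈ D := by
    rw [hz]
    exact (R.ρ _).2
  have hDz : D ≤ Cn z := by
    intro d hd
    rw [Subgroup.mem_centralizer_iff]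
    intro y hy
    rw [Set.mem_singleton_iff.mp hy, hz]
    have h1 := zt_central R hcz ⟨d, hd⟩
    exact (congrArg Subtype.val h1).symm
  obtain ⟨b, e₂, hb, hdb, hmax₂⟩ := exists_down hM hmax hzD hDz
  obtain ⟨hc1', hc2⟩ := central_at R hM hDz hmax₂ h2 hq hh hq2 hcc hfix hcz hcw hc1 hcard hz hzo
  have hcmp := compare_Q hM hmax (by rw [hzo, pow_one]) hzD hUI hb
  obtain ⟨f, Z, S, T3, L, -⟩ := exists_rows R hM hB hD h2 hq hh hq2 hcc hfix hcz hcw hcard hz hzo hb hdb
  have hl1 : 1 ≤ blockRank 2 B := Cfsg.Agent.Lib.BlockOne.Count.one_le_blockRank (isPBlock_nonempty hB)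
  have hk : Nat.card B = blockRank 2 B + 2 * h + 2 := by
    rw [hc1'] at hcmp
    have h3 : (Nat.card B : ℂ) = ((blockRank 2 B + 2 * h + 2 : ℕ) : ℂ) := by
      push_cast at hcmp ⊢
      linear_combination hcmp
    exact_mod_cast h3
  have hC := L.hC
  have hk4 := hC.hk
  have hfc : Fintype.card B = blockRank 2 B + 2 * h + 2 := by
    rw [← Nat.card_eq_fintype_card]
    exact hk
  have hT : T3.card = 0 := by
    by_contra hT
    have hZ0 : Z = ∅ := by
      obtain ⟨x, hx⟩ := Finset.card_pos.mp (Nat.pos_of_ne_zero hT)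
      exact Finset.eq_empty_of_forall_notMem fun y hy => L.hTZ x hx y hy
    rw [hZ0, Finset.card_empty] at hk4
    rcases hC.exotic hT with ⟨rfl, h5⟩ | ⟨rfl, -, h5⟩ <;> omega
  have hd := L.hd
  have hl3 : blockRank 2 B ≤ 3 := by
    by_cases hh2 : 2 ≤ h
    · have h5 := hC.card_S_of_empty hT hh2
      have h6 : 4 ≤ blockDefect 2 B := by
        by_contra h7
        have h8 : blockDefect 2 B = 3 := by omega
        rw [h8] at hd
        have h9 := hd.2
        norm_num at h9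
        omega
      have h7 := L.hr.2 h6
      omega
    · have hh1 : h = 1 := by omega
      have h5 : S = ∅ := Finset.eq_empty_of_forall_notMem fun x hx => hh2 (hC.hS2 x hx)
      rw [h5, Finset.card_empty] at hk4
      have h7 := L.hr.1
      omega
  refine ⟨hl1, hl3, hk, ?_, ?_, ?_⟩
  · rw [card_height (fun x : B => Odd (aA h2 (f x))) (fun x => L.h0 x), L.h4]
  · intro χ hχ
    let x : B := ⟨χ, hχ⟩
    by_cases h3 : Odd (aA h2 (f x))
    · exact Or.inl ((L.h0 x).mpr h3)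
    · by_cases h4 : wW h2 (2 * h) (f x) = 0
      · exact Or.inr (Or.inr (L.hZr x ((hC.hZ x).mpr h4)))
      · exact Or.inr (Or.inl (L.hSr x ((hC.hS x).mpr ⟨h3, h4⟩)))
  · intro hh2
    have h5 := hC.card_S_of_empty hT hh2
    have h6 : 4 ≤ blockDefect 2 B := by
      by_contra h7
      have h8 : blockDefect 2 B = 3 := by omega
      rw [h8] at hd
      have h9 := hd.2
      norm_num at h9
      omega
    have h7 : ∀ x : B, blockHeight 2 B ((x : IrrCharacter G) : G → ℂ) = 1 ↔ x ∈ S := by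
      intro x
      refine ⟨fun h8 => ?_, L.hSr x⟩
      rw [hC.hS]
      refine ⟨fun h9 => ?_, fun h9 => ?_⟩
      · have h10 := (L.h0 x).mpr h9
        omega
      · have h10 := L.hZr x ((hC.hZ x).mpr h9)
        omega
    rw [card_height (fun x : B => x ∈ S) h7, Finset.filter_mem_eq_inter, Finset.univ_inter]
    omega

end Inv

section Quaternion

variable {G : Type u} [Group G] [Fintype G] [Fintype (IrrCharacter G)] {M : Ideal AlgInt} [Fact (Nat.Prime 2)]
  {B : Set (IrrCharacter G)} {D : Subgroup G}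

/-- **The invariants of a block with a generalized quaternion defect group.** -/
theorem invariants_Q (hM : IsPModular 2 M) (hB : IsPBlock M B) (hD : IsDefectGroup 2 M B D) [Fintype B]
    {n : ℕ} (hn : 3 ≤ n) (φ : D ≃* QuaternionGroup (2 ^ (n - 2))) :
    1 ≤ blockRank 2 B ∧ blockRank 2 B ≤ 3 ∧ Nat.card B = blockRank 2 B + 2 ^ (n - 2) + 2 ∧
    Nat.card {χ : IrrCharacter G // χ ∈ B ∧ blockHeight 2 B (χ : G → ℂ) = 0} = 4 ∧
    (∀ χ ∈ B, blockHeight 2 B (χ : G → ℂ) = 0 ∨ blockHeight 2 B (χ : G → ℂ) = 1 ∨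
      blockHeight 2 B (χ : G → ℂ) = n - 2) ∧
    (4 ≤ n → Nat.card {χ : IrrCharacter G // χ ∈ B ∧ blockHeight 2 B (χ : G → ℂ) = 1} = 2 ^ (n - 2) - 1) := by
  classical
  obtain ⟨k, rfl⟩ : ∃ k, n = k + 3 := ⟨n - 3, by omega⟩
  set h : ℕ := 2 ^ k with hh'
  have hm0 : 2 ^ (k + 3 - 2) = 2 * h := by
    rw [show k + 3 - 2 = k + 1 by omega, pow_succ, hh']
    ring
  set m0 : ℕ := 2 ^ (k + 3 - 2) with hm0'
  set q : ℕ := 2 * m0 with hq'
  haveI : NeZero m0 := ⟨by rw [hm0]; positivity⟩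
  haveI : NeZero q := ⟨by rw [hq', hm0]; positivity⟩
  have hh : 1 ≤ h := Nat.one_le_two_pow
  have hq : q = 4 * h := by rw [hq', hm0]; ring
  have hq2 : q = 2 ^ (k + 2) := by
    rw [hq', hm0, hh']
    ring
  have h2 : 2 ∣ q := ⟨m0, rfl⟩
  let R : Rot D q h (-1) := Rot.map (rotQ m0 h) φ.symm
  have hzz : zt q h + zt q h = 0 := zt_add_zt hq
  have hcz : (-1 : ZMod q) * zt q h = zt q h := by
    rw [neg_one_mul, neg_eq_iff_add_eq_zero]
    exact hzz
  have hzne : zt q h ≠ 0 := zt_ne hq hh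
  have hρz : R.ρ (zt q h) = φ.symm (QuaternionGroup.a (zt q h)) := rfl
  have hzo1 : orderOf (R.ρ (zt q h)) = 2 := by
    refine orderOf_eq_prime ?_ ?_
    · rw [pow_two, ← R.add, hzz, R.zero]
    · intro h1
      exact hzne (R.eq_one_iff.mp h1)
  have hzo : orderOf (rr R (zt q h)) = 2 ^ 1 := by
    rw [pow_one, rr, Subgroup.orderOf_coe, hzo1]
  have hcardQ : Nat.card D = 2 * q := by
    rw [Nat.card_congr φ.toEquiv, Nat.card_eq_fintype_card, QuaternionGroup.card, hq']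
    ring
  have hUIQ : ∀ y : QuaternionGroup m0, y ≠ 1 →
      (QuaternionGroup.a (zt q h) : QuaternionGroup m0) ∈ Subgroup.zpowers y := by
    intro y hy
    cases y with
    | a i =>
      have hi : i ≠ 0 := by
        rintro rfl
        exact hy rfl
      exact zt_mem_zpowers (rotQ m0 h) hq hh hq2 hi
    | xa i =>
      have h1 : zt q h = (m0 : ZMod q) := congrArg (Nat.cast) hm0.symm
      refine ⟨2, ?_⟩
      simp only [zpow_ofNat]
      rw [QuaternionGroup.xa_sq]
      exact congrArg QuaternionGroup.a h1.symm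
  have hUI : ∀ x ∈ D, x ≠ 1 → rr R (zt q h) ∈ Subgroup.zpowers x := by
    intro x hx hx1
    have h1 : φ ⟨x, hx⟩ ≠ 1 := by
      intro h3
      apply hx1
      have h4 := φ.injective (h3.trans (map_one φ).symm)
      exact congrArg Subtype.val h4
    obtain ⟨t, ht⟩ := hUIQ _ h1
    refine ⟨t, ?_⟩
    simp only at ht
    have h3 : (⟨x, hx⟩ : D) ^ t = R.ρ (zt q h) := by
      rw [hρz, ← ht, map_zpow, MulEquiv.symm_apply_apply]
    have h4 := congrArg Subtype.val h3
    rw [Subgroup.coe_zpow] at h4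
    exact h4
  have hmain := qq_generic R hM hB hD h2 hq hh hq2 (c := -1) (by ring)
    (fun j hj => two_zero hq hh (by
      have h5 : j + (-1 * j) = 0 := by ring
      rwa [hj] at h5)) hcz (by ring) (Or.inl (by ring)) hcardQ rfl hzo hUI
  have hdef : blockDefect 2 B = k + 3 := by
    have h1 := Cfsg.Agent.Lib.Blocks.Inducing.card_eq_pow_blockDefect hM hB hD
    rw [hcardQ, hq2, show 2 * 2 ^ (k + 2) = 2 ^ (k + 3) by ring] at h1
    exact (Nat.pow_right_injective (le_refl 2) h1).symm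
  obtain ⟨h1, h3, h4, h5, h6, h7⟩ := hmain
  rw [hdef] at h6
  refine ⟨h1, h3, ?_, h5, h6, ?_⟩
  · rw [h4, hm0]
  · intro hn4
    rw [h7 ?_, hm0]
    rw [hh']
    calc 2 = 2 ^ 1 := by norm_num
      _ ≤ 2 ^ k := Nat.pow_le_pow_right (by norm_num) (by omega)

end Quaternion

end Cfsg.Agent.Lib.Tw.Qq
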