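import Mathlib
import Cfsg.Agent.Lib.Tw.Grp
import Cfsg.Agent.Lib.TwoGroups.QD

/-!
# Semidihedral groups as groups with a cyclic subgroup of index two
-/

set_option linter.unusedSectionVars false
set_option linter.style.haveILetI false
set_option autoImplicit false

namespace Cfsg.Agent.Lib.Tw.SD

open Cfsg.Agent.Lib.Tw.Row Cfsg.Agent.Lib.Tw.Fou Cfsg.Agent.Lib.Tw.Grp

section Num

variable {q h m : ℕ} [NeZero q]

theorem cc_cc (hq : q = 4 * h) : (zt q h - 1) * (zt q h - 1) = 1 := by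
  have h1 := zt_mul_zt (q := q) (h := h) hq
  have h3 := zt_add_zt (q := q) (h := h) hq
  linear_combination h1 - h3

theorem cc_zt (hq : q = 4 * h) : (zt q h - 1) * zt q h = zt q h := by
  have h1 := zt_mul_zt (q := q) (h := h) hq
  have h3 := zt_add_zt (q := q) (h := h) hq
  linear_combination h1 - h3

theorem zt_ht (hq : q = 4 * h) {h' : ℕ} (hev : h = 2 * h') : zt q h * ht q h = 0 := by
  rw [zt, ht, ← Nat.cast_mul, ZMod.natCast_eq_zero_iff]
  exact ⟨h', by rw [hq]; subst hev; ring⟩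

theorem cc_ht (hq : q = 4 * h) {h' : ℕ} (hev : h = 2 * h') : (zt q h - 1) * ht q h = - ht q h := by
  have h1 := zt_ht hq hev
  linear_combination h1

theorem unit_pred (hq2 : q = 2 ^ m) {h' : ℕ} (hev : h = 2 * h') (hh : 1 ≤ h) : IsUnit (((h - 1 : ℕ)) : ZMod q) := by
  rw [ZMod.isUnit_iff_coprime, hq2]
  refine Nat.Coprime.pow_right _ ?_
  exact Nat.Coprime.symm ((Nat.Prime.coprime_iff_not_dvd Nat.prime_two).mpr (by omega))

theorem zt_sub_two (hh : 1 ≤ h) : zt q h - 2 = 2 * (((h - 1 : ℕ)) : ZMod q) := by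
  rw [zt]
  obtain ⟨t, rfl⟩ : ∃ t, h = t + 1 := ⟨h - 1, by omega⟩
  simp only [Nat.add_sub_cancel]
  push_cast
  ring

theorem cc_fix (hq : q = 4 * h) (hh : 1 ≤ h) (hq2 : q = 2 ^ m) {h' : ℕ} (hev : h = 2 * h') {j : ZMod q}
    (hj : (zt q h - 1) * j = j) : j = 0 ∨ j = zt q h := by
  obtain ⟨u, hu⟩ := unit_pred (q := q) hq2 hev hh
  have h1 : (((h - 1 : ℕ)) : ZMod q) * (j + j) = 0 := by
    have h3 := zt_sub_two (q := q) hh
    have h4 : (zt q h - 2) * j = 0 := by linear_combination hj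
    rw [h3] at h4
    linear_combination h4
  rw [← hu] at h1
  have h3 : j + j = 0 := by
    have h4 := congrArg (fun a => ((u⁻¹ : (ZMod q)ˣ) : ZMod q) * a) h1
    simp only [mul_zero, ← mul_assoc, Units.inv_mul, one_mul] at h4
    exact h4
  exact two_zero hq hh h3

variable (h2 : 2 ∣ q)

theorem zt_mul_even (hq : q = 4 * h) {k : ZMod q} (hk : par h2 k = 0) : zt q h * k = 0 := by
  have hv : ((k.val : ℕ) : ZMod q) = k := ZMod.natCast_zmod_val k
  rw [← hv] at hk ⊢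
  rw [par_natCast, ZMod.natCast_eq_zero_iff] at hk
  obtain ⟨t, ht⟩ := hk
  rw [zt, ← Nat.cast_mul, ZMod.natCast_eq_zero_iff, ht]
  exact ⟨t, by rw [hq]; ring⟩

theorem zt_mul_odd (hq : q = 4 * h) {k : ZMod q} (hk : par h2 k = 1) : zt q h * k = zt q h := by
  have hk0 : par h2 (k + 1) = 0 := by
    rw [par_add, hk, par_one]
    rfl
  have h1 := zt_mul_even h2 hq hk0
  have h3 := zt_add_zt (q := q) (h := h) hq
  linear_combination h1 - h3

end Num

section Facts

variable {A : Type*} [Group A] {q h m : ℕ} [NeZero q] (R : Rot A q h (zt q h - 1))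

/-- Moving a rotation past the reflection. -/
theorem rho_s (hq : q = 4 * h) (j : ZMod q) : R.ρ j * R.s = R.s * R.ρ ((zt q h - 1) * j) := by
  have h1 := R.conj ((zt q h - 1) * j)
  rw [← mul_assoc, cc_cc hq, one_mul] at h1
  rw [← h1]
  group

/-- The square of a reflection. -/
theorem sr_sq (hs2 : R.s * R.s = 1) (k : ZMod q) :
    (R.s * R.ρ k) * (R.s * R.ρ k) = R.ρ (zt q h * k) := by
  have h1 := R.conj k
  have h3 : (R.s * R.ρ k) * (R.s * R.ρ k) = (R.s * R.ρ k * R.s⁻¹) * (R.s * R.s) * R.ρ k := by group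
  rw [h3, h1, hs2, mul_one, ← R.add]
  congr 1
  ring

/-- A rotation commuting with a reflection. -/
theorem rot_commute (hq : q = 4 * h) (hh : 1 ≤ h) (hq2 : q = 2 ^ m) {h' : ℕ} (hev : h = 2 * h') {j k : ZMod q}
    (hc : R.ρ j * (R.s * R.ρ k) = (R.s * R.ρ k) * R.ρ j) : j = 0 ∨ j = zt q h := by
  apply cc_fix hq hh hq2 hev
  have h1 : R.ρ j * (R.s * R.ρ k) = R.s * R.ρ ((zt q h - 1) * j + k) := by
    rw [← mul_assoc, rho_s R hq, mul_assoc, ← R.add]
  have h3 : (R.s * R.ρ k) * R.ρ j = R.s * R.ρ (k + j) := by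
    rw [mul_assoc, ← R.add]
  rw [h1, h3] at hc
  have h4 := R.inj (mul_left_cancel hc)
  linear_combination h4

/-- **The centralizer of a reflection.** -/
theorem commute_refl (hq : q = 4 * h) (hh : 1 ≤ h) (hq2 : q = 2 ^ m) {h' : ℕ} (hev : h = 2 * h') {k : ZMod q}
    {u : A} (hu : u * (R.s * R.ρ k) = (R.s * R.ρ k) * u) :
    u = 1 ∨ u = R.ρ (zt q h) ∨ u = R.s * R.ρ k ∨ u = R.ρ (zt q h) * (R.s * R.ρ k) := by
  rcases R.cover u with ⟨j, rfl⟩ | ⟨l, rfl⟩
  · rcases rot_commute R hq hh hq2 hev hu with rfl | rfl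
    · exact Or.inl R.zero
    · exact Or.inr (Or.inl rfl)
  · set x := R.s * R.ρ k with hx
    set j := (zt q h - 1) * (l - k) with hj
    have h1 : R.s * R.ρ l = R.ρ j * x := by
      have h3 := R.conj (l - k)
      have h4 : R.ρ j = R.s * R.ρ l * (R.ρ k)⁻¹ * R.s⁻¹ := by
        rw [hj, ← h3, R.sub]
        group
      rw [h4, hx]
      group
    rw [h1] at hu
    have h3 : R.ρ j * x = x * R.ρ j := mul_right_cancel (hu.trans (mul_assoc _ _ _).symm)
    rcases rot_commute R hq hh hq2 hev (k := k) h3 with h5 | h5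
    · right; right; left
      rw [h1, h5, R.zero, one_mul]
    · right; right; right
      rw [h1, h5]

/-- **Even reflections are conjugate.** -/
theorem even_conj (h2 : 2 ∣ q) (hq : q = 4 * h) (hh : 1 ≤ h) (hq2 : q = 2 ^ m) {h' : ℕ} (hev : h = 2 * h') {k : ZMod q}
    (hk : par h2 k = 0) : ∃ j, R.ρ j * (R.s * R.ρ k) * (R.ρ j)⁻¹ = R.s := by
  have hv : ((k.val : ℕ) : ZMod q) = k := ZMod.natCast_zmod_val k
  have hk' : par h2 ((k.val : ℕ) : ZMod q) = 0 := by rw [hv]; exact hk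
  rw [par_natCast, ZMod.natCast_eq_zero_iff] at hk'
  obtain ⟨t, ht'⟩ := hk'
  obtain ⟨u, hu⟩ := unit_pred (q := q) hq2 hev hh
  refine ⟨-(((u⁻¹ : (ZMod q)ˣ) : ZMod q) * (t : ZMod q)), ?_⟩
  set j := -(((u⁻¹ : (ZMod q)ˣ) : ZMod q) * (t : ZMod q)) with hj
  have h3 : R.ρ j * (R.s * R.ρ k) * (R.ρ j)⁻¹ = R.s * R.ρ ((zt q h - 1) * j + k - j) := by
    rw [← mul_assoc (R.ρ j), rho_s R hq, mul_assoc R.s, ← R.add, mul_assoc, R.sub]
  rw [h3]
  have h4 : (zt q h - 1) * j + k - j = 0 := by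
    have h5 : (zt q h - 1) * j + k - j = (zt q h - 2) * j + k := by ring
    rw [h5, zt_sub_two hh, ← hu]
    have h6 : (u : ZMod q) * ((u⁻¹ : (ZMod q)ˣ) : ZMod q) = 1 := Units.mul_inv u
    have h7 : k = 2 * (t : ZMod q) := by
      rw [← hv, ht']
      push_cast
      ring
    rw [hj, h7]
    linear_combination (-(2 : ZMod q) * (t : ZMod q)) * h6
  rw [h4, R.zero, mul_one]

/-- **The classification of the elements.** -/
theorem classify (h2 : 2 ∣ q) (hq : q = 4 * h) (hh : 1 ≤ h) (hq2 : q = 2 ^ m) (hs2 : R.s * R.s = 1) {x : A} (hx : x ≠ 1) :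
    R.ρ (zt q h) ∈ Subgroup.zpowers x ∨ ∃ k, par h2 k = 0 ∧ x = R.s * R.ρ k := by
  rcases R.cover x with ⟨i, rfl⟩ | ⟨k, rfl⟩
  · left
    have hi : i ≠ 0 := by
      rintro rfl
      exact hx R.zero
    obtain ⟨a, ha⟩ := exists_order R hq2 i
    have hne : R.ρ i ≠ 1 := hx
    obtain ⟨b, rfl⟩ : ∃ b, a = b + 1 := by
      rcases a with _ | a
      · rw [pow_zero, orderOf_eq_one_iff] at ha
        exact absurd ha hne
      · exact ⟨a, rfl⟩
    set t : ZMod q := (2 ^ b) • i with ht'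
    have h1 : R.ρ i ^ 2 ^ b = R.ρ t := R.pow i _
    have h3 : t + t = 0 := by
      have h4 : R.ρ (t + t) = 1 := by
        rw [R.add, ← h1, ← pow_add, show 2 ^ b + 2 ^ b = 2 ^ (b + 1) by ring, ← ha, pow_orderOf_eq_one]
      exact R.eq_one_iff.mp h4
    have h4 : t ≠ 0 := by
      intro h5
      have h6 : R.ρ i ^ 2 ^ b = 1 := by rw [h1, h5, R.zero]
      have h7 := orderOf_dvd_of_pow_eq_one h6
      rw [ha] at h7
      have h8 := Nat.le_of_dvd (by positivity) h7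
      have h9 : 2 ^ b < 2 ^ (b + 1) := Nat.pow_lt_pow_right (by norm_num) (by omega)
      omega
    have h5 : t = zt q h := (two_zero hq hh h3).resolve_left h4
    have h6 : R.ρ (zt q h) = R.ρ i ^ 2 ^ b := by
      rw [h1]
      exact congrArg R.ρ h5.symm
    rw [h6]
    exact ⟨(2 ^ b : ℕ), by simp only [zpow_natCast]⟩
  · rcases zmod2_cases (par h2 k) with h1 | h1
    · exact Or.inr ⟨k, h1, rfl⟩
    · left
      refine ⟨2, ?_⟩
      simp only [zpow_ofNat]
      rw [pow_two, sr_sq R hs2, zt_mul_odd h2 hq h1]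

end Facts

section Make

variable {S : Type*} [Group S]

open Cfsg.Agent.Lib.TwoGroups.QD

/-- **A semidihedral group has rotations and reflections.** -/
theorem exists_rot (hS : Cfsg.IsQuasiDihedral S) :
    ∃ (n : ℕ) (h' : ℕ), 3 ≤ n ∧ Nat.card S = 2 * 2 ^ n ∧ 2 ^ (n - 2) = 2 * h' ∧
      ∃ R : Rot S (2 ^ n) (2 ^ (n - 2)) (zt (2 ^ n) (2 ^ (n - 2)) - 1), R.s * R.s = 1 := by
  obtain ⟨n, K, x, y, hn, hcard, hK, hD⟩ := exists_data hS
  obtain ⟨t, rfl⟩ : ∃ t, n = t + 3 := ⟨n - 3, by omega⟩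
  simp only [Nat.add_sub_cancel] at hK
  have e1 : t + 3 - 2 = t + 1 := by omega
  set q : ℕ := 2 ^ (t + 3) with hq
  set h : ℕ := 2 ^ (t + 3 - 2) with hh
  have hhv : h = 2 * 2 ^ t := by
    rw [hh, e1]
    ring
  have hqh : q = 4 * h := by
    rw [hq, hhv]
    ring
  haveI : NeZero q := ⟨by rw [hq]; positivity⟩
  have hqK : (q : ℤ) = 8 * K := by
    rw [hq, hK]
    push_cast
    ring
  have hhK : (h : ℤ) = 2 * K := by
    rw [hhv, hK]
    push_cast
    ring
  have hox : orderOf x = q := by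
    have := hD.ox
    rw [← hqK] at this
    exact_mod_cast this
  refine ⟨t + 3, 2 ^ t, by omega, ?_, hhv, ?_⟩
  · rw [hcard]
    ring
  set c : ZMod q := zt q h - 1 with hc
  have hval : ∀ a : ℤ, x ^ (((a : ZMod q).val : ℕ)) = x ^ a := by
    intro a
    have h1 : (((a : ZMod q).val : ℕ) : ℤ) = a % (q : ℤ) := ZMod.val_intCast a
    rw [← zpow_natCast, h1, ← hox, zpow_mod_orderOf]
  have hcast : ∀ i : ZMod q, (((i.val : ℕ) : ℤ) : ZMod q) = i := by
    intro i
    push_cast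
    exact ZMod.natCast_zmod_val i
  have hcc : ((4 * K - 1 : ℤ) : ZMod q) = c := by
    have h1 : ((4 * K : ℤ) : ZMod q) = zt q h := by
      rw [zt]
      have h3 : (4 * K : ℤ) = ((2 * h : ℕ) : ℤ) := by
        push_cast
        rw [hhK]
        ring
      rw [h3]
      push_cast
      rfl
    rw [hc, ← h1]
    push_cast
    ring
  have hadd : ∀ i j : ZMod q, x ^ ((i + j).val) = x ^ i.val * x ^ j.val := by
    intro i j
    have h1 : i + j = ((((i.val : ℕ) : ℤ) + ((j.val : ℕ) : ℤ) : ℤ) : ZMod q) := by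
      push_cast
      rw [ZMod.natCast_zmod_val, ZMod.natCast_zmod_val]
    rw [h1, hval, zpow_add, zpow_natCast, zpow_natCast]
  have hconj : ∀ i : ZMod q, y * x ^ i.val * y⁻¹ = x ^ (c * i).val := by
    intro i
    have h1 := hD.rel ((i.val : ℕ) : ℤ)
    rw [zpow_natCast] at h1
    rw [h1]
    have h3 : c * i = (((4 * K - 1) * ((i.val : ℕ) : ℤ) : ℤ) : ZMod q) := by
      rw [Int.cast_mul, hcc, hcast]
    rw [h3, hval]
  have hinv : ∀ a : ℤ, x ^ ((4 * K - 1) * ((4 * K - 1) * a)) = x ^ a := by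
    intro a
    rw [hD.zpow_eq_iff]
    exact ⟨(2 * K - 1) * a, by ring⟩
  refine ⟨{ ρ := fun i => x ^ i.val, add := hadd, inj := ?_, s := y, conj := hconj, cover := ?_, s_ne := ?_, fourth := ?_ }, hD.yy⟩
  · intro i j hij
    apply ZMod.val_injective
    have hi : i.val ∈ Set.Iio (orderOf x) := by
      rw [hox]
      exact ZMod.val_lt i
    have hj : j.val ∈ Set.Iio (orderOf x) := by
      rw [hox]
      exact ZMod.val_lt j
    exact pow_injOn_Iio_orderOf hi hj hij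
  · intro d
    rcases hD.elem_cases d with ⟨a, rfl⟩ | ⟨a, rfl⟩
    · left
      exact ⟨(a : ZMod q), (hval a).symm⟩
    · right
      refine ⟨(((4 * K - 1) * a : ℤ) : ZMod q), ?_⟩
      rw [hval, hD.y_zpow, hinv]
  · intro i h1
    apply hD.y_ne_zpow ((i.val : ℕ) : ℤ)
    rw [zpow_natCast]
    exact h1
  · intro k
    have h1 : y * x ^ k.val * (y * x ^ k.val) = x ^ (4 * K * ((k.val : ℕ) : ℤ)) := by
      have h3 := hD.y_zpow_y ((k.val : ℕ) : ℤ)
      rw [zpow_natCast] at h3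
      calc y * x ^ k.val * (y * x ^ k.val) = (y * x ^ k.val * y) * x ^ k.val := by group
        _ = x ^ ((4 * K - 1) * ((k.val : ℕ) : ℤ)) * x ^ ((k.val : ℕ) : ℤ) := by rw [h3, zpow_natCast]
        _ = _ := by
          rw [← zpow_add]
          congr 1
          ring
    have h3 : (y * x ^ k.val) ^ 4 = (y * x ^ k.val * (y * x ^ k.val)) * (y * x ^ k.val * (y * x ^ k.val)) := by
      rw [show (4 : ℕ) = 2 + 2 from rfl, pow_add, pow_two]
    rw [h3, h1, ← zpow_add, hD.zpow_eq_one_iff]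
    exact ⟨((k.val : ℕ) : ℤ), by ring⟩

end Make

end Cfsg.Agent.Lib.Tw.SD
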