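import Mathlib
import Cfsg.Agent.Lib.Tw.SD
import Cfsg.Agent.Lib.Tw.Cmp
import Cfsg.Agent.Lib.KleinBlock.Count
import Cfsg.Agent.Lib.BlockH.FusionB
import Cfsg.Agent.Lib.Blocks.ExtCrit
import Cfsg.Agent.Lib.Tw.Exist

/-!
# The section count at a central involution of a semidihedral defect group
-/

set_option linter.unusedSectionVars false
set_option linter.style.haveILetI false
set_option autoImplicit false

namespace Cfsg.Agent.Lib.Tw.Low

open Cfsg MonoidAlgebra
open Cfsg.Agent.Lib.Blocks.Local Cfsg.Agent.Lib.Blocks.Central Cfsg.Agent.Lib.Blocks.Main Cfsg.Agent.Lib.Blocks.Weak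
open Cfsg.Agent.Lib.Blocks.SectionCount Cfsg.Agent.Lib.Blocks.ChainBlocks Cfsg.Agent.Lib.Blocks.ClosedRank
open Cfsg.Agent.Lib.Blocks.NormRank
open Cfsg.Agent.Lib.BlockH.Regular Cfsg.Agent.Lib.BlockH.Transport Cfsg.Agent.Lib.BlockH.MaxPair
open Cfsg.Agent.Lib.BlockH.SubpairLE Cfsg.Agent.Lib.BlockH.ConjPair
open Cfsg.Agent.Lib.KleinBlock.Fusion
open Cfsg.Agent.Lib.Tw.Row Cfsg.Agent.Lib.Tw.Fou Cfsg.Agent.Lib.Tw.Grp Cfsg.Agent.Lib.Tw.SD Cfsg.Agent.Lib.Tw.Cmp

universe u

section Exc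

variable {X : Type u} [Group X] [Fintype X] {M : Ideal AlgInt} [Fact (Nat.Prime 2)]
  {B : Set (IrrCharacter X)} {D : Subgroup X}
  {e : Set (IrrCharacter (Subgroup.centralizer (D : Set X)))} {q h m h' : ℕ} [NeZero q]
  (R : Rot D q h (zt q h - 1))

/-- The basic reflection in the ambient group. -/
def yR : X := (R.s : D)

theorem yR_mem : yR R ∈ D := R.s.2

theorem ss_zero : ss R 0 = yR R := by
  rw [ss, yR, R.zero, mul_one]

theorem classifyX (h2 : 2 ∣ q) (hq : q = 4 * h) (hh : 1 ≤ h) (hq2 : q = 2 ^ m) (hs2 : R.s * R.s = 1) {x : X} (hx : x ∈ D)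
    (hx1 : x ≠ 1) : rr R (zt q h) ∈ Subgroup.zpowers x ∨ ∃ k, par h2 k = 0 ∧ x = ss R k := by
  have hne : (⟨x, hx⟩ : D) ≠ 1 := fun h1 => hx1 (congrArg Subtype.val h1)
  rcases classify R h2 hq hh hq2 hs2 hne with h3 | ⟨k, h3, h4⟩
  · left
    obtain ⟨i, hi⟩ := h3
    refine ⟨i, ?_⟩
    have h5 := congrArg Subtype.val hi
    simp only [Subgroup.coe_zpow] at h5
    exact h5
  · right
    exact ⟨k, h3, congrArg Subtype.val h4⟩

theorem conj_yR (h2 : 2 ∣ q) (hq : q = 4 * h) (hh : 1 ≤ h) (hq2 : q = 2 ^ m) (hev : h = 2 * h') {k : ZMod q}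
    (hk : par h2 k = 0) : ∃ d ∈ D, d * ss R k * d⁻¹ = yR R := by
  obtain ⟨j, hj⟩ := even_conj R h2 hq hh hq2 hev hk
  refine ⟨rr R j, (R.ρ j).2, ?_⟩
  have h1 := congrArg Subtype.val hj
  simpa [rr, ss, yR] using h1

theorem orderOf_yR (hs2 : R.s * R.s = 1) : orderOf (yR R) = 2 := by
  have h1 : orderOf R.s = 2 := by
    refine orderOf_eq_prime (by rw [pow_two]; exact hs2) ?_
    intro h3
    apply R.s_ne 0
    rw [h3, R.zero]
  rw [yR, Subgroup.orderOf_coe, h1]

theorem yR_ne (hq : q = 4 * h) : yR R ≠ rr R (zt q h) := fun h1 => R.s_ne _ (Subtype.ext h1)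

variable (hM : IsPModular 2 M) (hmax : IsMaximalBrauerPair 2 M B D e) (h2 : 2 ∣ q) (hq : q = 4 * h) (hh : 1 ≤ h)
  (hq2 : q = 2 ^ m) (hev : h = 2 * h') (hs2 : R.s * R.s = 1)
  (hzc : ∀ t : X, rr R (zt q h) * t = t * rr R (zt q h))

include hM hmax h2 hq hh hq2 hev hs2 hzc

/-- An exceptional element is conjugate to the reflection. -/
theorem exc_conj {x : X} (hx1 : x ≠ 1) (hx2 : ∃ k : ℕ, orderOf x = 2 ^ k)
    (hnz : rr R (zt q h) ∉ Subgroup.zpowers x) {β : Set (IrrCharacter (Cn x))} (hβ : IsInducedBlock M (Cn x) β B) :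
    ∃ t : X, t * x * t⁻¹ = yR R := by
  haveI := isPrime_of_pModular hM
  haveI := Cfsg.Agent.Lib.Char.Ortho.finite_irrCharacter (G := X)
  letI : Fintype (IrrCharacter X) := Fintype.ofFinite _
  obtain ⟨t, ht⟩ := exists_conj_le hM hmax (Cfsg.Agent.Lib.Blocks.Main.centralizer_zpowers_eq x).symm
    (isPGroup_zpowers_of_order hx2) hβ
  have h3 := ht x (Subgroup.mem_zpowers x)
  have h4 : t * x * t⁻¹ ≠ 1 := by rwa [Ne, conj_eq_one_iff]
  rcases classifyX R h2 hq hh hq2 hs2 h3 h4 with h5 | ⟨k, h5, h6⟩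
  · exfalso
    apply hnz
    obtain ⟨i, hi⟩ := h5
    refine ⟨i, ?_⟩
    have hi' : (t * x * t⁻¹) ^ i = rr R (zt q h) := hi
    rw [conj_zpow] at hi'
    change x ^ i = rr R (zt q h)
    have h7 : x ^ i = t⁻¹ * (t * x ^ i * t⁻¹) * t := by group
    rw [h7, hi', mul_assoc, hzc t]
    group
  · obtain ⟨d, -, hd⟩ := conj_yR R h2 hq hh hq2 hev h5
    refine ⟨d * t, ?_⟩
    rw [← hd, ← h6]
    group

/-- The block at the reflection is related to the reflection. -/
theorem rel_yR {f : Set (IrrCharacter (Subgroup.centralizer ((Subgroup.zpowers (yR R) : Subgroup X) : Set X)))}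
    (hf : IsInducedBlock M (Subgroup.centralizer ((Subgroup.zpowers (yR R) : Subgroup X) : Set X)) f B) :
    Rel 2 M D e (yR R) (yR R) f := by
  classical
  haveI := isPrime_of_pModular hM
  have hx2 : ∃ k : ℕ, orderOf (yR R) = 2 ^ k := ⟨1, by rw [orderOf_yR R hs2, pow_one]⟩
  have hpair := Cfsg.Agent.Lib.Contrib.Section.isBrauerPairOf_of_induced hM
    (Cfsg.Agent.Lib.Contrib.Section.isPGroup_zpowers' hx2) hf
  obtain ⟨g, hgP, hrel⟩ := exists_rel_of_block hM hmax hpair
  have hy1 : yR R ≠ 1 := by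
    intro h3
    have := orderOf_yR R hs2
    rw [h3, orderOf_one] at this
    omega
  have h4 : g * yR R * g⁻¹ ≠ 1 := by rwa [Ne, conj_eq_one_iff]
  rcases classifyX R h2 hq hh hq2 hs2 hgP h4 with h5 | ⟨k, h5, h6⟩
  · exfalso
    have hzo : orderOf (rr R (zt q h)) = 2 := by
      refine orderOf_eq_prime ?_ ?_
      · rw [pow_two, ← rr_add, zt_add_zt hq, rr_zero]
      · intro h7
        rw [← rr_zero R] at h7
        exact zt_ne hq hh (rr_injective R h7)
    have h7 := eq_of_mem_zpowers (Subgroup.mem_zpowers (g * yR R * g⁻¹)) h5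
      (by rw [orderOf_conj'', orderOf_yR R hs2]) hzo
    apply yR_ne R hq
    have h8 : yR R = g⁻¹ * (g * yR R * g⁻¹) * g := by group
    rw [h8, h7, mul_assoc, hzc g]
    group
  · obtain ⟨d, hdD, hd⟩ := conj_yR R h2 hq hh hq2 hev h5
    have h7 := rel_conj hM hmax.1.1 (t := d) (P_le_stabSub (p := 2) (M := M) hmax.1.1 hM hdD) hrel
    rw [h6, hd] at h7
    exact h7

/-- The centralizer of an even reflection in the defect group is small. -/
theorem card_centralizer_le {k : ZMod q} {Q : Subgroup X} (hQ : ss R k ∈ Q) :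
    Nat.card ↥(D ⊓ Subgroup.centralizer (Q : Set X)) ≤ 4 := by
  classical
  have hsub : ((D ⊓ Subgroup.centralizer (Q : Set X) : Subgroup X) : Set X) ⊆
      (({1, rr R (zt q h), ss R k, rr R (zt q h) * ss R k} : Finset X) : Set X) := by
    intro u hu
    obtain ⟨hu1, hu2⟩ := Subgroup.mem_inf.mp hu
    have h3 : u * ss R k = ss R k * u := (Subgroup.mem_centralizer_iff.mp hu2 _ hQ).symm
    have h4 : (⟨u, hu1⟩ : D) * (R.s * R.ρ k) = (R.s * R.ρ k) * (⟨u, hu1⟩ : D) := Subtype.ext h3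
    rcases commute_refl R hq hh hq2 hev h4 with h5 | h5 | h5 | h5
    · have h6 := congrArg Subtype.val h5
      simp [show u = 1 from h6]
    · have h6 : u = rr R (zt q h) := congrArg Subtype.val h5
      simp [h6]
    · have h6 : u = ss R k := congrArg Subtype.val h5
      simp [h6]
    · have h6 : u = rr R (zt q h) * ss R k := congrArg Subtype.val h5
      simp [h6]
  calc Nat.card ↥(D ⊓ Subgroup.centralizer (Q : Set X))
      = ((D ⊓ Subgroup.centralizer (Q : Set X) : Subgroup X) : Set X).ncard := Nat.card_coe_set_eq _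
    _ ≤ (({1, rr R (zt q h), ss R k, rr R (zt q h) * ss R k} : Finset X) : Set X).ncard :=
        Set.ncard_le_ncard hsub (Finset.finite_toSet _)
    _ = ({1, rr R (zt q h), ss R k, rr R (zt q h) * ss R k} : Finset X).card := Set.ncard_coe_finset _
    _ ≤ 4 := Finset.card_le_four

/-- **The block at the reflection has rank one.** -/
theorem rank_yR {f : Set (IrrCharacter (Subgroup.centralizer ((Subgroup.zpowers (yR R) : Subgroup X) : Set X)))}
    (hf : IsInducedBlock M (Subgroup.centralizer ((Subgroup.zpowers (yR R) : Subgroup X) : Set X)) f B) :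
    blockRank 2 f = 1 := by
  classical
  haveI := isPrime_of_pModular hM
  haveI := Cfsg.Agent.Lib.Char.Ortho.finite_irrCharacter (G := X)
  letI : Fintype (IrrCharacter X) := Fintype.ofFinite _
  obtain ⟨g, hg, hle⟩ := rel_yR R hM hmax h2 hq hh hq2 hev hs2 hzc hf
  have hQP : Subgroup.zpowers (yR R) ≤ D := Subgroup.zpowers_le.mpr (yR_mem R)
  have hf' := isPBlock_blockMap (conjEquivOf g (conj_zpowers hg)) hf.1
  obtain ⟨w, hw1, hw2⟩ := Cfsg.Agent.Lib.BlockH.Defects.exists_conj_defect_eq hM hmax hQP hf' hle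
  have hwD : w * yR R * w⁻¹ ∈ (Subgroup.zpowers (yR R)).map (MulAut.conj w).toMonoidHom :=
    ⟨yR R, Subgroup.mem_zpowers _, rfl⟩
  have hwD' : w * yR R * w⁻¹ ∈ D := le_of_subpairLE hw1 hwD
  have hy1 : yR R ≠ 1 := by
    intro h3
    have := orderOf_yR R hs2
    rw [h3, orderOf_one] at this
    omega
  have h4 : w * yR R * w⁻¹ ≠ 1 := by rwa [Ne, conj_eq_one_iff]
  have hd : blockDefect 2 f ≤ 2 := by
    rcases classifyX R h2 hq hh hq2 hs2 hwD' h4 with h5 | ⟨k, -, h6⟩
    · exfalso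
      have hzo : orderOf (rr R (zt q h)) = 2 := by
        refine orderOf_eq_prime ?_ ?_
        · rw [pow_two, ← rr_add, zt_add_zt hq, rr_zero]
        · intro h7
          rw [← rr_zero R] at h7
          exact zt_ne hq hh (rr_injective R h7)
      have h7 := eq_of_mem_zpowers (Subgroup.mem_zpowers (w * yR R * w⁻¹)) h5
        (by rw [orderOf_conj'', orderOf_yR R hs2]) hzo
      apply yR_ne R hq
      have h8 : yR R = w⁻¹ * (w * yR R * w⁻¹) * w := by group
      rw [h8, h7, mul_assoc, hzc w]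
      group
    · have hc : Nat.card ↥(D ⊓ Subgroup.centralizer (((Subgroup.zpowers (yR R)).map (MulAut.conj w).toMonoidHom : Subgroup X) : Set X)) ≤ 4 :=
        card_centralizer_le R hM hmax h2 hq hh hq2 hev hs2 hzc (k := k) (by rw [← h6]; exact hwD)
      have h7 := Cfsg.Agent.Lib.Blocks.Inducing.card_eq_pow_blockDefect hM
        (by rw [conjBlock_eq]; exact isPBlock_blockMap _ hf') hw2
      rw [Cfsg.Agent.Lib.BlockH.FusionB.card_subgroupOf_of_le' inf_le_right, conjBlock_eq,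
        Cfsg.Agent.Lib.Blocks.ExtCrit.blockDefect_blockMap, Cfsg.Agent.Lib.Blocks.ExtCrit.blockDefect_blockMap] at h7
      rw [h7] at hc
      by_contra h8
      have h9 : 2 ^ 3 ≤ 2 ^ blockDefect 2 f := Nat.pow_le_pow_right (by norm_num) (by omega)
      omega
  have aux : ∀ (H : Subgroup X) (_ : Subgroup.centralizer ({yR R} : Set X) = H) (f : Set (IrrCharacter H)),
      IsPBlock M f → blockDefect 2 f ≤ 2 → blockRank 2 f = 1 := by
    rintro H rfl f hf hd
    exact Cfsg.Agent.Lib.KleinBlock.Rank.blockRank_eq_one hM (orderOf_yR R hs2) hf hd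
  exact aux _ (Cfsg.Agent.Lib.Blocks.Main.centralizer_zpowers_eq _).symm f hf.1 hd

/-- **The blocks at the reflection.** -/
theorem rank_indU_yR : blockRank 2 (indU M (Cn (yR R)) B) ≤ 1 := by
  classical
  haveI := isPrime_of_pModular hM
  haveI := Cfsg.Agent.Lib.Char.Ortho.finite_irrCharacter (G := X)
  letI : Fintype (IrrCharacter X) := Fintype.ofFinite _
  have hB := hmax.1.2.1
  rw [indU_eq_bN hM hB]
  have aux : ∀ (H : Subgroup X) (_ : H = Subgroup.centralizer ((Subgroup.zpowers (yR R) : Subgroup X) : Set X)),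
      blockRank 2 (bN M H B) ≤ 1 := by
    rintro _ rfl
    by_cases hne : (bN M (Subgroup.centralizer ((Subgroup.zpowers (yR R) : Subgroup X) : Set X)) B).Nonempty
    · obtain ⟨ψ, β, hψ, hβ⟩ := hne
      have h5 : bN M (Subgroup.centralizer ((Subgroup.zpowers (yR R) : Subgroup X) : Set X)) B = β := by
        ext ψ'
        constructor
        · rintro ⟨β', hψ', hβ'⟩
          have h6 := rel_unique hM hmax.1.1 (yR_mem R) hβ.1 hβ'.1 (rel_yR R hM hmax h2 hq hh hq2 hev hs2 hzc hβ)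
            (rel_yR R hM hmax h2 hq hh hq2 hev hs2 hzc hβ')
          rwa [h6]
        · intro h6
          exact ⟨β, h6, hβ⟩
      rw [h5, rank_yR R hM hmax h2 hq hh hq2 hev hs2 hzc hβ]
    · rw [Set.not_nonempty_iff_eq_empty.mp hne, blockRank_empty]
      omega
  exact aux _ (Cfsg.Agent.Lib.Blocks.Main.centralizer_zpowers_eq _).symm

open Classical in
/-- **The sum over the exceptional elements.** -/
theorem exc_sum :
    ∑ x : X, (if x ≠ 1 ∧ (∃ k : ℕ, orderOf x = 2 ^ k) ∧ rr R (zt q h) ∉ Subgroup.zpowers x then phi M 2 B x else 0) =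
      (Nat.card X : ℂ) * (blockRank 2 (indU M (Cn (yR R)) B) : ℂ) := by
  haveI := isPrime_of_pModular hM
  haveI := Cfsg.Agent.Lib.Char.Ortho.finite_irrCharacter (G := X)
  letI : Fintype (IrrCharacter X) := Fintype.ofFinite _
  have hB := hmax.1.2.1
  set y := yR R with hy
  set z := rr R (zt q h) with hz
  have hyo : orderOf y = 2 := orderOf_yR R hs2
  have hy1 : y ≠ 1 := by
    intro h3
    rw [h3, orderOf_one] at hyo
    omega
  have hzo : orderOf z = 2 := by
    refine orderOf_eq_prime ?_ ?_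
    · rw [pow_two, hz, ← rr_add, zt_add_zt hq, rr_zero]
    · intro h7
      rw [hz, ← rr_zero R] at h7
      exact zt_ne hq hh (rr_injective R h7)
  have hyz : y ≠ z := yR_ne R hq
  have hcl : IsClosedB M B := isClosedB_of_isPBlock hB
  have hsat := sum_sat (Cn y) (fun a => a = y) (phi M 2 B) (phi_conj hM hcl)
    (fun c hc a ha => by
      subst ha
      exact mem_Cn_iff.mp hc)
    (fun t a ha hta => by
      subst ha
      exact mem_Cn_iff.mpr hta)
  have hterm : ∀ x : X, (if x ≠ 1 ∧ (∃ k : ℕ, orderOf x = 2 ^ k) ∧ z ∉ Subgroup.zpowers x then phi M 2 B x else 0) =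
      if ∃ t, t * x * t⁻¹ = y then phi M 2 B x else 0 := by
    intro x
    by_cases hex : ∃ t, t * x * t⁻¹ = y
    · rw [if_pos hex]
      obtain ⟨t, ht⟩ := hex
      have h3 : orderOf x = 2 := by
        rw [← orderOf_conj'' t x, ht, hyo]
      refine if_pos ⟨?_, ⟨1, by rw [h3, pow_one]⟩, ?_⟩
      · rintro rfl
        rw [orderOf_one] at h3
        omega
      · rintro ⟨i, hi⟩
        have hi' : x ^ i = z := hi
        have h4 : z ∈ Subgroup.zpowers y := by
          refine ⟨i, ?_⟩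
          change y ^ i = z
          rw [← ht, conj_zpow, hi', mul_assoc, hzc t⁻¹]
          group
        exact hyz (eq_of_mem_zpowers (Subgroup.mem_zpowers y) h4 hyo hzo)
    · rw [if_neg hex]
      split_ifs with h3
      · obtain ⟨h4, h5, h6⟩ := h3
        rw [phi, if_pos ⟨h4, h5⟩, indU_eq_bN hM hB]
        have h7 : bN M (Cn x) B = ∅ := by
          rw [Set.eq_empty_iff_forall_notMem]
          rintro ψ ⟨β, -, hβ⟩
          exact hex (exc_conj R hM hmax h2 hq hh hq2 hev hs2 hzc h4 h5 h6 hβ)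
        rw [h7, blockRank_empty]
        simp
      · rfl
  have hCy : (Nat.card (Cn y) : ℂ) ≠ 0 := Nat.cast_ne_zero.mpr Nat.card_pos.ne'
  rw [Finset.sum_congr rfl fun x _ => hterm x]
  apply mul_left_cancel₀ hCy
  rw [hsat]
  have h3 : ∑ a : X, (if a = y then phi M 2 B a else 0) = phi M 2 B y := by
    rw [Finset.sum_eq_single y]
    · rw [if_pos rfl]
    · intro b _ hb
      rw [if_neg hb]
    · intro h4
      exact absurd (Finset.mem_univ _) h4
  rw [h3, phi, if_pos ⟨hy1, ⟨1, by rw [hyo, pow_one]⟩⟩]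
  ring

end Exc

section Gen

variable {G : Type u} [Group G] [Fintype G] {M : Ideal AlgInt} {p : ℕ} [Fact p.Prime]

open Classical in
/-- The term of the section count, as a natural number. -/
noncomputable def pn (M : Ideal AlgInt) (p : ℕ) (A : Set (IrrCharacter G)) (x : G) : ℕ :=
  if x ≠ 1 ∧ ∃ k : ℕ, orderOf x = p ^ k then Nat.card (Cn x) * blockRank p (indU M (Cn x) A) else 0

theorem pn_cast (A : Set (IrrCharacter G)) (x : G) : (pn M p A x : ℂ) = phi M p A x := by
  classical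
  unfold pn phi
  split_ifs
  · push_cast
    rfl
  · simp

theorem blockRank_mono {H : Type u} [Group H] [Finite H] {A A' : Set (IrrCharacter H)} (h : A ⊆ A') :
    blockRank p A ≤ blockRank p A' := by
  unfold blockRank
  exact Submodule.finrank_mono (Submodule.span_mono (Set.image_mono h))

theorem indU_mono {H : Subgroup G} {A A' : Set (IrrCharacter G)} (h : A ⊆ A') : indU M H A ⊆ indU M H A' := by
  rintro ξ ⟨B, hB, hind⟩
  exact ⟨B, hB.trans h, hind⟩

end Gen

section G1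

variable {G : Type u} [Group G] [Fintype G] {M : Ideal AlgInt} [Fact (Nat.Prime 2)] {B : Set (IrrCharacter G)}

open Classical in
/-- **The sum over the elements above an involution is bounded by the section count.** -/
theorem sum_YY_le (hM : IsPModular 2 M) (hB : IsPBlock M B) {z : G} (hz : orderOf z = 2) :
    ((∑ y : G, if YY z y then pn M 2 B y else 0 : ℕ) : ℤ) ≤
      (Nat.card (Cn z) : ℤ) * ((Nat.card B : ℤ) - blockRank 2 B) := by
  haveI := isPrime_of_pModular hM
  haveI := Cfsg.Agent.Lib.Char.Ortho.finite_irrCharacter (G := G)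
  letI : Fintype (IrrCharacter G) := Fintype.ofFinite _
  have hA : IsClosedB M B := isClosedB_of_isPBlock hB
  have hsat := sum_sat (Cn z) (YY z) (phi M 2 B) (phi_conj hM hA)
    (fun c hc y hy => YY_conj (mem_Cn_iff.mp hc) hy)
    (fun t y hy hty => by
      have h1 : t * z * t⁻¹ ∈ Subgroup.zpowers (t * y * t⁻¹) := by
        obtain ⟨k, hk⟩ := hy.2
        refine ⟨k, ?_⟩
        simp only
        rw [conj_zpow, ← hk]
      exact mem_Cn_iff.mpr (eq_of_mem_zpowers h1 hty.2 (by rw [orderOf_conj'', hz]) hz))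
  have hG1 := section_count hM hA
  have hφ : ∀ x, (if x ≠ 1 ∧ ∃ k : ℕ, orderOf x = 2 ^ k then
      (Nat.card (Cn x) : ℂ) * (blockRank 2 (indU M (Cn x) B) : ℂ) else 0) = phi M 2 B x := fun x => rfl
  simp_rw [hφ] at hG1
  set NY : ℕ := ∑ y : G, if YY z y then pn M 2 B y else 0 with hNY
  set Nc : ℕ := ∑ x : G, if ∃ t, YY z (t * x * t⁻¹) then pn M 2 B x else 0 with hNc
  set Na : ℕ := ∑ x : G, pn M 2 B x with hNa
  have e1 : (Nat.card (Cn z) : ℂ) * (Nc : ℂ) = (Nat.card G : ℂ) * (NY : ℂ) := by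
    rw [hNc, hNY]
    push_cast
    convert hsat using 2
    · refine Finset.sum_congr rfl fun x _ => ?_
      split_ifs
      · exact pn_cast _ _
      · rfl
    · refine Finset.sum_congr rfl fun x _ => ?_
      split_ifs
      · exact pn_cast _ _
      · rfl
  have e2 : (Nat.card (Cn z) * Nc : ℕ) = Nat.card G * NY := by exact_mod_cast e1
  have e3 : Nc ≤ Na := by
    refine Finset.sum_le_sum fun x _ => ?_
    split_ifs
    · exact le_rfl
    · exact Nat.zero_le _
  have e4 : (Nat.card G : ℂ) * (Nat.card B : ℂ) = (Nat.card G : ℂ) * (blockRank 2 B : ℂ) + (Na : ℂ) := by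
    rw [hG1, hNa]
    push_cast
    congr 1
    exact Finset.sum_congr rfl fun x _ => (pn_cast _ _).symm
  have e5 : (Nat.card G * Nat.card B : ℕ) = Nat.card G * blockRank 2 B + Na := by exact_mod_cast e4
  have hG0 : (0 : ℤ) < Nat.card G := by exact_mod_cast Nat.card_pos
  have hC0 : (0 : ℤ) ≤ Nat.card (Cn z) := by positivity
  have e6 : (Nat.card G : ℤ) * (NY : ℤ) ≤ (Nat.card G : ℤ) *
      ((Nat.card (Cn z) : ℤ) * ((Nat.card B : ℤ) - blockRank 2 B)) := by
    have e7 : (Nat.card G : ℤ) * (NY : ℤ) = (Nat.card (Cn z) : ℤ) * (Nc : ℤ) := by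
      exact_mod_cast e2.symm
    have e8 : (Na : ℤ) = (Nat.card G : ℤ) * ((Nat.card B : ℤ) - blockRank 2 B) := by
      have : ((Nat.card G * Nat.card B : ℕ) : ℤ) = ((Nat.card G * blockRank 2 B + Na : ℕ) : ℤ) := by rw [e5]
      push_cast at this
      linarith
    rw [e7]
    calc (Nat.card (Cn z) : ℤ) * (Nc : ℤ) ≤ (Nat.card (Cn z) : ℤ) * (Na : ℤ) :=
          mul_le_mul_of_nonneg_left (by exact_mod_cast e3) hC0
      _ = _ := by
          rw [e8]
          ring
  exact le_of_mul_le_mul_left e6 hG0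

end G1

section Bound

variable {G : Type u} [Group G] [Fintype G] {M : Ideal AlgInt} [Fact (Nat.Prime 2)] {B : Set (IrrCharacter G)}
  {D : Subgroup G} {q h m h' : ℕ} [NeZero q]

open Classical in
/-- The term of the section count in the centralizer is at most the term in the group. -/
theorem term_le (hM : IsPModular 2 M) (hB : IsPBlock M B) {z : G} (hz : orderOf z = 2) {b : Set (IrrCharacter (Cn z))}
    (hb : IsInducedBlock M (Cn z) b B) (x : Cn z) {z' : Cn z} (hz' : (z' : G) = z) (hx : z' ∈ Subgroup.zpowers x) :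
    pn M 2 b x ≤ if YY z (x : G) then pn M 2 B (x : G) else 0 := by
  haveI := isPrime_of_pModular hM
  haveI := Cfsg.Agent.Lib.Char.Ortho.finite_irrCharacter (G := G)
  letI : Fintype (IrrCharacter G) := Fintype.ofFinite _
  by_cases hx0 : x ≠ 1 ∧ ∃ k : ℕ, orderOf x = 2 ^ k
  · obtain ⟨hx1, hx2⟩ := hx0
    have hx2' : ∃ k : ℕ, orderOf (x : G) = 2 ^ k := by
      simpa only [Subgroup.orderOf_coe] using hx2
    have hY : YY z (x : G) := by
      refine ⟨hx2', ?_⟩
      obtain ⟨i, hi⟩ := hx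
      refine ⟨i, ?_⟩
      have h1 := congrArg Subtype.val hi
      simp only [Subgroup.coe_zpow] at h1
      rw [hz'] at h1
      exact h1
    have hx1' : (x : G) ≠ 1 := by
      rwa [Ne, OneMemClass.coe_eq_one]
    have hle := le_of_YY hY
    rw [if_pos hY, pn, pn, if_pos ⟨hx1, hx2⟩, if_pos ⟨hx1', hx2'⟩]
    have hc : Nat.card (Cn x) = Nat.card (Cn (x : G)) := by
      rw [Nat.card_congr (secEquiv (Cn z) x).toEquiv, inf_eq_right.mpr hle]
    rw [hc]
    refine Nat.mul_le_mul_left _ ?_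
    have h1 : blockRank 2 (indU M (Cn x) b) ≤ blockRank 2 (indU M (Cn x) (bN M (Cn z) B)) :=
      blockRank_mono (indU_mono fun ψ hψ => ⟨b, hψ, hb⟩)
    have h3 := blockMap_indU (b := B) hM (isBrauerPair_zpowers (⟨1, by rw [hz, pow_one]⟩ : ∃ k : ℕ, orderOf z = 2 ^ k)) hx2
    have h4 : blockRank 2 (bN M (Cn z ⊓ Cn (x : G)) B) = blockRank 2 (indU M (Cn x) (bN M (Cn z) B)) := by
      rw [← h3, blockRank_blockMap]
    rw [inf_eq_right.mpr hle] at h4
    rw [indU_eq_bN hM hB, h4]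
    exact h1
  · rw [pn, if_neg hx0]
    exact Nat.zero_le _

variable (R : Rot D q h (zt q h - 1))

/-- **The lower bound for the number of characters.** -/
theorem low_bound (hM : IsPModular 2 M) (hB : IsPBlock M B) (h2 : 2 ∣ q) (hq : q = 4 * h) (hh : 1 ≤ h) (hq2 : q = 2 ^ m)
    (hev : h = 2 * h') (hs2 : R.s * R.s = 1) {z : G} (hz : z = rr R (zt q h)) (hDz : D ≤ Cn z)
    {b : Set (IrrCharacter (Cn z))} (hb : IsInducedBlock M (Cn z) b B)
    {e₂ : Set (IrrCharacter (Subgroup.centralizer ((D.subgroupOf (Cn z) : Subgroup (Cn z)) : Set (Cn z))))}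
    (hmax₂ : IsMaximalBrauerPair 2 M b (D.subgroupOf (Cn z)) e₂) :
    (Nat.card b : ℤ) - blockRank 2 b ≤ (Nat.card B : ℤ) - blockRank 2 B + 1 := by
  classical
  haveI := isPrime_of_pModular hM
  letI : Fintype (Cn z) := Fintype.ofFinite _
  have hzo : orderOf z = 2 := by
    refine orderOf_eq_prime ?_ ?_
    · rw [pow_two, hz, ← rr_add, zt_add_zt hq, rr_zero]
    · intro h7
      rw [hz, ← rr_zero R] at h7
      exact zt_ne hq hh (rr_injective R h7)
  let R' : Rot ↥(D.subgroupOf (Cn z)) q h (zt q h - 1) :=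
    Cfsg.Agent.Lib.Tw.Exist.Rot.map R (Subgroup.subgroupOfEquivOfLe hDz).symm
  have hs2' : R'.s * R'.s = 1 := by
    change (Subgroup.subgroupOfEquivOfLe hDz).symm R.s * (Subgroup.subgroupOfEquivOfLe hDz).symm R.s = 1
    rw [← map_mul, hs2, map_one]
  have hzv : ((rr R' (zt q h) : Cn z) : G) = z := hz.symm
  have hcent : ∀ t : Cn z, rr R' (zt q h) * t = t * rr R' (zt q h) := by
    intro t
    apply Subtype.ext
    have h1 := Subgroup.mem_centralizer_iff.mp t.2 z rfl
    rw [Subgroup.coe_mul, Subgroup.coe_mul, hzv]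
    exact h1
  have hE := exc_sum R' hM hmax₂ h2 hq hh hq2 hev hs2' hcent
  have hL := rank_indU_yR R' hM hmax₂ h2 hq hh hq2 hev hs2' hcent
  have hcl : IsClosedB M b := isClosedB_of_isPBlock hb.1
  have hC1 : (Nat.card (Cn z) : ℂ) * (Nat.card b : ℂ) = (Nat.card (Cn z) : ℂ) * (blockRank 2 b : ℂ) +
      ∑ x : Cn z, phi M 2 b x := by
    rw [section_count hM hcl]
    congr 1
  set z' : Cn z := rr R' (zt q h) with hz'
  -- the splitting
  have hsplit : ∑ x : Cn z, phi M 2 b x = (∑ x : Cn z, if z' ∈ Subgroup.zpowers x then phi M 2 b x else 0) +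
      ∑ x : Cn z, (if x ≠ 1 ∧ (∃ k : ℕ, orderOf x = 2 ^ k) ∧ z' ∉ Subgroup.zpowers x then phi M 2 b x else 0) := by
    rw [← Finset.sum_add_distrib]
    refine Finset.sum_congr rfl fun x _ => ?_
    by_cases h3 : z' ∈ Subgroup.zpowers x
    · rw [if_pos h3, if_neg (fun h4 => h4.2.2 h3), add_zero]
    · rw [if_neg h3, zero_add]
      by_cases h4 : x ≠ 1 ∧ ∃ k : ℕ, orderOf x = 2 ^ k
      · rw [if_pos ⟨h4.1, h4.2, h3⟩]
      · rw [if_neg (fun h5 => h4 ⟨h5.1, h5.2.1⟩), phi, if_neg h4]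
  have hE' : ∑ x : Cn z, (if x ≠ 1 ∧ (∃ k : ℕ, orderOf x = 2 ^ k) ∧ z' ∉ Subgroup.zpowers x then phi M 2 b x else 0) =
      (Nat.card (Cn z) : ℂ) * (blockRank 2 (indU M (Cn (yR R')) b) : ℂ) := by
    rw [← hE]
    refine Finset.sum_congr rfl fun x _ => ?_
    congr!
  rw [hE'] at hsplit
  set N1 : ℕ := ∑ x : Cn z, if z' ∈ Subgroup.zpowers x then pn M 2 b x else 0 with hN1
  set NY : ℕ := ∑ y : G, if YY z y then pn M 2 B y else 0 with hNY
  have hN1c : (∑ x : Cn z, if z' ∈ Subgroup.zpowers x then phi M 2 b x else 0) = (N1 : ℂ) := by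
    rw [hN1]
    push_cast
    refine Finset.sum_congr rfl fun x _ => ?_
    split_ifs
    · exact (pn_cast _ _).symm
    · rfl
  rw [hN1c] at hsplit
  have hN1Y : N1 ≤ NY := by
    calc N1 ≤ ∑ x : Cn z, (if YY z (x : G) then pn M 2 B (x : G) else 0) := by
          refine Finset.sum_le_sum fun x _ => ?_
          split_ifs with h3
          · have := term_le hM hB hzo hb x hzv h3
            rwa [if_pos ‹_›] at this
          · have := term_le hM hB hzo hb x hzv h3
            rwa [if_neg ‹_›] at this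
          · exact Nat.zero_le _
          · exact le_rfl
      _ = ∑ y ∈ Finset.univ.filter (· ∈ Cn z), (if YY z y then pn M 2 B y else 0) := by
          rw [Finset.sum_subtype (p := (· ∈ Cn z)) _ (fun y => by simp)]
      _ ≤ NY := Finset.sum_le_sum_of_subset (Finset.filter_subset _ _)
  have hY := sum_YY_le hM hB hzo
  rw [← hNY] at hY
  rw [hsplit] at hC1
  have hmain : (Nat.card (Cn z) : ℤ) * (Nat.card b : ℤ) = (Nat.card (Cn z) : ℤ) * (blockRank 2 b : ℤ) +
      ((N1 : ℤ) + (Nat.card (Cn z) : ℤ) * (blockRank 2 (indU M (Cn (yR R')) b) : ℤ)) := by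
    exact_mod_cast hC1
  have hC0 : (0 : ℤ) < Nat.card (Cn z) := by exact_mod_cast Nat.card_pos
  have hL' : (blockRank 2 (indU M (Cn (yR R')) b) : ℤ) ≤ 1 := by exact_mod_cast hL
  have hN1Y' : (N1 : ℤ) ≤ NY := by exact_mod_cast hN1Y
  have key : (Nat.card (Cn z) : ℤ) * ((Nat.card b : ℤ) - blockRank 2 b) ≤
      (Nat.card (Cn z) : ℤ) * ((Nat.card B : ℤ) - blockRank 2 B + 1) := by
    have h5 : (Nat.card (Cn z) : ℤ) * (blockRank 2 (indU M (Cn (yR R')) b) : ℤ) ≤ (Nat.card (Cn z) : ℤ) * 1 :=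
      mul_le_mul_of_nonneg_left hL' hC0.le
    rw [mul_sub, mul_add, hmain]
    linarith
  exact le_of_mul_le_mul_left key hC0

end Bound

end Cfsg.Agent.Lib.Tw.Low
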