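import Mathlib
import Cfsg.Agent.Lib.Tw.DE
import Cfsg.Agent.Lib.Tw.Low
import Cfsg.Agent.Lib.Tw.Cent

/-!
# A central involution of a semidihedral defect group
-/

set_option linter.unusedSectionVars false
set_option linter.style.haveILetI false
set_option autoImplicit false

namespace Cfsg.Agent.Lib.Tw.Two

open Cfsg MonoidAlgebra
open Cfsg.Agent.Lib.Blocks.Local Cfsg.Agent.Lib.Blocks.Central Cfsg.Agent.Lib.Blocks.Main
open Cfsg.Agent.Lib.BlockH.Regular Cfsg.Agent.Lib.BlockP.Defect Cfsg.Agent.Lib.BlockH.Transport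
open Cfsg.Agent.Lib.Blocks.Quot Cfsg.Agent.Lib.Char.Complete
open Cfsg.Agent.Lib.Tw.Row Cfsg.Agent.Lib.Tw.Fou Cfsg.Agent.Lib.Tw.Grp
open Cfsg.Agent.Lib.Tw.SD Cfsg.Agent.Lib.Tw.Low Cfsg.Agent.Lib.Tw.Cent Cfsg.Agent.Lib.Tw.DE

universe u

variable {G : Type u} [Group G] [Fintype G] [Fintype (IrrCharacter G)] {M : Ideal AlgInt} [Fact (Nat.Prime 2)]
  {B : Set (IrrCharacter G)} {D : Subgroup G} {q h m h' : ℕ} [NeZero q]

/-- **A central involution of a semidihedral defect group forces the rank to be at most two.** -/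
theorem central_two (R : Rot D q h (zt q h - 1)) (hM : IsPModular 2 M) (hB : IsPBlock M B) (hD : IsDefectGroup 2 M B D)
    [Fintype B] (hq : q = 4 * h) (hh : 1 ≤ h) (hq2 : q = 2 ^ m) (hev : h = 2 * h') (hs2 : R.s * R.s = 1)
    (hcard : Nat.card D = 2 * q) {z : G} (hz : z = rr R (zt q h)) (hzc : ∀ t : G, z * t = t * z) :
    blockRank 2 B ≤ 2 := by
  classical
  haveI := isPrime_of_pModular hM
  have hzo : orderOf z = 2 := by
    refine orderOf_eq_prime ?_ ?_
    · rw [pow_two, hz, ← rr_add, zt_add_zt hq, rr_zero]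
    · intro h7
      rw [hz, ← rr_zero R] at h7
      exact zt_ne hq hh (rr_injective R h7)
  have hz2 : z * z = 1 := by
    rw [← pow_two, ← hzo]
    exact pow_orderOf_eq_one z
  obtain ⟨X, _, _, _, π, hπ, hker, A, hA, hAiff, hAD⟩ := exists_quot_central hM hB hD hzo hzc
  letI : Fintype A := Fintype.ofFinite _
  have hkerP : IsPGroup 2 π.ker := by
    rw [hker]
    exact IsPGroup.of_card (n := 1) (by rw [Nat.card_zpowers, hzo, pow_one])
  have hcen : ∀ u ∈ π.ker, ∀ c : G, Commute u c := by
    intro u hu c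
    rw [hker] at hu
    obtain ⟨i, rfl⟩ := hu
    have h1 : Commute z c := hzc c
    exact h1.zpow_left i
  have hle := Cfsg.Agent.Lib.KS84.Dom.blockRank_le_dominated π hπ hkerP hcen hM hB hAiff
  obtain ⟨φ⟩ := dih_map R π hker hz hq hh hq2 (cc_cc hq) (fun j hj => cc_fix hq hh hq2 hev hj) (Or.inr (by ring)) hcard
  have hh1 : 1 ≤ h' := by omega
  haveI : NeZero (2 * h) := ⟨by omega⟩
  have hq' : 2 * h = 4 * h' := by omega
  obtain ⟨t, ht⟩ : ∃ t, m = t + 1 := by
    refine ⟨m - 1, ?_⟩
    have : m ≠ 0 := by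
      rintro rfl
      simp at hq2
      omega
    omega
  have hq2' : 2 * h = 2 ^ t := by
    rw [ht, pow_succ] at hq2
    omega
  have hmemZ : ∀ u : G, u ∈ Subgroup.zpowers z ↔ u = 1 ∨ u = z := by
    intro u
    constructor
    · rintro ⟨k, rfl⟩
      rcases Int.even_or_odd' k with ⟨t, rfl | rfl⟩
      · left
        simp only
        rw [zpow_mul, zpow_two, hz2, one_zpow]
      · right
        simp only
        rw [zpow_add, zpow_mul, zpow_two, hz2, one_zpow, one_mul, zpow_one]
    · rintro (rfl | rfl)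
      · exact Subgroup.one_mem _
      · exact Subgroup.mem_zpowers _
  have hπker : ∀ u : G, π u = 1 ↔ u = 1 ∨ u = z := by
    intro u
    rw [← MonoidHom.mem_ker, hker, hmemZ]
  set y := yR R with hy
  have hyD : y ∈ D := yR_mem R
  have hyo : orderOf y = 2 := orderOf_yR R hs2
  have hy2 : y * y = 1 := by
    rw [← pow_two, ← hyo]
    exact pow_orderOf_eq_one y
  have hy1 : y ≠ 1 := by
    intro h3
    rw [h3, orderOf_one] at hyo
    omega
  have hyz : y ≠ z := by
    rw [hz]
    exact yR_ne R hq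
  refine hle.trans (rank_le_two (q := 2 * h) (h := h') (m := t) hM hA hAD hq' hh1 hq2' φ (w := π y) ⟨y, hyD, rfl⟩ ?_ ?_ ?_)
  · intro h3
    rcases (hπker y).mp h3 with h4 | h4
    · exact hy1 h4
    · exact hyz h4
  · rw [← map_mul, hy2, map_one]
  · intro tb htb
    obtain ⟨t', rfl⟩ := hπ tb
    have hw : Cfsg.Agent.Lib.Dih.Grp.zz φ h' ∈ D.map π := Cfsg.Agent.Lib.Dih.Grp.rr_mem φ _
    obtain ⟨u, huD, hu⟩ := hw
    have hu' : π u = Cfsg.Agent.Lib.Dih.Grp.zz φ h' := hu
    have hwne : Cfsg.Agent.Lib.Dih.Grp.zz φ h' ≠ 1 := by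
      intro h3
      have h4 : Cfsg.Agent.Lib.Dih.Grp.rr φ ((2 * h' : ℕ) : ZMod (2 * h)) = Cfsg.Agent.Lib.Dih.Grp.rr φ 0 := by
        rw [Cfsg.Agent.Lib.Dih.Grp.rr_zero]
        exact h3
      exact Cfsg.Agent.Lib.Dih.Grp.two_ne hq' hh1 (Cfsg.Agent.Lib.Dih.Grp.rr_injective φ h4)
    have hu1 : u ≠ 1 := by
      rintro rfl
      rw [map_one] at hu'
      exact hwne hu'.symm
    have huz : u ≠ z := by
      rintro rfl
      exact hwne (hu'.symm.trans ((hπker _).mpr (Or.inr rfl)))
    -- the element is an involution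
    have hcz : ∀ t : G, t * z * t⁻¹ = z := fun t => by rw [← hzc t]; group
    rw [← hu', ← map_inv, ← map_mul, ← map_mul] at htb
    have h3 : π ((t' * u * t'⁻¹) * y⁻¹) = 1 := by
      rw [map_mul, htb, map_inv, mul_inv_cancel]
    have hu2 : u * u = 1 := by
      have h4 : (t' * u * t'⁻¹) * (t' * u * t'⁻¹) = 1 := by
        rcases (hπker _).mp h3 with h5 | h5
        · rw [mul_inv_eq_one.mp h5, hy2]
        · have h6 : t' * u * t'⁻¹ = z * y := by
            rw [← h5]
            group
          rw [h6]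
          calc z * y * (z * y) = z * (y * z) * y := by group
            _ = z * (z * y) * y := by rw [← hzc y]
            _ = (z * z) * (y * y) := by group
            _ = 1 := by rw [hz2, hy2, one_mul]
      have h5 : t' * (u * u) * t'⁻¹ = 1 := by
        rw [← h4]
        group
      rwa [conj_eq_one_iff] at h5
    -- the element is not a rotation
    rcases R.cover ⟨u, huD⟩ with ⟨i, hi⟩ | ⟨k, hk⟩
    · have hi' : u = rr R i := congrArg Subtype.val hi
      rw [hi', ← rr_add, ← rr_zero R] at hu2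
      have h4 := rr_injective R hu2
      rcases two_zero hq hh h4 with h5 | h5
      · apply hu1
        rw [hi', h5, rr_zero]
      · apply huz
        rw [hi', h5, hz]
    · -- a reflection does not commute with the image of the generator
      have hk' : u = ss R k := congrArg Subtype.val hk
      have h4 : Commute (π (rr R 1)) (π u) := by
        rw [hu']
        exact Cfsg.Agent.Lib.Dih.Grp.zz_commute φ hq' ⟨rr R 1, (R.ρ 1).2, rfl⟩
      have h5 : π (u * rr R 1 * u⁻¹ * (rr R 1)⁻¹) = 1 := by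
        rw [map_mul, map_mul, map_mul, map_inv, map_inv, h4.symm.eq]
        group
      have h6 : u * rr R 1 * u⁻¹ = rr R (zt q h - 1) := by
        have h7 := R.conj 1
        have h8 : ((R.s * R.ρ k) * R.ρ 1 * (R.s * R.ρ k)⁻¹ : D) = R.ρ ((zt q h - 1) * 1) := by
          have h10 : (R.s * R.ρ k) * R.ρ 1 * (R.s * R.ρ k)⁻¹ = R.s * (R.ρ k * R.ρ 1 * (R.ρ k)⁻¹) * R.s⁻¹ := by group
          rw [← h7, h10, R.comm k 1]
          group
        have h9 := congrArg Subtype.val h8
        rw [mul_one] at h9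
        rw [hk']
        simpa [rr, ss] using h9
      have h10 : rr R (zt q h - 1) * (rr R 1)⁻¹ = rr R (zt q h - 1 - 1) := by
        rw [mul_inv_eq_iff_eq_mul, ← rr_add]
        congr 1
        ring
      rw [h6, h10] at h5
      have hh2 : 2 ≤ h := by omega
      rcases (hπker _).mp h5 with h7 | h7
      · rw [← rr_zero R] at h7
        have h8 := rr_injective R h7
        have h9 : ((2 * h : ℕ) : ZMod q) = ((2 : ℕ) : ZMod q) := by
          have h11 : zt q h = ((2 * h : ℕ) : ZMod q) := rfl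
          rw [← h11]
          push_cast
          linear_combination h8
        rw [ZMod.natCast_eq_natCast_iff', Nat.mod_eq_of_lt (by omega), Nat.mod_eq_of_lt (by omega)] at h9
        omega
      · rw [hz] at h7
        have h8 := rr_injective R h7
        have h9 : ((2 : ℕ) : ZMod q) = 0 := by
          push_cast
          linear_combination -h8
        rw [ZMod.natCast_eq_zero_iff] at h9
        have h11 := Nat.le_of_dvd (by norm_num) h9
        omega

end Cfsg.Agent.Lib.Tw.Two
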