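import Mathlib
import Cfsg.Agent.Lib.Tw.Qq
import Cfsg.Agent.Lib.Tw.Two
import Cfsg.Agent.Lib.Tw.Car

/-!
# Blocks with semidihedral defect groups
-/

set_option linter.unusedSectionVars false
set_option linter.style.haveILetI false
set_option autoImplicit false

namespace Cfsg.Agent.Lib.Tw.SDI

open Cfsg MonoidAlgebra
open Cfsg.Agent.Lib.Blocks.Local Cfsg.Agent.Lib.Blocks.Central Cfsg.Agent.Lib.Blocks.Main
open Cfsg.Agent.Lib.BlockH.Regular Cfsg.Agent.Lib.BlockP.Defect Cfsg.Agent.Lib.BlockH.Transport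
open Cfsg.Agent.Lib.BP.StarDefs Cfsg.Agent.Lib.BP.Nil4 Cfsg.Agent.Lib.BP.Nil1
open Cfsg.Agent.Lib.Blocks.NormRank Cfsg.Agent.Lib.Blocks.Induced
open Cfsg.Agent.Lib.Tw.Row Cfsg.Agent.Lib.Tw.Fou Cfsg.Agent.Lib.Tw.Cnt Cfsg.Agent.Lib.Tw.Grp
open Cfsg.Agent.Lib.Tw.Exist Cfsg.Agent.Lib.Tw.Rows Cfsg.Agent.Lib.Tw.Cent Cfsg.Agent.Lib.Tw.Cmp
open Cfsg.Agent.Lib.Tw.Qq Cfsg.Agent.Lib.Tw.SD Cfsg.Agent.Lib.Tw.Low Cfsg.Agent.Lib.Tw.Two Cfsg.Agent.Lib.Tw.Car

universe u

section At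

variable {G : Type u} [Group G] [Fintype G] {M : Ideal AlgInt} [Fact (Nat.Prime 2)]
  {B : Set (IrrCharacter G)} {D : Subgroup G} {q h m h' : ℕ} [NeZero q]

attribute [local instance] fK fIrr fBl

/-- **The rank of the block of the centralizer is at most two.** -/
theorem two_at (R : Rot D q h (zt q h - 1)) (hM : IsPModular 2 M) {z : G} (hDz : D ≤ Cn z)
    {b : Set (IrrCharacter (Cn z))}
    {e₂ : Set (IrrCharacter (Subgroup.centralizer ((D.subgroupOf (Cn z) : Subgroup (Cn z)) : Set (Cn z))))}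
    (hmax : IsMaximalBrauerPair 2 M b (D.subgroupOf (Cn z)) e₂)
    (hq : q = 4 * h) (hh : 1 ≤ h) (hq2 : q = 2 ^ m) (hev : h = 2 * h') (hs2 : R.s * R.s = 1)
    (hcard : Nat.card D = 2 * q) (hz : z = rr R (zt q h)) : blockRank 2 b ≤ 2 := by
  classical
  letI : Fintype b := Fintype.ofFinite _
  let R' : Rot ↥(D.subgroupOf (Cn z)) q h (zt q h - 1) := Rot.map R (Subgroup.subgroupOfEquivOfLe hDz).symm
  have hs2' : R'.s * R'.s = 1 := by
    change (Subgroup.subgroupOfEquivOfLe hDz).symm R.s * (Subgroup.subgroupOfEquivOfLe hDz).symm R.s = 1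
    rw [← map_mul, hs2, map_one]
  have hcard' : Nat.card (D.subgroupOf (Cn z)) = 2 * q := by
    rw [← hcard]
    exact Nat.card_congr (Subgroup.subgroupOfEquivOfLe hDz).toEquiv
  have hzv : ((rr R' (zt q h) : Cn z) : G) = z := hz.symm
  have hcent : ∀ t : Cn z, rr R' (zt q h) * t = t * rr R' (zt q h) := by
    intro t
    apply Subtype.ext
    have h1 := Subgroup.mem_centralizer_iff.mp t.2 z rfl
    rw [Subgroup.coe_mul, Subgroup.coe_mul, hzv]
    exact h1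
  exact central_two R' hM hmax.1.2.1 (Cfsg.Agent.Lib.BlockH.MaxPair.isDefectGroup_of_isMaximal hM hmax)
    hq hh hq2 hev hs2' hcard' rfl hcent

end At

section Main

variable {G : Type u} [Group G] [Fintype G] [Fintype (IrrCharacter G)] {M : Ideal AlgInt} [Fact (Nat.Prime 2)]
  {B : Set (IrrCharacter G)} {D : Subgroup G}

attribute [local instance] fK fIrr fBl

/-- **The invariants of a block with a semidihedral defect group.** -/
theorem invariants_core {q h n' h' : ℕ} [NeZero q] (R : Rot D q h (zt q h - 1)) (hs2 : R.s * R.s = 1)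
    (hM : IsPModular 2 M) (hB : IsPBlock M B) (hD : IsDefectGroup 2 M B D) [Fintype B]
    (hq : q = 4 * h) (hh : 1 ≤ h) (hq2 : q = 2 ^ n') (hev : h = 2 * h') (hcardD : Nat.card D = 2 * q)
    (hcard : Nat.card D = 2 ^ (n' + 1)) :
    (Nat.card B = 2 ^ (n' + 1 - 2) + 3 ∨ Nat.card B = 2 ^ (n' + 1 - 2) + 4) ∧ 1 ≤ blockRank 2 B ∧ blockRank 2 B ≤ 3 ∧
    (blockRank 2 B = 3 → Nat.card B = 2 ^ (n' + 1 - 2) + 4) ∧ (blockRank 2 B = 1 → Nat.card B = 2 ^ (n' + 1 - 2) + 3) ∧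
    Nat.card {χ : IrrCharacter G // χ ∈ B ∧ blockHeight 2 B (χ : G → ℂ) = 0} = 4 ∧
    Nat.card {χ : IrrCharacter G // χ ∈ B ∧ blockHeight 2 B (χ : G → ℂ) = 1} = 2 ^ (n' + 1 - 2) - 1 ∧
    ∀ χ ∈ B, blockHeight 2 B (χ : G → ℂ) = 0 ∨ blockHeight 2 B (χ : G → ℂ) = 1 ∨
      blockHeight 2 B (χ : G → ℂ) = n' + 1 - 2 := by
  classical
  haveI := isPrime_of_pModular hM
  have h2 : 2 ∣ q := ⟨2 * h, by rw [hq]; ring⟩
  have hcc := cc_cc (q := q) (h := h) hq
  have hfix : ∀ j : ZMod q, (zt q h - 1) * j = j → j = 0 ∨ j = zt q h := fun j hj => cc_fix hq hh hq2 hev hj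
  have hcz := cc_zt (q := q) (h := h) hq
  have hcw := cc_ht (q := q) (h := h) hq hev
  have hc1 : (zt q h - 1) + 1 = 0 ∨ (zt q h - 1) + 1 = zt q h := Or.inr (by ring)
  set z : G := rr R (zt q h) with hz
  have hzo : orderOf z = 2 ^ 1 := by
    rw [pow_one]
    refine orderOf_eq_prime ?_ ?_
    · rw [pow_two, hz, ← rr_add, zt_add_zt hq, rr_zero]
    · intro h7
      rw [hz, ← rr_zero R] at h7
      exact zt_ne hq hh (rr_injective R h7)
  obtain ⟨e, hmax⟩ := exists_pair_of_defect hM hB hD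
  have hzD : z ∈ D := by
    rw [hz]
    exact (R.ρ _).2
  have hDz : D ≤ Cn z := by
    intro d hd
    rw [Subgroup.mem_centralizer_iff]
    intro y hy
    rw [Set.mem_singleton_iff.mp hy, hz]
    have h1 := zt_central R hcz ⟨d, hd⟩
    exact (congrArg Subtype.val h1).symm
  obtain ⟨b, e₂, hb, hdb, hmax₂⟩ := exists_down hM hmax hzD hDz
  obtain ⟨hkb, -⟩ := central_at R hM hDz hmax₂ h2 hq hh hq2 hcc hfix hcz hcw hc1 hcardD hz hzo
  have hlb := two_at R hM hDz hmax₂ hq hh hq2 hev hs2 hcardD hz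
  have hlow := low_bound R hM hB h2 hq hh hq2 hev hs2 hz hDz hb hmax₂
  rw [hkb] at hlow
  obtain ⟨f, Z, S, T3, L, -⟩ := exists_rows R hM hB hD h2 hq hh hq2 hcc hfix hcz hcw hcardD hz hzo hb hdb
  have hl1 : 1 ≤ blockRank 2 B := Cfsg.Agent.Lib.BlockOne.Count.one_le_blockRank (isPBlock_nonempty hB)
  have hC := L.hC
  have hk4 : Nat.card B = 4 + S.card + Z.card := by
    rw [Nat.card_eq_fintype_card]
    exact hC.hk
  have hlow' : 2 * (h : ℤ) + 1 + blockRank 2 B ≤ Nat.card B := by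
    push_cast at hlow
    linarith
  rw [hk4] at hlow'
  push_cast at hlow'
  have hT : T3.card = 0 := by
    by_contra hT
    have hZ0 : Z = ∅ := by
      obtain ⟨x, hx⟩ := Finset.card_pos.mp (Nat.pos_of_ne_zero hT)
      exact Finset.eq_empty_of_forall_notMem fun y hy => L.hTZ x hx y hy
    rw [hZ0, Finset.card_empty] at hlow' hk4
    push_cast at hlow'
    rcases hC.exotic hT with ⟨h5, h6⟩ | ⟨h5, -, h6⟩
    · rw [h5] at hlow'
      have hl : blockRank 2 B = 1 := by omega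
      have hS2 : S.card = 2 := by omega
      refine rank_one_T L hM hB hD hl ?_ (by rw [hZ0, Finset.card_empty]) hS2
      rw [hcardD, hq, h5]
    · rw [h5] at hlow'
      omega
  have hh2 : 2 ≤ h := by omega
  have hS := hC.card_S_of_empty hT hh2
  have hd4 : blockDefect 2 B = n' + 1 := by
    have h1 := Cfsg.Agent.Lib.Blocks.Inducing.card_eq_pow_blockDefect hM hB hD
    rw [hcard] at h1
    exact (Nat.pow_right_injective (le_refl 2) h1).symm
  have hd5 : 4 ≤ blockDefect 2 B := by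
    by_contra h7
    have h8 : blockDefect 2 B = 3 := by
      have := L.hd.1
      omega
    have h9 := L.hd.2
    rw [h8] at h9
    norm_num at h9
    omega
  have hZb := L.hr.2 hd5
  have e1 : 2 ^ (n' + 1 - 2) = 2 * h := by
    have h3 := L.hd.2
    rw [hd4] at h3
    exact h3.symm
  have hS' : S.card + 1 = 2 * h := by omega
  have hk : Nat.card B = 2 * h + 3 + Z.card := by omega
  have hZ1 : Z.card ≤ 1 := by omega
  have hl3 : blockRank 2 B ≤ 3 := by omega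
  rw [e1]
  refine ⟨by omega, hl1, hl3, by omega, ?_, ?_, ?_, ?_⟩
  · intro hl
    have hZ0 := rank_one_Z L hM hB hD hl (by rw [hcardD, hq]; ring) hS hh
    omega
  · rw [card_height (fun x : B => Odd (aA h2 (f x))) (fun x => L.h0 x), L.h4]
  · have h7 : ∀ x : B, blockHeight 2 B ((x : IrrCharacter G) : G → ℂ) = 1 ↔ x ∈ S := by
      intro x
      refine ⟨fun h8 => ?_, L.hSr x⟩
      rw [hC.hS]
      refine ⟨fun h9 => ?_, fun h9 => ?_⟩
      · have h10 := (L.h0 x).mpr h9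
        omega
      · have h10 := L.hZr x ((hC.hZ x).mpr h9)
        omega
    rw [card_height (fun x : B => x ∈ S) h7, Finset.filter_mem_eq_inter, Finset.univ_inter]
    omega
  · intro χ hχ
    let x : B := ⟨χ, hχ⟩
    by_cases h3 : Odd (aA h2 (f x))
    · exact Or.inl ((L.h0 x).mpr h3)
    · by_cases h4 : wW h2 (2 * h) (f x) = 0
      · have h5 := L.hZr x ((hC.hZ x).mpr h4)
        rw [hd4] at h5
        exact Or.inr (Or.inr h5)
      · exact Or.inr (Or.inl (L.hSr x ((hC.hS x).mpr ⟨h3, h4⟩)))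

/-- **The invariants of a block with a semidihedral defect group.** -/
theorem invariants_SD (hM : IsPModular 2 M) (hB : IsPBlock M B) (hD : IsDefectGroup 2 M B D) [Fintype B]
    {n : ℕ} (hcard : Nat.card D = 2 ^ n) (hsd : Cfsg.IsQuasiDihedral D) :
    (Nat.card B = 2 ^ (n - 2) + 3 ∨ Nat.card B = 2 ^ (n - 2) + 4) ∧ 1 ≤ blockRank 2 B ∧ blockRank 2 B ≤ 3 ∧
    (blockRank 2 B = 3 → Nat.card B = 2 ^ (n - 2) + 4) ∧ (blockRank 2 B = 1 → Nat.card B = 2 ^ (n - 2) + 3) ∧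
    Nat.card {χ : IrrCharacter G // χ ∈ B ∧ blockHeight 2 B (χ : G → ℂ) = 0} = 4 ∧
    Nat.card {χ : IrrCharacter G // χ ∈ B ∧ blockHeight 2 B (χ : G → ℂ) = 1} = 2 ^ (n - 2) - 1 ∧
    ∀ χ ∈ B, blockHeight 2 B (χ : G → ℂ) = 0 ∨ blockHeight 2 B (χ : G → ℂ) = 1 ∨
      blockHeight 2 B (χ : G → ℂ) = n - 2 := by
  obtain ⟨n', h', hn', hcd, hev, R, hs2⟩ := exists_rot hsd
  have hnn : n = n' + 1 := by
    have h1 : 2 ^ n = 2 ^ (n' + 1) := by
      rw [← hcard, hcd, pow_succ]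
      ring
    exact Nat.pow_right_injective (le_refl 2) h1
  subst hnn
  haveI : NeZero (2 ^ n') := ⟨by positivity⟩
  refine invariants_core R hs2 hM hB hD ?_ Nat.one_le_two_pow rfl hev hcd hcard
  obtain ⟨t, rfl⟩ : ∃ t, n' = t + 2 := ⟨n' - 2, by omega⟩
  rw [show t + 2 - 2 = t by omega, pow_add]
  ring

end Main

end Cfsg.Agent.Lib.Tw.SDI
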