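import Mathlib
import Cfsg.Agent.Lib.Tw.SDI

/-!
# Fusion in a block of rank three with a semidihedral defect group
-/

set_option linter.unusedSectionVars false
set_option linter.style.haveILetI false
set_option autoImplicit false

namespace Cfsg.Agent.Lib.Tw.Fus

open Cfsg MonoidAlgebra
open Cfsg.Agent.Lib.Blocks.Local Cfsg.Agent.Lib.Blocks.Central Cfsg.Agent.Lib.Blocks.Main Cfsg.Agent.Lib.Blocks.Weak
open Cfsg.Agent.Lib.Blocks.SectionCount Cfsg.Agent.Lib.Blocks.ChainBlocks Cfsg.Agent.Lib.Blocks.ClosedRank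
open Cfsg.Agent.Lib.Blocks.NormRank Cfsg.Agent.Lib.Blocks.Induced
open Cfsg.Agent.Lib.BlockH.Regular Cfsg.Agent.Lib.BlockH.Transport Cfsg.Agent.Lib.BlockH.MaxPair
open Cfsg.Agent.Lib.BlockH.SubpairLE Cfsg.Agent.Lib.BlockH.ConjPair Cfsg.Agent.Lib.BlockP.Defect
open Cfsg.Agent.Lib.BP.StarDefs Cfsg.Agent.Lib.BP.Nil4 Cfsg.Agent.Lib.BP.Nil1 Cfsg.Agent.Lib.BP.Star2
open Cfsg.Agent.Lib.KleinBlock.Fusion
open Cfsg.Agent.Lib.Tw.Row Cfsg.Agent.Lib.Tw.Fou Cfsg.Agent.Lib.Tw.Cnt Cfsg.Agent.Lib.Tw.Grp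
open Cfsg.Agent.Lib.Tw.Exist Cfsg.Agent.Lib.Tw.Rows Cfsg.Agent.Lib.Tw.Cent Cfsg.Agent.Lib.Tw.Cmp
open Cfsg.Agent.Lib.Tw.Qq Cfsg.Agent.Lib.Tw.SD Cfsg.Agent.Lib.Tw.Low Cfsg.Agent.Lib.Tw.Two Cfsg.Agent.Lib.Tw.Car
open Cfsg.Agent.Lib.Tw.SDI

universe u

section G1

variable {G : Type u} [Group G] [Fintype G] {M : Ideal AlgInt} [Fact (Nat.Prime 2)] {B : Set (IrrCharacter G)}

/-- An element of the defect group gives a block of its centralizer below the block. -/
theorem one_le_rank_indU {D : Subgroup G} {e : Set (IrrCharacter (Subgroup.centralizer (D : Set G)))}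
    (hM : IsPModular 2 M) (hmax : IsMaximalBrauerPair 2 M B D e) {x : G} (hx : x ∈ D) :
    1 ≤ blockRank 2 (indU M (Cn x) B) := by
  classical
  haveI := isPrime_of_pModular hM
  haveI := Cfsg.Agent.Lib.Char.Ortho.finite_irrCharacter (G := G)
  letI : Fintype (IrrCharacter G) := Fintype.ofFinite _
  have hB := hmax.1.2.1
  obtain ⟨h1, hu⟩ := bb_spec hM hmax hx
  have main : ∀ C : Subgroup G, cZ x = C → 1 ≤ blockRank 2 (indU M C B) := by
    rintro C rfl
    have hind := induced_of_under hM hmax hu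
    rw [indU_eq_bN hM hB]
    refine le_trans (Cfsg.Agent.Lib.BlockOne.Count.one_le_blockRank (isPBlock_nonempty h1)) (blockRank_mono ?_)
    intro ψ hψ
    exact ⟨_, hψ, hind⟩
  exact main _ (cZ_eq x)

open Classical in
/-- **The refined bound when an involution is not conjugate to the given one.** -/
theorem sum_YY_le' (hM : IsPModular 2 M) (hB : IsPBlock M B) {z y : G} (hz : orderOf z = 2) (hy : orderOf y = 2)
    (hnc : ∀ t : G, t * y * t⁻¹ ≠ z) :
    ((∑ x : G, if YY z x then pn M 2 B x else 0 : ℕ) : ℤ) +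
        (Nat.card (Cn z) : ℤ) * (blockRank 2 (indU M (Cn y) B) : ℤ) ≤
      (Nat.card (Cn z) : ℤ) * ((Nat.card B : ℤ) - blockRank 2 B) := by
  haveI := isPrime_of_pModular hM
  haveI := Cfsg.Agent.Lib.Char.Ortho.finite_irrCharacter (G := G)
  letI : Fintype (IrrCharacter G) := Fintype.ofFinite _
  have hA : IsClosedB M B := isClosedB_of_isPBlock hB
  have hsat := sum_sat (Cn z) (YY z) (phi M 2 B) (phi_conj hM hA)
    (fun c hc y hy => YY_conj (mem_Cn_iff.mp hc) hy)
    (fun t y hy hty => by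
      have h1 : t * z * t⁻¹ ∈ Subgroup.zpowers (t * y * t⁻¹) := by
        obtain ⟨k, hk⟩ := hy.2
        refine ⟨k, ?_⟩
        simp only
        rw [conj_zpow, ← hk]
      exact mem_Cn_iff.mpr (eq_of_mem_zpowers h1 hty.2 (by rw [orderOf_conj'', hz]) hz))
  have hsat2 := sum_sat (Cn y) (fun a => a = y) (phi M 2 B) (phi_conj hM hA)
    (fun c hc a ha => by
      subst ha
      exact mem_Cn_iff.mp hc)
    (fun t a ha hta => by
      subst ha
      exact mem_Cn_iff.mpr hta)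
  have hy1 : y ≠ 1 := by
    intro h3
    rw [h3, orderOf_one] at hy
    omega
  have hG1 := section_count hM hA
  have hφ : ∀ x, (if x ≠ 1 ∧ ∃ k : ℕ, orderOf x = 2 ^ k then
      (Nat.card (Cn x) : ℂ) * (blockRank 2 (indU M (Cn x) B) : ℂ) else 0) = phi M 2 B x := fun x => rfl
  simp_rw [hφ] at hG1
  set NY : ℕ := ∑ y : G, if YY z y then pn M 2 B y else 0 with hNY
  set Nc : ℕ := ∑ x : G, if ∃ t, YY z (t * x * t⁻¹) then pn M 2 B x else 0 with hNc
  set Nd : ℕ := ∑ x : G, if ∃ t, t * x * t⁻¹ = y then pn M 2 B x else 0 with hNd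
  set Na : ℕ := ∑ x : G, pn M 2 B x with hNa
  set L := blockRank 2 (indU M (Cn y) B) with hL
  have e1 : (Nat.card (Cn z) : ℂ) * (Nc : ℂ) = (Nat.card G : ℂ) * (NY : ℂ) := by
    rw [hNc, hNY]
    push_cast
    convert hsat using 2
    · refine Finset.sum_congr rfl fun x _ => ?_
      split_ifs
      · exact pn_cast _ _
      · rfl
    · refine Finset.sum_congr rfl fun x _ => ?_
      split_ifs
      · exact pn_cast _ _
      · rfl
  have e2 : (Nat.card (Cn z) * Nc : ℕ) = Nat.card G * NY := by exact_mod_cast e1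
  have hCy : (Nat.card (Cn y) : ℂ) ≠ 0 := Nat.cast_ne_zero.mpr Nat.card_pos.ne'
  have e1' : (Nd : ℂ) = (Nat.card G : ℂ) * (L : ℂ) := by
    apply mul_left_cancel₀ hCy
    have h3 : ∑ a : G, (if a = y then phi M 2 B a else 0) = phi M 2 B y := by
      rw [Finset.sum_eq_single y]
      · rw [if_pos rfl]
      · intro b _ hb
        rw [if_neg hb]
      · intro h4
        exact absurd (Finset.mem_univ _) h4
    rw [h3, phi, if_pos ⟨hy1, ⟨1, by rw [hy, pow_one]⟩⟩] at hsat2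
    have h4 : (Nd : ℂ) = ∑ x : G, if ∃ t, t * x * t⁻¹ = y then phi M 2 B x else 0 := by
      rw [hNd]
      push_cast
      refine Finset.sum_congr rfl fun x _ => ?_
      split_ifs
      · exact pn_cast _ _
      · rfl
    rw [h4, hsat2, hL]
    ring
  have e2' : Nd = Nat.card G * L := by exact_mod_cast e1'
  have e3 : Nc + Nd ≤ Na := by
    rw [hNc, hNd, hNa, ← Finset.sum_add_distrib]
    refine Finset.sum_le_sum fun x _ => ?_
    by_cases h3 : ∃ t, YY z (t * x * t⁻¹)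
    · by_cases h4 : ∃ t, t * x * t⁻¹ = y
      · exfalso
        obtain ⟨s, hs⟩ := h3
        obtain ⟨t, ht⟩ := h4
        have h5 : orderOf (s * x * s⁻¹) = 2 := by
          rw [orderOf_conj'', ← orderOf_conj'' t x, ht, hy]
        have h6 : s * x * s⁻¹ = z := by
          obtain ⟨-, i, hi⟩ := hs
          exact (eq_of_mem_zpowers (Subgroup.mem_zpowers (s * x * s⁻¹)) ⟨i, hi⟩ h5 hz)
        apply hnc (s * t⁻¹)
        rw [← h6, ← ht]
        group
      · rw [if_pos h3, if_neg h4, add_zero]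
    · rw [if_neg h3, zero_add]
      split_ifs
      · exact le_rfl
      · exact Nat.zero_le _
  have e4 : (Nat.card G : ℂ) * (Nat.card B : ℂ) = (Nat.card G : ℂ) * (blockRank 2 B : ℂ) + (Na : ℂ) := by
    rw [hG1, hNa]
    push_cast
    congr 1
    exact Finset.sum_congr rfl fun x _ => (pn_cast _ _).symm
  have e5 : (Nat.card G * Nat.card B : ℕ) = Nat.card G * blockRank 2 B + Na := by exact_mod_cast e4
  have hG0 : (0 : ℤ) < Nat.card G := by exact_mod_cast Nat.card_pos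
  have hC0 : (0 : ℤ) ≤ Nat.card (Cn z) := by positivity
  have e6 : (Nat.card G : ℤ) * ((NY : ℤ) + (Nat.card (Cn z) : ℤ) * (L : ℤ)) ≤ (Nat.card G : ℤ) *
      ((Nat.card (Cn z) : ℤ) * ((Nat.card B : ℤ) - blockRank 2 B)) := by
    have e7 : (Nat.card G : ℤ) * (NY : ℤ) = (Nat.card (Cn z) : ℤ) * (Nc : ℤ) := by
      exact_mod_cast e2.symm
    have e8 : (Na : ℤ) = (Nat.card G : ℤ) * ((Nat.card B : ℤ) - blockRank 2 B) := by
      have : ((Nat.card G * Nat.card B : ℕ) : ℤ) = ((Nat.card G * blockRank 2 B + Na : ℕ) : ℤ) := by rw [e5]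
      push_cast at this
      linarith
    have e9 : (Nd : ℤ) = (Nat.card G : ℤ) * (L : ℤ) := by exact_mod_cast e2'
    have e10 : (Nc : ℤ) + (Nd : ℤ) ≤ (Na : ℤ) := by exact_mod_cast e3
    calc (Nat.card G : ℤ) * ((NY : ℤ) + (Nat.card (Cn z) : ℤ) * (L : ℤ))
        = (Nat.card (Cn z) : ℤ) * ((Nc : ℤ) + (Nd : ℤ)) := by
          rw [mul_add, e7, mul_add, e9]
          ring
      _ ≤ (Nat.card (Cn z) : ℤ) * (Na : ℤ) := mul_le_mul_of_nonneg_left e10 hC0
      _ = _ := by
          rw [e8]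
          ring
  exact le_of_mul_le_mul_left e6 hG0

end G1

section Bound

variable {G : Type u} [Group G] [Fintype G] {M : Ideal AlgInt} [Fact (Nat.Prime 2)] {B : Set (IrrCharacter G)}
  {D : Subgroup G} {q h m h' : ℕ} [NeZero q]

variable (R : Rot D q h (zt q h - 1))

/-- **The refined lower bound for the number of characters.** -/
theorem low_bound' (hM : IsPModular 2 M) (hB : IsPBlock M B) (h2 : 2 ∣ q) (hq : q = 4 * h) (hh : 1 ≤ h) (hq2 : q = 2 ^ m)
    (hev : h = 2 * h') (hs2 : R.s * R.s = 1) {z : G} (hz : z = rr R (zt q h)) (hDz : D ≤ Cn z)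
    {b : Set (IrrCharacter (Cn z))} (hb : IsInducedBlock M (Cn z) b B)
    {e₂ : Set (IrrCharacter (Subgroup.centralizer ((D.subgroupOf (Cn z) : Subgroup (Cn z)) : Set (Cn z))))}
    (hmax₂ : IsMaximalBrauerPair 2 M b (D.subgroupOf (Cn z)) e₂)
    (hnc : ∀ t : G, t * yR R * t⁻¹ ≠ z) :
    (Nat.card b : ℤ) - blockRank 2 b + blockRank 2 (indU M (Cn (yR R)) B) ≤ (Nat.card B : ℤ) - blockRank 2 B + 1 := by
  classical
  haveI := isPrime_of_pModular hM
  letI : Fintype (Cn z) := Fintype.ofFinite _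
  have hzo : orderOf z = 2 := by
    refine orderOf_eq_prime ?_ ?_
    · rw [pow_two, hz, ← rr_add, zt_add_zt hq, rr_zero]
    · intro h7
      rw [hz, ← rr_zero R] at h7
      exact zt_ne hq hh (rr_injective R h7)
  let R' : Rot ↥(D.subgroupOf (Cn z)) q h (zt q h - 1) :=
    Cfsg.Agent.Lib.Tw.Exist.Rot.map R (Subgroup.subgroupOfEquivOfLe hDz).symm
  have hs2' : R'.s * R'.s = 1 := by
    change (Subgroup.subgroupOfEquivOfLe hDz).symm R.s * (Subgroup.subgroupOfEquivOfLe hDz).symm R.s = 1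
    rw [← map_mul, hs2, map_one]
  have hzv : ((rr R' (zt q h) : Cn z) : G) = z := hz.symm
  have hcent : ∀ t : Cn z, rr R' (zt q h) * t = t * rr R' (zt q h) := by
    intro t
    apply Subtype.ext
    have h1 := Subgroup.mem_centralizer_iff.mp t.2 z rfl
    rw [Subgroup.coe_mul, Subgroup.coe_mul, hzv]
    exact h1
  have hE := exc_sum R' hM hmax₂ h2 hq hh hq2 hev hs2' hcent
  have hL := rank_indU_yR R' hM hmax₂ h2 hq hh hq2 hev hs2' hcent
  have hcl : IsClosedB M b := isClosedB_of_isPBlock hb.1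
  have hC1 : (Nat.card (Cn z) : ℂ) * (Nat.card b : ℂ) = (Nat.card (Cn z) : ℂ) * (blockRank 2 b : ℂ) +
      ∑ x : Cn z, phi M 2 b x := by
    rw [section_count hM hcl]
    congr 1
  set z' : Cn z := rr R' (zt q h) with hz'
  -- the splitting
  have hsplit : ∑ x : Cn z, phi M 2 b x = (∑ x : Cn z, if z' ∈ Subgroup.zpowers x then phi M 2 b x else 0) +
      ∑ x : Cn z, (if x ≠ 1 ∧ (∃ k : ℕ, orderOf x = 2 ^ k) ∧ z' ∉ Subgroup.zpowers x then phi M 2 b x else 0) := by
    rw [← Finset.sum_add_distrib]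
    refine Finset.sum_congr rfl fun x _ => ?_
    by_cases h3 : z' ∈ Subgroup.zpowers x
    · rw [if_pos h3, if_neg (fun h4 => h4.2.2 h3), add_zero]
    · rw [if_neg h3, zero_add]
      by_cases h4 : x ≠ 1 ∧ ∃ k : ℕ, orderOf x = 2 ^ k
      · rw [if_pos ⟨h4.1, h4.2, h3⟩]
      · rw [if_neg (fun h5 => h4 ⟨h5.1, h5.2.1⟩), phi, if_neg h4]
  have hE' : ∑ x : Cn z, (if x ≠ 1 ∧ (∃ k : ℕ, orderOf x = 2 ^ k) ∧ z' ∉ Subgroup.zpowers x then phi M 2 b x else 0) =
      (Nat.card (Cn z) : ℂ) * (blockRank 2 (indU M (Cn (yR R')) b) : ℂ) := by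
    rw [← hE]
    refine Finset.sum_congr rfl fun x _ => ?_
    congr!
  rw [hE'] at hsplit
  set N1 : ℕ := ∑ x : Cn z, if z' ∈ Subgroup.zpowers x then pn M 2 b x else 0 with hN1
  set NY : ℕ := ∑ y : G, if YY z y then pn M 2 B y else 0 with hNY
  have hN1c : (∑ x : Cn z, if z' ∈ Subgroup.zpowers x then phi M 2 b x else 0) = (N1 : ℂ) := by
    rw [hN1]
    push_cast
    refine Finset.sum_congr rfl fun x _ => ?_
    split_ifs
    · exact (pn_cast _ _).symm
    · rfl
  rw [hN1c] at hsplit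
  have hN1Y : N1 ≤ NY := by
    calc N1 ≤ ∑ x : Cn z, (if YY z (x : G) then pn M 2 B (x : G) else 0) := by
          refine Finset.sum_le_sum fun x _ => ?_
          split_ifs with h3
          · have := term_le hM hB hzo hb x hzv h3
            rwa [if_pos ‹_›] at this
          · have := term_le hM hB hzo hb x hzv h3
            rwa [if_neg ‹_›] at this
          · exact Nat.zero_le _
          · exact le_rfl
      _ = ∑ y ∈ Finset.univ.filter (· ∈ Cn z), (if YY z y then pn M 2 B y else 0) := by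
          rw [Finset.sum_subtype (p := (· ∈ Cn z)) _ (fun y => by simp)]
      _ ≤ NY := Finset.sum_le_sum_of_subset (Finset.filter_subset _ _)
  have hY := sum_YY_le' hM hB hzo (orderOf_yR R hs2) hnc
  rw [← hNY] at hY
  rw [hsplit] at hC1
  have hmain : (Nat.card (Cn z) : ℤ) * (Nat.card b : ℤ) = (Nat.card (Cn z) : ℤ) * (blockRank 2 b : ℤ) +
      ((N1 : ℤ) + (Nat.card (Cn z) : ℤ) * (blockRank 2 (indU M (Cn (yR R')) b) : ℤ)) := by
    exact_mod_cast hC1
  have hC0 : (0 : ℤ) < Nat.card (Cn z) := by exact_mod_cast Nat.card_pos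
  have hL' : (blockRank 2 (indU M (Cn (yR R')) b) : ℤ) ≤ 1 := by exact_mod_cast hL
  have hN1Y' : (N1 : ℤ) ≤ NY := by exact_mod_cast hN1Y
  have key : (Nat.card (Cn z) : ℤ) * ((Nat.card b : ℤ) - blockRank 2 b + blockRank 2 (indU M (Cn (yR R)) B)) ≤
      (Nat.card (Cn z) : ℤ) * ((Nat.card B : ℤ) - blockRank 2 B + 1) := by
    have h5 : (Nat.card (Cn z) : ℤ) * (blockRank 2 (indU M (Cn (yR R')) b) : ℤ) ≤ (Nat.card (Cn z) : ℤ) * 1 :=
      mul_le_mul_of_nonneg_left hL' hC0.le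
    rw [mul_add, mul_sub, mul_add, hmain]
    linarith
  exact le_of_mul_le_mul_left key hC0

end Bound

section Main

variable {G : Type u} [Group G] [Fintype G] [Fintype (IrrCharacter G)] {M : Ideal AlgInt} [Fact (Nat.Prime 2)]
  {B : Set (IrrCharacter G)} {D : Subgroup G}

attribute [local instance] fK fIrr fBl

/-- **In a block of rank three, the basic reflection is conjugate to the central involution.** -/
theorem conj_of_rank_three {q h n' h' : ℕ} [NeZero q] (R : Rot D q h (zt q h - 1)) (hs2 : R.s * R.s = 1)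
    (hM : IsPModular 2 M) (hB : IsPBlock M B) (hD : IsDefectGroup 2 M B D) [Fintype B]
    (hq : q = 4 * h) (hh : 1 ≤ h) (hq2 : q = 2 ^ n') (hev : h = 2 * h') (hcardD : Nat.card D = 2 * q)
    (hcard : Nat.card D = 2 ^ (n' + 1)) (hl : blockRank 2 B = 3) :
    ∃ t : G, t * yR R * t⁻¹ = rr R (zt q h) := by
  classical
  haveI := isPrime_of_pModular hM
  by_contra hnc
  push Not at hnc
  have h2 : 2 ∣ q := ⟨2 * h, by rw [hq]; ring⟩
  have hcc := cc_cc (q := q) (h := h) hq
  have hfix : ∀ j : ZMod q, (zt q h - 1) * j = j → j = 0 ∨ j = zt q h := fun j hj => cc_fix hq hh hq2 hev hj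
  have hcz := cc_zt (q := q) (h := h) hq
  have hcw := cc_ht (q := q) (h := h) hq hev
  have hc1 : (zt q h - 1) + 1 = 0 ∨ (zt q h - 1) + 1 = zt q h := Or.inr (by ring)
  set z : G := rr R (zt q h) with hz
  have hzo : orderOf z = 2 ^ 1 := by
    rw [pow_one]
    refine orderOf_eq_prime ?_ ?_
    · rw [pow_two, hz, ← rr_add, zt_add_zt hq, rr_zero]
    · intro h7
      rw [hz, ← rr_zero R] at h7
      exact zt_ne hq hh (rr_injective R h7)
  obtain ⟨e, hmax⟩ := exists_pair_of_defect hM hB hD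
  have hzD : z ∈ D := by
    rw [hz]
    exact (R.ρ _).2
  have hDz : D ≤ Cn z := by
    intro d hd
    rw [Subgroup.mem_centralizer_iff]
    intro y hy
    rw [Set.mem_singleton_iff.mp hy, hz]
    have h1 := zt_central R hcz ⟨d, hd⟩
    exact (congrArg Subtype.val h1).symm
  obtain ⟨b, e₂, hb, hdb, hmax₂⟩ := exists_down hM hmax hzD hDz
  obtain ⟨hkb, -⟩ := central_at R hM hDz hmax₂ h2 hq hh hq2 hcc hfix hcz hcw hc1 hcardD hz hzo
  have hlow := low_bound' R hM hB h2 hq hh hq2 hev hs2 hz hDz hb hmax₂ hnc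
  have h1 := one_le_rank_indU hM hmax (yR_mem R)
  have hk := (invariants_core R hs2 hM hB hD hq hh hq2 hev hcardD hcard).2.2.2.1 hl
  have e1 : 2 ^ (n' + 1 - 2) = 2 * h := by
    have h3 : 2 * 2 ^ (n' + 1 - 2) * 2 = 4 * h * 1 * 2 := by
      have h4 : 2 * q = 2 ^ (n' + 1) := by rw [← hcardD, hcard]
      have h5 : 2 ≤ n' + 1 := by
        by_contra h6
        have h7 : n' = 0 := by omega
        rw [h7, pow_zero] at hq2
        omega
      have h6 : 2 ^ (n' + 1) = 2 ^ (n' + 1 - 2) * 4 := by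
        rw [show (4 : ℕ) = 2 ^ 2 by norm_num, ← pow_add]
        congr 1
        omega
      omega
    omega
  rw [hkb, hk, e1, hl] at hlow
  push_cast at hlow
  have h1' : (1 : ℤ) ≤ blockRank 2 (indU M (Cn (yR R)) B) := by exact_mod_cast h1
  omega

end Main

end Cfsg.Agent.Lib.Tw.Fus
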