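import Mathlib
import Cfsg.Agent.Lib.Core.PSolvable
import Cfsg.Agent.Lib.Core.PSolvable2
import Cfsg.Agent.Lib.Core.Series
import Cfsg.Agent.Lib.SelfCent.CoreLemmas

/-!
# A `2`-solvable group in which the involutions of a Sylow `2`-subgroup are all conjugate

Such involutions commute with each other.
-/

set_option autoImplicit false
set_option linter.style.haveILetI false

namespace Cfsg.Agent.Lib.Tw.SolG

open Cfsg

universe u

variable {G : Type u} [Group G] [Finite G]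

/-- A nontrivial `2`-group of a finite group has an involution. -/
theorem exists_involution {Q : Subgroup G} (hQ : IsPGroup 2 Q) {a : G} (ha : a ∈ Q) (ha1 : a ≠ 1) :
    ∃ b ∈ Q, b * b = 1 ∧ b ≠ 1 := by
  haveI : Fact (Nat.Prime 2) := ⟨Nat.prime_two⟩
  have hnt : Nontrivial Q := ⟨⟨⟨a, ha⟩, 1, fun h => ha1 (congrArg Subtype.val h)⟩⟩
  have hd : 2 ∣ Nat.card Q := by
    obtain ⟨n, hn⟩ := IsPGroup.iff_card.mp hQ
    have hn0 : n ≠ 0 := by
      rintro rfl
      rw [pow_zero] at hn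
      exact (Finite.one_lt_card (α := Q)).ne' hn
    rw [hn]
    exact dvd_pow_self 2 hn0
  obtain ⟨b, hb⟩ := exists_prime_orderOf_dvd_card' (G := Q) 2 hd
  refine ⟨b, b.2, ?_, ?_⟩
  · have h2 : b ^ 2 = 1 := orderOf_dvd_iff_pow_eq_one.mp (dvd_of_eq hb)
    have h3 : b * b = 1 := by rw [← pow_two, h2]
    exact congrArg Subtype.val h3
  · intro h
    have h1 : b = 1 := Subtype.ext h
    rw [h1, orderOf_one] at hb
    omega

/-- **The main group-theoretic statement.** -/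
theorem commute_of_conj [Fact (Nat.Prime 2)] (hG : IsPSolvable 2 G) (P : Sylow 2 G)
    (hconj : ∀ u ∈ (P : Subgroup G), ∀ v ∈ (P : Subgroup G), u * u = 1 → v * v = 1 → u ≠ 1 → v ≠ 1 → IsConj u v)
    {u v : G} (hu : u ∈ (P : Subgroup G)) (hv : v ∈ (P : Subgroup G)) (huu : u * u = 1) (hvv : v * v = 1) :
    Commute u v := by
  classical
  have hpp : Nat.Prime 2 := Nat.prime_two
  have hPp : IsPGroup 2 (P : Subgroup G) := P.2
  by_cases hu1 : u = 1
  · rw [hu1]
    exact Commute.one_left v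
  by_cases hv1 : v = 1
  · rw [hv1]
    exact Commute.one_right u
  haveI hnt : Nontrivial (P : Subgroup G) :=
    ⟨⟨⟨u, hu⟩, 1, fun h => hu1 (congrArg Subtype.val h)⟩⟩
  set K := pPrimeCore 2 G with hKdef
  set L := pPrimePCore 2 G with hLdef
  haveI hKn : K.Normal := inferInstance
  haveI hLn : L.Normal := inferInstance
  have hKp : ¬ 2 ∣ Nat.card K := by
    have h1 := Cfsg.Agent.Lib.SelfCent.CoreLemmas.pPrimeCore_coprime (G := G) 2
    exact (Nat.Prime.coprime_iff_not_dvd hpp).mp h1.symm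
  have hKL : K ≤ L := Cfsg.Agent.Lib.Core.Series.pPrimeCore_le_pPrimePCore
  have hLp : ∀ l ∈ L, ∃ k : ℕ, l ^ (2 ^ k) ∈ K := fun l hl =>
    Cfsg.Agent.Lib.Core.Series.exists_pow_mem_pPrimeCore hl
  obtain ⟨Q⟩ : Nonempty (Sylow 2 L) := inferInstance
  have hC := Cfsg.Agent.Lib.Core.PSolvable.isPConstrained_of_isPSolvable hG Q
  have hex : ∃ u₀ ∈ (P : Subgroup G), u₀ ∈ L ∧ u₀ ≠ 1 := by
    by_cases hQ : ∀ q ∈ (Q : Subgroup L), q = 1
    · exfalso
      -- then `L = G`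
      have hQb : (Q : Subgroup L).map L.subtype = ⊥ := by
        rw [Subgroup.map_eq_bot_iff, Subgroup.ker_subtype, le_bot_iff]
        exact (Subgroup.eq_bot_iff_forall _).mpr hQ
      rw [hQb] at hC
      have hLtop : L = ⊤ := by
        rw [eq_top_iff]
        intro g _
        apply hC
        simp [Subgroup.mem_centralizer_iff]
      have hd : 2 ∣ Nat.card L := by
        rw [hLtop, Subgroup.card_top]
        obtain ⟨n, hn⟩ := IsPGroup.iff_card.mp hPp
        have hn0 : n ≠ 0 := by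
          rintro rfl
          rw [pow_zero] at hn
          exact (Finite.one_lt_card (α := (P : Subgroup G))).ne' hn
        refine dvd_trans (dvd_pow_self 2 hn0) ?_
        rw [← hn]
        exact Subgroup.card_subgroup_dvd_card _
      have hQc : ¬ 2 ∣ (Q : Subgroup L).index := Q.not_dvd_index
      apply hQc
      have hQb' : (Q : Subgroup L) = ⊥ := (Subgroup.eq_bot_iff_forall _).mpr hQ
      rw [hQb', Subgroup.index_bot]
      exact hd
    · push Not at hQ
      obtain ⟨q, hq, hq1⟩ := hQ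
      have hqG : (q : G) ≠ 1 := fun h => hq1 (Subtype.ext h)
      obtain ⟨k, hk⟩ := (IsPGroup.iff_orderOf.mp Q.2) ⟨q, hq⟩
      rw [Subgroup.orderOf_mk, ← Subgroup.orderOf_coe] at hk
      have hZ : IsPGroup 2 (Subgroup.zpowers (q : G)) := by
        rw [IsPGroup.iff_card]
        exact ⟨k, by rw [Nat.card_zpowers, hk]⟩
      obtain ⟨Q', hQ'⟩ := hZ.exists_le_sylow
      obtain ⟨h, hh⟩ := MulAction.exists_smul_eq G Q' P
      refine ⟨h * q * h⁻¹, ?_, hLn.conj_mem _ q.2 h, ?_⟩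
      · rw [← hh, Sylow.smul_def, Sylow.pointwise_smul_def]
        exact ⟨q, hQ' (Subgroup.mem_zpowers (q : G)), rfl⟩
      · intro h2
        apply hqG
        have h3 := congrArg (fun w => h⁻¹ * w * h) h2
        simpa [mul_assoc] using h3
  obtain ⟨u₀, hu₀P, hu₀L, hu₀1⟩ := hex
  -- an involution in `L`
  obtain ⟨b, hb, hbb, hb1⟩ := exists_involution (Q := (P : Subgroup G) ⊓ L)
    (hPp.to_le inf_le_left) ⟨hu₀P, hu₀L⟩ hu₀1
  -- the involutions lie in `L`
  have hinv : ∀ w ∈ (P : Subgroup G), w * w = 1 → w ∈ L := by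
    intro w hw hww
    by_cases hw1 : w = 1
    · rw [hw1]
      exact L.one_mem
    obtain ⟨c, hc⟩ := isConj_iff.mp (hconj b hb.1 w hw hbb hww hb1 hw1)
    rw [← hc]
    exact hLn.conj_mem _ hb.2 c
  -- `L ≤ K P`
  have hLQ : L ≤ K ⊔ (P : Subgroup G) := by
    have hsurj : Function.Surjective (QuotientGroup.mk' K) := QuotientGroup.mk'_surjective K
    let S : Sylow 2 (G ⧸ K) := Sylow.mapSurjective hsurj P
    haveI hLbn : (L.map (QuotientGroup.mk' K)).Normal := hLn.map _ hsurj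
    have hLb : IsPGroup 2 (L.map (QuotientGroup.mk' K)) := by
      rintro ⟨_, l, hl, rfl⟩
      obtain ⟨k, hk⟩ := hLp l hl
      refine ⟨k, ?_⟩
      apply Subtype.ext
      change (QuotientGroup.mk' K l) ^ 2 ^ k = 1
      rw [← map_pow, QuotientGroup.mk'_apply, QuotientGroup.eq_one_iff]
      exact hk
    have hle := hLb.le_sylow_of_normal S
    intro l hl
    have h1 : QuotientGroup.mk' K l ∈ (P : Subgroup G).map (QuotientGroup.mk' K) :=
      hle ⟨l, hl, rfl⟩
    obtain ⟨p, hp, hpl⟩ := h1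
    have h2 : p⁻¹ * l ∈ K := by
      have h3 := QuotientGroup.eq.mp hpl
      exact h3
    have h5 : l = p * (p⁻¹ * l) := by group
    rw [h5]
    exact Subgroup.mul_mem _ (Subgroup.mem_sup_right hp) (Subgroup.mem_sup_left h2)
  have hKP : ∀ a ∈ K, a ∈ (P : Subgroup G) → a = 1 := by
    intro a haK haQ
    obtain ⟨k, hk⟩ := hPp ⟨a, haQ⟩
    have h1 : a ^ 2 ^ k = 1 := congrArg Subtype.val hk
    have h2 : orderOf a ∣ 2 ^ k := orderOf_dvd_of_pow_eq_one h1
    have h3 : orderOf (⟨a, haK⟩ : K) ∣ Nat.card K := orderOf_dvd_natCard _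
    rw [Subgroup.orderOf_mk] at h3
    have h4 : Nat.Coprime (2 ^ k) (Nat.card K) :=
      Nat.Coprime.pow_left k ((Nat.Prime.coprime_iff_not_dvd hpp).mpr hKp)
    have h5 := Nat.Coprime.eq_one_of_dvd (Nat.Coprime.coprime_dvd_left h2 h4) h3
    exact orderOf_eq_one_iff.mp h5
  -- a central involution
  haveI hcnt := hPp.center_nontrivial
  obtain ⟨⟨z₀, hz₀c⟩, hz₀1⟩ := exists_ne (1 : Subgroup.center (P : Subgroup G))
  have hZp : IsPGroup 2 ((Subgroup.center (P : Subgroup G)).map (P : Subgroup G).subtype) :=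
    IsPGroup.map (hPp.to_subgroup _) _
  obtain ⟨z, hz, hzz, hz1⟩ := exists_involution hZp (a := (z₀ : G)) ⟨z₀, hz₀c, rfl⟩
    (fun h => hz₀1 (Subtype.ext (Subtype.ext h)))
  have hzP : z ∈ (P : Subgroup G) := by
    obtain ⟨y, -, rfl⟩ := hz
    exact y.2
  have hzc : ∀ r ∈ (P : Subgroup G), Commute r z := by
    intro r hr
    obtain ⟨y, hy, rfl⟩ := hz
    have h1 := (Subgroup.mem_center_iff.mp hy) ⟨r, hr⟩
    exact congrArg Subtype.val h1
  obtain ⟨g, hg⟩ := isConj_iff.mp (hconj z hzP u hu hzz huu hz1 hu1)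
  have heL : g⁻¹ * v * g ∈ K ⊔ (P : Subgroup G) := by
    apply hLQ
    have := hLn.conj_mem v (hinv v hv hvv) g⁻¹
    simpa using this
  rw [← SetLike.mem_coe, Subgroup.normal_mul] at heL
  obtain ⟨k, hk, d', hd', he⟩ := heL
  have hk' : g⁻¹ * v * g = k * d' := he.symm
  have h1 : z * (k * d') * z⁻¹ * (k * d')⁻¹ ∈ K := by
    have h2 : z * (k * d') * z⁻¹ * (k * d')⁻¹ = (z * k * z⁻¹) * k⁻¹ := by
      have h3 : d' * z⁻¹ = z⁻¹ * d' := ((hzc d' hd').inv_right).eq
      calc z * (k * d') * z⁻¹ * (k * d')⁻¹ = z * k * (d' * z⁻¹) * d'⁻¹ * k⁻¹ := by group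
        _ = z * k * (z⁻¹ * d') * d'⁻¹ * k⁻¹ := by rw [h3]
        _ = _ := by group
    rw [h2]
    exact K.mul_mem (hKn.conj_mem k hk z) (K.inv_mem hk)
  rw [← hk'] at h1
  have h2 : u * v * u⁻¹ * v⁻¹ ∈ K := by
    have h3 := hKn.conj_mem _ h1 g
    have h4 : g * (z * (g⁻¹ * v * g) * z⁻¹ * (g⁻¹ * v * g)⁻¹) * g⁻¹ = u * v * u⁻¹ * v⁻¹ := by
      rw [← hg]
      group
    rwa [h4] at h3
  have h3 : u * v * u⁻¹ * v⁻¹ ∈ (P : Subgroup G) :=
    Subgroup.mul_mem _ (Subgroup.mul_mem _ (Subgroup.mul_mem _ hu hv) (Subgroup.inv_mem _ hu))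
      (Subgroup.inv_mem _ hv)
  have h4 := hKP _ h2 h3
  have h5 : u * v * u⁻¹ = v := mul_inv_eq_one.mp h4
  exact mul_inv_eq_iff_eq_mul.mp h5

end Cfsg.Agent.Lib.Tw.SolG
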