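import Mathlib
import Cfsg.Agent.Lib.Tw.Fus
import Cfsg.Agent.Lib.Tw.SolG
import Cfsg.Agent.Lib.Tw.DE
import Cfsg.Agent.Lib.Dih.Down
import Cfsg.Agent.Lib.Dade.Base
import Cfsg.Agent.Lib.BlockOne.PSolv

/-!
# Blocks of rank three with dihedral or semidihedral defect groups

The centre has odd order and the group is not solvable.
-/

set_option linter.unusedSectionVars false
set_option linter.style.haveILetI false
set_option autoImplicit false

namespace Cfsg.Agent.Lib.Tw.Sol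

open Cfsg MonoidAlgebra
open Cfsg.Agent.Lib.Blocks.Local Cfsg.Agent.Lib.Blocks.Central Cfsg.Agent.Lib.Blocks.Main
open Cfsg.Agent.Lib.BlockH.Regular Cfsg.Agent.Lib.BlockP.Defect Cfsg.Agent.Lib.BlockH.Transport
open Cfsg.Agent.Lib.BP.StarDefs Cfsg.Agent.Lib.BP.Nil4 Cfsg.Agent.Lib.BP.Nil1
open Cfsg.Agent.Lib.Tw.Row Cfsg.Agent.Lib.Tw.Fou Cfsg.Agent.Lib.Tw.Grp
open Cfsg.Agent.Lib.Tw.Exist Cfsg.Agent.Lib.Tw.Cmp
open Cfsg.Agent.Lib.Tw.Qq Cfsg.Agent.Lib.Tw.SD Cfsg.Agent.Lib.Tw.Low Cfsg.Agent.Lib.Tw.Two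
open Cfsg.Agent.Lib.Tw.Fus

universe u

/-- The hypothesis on the defect group. -/
def PD (S : Type*) [Group S] : Prop :=
  (∃ n : ℕ, 3 ≤ n ∧ Nonempty (S ≃* DihedralGroup (2 ^ (n - 1)))) ∨ Cfsg.IsQuasiDihedral S

theorem PD.of_equiv {A B : Type*} [Group A] [Group B] (e : A ≃* B) (h : PD A) : PD B := by
  rcases h with ⟨n, hn, ⟨φ⟩⟩ | h
  · exact Or.inl ⟨n, hn, ⟨e.symm.trans φ⟩⟩
  · obtain ⟨n, hn, hc, x, y, hx, hy, hr⟩ := h
    refine Or.inr ⟨n, hn, (Nat.card_congr e.toEquiv).symm.trans hc, e x, e y, ?_, ?_, ?_⟩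
    · rw [MulEquiv.orderOf_eq]
      exact hx
    · rw [MulEquiv.orderOf_eq]
      exact hy
    · rw [← map_inv, ← map_mul, ← map_mul, hr, map_pow]

section RotFacts

variable {X : Type*} [Group X] [Finite X] {D : Subgroup X} {q h m h' : ℕ} [NeZero q] (R : Rot D q h (zt q h - 1))

theorem zt_mul_two (hq : q = 4 * h) : zt q h * 2 = 0 := by
  have h1 : ((4 * h : ℕ) : ZMod q) = 0 := by
    rw [ZMod.natCast_eq_zero_iff]
    exact ⟨1, by omega⟩
  rw [zt]
  push_cast at h1 ⊢
  linear_combination h1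

/-- Two reflections which do not commute. -/
theorem not_commute_refl (hq : q = 4 * h) (hh : 1 ≤ h) (hev : h = 2 * h') (hs2 : R.s * R.s = 1) :
    ¬ Commute (yR R) (ss R 2) := by
  intro hc
  have h1 : R.s * (R.s * R.ρ 2) = (R.s * R.ρ 2) * R.s := Subtype.ext hc
  have h3 : R.s * (R.s * R.ρ 2) = R.ρ 2 := by rw [← mul_assoc, hs2, one_mul]
  have h4 : (R.s * R.ρ 2) * R.s = R.ρ ((zt q h - 1) * 2) := by
    have h5 := R.conj 2
    rw [← h5]
    have h6 : R.s⁻¹ = R.s := inv_eq_of_mul_eq_one_left hs2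
    rw [h6]
  rw [h3, h4] at h1
  have h5 := R.inj h1
  have h6 : (zt q h - 1) * 2 = -2 := by
    have := zt_mul_two (q := q) (h := h) hq
    linear_combination this
  rw [h6] at h5
  have h7 : ((4 : ℕ) : ZMod q) = 0 := by
    push_cast
    linear_combination h5
  rw [ZMod.natCast_eq_zero_iff] at h7
  have := Nat.le_of_dvd (by norm_num) h7
  omega

theorem ss_two_mul (hq : q = 4 * h) (hs2 : R.s * R.s = 1) : ss R 2 * ss R 2 = 1 := by
  have h1 := sr_sq R hs2 (2 : ZMod q)
  rw [zt_mul_two hq, R.zero] at h1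
  exact congrArg Subtype.val h1

theorem yR_mul (hs2 : R.s * R.s = 1) : yR R * yR R = 1 := congrArg Subtype.val hs2

theorem ssR_mem (i : ZMod q) : ss R i ∈ D := (R.s * R.ρ i : D).2

theorem orderOf_zz (hq : q = 4 * h) (hh : 1 ≤ h) : orderOf (rr R (zt q h)) = 2 := by
  refine orderOf_eq_prime ?_ ?_
  · rw [pow_two, ← rr_add, zt_add_zt hq, rr_zero]
  · intro h7
    rw [← rr_zero R] at h7
    exact zt_ne hq hh (rr_injective R h7)

end RotFacts

section Sylow

variable {G : Type u} [Group G] [Fintype G] [Fintype (IrrCharacter G)] {M : Ideal AlgInt} [Fact (Nat.Prime 2)]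
  {B : Set (IrrCharacter G)}

/-- **No solvable group has such a block: the semidihedral case.** -/
theorem false_sd {q h n' h' : ℕ} [NeZero q] (hG : IsPSolvable 2 G) (P : Sylow 2 G)
    (R : Rot (P : Subgroup G) q h (zt q h - 1)) (hs2 : R.s * R.s = 1)
    (hM : IsPModular 2 M) (hB : IsPBlock M B) (hD : IsDefectGroup 2 M B (P : Subgroup G)) [Fintype B]
    (hq : q = 4 * h) (hh : 1 ≤ h) (hq2 : q = 2 ^ n') (hev : h = 2 * h') (hcardD : Nat.card (P : Subgroup G) = 2 * q)
    (hcard : Nat.card (P : Subgroup G) = 2 ^ (n' + 1)) (hl : blockRank 2 B = 3) : False := by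
  have h2 : 2 ∣ q := ⟨2 * h, by rw [hq]; ring⟩
  obtain ⟨t₀, ht₀⟩ := conj_of_rank_three R hs2 hM hB hD hq hh hq2 hev hcardD hcard hl
  have hzo := orderOf_zz R hq hh
  have key : ∀ u ∈ (P : Subgroup G), u * u = 1 → u ≠ 1 → ∃ t, t * u * t⁻¹ = rr R (zt q h) := by
    intro u hu huu hu1
    rcases classifyX R h2 hq hh hq2 hs2 hu hu1 with h5 | ⟨k, h5, h6⟩
    · have huo : orderOf u = 2 := orderOf_eq_prime (by rw [pow_two]; exact huu) hu1
      refine ⟨1, ?_⟩
      rw [one_mul, inv_one, mul_one]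
      exact eq_of_mem_zpowers (Subgroup.mem_zpowers u) h5 huo hzo
    · obtain ⟨d, -, hd⟩ := conj_yR R h2 hq hh hq2 hev h5
      refine ⟨t₀ * d, ?_⟩
      rw [h6, ← ht₀, ← hd]
      group
  have hconj : ∀ u ∈ (P : Subgroup G), ∀ v ∈ (P : Subgroup G), u * u = 1 → v * v = 1 → u ≠ 1 → v ≠ 1 → IsConj u v := by
    intro u hu v hv huu hvv hu1 hv1
    obtain ⟨a, ha⟩ := key u hu huu hu1
    obtain ⟨b, hb⟩ := key v hv hvv hv1
    refine isConj_iff.mpr ⟨b⁻¹ * a, ?_⟩
    have h3 : b⁻¹ * a * u * (b⁻¹ * a)⁻¹ = b⁻¹ * (a * u * a⁻¹) * b := by group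
    rw [h3, ha, ← hb]
    group
  exact not_commute_refl R hq hh hev hs2 (Cfsg.Agent.Lib.Tw.SolG.commute_of_conj hG P hconj (yR_mem R) (ssR_mem R 2)
    (yR_mul R hs2) (ss_two_mul R hq hs2))

open Cfsg.Agent.Lib.Dih.Grp in
/-- **No solvable group has such a block: the dihedral case.** -/
theorem false_dih {q h m : ℕ} [NeZero q] (hG : IsPSolvable 2 G) (P : Sylow 2 G)
    (φ : DihedralGroup q ≃* (P : Subgroup G))
    (hM : IsPModular 2 M) (hB : IsPBlock M B) (hD : IsDefectGroup 2 M B (P : Subgroup G)) [Fintype B]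
    (hq : q = 4 * h) (hh : 1 ≤ h) (hq2 : q = 2 ^ m) (hl : blockRank 2 B = 3) : False := by
  have key : ∀ u ∈ (P : Subgroup G), u * u = 1 → u ≠ 1 → ∃ t, t * zz φ h * t⁻¹ = u := by
    intro u hu huu hu1
    by_contra hnc
    push Not at hnc
    have := Cfsg.Agent.Lib.Tw.DE.rank_le_two hM hB hD hq hh hq2 φ hu hu1 huu hnc
    omega
  have hconj : ∀ u ∈ (P : Subgroup G), ∀ v ∈ (P : Subgroup G), u * u = 1 → v * v = 1 → u ≠ 1 → v ≠ 1 → IsConj u v := by
    intro u hu v hv huu hvv hu1 hv1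
    obtain ⟨a, ha⟩ := key u hu huu hu1
    obtain ⟨b, hb⟩ := key v hv hvv hv1
    refine isConj_iff.mpr ⟨b * a⁻¹, ?_⟩
    rw [← ha, ← hb]
    group
  have hc := Cfsg.Agent.Lib.Tw.SolG.commute_of_conj hG P hconj (ss_mem φ 0) (ss_mem φ 1) (ss_sq φ 0) (ss_sq φ 1)
  have h1 : ss φ 0 * ss φ 1 = ss φ 1 * ss φ 0 := hc
  rw [ss_mul_ss, ss_mul_ss] at h1
  have h3 := rr_injective φ h1
  have h4 : ((2 : ℕ) : ZMod q) = 0 := by
    push_cast
    linear_combination h3
  rw [ZMod.natCast_eq_zero_iff] at h4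
  have := Nat.le_of_dvd (by norm_num) h4
  omega

/-- **No solvable group has such a block.** -/
theorem false_sylow (hG : IsPSolvable 2 G) (P : Sylow 2 G)
    (hM : IsPModular 2 M) (hB : IsPBlock M B) (hD : IsDefectGroup 2 M B (P : Subgroup G)) [Fintype B]
    (hPD : PD (P : Subgroup G)) (hl : blockRank 2 B = 3) : False := by
  rcases hPD with ⟨n, hn, ⟨φ₀⟩⟩ | hsd
  · haveI : NeZero (2 ^ (n - 1)) := ⟨by positivity⟩
    obtain ⟨k, rfl⟩ : ∃ k, n = k + 3 := ⟨n - 3, by omega⟩
    have hq : 2 ^ (k + 3 - 1) = 4 * 2 ^ (k + 3 - 3) := by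
      simp only [show k + 3 - 1 = k + 2 by omega, show k + 3 - 3 = k by omega]
      ring
    exact false_dih hG P φ₀.symm hM hB hD hq Nat.one_le_two_pow rfl hl
  · obtain ⟨n', h', hn', hcd, hev, R, hs2⟩ := exists_rot hsd
    haveI : NeZero (2 ^ n') := ⟨by positivity⟩
    refine false_sd hG P R hs2 hM hB hD ?_ Nat.one_le_two_pow rfl hev hcd ?_ hl
    · obtain ⟨t, rfl⟩ : ∃ t, n' = t + 2 := ⟨n' - 2, by omega⟩
      rw [show t + 2 - 2 = t by omega, pow_add]
      ring
    · rw [hcd, pow_succ]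
      ring

variable {D : Subgroup G}

open Cfsg.Agent.Lib.Dih.Grp in
theorem center_dih {q h m : ℕ} [NeZero q] (φ : DihedralGroup q ≃* D)
    (hM : IsPModular 2 M) (hB : IsPBlock M B) (hD : IsDefectGroup 2 M B D)
    (hq : q = 4 * h) (hh : 1 ≤ h) (hq2 : q = 2 ^ m) (hl : blockRank 2 B = 3)
    {z : G} (hzD : z ∈ D) (hz1 : z ≠ 1) (hzc : ∀ t : G, Commute t z) : False := by
  classical
  rcases (mem_D_iff φ).mp hzD with ⟨i, rfl⟩ | ⟨i, rfl⟩
  · have h1 : ss φ 0 * rr φ i * (ss φ 0)⁻¹ = rr φ (-i) := ss_conj φ 0 i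
    rw [(hzc (ss φ 0)).eq, mul_inv_cancel_right] at h1
    have h3 := rr_injective φ h1
    have hi : i ≠ 0 := by
      rintro rfl
      exact hz1 (rr_zero φ)
    have h4 : i + i = 0 := by
      nth_rewrite 1 [h3]
      ring
    have h5 := eq_two_of_add_self hq hi h4
    subst h5
    obtain ⟨e, hmax⟩ := exists_pair_of_defect hM hB hD
    have hnil := Cfsg.Agent.Lib.Dih.Down.isNilpotent_of_central hq hh hq2 hM hmax φ hzc
    have := (Cfsg.Agent.Lib.Dade.Base.nilpotent_rank_one hM hnil).1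
    omega
  · have h1 : ss φ i * rr φ 1 * (ss φ i)⁻¹ = rr φ (-1) := ss_conj φ i 1
    rw [← (hzc (rr φ 1)).eq, mul_inv_cancel_right] at h1
    have h3 := rr_injective φ h1
    have h4 : ((2 : ℕ) : ZMod q) = 0 := by
      push_cast
      linear_combination h3
    rw [ZMod.natCast_eq_zero_iff] at h4
    have := Nat.le_of_dvd (by norm_num) h4
    omega

theorem center_sd {q h m h' : ℕ} [NeZero q] (R : Rot D q h (zt q h - 1)) (hs2 : R.s * R.s = 1)
    (hM : IsPModular 2 M) (hB : IsPBlock M B) (hD : IsDefectGroup 2 M B D) [Fintype B]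
    (hq : q = 4 * h) (hh : 1 ≤ h) (hq2 : q = 2 ^ m) (hev : h = 2 * h') (hcard : Nat.card D = 2 * q)
    (hl : blockRank 2 B = 3) {z : G} (hzD : z ∈ D) (hz1 : z ≠ 1) (hzz : z * z = 1) (hzc : ∀ t : G, Commute t z) : False := by
  classical
  have h2 : 2 ∣ q := ⟨2 * h, by rw [hq]; ring⟩
  have hzo := orderOf_zz R hq hh
  rcases classifyX R h2 hq hh hq2 hs2 hzD hz1 with h5 | ⟨k, h5, h6⟩
  · have huo : orderOf z = 2 := orderOf_eq_prime (by rw [pow_two]; exact hzz) hz1
    have h7 : z = rr R (zt q h) := eq_of_mem_zpowers (Subgroup.mem_zpowers z) h5 huo hzo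
    have := central_two R hM hB hD hq hh hq2 hev hs2 hcard h7 (fun t => (hzc t).eq.symm)
    omega
  · obtain ⟨d, -, hd⟩ := conj_yR R h2 hq hh hq2 hev h5
    rw [← h6, (hzc d).eq, mul_inv_cancel_right] at hd
    apply not_commute_refl R hq hh hev hs2
    rw [← hd]
    exact (hzc _).symm

/-- **The centre has odd order.** -/
theorem odd_center (hM : IsPModular 2 M) (hB : IsPBlock M B) (hD : IsDefectGroup 2 M B D) [Fintype B]
    (hPD : PD D) (hl : blockRank 2 B = 3) : Odd (Nat.card (Subgroup.center G)) := by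
  classical
  by_contra hodd
  rw [Nat.not_odd_iff_even, even_iff_two_dvd] at hodd
  obtain ⟨z₀, hz₀⟩ := exists_prime_orderOf_dvd_card' (G := Subgroup.center G) 2 hodd
  set z : G := (z₀ : G) with hz
  have hzo : orderOf z = 2 := by
    rw [hz, Subgroup.orderOf_coe, hz₀]
  have hzz : z * z = 1 := by
    rw [← pow_two, ← hzo, pow_orderOf_eq_one]
  have hz1 : z ≠ 1 := by
    intro h1
    rw [h1, orderOf_one] at hzo
    omega
  have hzc : ∀ t : G, Commute t z := fun t => (Subgroup.mem_center_iff.mp z₀.2 t)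
  have hle : Subgroup.zpowers z ≤ Subgroup.center G := by
    rw [Subgroup.zpowers_le]
    exact z₀.2
  have hpg : IsPGroup 2 (Subgroup.zpowers z) := by
    rw [IsPGroup.iff_card]
    exact ⟨1, by rw [Nat.card_zpowers, hzo, pow_one]⟩
  have hzD : z ∈ D := Cfsg.Agent.Lib.Blocks.Inducing.normal_le_defect hM hB hD
    (Cfsg.Agent.Lib.Blocks.CentralDefect.normal_of_le_center' hle) hpg (Subgroup.mem_zpowers z)
  rcases hPD with ⟨n, hn, ⟨φ₀⟩⟩ | hsd
  · haveI : NeZero (2 ^ (n - 1)) := ⟨by positivity⟩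
    obtain ⟨k, rfl⟩ : ∃ k, n = k + 3 := ⟨n - 3, by omega⟩
    have hq : 2 ^ (k + 3 - 1) = 4 * 2 ^ (k + 3 - 3) := by
      simp only [show k + 3 - 1 = k + 2 by omega, show k + 3 - 3 = k by omega]
      ring
    exact center_dih φ₀.symm hM hB hD hq Nat.one_le_two_pow rfl hl hzD hz1 hzc
  · obtain ⟨n', h', hn', hcd, hev, R, hs2⟩ := exists_rot hsd
    haveI : NeZero (2 ^ n') := ⟨by positivity⟩
    refine center_sd R hs2 hM hB hD ?_ Nat.one_le_two_pow rfl hev hcd hl hzD hz1 hzz hzc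
    obtain ⟨t, rfl⟩ : ∃ t, n' = t + 2 := ⟨n' - 2, by omega⟩
    rw [show t + 2 - 2 = t by omega, pow_add]
    ring

end Sylow

section Red

open Cfsg.Agent.Lib.Blocks.Brauer
open Cfsg.Agent.Lib.Blocks.Induced Cfsg.Agent.Lib.Blocks.Heights
open Cfsg.Agent.Lib.Char.Basic Cfsg.Agent.Lib.Char.Ortho Cfsg.Agent.Lib.Char.Complete
open Cfsg.Agent.Lib.Char.Induced Cfsg.Agent.Lib.Char.IndRep Cfsg.Agent.Lib.Char.Clifford
open Cfsg.Agent.Lib.Char.Conj Cfsg.Agent.Lib.Char.CliffordCorr
open Cfsg.Agent.Lib.BlockT.Normal Cfsg.Agent.Lib.Blocks.FR Cfsg.Agent.Lib.Blocks.FR2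
open Cfsg.Agent.Lib.Blocks.Defect2
open Cfsg.Agent.Lib.BlockOne.Count Cfsg.Agent.Lib.BlockOne.RankFR

/-- **The reduction to the case of a Sylow subgroup.** -/
theorem false_of_isPSolvable [hp : Fact (Nat.Prime 2)] {M : Ideal AlgInt}
    (hM : IsPModular 2 M) : ∀ (n : ℕ) (G : Type u) [Group G] [Finite G], Nat.card G = n →
      IsPSolvable 2 G → ∀ B : Set (IrrCharacter G), IsPBlock M B → ∀ D : Subgroup G,
      IsDefectGroup 2 M B D → PD D → blockRank 2 B = 3 → False := by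
  intro n
  induction n using Nat.strong_induction_on with
  | _ n ih =>
    intro G _ _ hn hG B hB D hD hPD hk
    classical
    cases nonempty_fintype G
    have hpp : Nat.Prime 2 := hp.out
    haveI := isPrime_of_pModular hM
    haveI := finite_irrCharacter (G := G)
    letI : Fintype (IrrCharacter G) := Fintype.ofFinite _
    set K := pPrimeCore 2 G with hKdef
    haveI hKn : K.Normal := inferInstance
    letI : Fintype K := Fintype.ofFinite _
    haveI := finite_irrCharacter (G := K)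
    letI : Fintype (IrrCharacter K) := Fintype.ofFinite _
    have hKp : ¬ 2 ∣ Nat.card K := by
      have h1 := Cfsg.Agent.Lib.SelfCent.CoreLemmas.pPrimeCore_coprime (G := G) 2
      exact (Nat.Prime.coprime_iff_not_dvd hpp).mp h1.symm
    obtain ⟨χ, hχ⟩ := isPBlock_nonempty hB
    have hres : IsClassFunction K (fun k : K => (χ : G → ℂ) k) := fun g h =>
      isClassFunction_of_isIrrCharacter χ.2 _ _
    have hne : (fun k : K => (χ : G → ℂ) k) ≠ 0 := by
      intro h0
      have h1 := congrFun h0 1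
      exact irr_one_ne_zero χ.2 h1
    obtain ⟨θf, hθf, hcon⟩ := exists_irr_constituent hres hne
    let θ : IrrCharacter K := ⟨θf, hθf⟩
    by_cases hinv : ∀ g : G, conjOn hKn g (θ : K → ℂ) = (θ : K → ℂ)
    · -- the invariant case: Fong's theorem
      set L := pPrimePCore 2 G with hLdef
      haveI hLn : L.Normal := inferInstance
      have hKL : K ≤ L := Cfsg.Agent.Lib.Core.Series.pPrimeCore_le_pPrimePCore
      have hLp : ∀ l ∈ L, ∃ k : ℕ, l ^ (2 ^ k) ∈ K := fun l hl =>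
        Cfsg.Agent.Lib.Core.Series.exists_pow_mem_pPrimeCore hl
      obtain ⟨Q⟩ : Nonempty (Sylow 2 L) := inferInstance
      have hC := Cfsg.Agent.Lib.Core.PSolvable.isPConstrained_of_isPSolvable hG Q
      have hle : (Q : Subgroup L).map L.subtype ≤ L := Subgroup.map_subtype_le _
      have hQS : ¬ 2 ∣ ((Q : Subgroup L).map L.subtype).relIndex L := by
        have h0 : ((Q : Subgroup L).map L.subtype).subgroupOf L = Q :=
          Subgroup.comap_map_eq_self_of_injective L.subtype_injective _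
        rw [Subgroup.relIndex, h0]
        exact Q.not_dvd_index
      have hHH := Cfsg.Agent.Lib.CharTriple.Fong.hh_of_constrained hKL hKp hLp hle (Q.2.map _) hQS hC
      let B₂ : Set (IrrCharacter G) := {χ | classInner (fun k : K => (χ : G → ℂ) k) (θ : K → ℂ) ≠ 0}
      obtain ⟨h1, -, h3⟩ := Cfsg.Agent.Lib.CharTriple.Fong.fong_main hM K L hKL hKp hLp hHH θ hinv B₂
        (fun _ => Iff.rfl)
      have hBB : B = B₂ := isPBlock_mem_unique hB h1 hχ hcon
      have hD₂ : IsDefectGroup 2 M B₂ D := hBB ▸ hD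
      obtain ⟨P, rfl⟩ := h3 D hD₂
      letI : Fintype B := Fintype.ofFinite _
      exact false_sylow hG P hM hB hD hPD hk
    · -- the Fong-Reynolds reduction
      push Not at hinv
      obtain ⟨g₀, hg₀⟩ := hinv
      let T : Subgroup G := inertia hKn (θ : K → ℂ)
      have hNT : K ≤ T := le_inertia hKn (isClassFunction_of_isIrrCharacter θ.2)
      have hbθ : blockOf M (θ : K → ℂ) = {θ} := by
        refine (Cfsg.Agent.Lib.Blocks.Inducing.blockOf_eq_singleton_iff hM θ).mp ?_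
        intro hd
        exact hKp (hd.trans (Nat.div_dvd_of_dvd (Cfsg.Agent.Lib.Char.Degree.charDegree_dvd_card θ.2)))
      have hb : IsPBlock M ({θ} : Set (IrrCharacter K)) := ⟨θ, hbθ.symm⟩
      have hS : IsStab hKn ({θ} : Set (IrrCharacter K)) T := by
        intro g
        constructor
        · intro h θ' hθ'
          rw [Set.mem_singleton_iff] at hθ' ⊢
          subst hθ'
          exact Subtype.ext h
        · intro h
          have h1 := h θ rfl
          rw [Set.mem_singleton_iff] at h1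
          exact congrArg Subtype.val h1
      have hTne : T ≠ ⊤ := by
        intro h
        have : g₀ ∈ T := by rw [h]; trivial
        exact hg₀ this
      have hlt : Nat.card T < n := by
        rw [← hn]
        refine lt_of_le_of_ne (Subgroup.card_le_card_group T) ?_
        intro h
        exact hTne (Subgroup.eq_top_of_card_eq T h)
      letI : Fintype T := Fintype.ofFinite _
      haveI := finite_irrCharacter (G := T)
      letI : Fintype (IrrCharacter T) := Fintype.ofFinite _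
      letI : Fintype (G ⧸ T) := Fintype.ofFinite _
      obtain ⟨B', hB', ⟨ψ, hψB', θ', hθ', hcn⟩, hind⟩ := fr_part_three hb hNT hS hB ⟨χ, hχ, θ, rfl, hcon⟩
      have hψ := (omega_eT_eq_one_iff hNT hS ψ).mpr ⟨θ', hθ', hcn⟩
      have e' := isPBlock_eq_blockOf hB' hψB'
      have e := eq_blockOf_ind hb hNT hS hψ hψB' hind
      have horth := horth_eT hb hNT hS
      have hEE := eT_mul_self hNT hS
      have hEl := eT_mem_localCenter hb hS
      have hrank := blockRank_ind horth hM hEl hEE hψ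
      have hk' : blockRank 2 B' = 3 := by
        rw [e, hrank, ← e'] at hk
        exact hk
      obtain ⟨D', hD'⟩ := exists_isDefectGroup (p := 2) hB'
      have hD₁ := (fr_defect hM hb hNT hS hB' ⟨ψ, hψB', θ', hθ', hcn⟩ hind).1 D' hD'
      obtain ⟨t, ht⟩ := isDefectGroup_exists_conj_eq hM hB hD₁ hD
      subst ht
      have e1 : D' ≃* (D'.map T.subtype) := Subgroup.equivMapOfInjective D' T.subtype T.subtype_injective
      have e2 : (D'.map T.subtype) ≃* ((D'.map T.subtype).map (MulAut.conj t).toMonoidHom) :=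
        Subgroup.equivMapOfInjective _ _ (MulAut.conj t).injective
      refine ih (Nat.card T) hlt T rfl (Cfsg.Agent.Lib.Core.PSolvable.isPSolvable_subgroup T hG)
        B' hB' D' hD' (PD.of_equiv (e1.trans e2).symm hPD) hk'

end Red

end Cfsg.Agent.Lib.Tw.Sol
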